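import Cfsg.Statements.S4466
import Cfsg.Agent.Char.FewDeg
import Cfsg.Agent.Char.Blichfeldt

set_option autoImplicit false
open Cfsg

namespace Cfsg.Agent.S4466

universe u

theorem simple_case {G : Type u} [Group G] [Finite G] [IsSimpleGroup G]
    (h : ∀ χ : IrrCharacter G, charDegree χ.1 ≠ 1 → (charDegree χ.1).Prime) :
    Group.IsSolvable G := by
  classical
  by_contra hG
  have hc : ¬ IsMulCommutative G := fun _ => hG isSolvable_of_isMulCommutative
  have hc' : ¬ ∀ a b : G, a * b = b * a := fun h => hc ⟨⟨h⟩⟩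
  have hperf : commutator G = ⊤ := (IsSimpleGroup.eq_bot_or_eq_top_of_normal _ inferInstance
    ).resolve_left (mt commutator_eq_bot_iff_comm.1 hc')
  have hZ : Subgroup.center G = ⊥ := (IsSimpleGroup.eq_bot_or_eq_top_of_normal _ inferInstance
    ).resolve_right fun h1 => hc' fun a b => Subgroup.mem_center_iff.1 (h1 ▸ Subgroup.mem_top b) a
  have hker : ∀ χ : IrrCharacter G, charDegree χ.1 ≠ 1 → charKer χ.1 = ⊥ := fun χ h1 =>
    (IsSimpleGroup.eq_bot_or_eq_top_of_normal _ inferInstance).resolve_right fun h2 =>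
      h1 (χ.commutator_le_charKer_iff'.1 (h2 ▸ le_top))
  have hex : ∃ q, ∃ χ : IrrCharacter G, charDegree χ.1 ≠ 1 ∧ charDegree χ.1 = q :=
    let ⟨χ, hχ⟩ := exists_irr_nonlinear_of_not_comm hc'
    ⟨_, χ, hχ.ne', rfl⟩
  obtain ⟨χ, h1, hq⟩ := Nat.find_spec hex
  have hmin : ∀ ψ : IrrCharacter G, charDegree ψ.1 ≠ 1 → charDegree χ.1 ≤ charDegree ψ.1 :=
    fun ψ hψ => hq ▸ Nat.find_min' hex ⟨ψ, hψ, rfl⟩
  have hp := h χ h1
  have h2 : charDegree χ.1 ≠ 2 := fun h2 => by
    have : Fact (Nat.Prime 2) := ⟨Nat.prime_two⟩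
    obtain ⟨t, ht⟩ := exists_prime_orderOf_dvd_card' (G := G) 2 (h2 ▸ χ.charDegree_dvd_card)
    obtain ⟨ε, e1, e2, e3⟩ := χ.isCharacter.exists_roots t
    have e4 := e3 1
    rw [pow_one, ← coe_detHom, commutator_eq_top_iff_forall_linear.1 hperf (detHom χ.1)] at e4
    have e5 := e2 1
    rw [pow_one] at e5
    have h3 : t ∈ charCenter χ.1 := by
      rw [χ.mem_charCenter, e5]
      revert ε
      rw [h2, ht]
      intro ε e1 _ _ e4 _
      simp only [Fin.prod_univ_two, pow_one, MonoidHom.one_apply, Units.val_one,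
        Fin.sum_univ_two] at e4 ⊢
      have e6 : ε 1 = ε 0 := by linear_combination (-ε 0) * e4 - ε 1 * e1 0
      rcases sq_eq_one_iff.1 (e1 0) with e7 | e7 <;> rw [e6, e7] <;> norm_num
    rw [χ.charCenter_eq_center_of_faithful (hker χ h1), hZ, Subgroup.mem_bot] at h3
    rw [h3, orderOf_one] at ht
    omega
  obtain ⟨A, hA, hH⟩ := χ.isCharacter.exists_abelian_isPiHall
    (χ.isCharacter.charKer_eq_bot_iff.1 (hker χ h1))
  have h3 : ∀ ψ : IrrCharacter G, charDegree ψ.1 ≠ 1 → charDegree ψ.1 ≠ charDegree χ.1 →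
      charDegree χ.1 + 1 < charDegree ψ.1 := fun ψ h3 h4 => by
    have h5 := hmin ψ h3
    have h6 := (h ψ h3).eq_two_or_odd
    have h7 := hp.eq_two_or_odd
    have := hp.two_le
    omega
  by_cases hA0 : A = ⊥
  · refine hG (isSolvable_of_two_degrees (m := charDegree χ.1) fun ψ => ?_)
    by_contra! h4
    have h5 := hH.isPiNumber_index
    rw [hA0, Subgroup.index_bot] at h5
    exact h5 _ (h ψ h4.1) ψ.charDegree_dvd_card (h3 ψ h4.1 h4.2)
  obtain ⟨⟨x, hx⟩, hx1⟩ := Subgroup.ne_bot_iff_exists_ne_one.1 hA0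
  have hx1' : x ≠ 1 := fun h => hx1 (Subtype.ext h)
  have h4 : ∀ ψ : IrrCharacter G, charDegree ψ.1 ≠ 1 → charDegree ψ.1 ≠ charDegree χ.1 →
      ψ x = 0 := fun ψ h4 h5 => by
    refine (ψ.mem_charCenter_or_eq_zero (((h ψ h4).coprime_iff_not_dvd).2 fun h6 => ?_)
      ).resolve_left fun h6 => ?_
    · exact hH.isPiNumber_index _ (h ψ h4) (h6.trans (Subgroup.index_dvd_of_le fun a ha =>
        Subgroup.mem_centralizer_singleton_iff.2 (hA a ha x hx))) (h3 ψ h4 h5)
    · rw [ψ.charCenter_eq_center_of_faithful (hker ψ h4), hZ, Subgroup.mem_bot] at h6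
      exact hx1' h6
  have h5 := sum_irr_one_mul_of_ne_one hx1'
  rw [← Finset.add_sum_erase _ _ (Finset.mem_univ (IrrCharacter.one G))] at h5
  have h6 : ∑ ψ ∈ Finset.univ.erase (IrrCharacter.one G), ψ 1 * ψ x =
      charDegree χ.1 * ∑ ψ ∈ Finset.univ.erase (IrrCharacter.one G), ψ x := by
    rw [Finset.mul_sum]
    refine Finset.sum_congr rfl fun ψ hψ => ?_
    by_cases h6 : charDegree ψ.1 = charDegree χ.1
    · rw [ψ.apply_one, h6]
    · rw [h4 ψ (fun h7 => ?_) h6, mul_zero, mul_zero]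
      exact Finset.ne_of_mem_erase hψ (ψ.charKer_eq_top_iff.1
        (top_le_iff.1 (hperf ▸ ψ.commutator_le_charKer_iff'.2 h7)))
  have h7 : IsIntegral ℤ (((1 : ℕ) : ℂ) / (charDegree χ.1 : ℂ)) := by
    have h8 : ((1 : ℕ) : ℂ) / (charDegree χ.1 : ℂ) =
        -∑ ψ ∈ Finset.univ.erase (IrrCharacter.one G), ψ x := by
      rw [div_eq_iff (Nat.cast_ne_zero.2 hp.ne_zero)]
      rw [h6] at h5
      simp only [IrrCharacter.one_apply] at h5
      push_cast
      linear_combination h5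
    rw [h8]
    exact (IsIntegral.sum _ fun ψ _ => ψ.isIntegral x).neg
  exact h1 (Nat.dvd_one.1 (nat_dvd_of_isIntegral_div hp.ne_zero h7))

theorem main (G : Type u) [Group G] [Finite G] :
    (∀ χ : IrrCharacter G, charDegree χ.1 ≠ 1 → (charDegree χ.1).Prime) → Group.IsSolvable G := by
  refine card_induction (P := fun G _ _ =>
    (∀ χ : IrrCharacter G, charDegree χ.1 ≠ 1 → (charDegree χ.1).Prime) → Group.IsSolvable G)
    (fun G _ _ ih h => ?_) G
  rcases subsingleton_or_nontrivial G with hG | hG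
  · infer_instance
  by_cases hs : IsSimpleGroup G
  · exact simple_case h
  obtain ⟨N, hN, h0, h1⟩ : ∃ N : Subgroup G, N.Normal ∧ N ≠ ⊥ ∧ N ≠ ⊤ := by
    by_contra! h1
    exact hs ⟨fun N hN => or_iff_not_imp_left.2 (h1 N hN)⟩
  have := ih N (card_lt_of_ne_top h1) fun θ hθ => by
    obtain ⟨χ, hχ⟩ := θ.exists_charDegree_dvd N.subtype
    have h2 := h χ fun h2 => hθ (Nat.dvd_one.1 (h2 ▸ hχ))
    rwa [((Nat.dvd_prime h2).1 hχ).resolve_left hθ]
  have := ih (G ⧸ N) (card_quotient_lt h0) fun β => by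
    rw [← β.charDegree_inflate _ (QuotientGroup.mk'_surjective N)]
    exact h _
  exact isSolvable_of_normal_of_quotient N

/-- If every irreducible character of the finite group G of degree greater than one has prime degree, then G is solvable. -/
theorem result {G : Type*} [Group G] [Finite G] (h : ∀ χ : Cfsg.IrrCharacter G, Cfsg.charDegree (χ : G → ℂ) ≠ 1 → (Cfsg.charDegree (χ : G → ℂ)).Prime) : Group.IsSolvable G := by
  exact main G h

end Cfsg.Agent.S4466
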