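import Cfsg.Statements.S4514
import Cfsg.Agent.Blk.MultFreeE
import Cfsg.Agent.Blk.AlpDade

set_option autoImplicit false
open Cfsg

namespace Cfsg.Agent.S4514

open Subgroup
open scoped ComplexConjugate MatrixGroups

universe u

variable {G : Type u} [Group G] [Finite G] {p : ℕ} {M : Ideal AlgInt}

theorem inflate_mem (hM : IsPModular p M) (P : Sylow p G) {χ : IrrCharacter G}
    (hχ : χ ∈ principalBlock M G) (hle : (P : Subgroup G) ≤ charKer χ.1)
    (β : IrrCharacter (G ⧸ charKer χ.1)) :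
    β.inflate (QuotientGroup.mk' _) (QuotientGroup.mk'_surjective _) ∈ principalBlock M G := by
  haveI := hM.fact
  set K := charKer χ.1 with hK
  have hQ : ((P.subtype hle : Sylow p K) : Subgroup K).map K.subtype = P := by
    rw [Sylow.coe_subtype, subgroupOf_map_subtype, inf_eq_left.2 hle]
  have hn := normal_sup_centralizer_sylow (P.subtype hle)
  rw [hQ] at hn
  set L := K ⊔ centralizer ((P : Subgroup G) : Set G) with hL
  have hKL : K ≤ L := le_sup_left
  have hPL : (P : Subgroup G) ≤ L := hle.trans hKL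
  have hu : ∀ θ : IrrCharacter L, ip (χ.1 ∘ L.subtype) θ.1 ≠ 0 → θ = IrrCharacter.one L :=
    fun θ hθ => by
    have h1 := alperinDade_ip hM (f := inclusion hKL) (by
      rw [inclusion_range]
      exact fun hd => P.not_dvd_index ((hd.trans (relIndex_dvd_index_of_le hKL)).trans
        (index_dvd_of_le hle))) (P.subtype hPL) (by
      rw [inclusion_range, Sylow.coe_subtype, centralizer_subgroupOf hPL,
        ← subgroupOf_sup hKL le_sup_right, subgroupOf_self])
      (LiesOver.mem_principalBlock hM hχ hθ) hM.one_mem_principalBlock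
    rw [show θ.1 ∘ inclusion hKL = θ 1 • (IrrCharacter.one K).1 from funext fun x => by
      simpa using (χ.isCharacter.comp L.subtype).apply_eq_of_constituent
        (g := inclusion hKL x) (χ.mem_charKer.1 x.2) hθ, ip_smul_left,
      show (IrrCharacter.one L).1 ∘ inclusion hKL = (IrrCharacter.one K).1 from rfl,
      IrrCharacter.ip_self, mul_one] at h1
    by_contra h
    exact θ.apply_one_ne_zero (h1.trans (IrrCharacter.ip_of_ne h))
  have hC : centralizer ((P : Subgroup G) : Set G) ≤ K := fun x hx => by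
    have := (χ.isCharacter.comp L.subtype).eq_smul_of_unique _ hu
    exact χ.mem_charKer.2 ((congrFun this ⟨x, (le_sup_right : _ ≤ L) hx⟩).trans
      (congrFun this 1).symm)
  rw [principalBlock_eq_irrOver_of_centralizer_le hM (f := K.subtype) (P.subtype hle)
    (by rw [hQ, range_subtype]; exact hC)]
  refine ⟨IrrCharacter.one K, hM.one_mem_principalBlock, (IrrCharacter.liesOver_one_iff _ _).2
    fun x => ?_⟩
  exact congrArg β.1 ((QuotientGroup.eq_one_iff _).2 x.2)

theorem not_le_charKer (hM : IsPModular 2 M) (P : Sylow 2 G) {u : G} {k : ℤ} (hk0 : k ≠ 0)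
    (hk2 : 2 ∣ k) (hk : ∀ χ ∈ principalBlock M G, χ ≠ IrrCharacter.one G → χ 1 - χ u = k)
    {χ : IrrCharacter G} (hχ : χ ∈ principalBlock M G) (h1 : χ ≠ IrrCharacter.one G) :
    ¬ (P : Subgroup G) ≤ charKer χ.1 := fun hle => by
  classical
  have hu : (u : G ⧸ charKer χ.1) ≠ 1 := fun e => by
    have h2 := hk χ hχ h1
    rw [show χ u = χ 1 from χ.mem_charKer.1 ((QuotientGroup.eq_one_iff _).1 e), sub_self] at h2
    exact hk0 (by exact_mod_cast h2.symm)
  have h2 : ((charKer χ.1).index : ℂ) = ∑ β : IrrCharacter (G ⧸ charKer χ.1),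
      ((if β = IrrCharacter.one _ then 0 else charDegree β.1 * k : ℤ) : ℂ) := by
    rw [index_eq_card, ← sum_irr_one_mul_one, ← sub_zero (∑ _, _), ← sum_irr_one_mul_of_ne_one hu,
      ← Finset.sum_sub_distrib]
    refine Finset.sum_congr rfl fun β _ => ?_
    split_ifs with hβ
    · simp [hβ]
    · have h3 : β 1 - β u = k := hk _ (inflate_mem hM P hχ hle β) fun e =>
        hβ (IrrCharacter.inflate_injective _ _ e)
      rw [← mul_sub, h3, β.apply_one]
      simp
  have h3 : ((charKer χ.1).index : ℤ) = ∑ β : IrrCharacter (G ⧸ charKer χ.1),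
      (if β = IrrCharacter.one _ then 0 else charDegree β.1 * k : ℤ) := by exact_mod_cast h2
  have h4 : (2 : ℤ) ∣ (charKer χ.1).index := h3 ▸ Finset.dvd_sum fun β _ => by
    split_ifs
    · exact dvd_zero _
    · exact hk2.mul_left _
  exact P.not_dvd_index ((Int.natCast_dvd_natCast.1 h4).trans (index_dvd_of_le hle))

theorem core (hM : IsPModular 2 M) (hO : pPrimeCore 2 G = ⊥) {u : G} (hu : u ≠ 1) {k : ℂ}
    (hk : ∀ χ ∈ principalBlock M G, χ ≠ IrrCharacter.one G → χ 1 - χ u = k) :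
    Nat.card G = 2 ∨ ∃ (F : Type) (_ : Field F) (_ : Fintype F) (n : ℕ), 2 ≤ n ∧
      Fintype.card F = 2 ^ n ∧ Nonempty (G ≃* PSL(2, F)) ∧ u ^ 2 = 1 := by
  classical
  set B := Finset.univ.filter fun χ : IrrCharacter G =>
    χ ∈ principalBlock M G ∧ χ ≠ IrrCharacter.one G with hB
  have hkB : ∀ χ ∈ B, χ 1 - χ u = k := fun χ h =>
    hk χ (Finset.mem_filter.1 h).2.1 (Finset.mem_filter.1 h).2.2
  have hk0 : k ≠ 0 := by
    rintro rfl
    refine hu (mem_bot.1 (hO ▸ (mem_pPrimeCore_iff_principal hM).2 fun χ h => ?_))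
    by_cases h1 : χ = IrrCharacter.one G
    · rw [h1]; rfl
    · exact (sub_eq_zero.1 (hk χ h h1)).symm
  have hE : ∀ g, ∑ᶠ χ ∈ principalBlock M G, χ g * conj (χ 1) -
      ∑ᶠ χ ∈ principalBlock M G, χ g * conj (χ u) = conj k * ∑ χ ∈ B, χ g := fun g => by
    rw [← MF.one_add_sum_eq_finsum hM, ← MF.one_add_sum_eq_finsum hM, Finset.mul_sum]
    simp only [IrrCharacter.one_apply, add_sub_add_left_eq_sub]
    rw [← Finset.sum_sub_distrib]
    exact Finset.sum_congr rfl fun χ h => by rw [← mul_sub, ← map_sub, hkB χ h, mul_comm]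
  have h2 : 2 ∣ Nat.card G := by
    by_contra h
    exact hu (mem_bot.1 (hO ▸ pPrimeCore_eq_top_iff.2 h ▸ mem_top u))
  obtain ⟨z, hz⟩ := exists_prime_orderOf_dvd_card' 2 h2
  have hz2 : z ^ 2 = 1 := hz ▸ pow_orderOf_eq_one z
  have hz1 : z ≠ 1 := by rintro rfl; simp at hz
  have hpar : ¬ 2 ∣ ∑ χ ∈ B, charDegree χ.1 ∧ 2 ∣ 1 + ∑ χ ∈ B, charDegree χ.1 ^ 2 := by
    choose y hy using fun χ : IrrCharacter G => χ.isCharacter.exists_int_of_sq_eq_one hz2
    have h1 := MF.sum_one_mul hM (P := zpowers z) (t := z) (fun x hx => by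
      obtain ⟨n, rfl⟩ := hx
      rw [← sq, ← zpow_natCast, ← zpow_mul, mul_comm, zpow_mul, zpow_natCast, hz2, one_zpow])
      (mem_zpowers z) hz1
    rw [Finset.sum_congr (s₁ := B) rfl (g := fun χ => ((charDegree χ.1 * y χ : ℤ) : ℂ))
      fun χ _ => by rw [χ.apply_one, show χ z = y χ from (hy χ).1]; simp] at h1
    have h3 : 1 + ∑ χ ∈ B, charDegree χ.1 * y χ = 0 := by exact_mod_cast h1
    have h4 : (2 : ℤ) ∣ ∑ χ ∈ B, ((charDegree χ.1 : ℤ) ^ 2 - charDegree χ.1 * y χ) :=
      Finset.dvd_sum fun χ _ => by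
        rw [sq, ← mul_sub]; exact (hy χ).2.1.dvd.mul_left _
    have h5 : (2 : ℤ) ∣ ∑ χ ∈ B, ((charDegree χ.1 : ℤ) ^ 2 - charDegree χ.1) :=
      Finset.dvd_sum fun χ _ => by
        rw [sq, ← mul_sub_one]; exact (Int.even_mul_pred_self _).two_dvd
    rw [Finset.sum_sub_distrib] at h4 h5
    zify
    omega
  have hΘ : IsCharacter G (∑ χ ∈ B, χ.1) := IsCharacter.sum fun χ _ => χ.isCharacter
  have hΘd : charDegree (∑ χ ∈ B, χ.1) = ∑ χ ∈ B, charDegree χ.1 :=
    charDegree_eq_of_apply_one (by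
      rw [Finset.sum_apply, Nat.cast_sum]; exact Finset.sum_congr rfl fun χ _ => χ.apply_one)
  set t := pPart 2 u with ht
  have hc : ∀ g, IsPElt 2 g → g ≠ 1 → IsConj g t := fun g hg hg1 => by
    by_contra h
    have h1 := hE g
    rw [isPBlock_principalBlock.finsum_mul_conj_eq_zero' hM (by
        rw [pPart_eq_self_iff.2 hg, pPart_one, isConj_one_left]; exact hg1),
      isPBlock_principalBlock.finsum_mul_conj_eq_zero' hM (by rwa [pPart_eq_self_iff.2 hg]),
      sub_self] at h1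
    obtain ⟨n, hn⟩ := isPElt_iff_pow_eq_one.1 hg
    refine hpar.1 (hΘd ▸ hΘ.dvd_charDegree_of_eq_zero Nat.prime_two hn ?_)
    rw [Finset.sum_apply]
    exact (mul_eq_zero.1 h1.symm).resolve_left (by simpa using hk0)
  have hzt := hc z (isPElt_iff_pow_eq_one.2 ⟨1, hz2⟩) hz1
  have ht1 : t ≠ 1 := fun e => hz1 (by rwa [e, isConj_one_left] at hzt)
  obtain ⟨P, htP⟩ := (isPElt_pPart 2 u).exists_mem_sylow
  have hconj : ∀ b ∈ (P : Subgroup G), b ≠ 1 → IsConj t b := fun b hb hb1 =>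
    (hc b (isPElt_of_mem P.isPGroup' hb) hb1).symm
  have hP : ∀ x ∈ (P : Subgroup G), x * x = 1 := fun x hx => by
    by_cases hx1 : x = 1
    · simp [hx1]
    obtain ⟨g, rfl⟩ := isConj_iff.1 (hzt.trans (hconj x hx hx1))
    rw [← sq, conj_pow, hz2]; simp
  have hi := P.not_dvd_index
  have hur : ¬ IsPRegular 2 u := fun h => ht1 (pPart_eq_one_iff.2 h)
  have hq0 := natCard_cast_ne_zero P
  obtain ⟨n, hn⟩ : ∃ n : ℤ, (Nat.card P : ℂ) = k * n := by
    have h1 := blockPart_eq_sum_of_eq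
      (isPBlock_principalBlock.blockPart_pRegularPart_irr hM (hM.one_mem_principalBlock (G := G)))
    have h3 : ∀ g, pRegularPart 2 (IrrCharacter.one G).1 g = ∑ᶠ χ ∈ principalBlock M G,
        ip (pRegularPart 2 (IrrCharacter.one G).1) χ.1 * χ g := fun g => by
      rw [finsum_mem_irr_eq_sum]
      exact (congrFun h1 g).trans (by simp)
    have h4 := h3 1
    have h5 := h3 u
    rw [← MF.one_add_sum_eq_finsum hM] at h4 h5
    rw [pRegularPart, if_pos isPRegular_one] at h4
    rw [pRegularPart, if_neg hur] at h5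
    choose r hr using fun χ : IrrCharacter G => exists_int_pow_mul_ip (p := 2)
      (IrrCharacter.one G) χ
    refine ⟨∑ χ ∈ B, r χ, ?_⟩
    have h6 : ∑ χ ∈ B, ip (pRegularPart 2 (IrrCharacter.one G).1) χ.1 * k = 1 := by
      rw [← Finset.sum_congr rfl fun χ h => congrArg _ (hkB χ h)]
      simp only [mul_sub, Finset.sum_sub_distrib]
      simp only [IrrCharacter.one_apply] at h4 h5
      linear_combination h5 - h4
    push_cast
    rw [← Finset.sum_congr rfl fun χ _ => hr χ, ← Finset.mul_sum, P.card_eq_multiplicity]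
    rw [← Finset.sum_mul] at h6
    push_cast
    linear_combination -(2 : ℂ) ^ (Nat.card G).factorization 2 * h6
  obtain ⟨χ₀, hχ₀⟩ : B.Nonempty := Finset.nonempty_iff_ne_empty.2 fun e => hpar.1 (by simp [e])
  have hn0 : (n : ℂ) ≠ 0 := fun e => hq0 (by rw [hn, e, mul_zero])
  obtain ⟨k, rfl⟩ := exists_int_of_isIntegral_ratCast (z := k)
    (hkB χ₀ hχ₀ ▸ (χ₀.isIntegral 1).sub (χ₀.isIntegral u)) (q := Nat.card P / n)
    (by push_cast; rw [hn]; field_simp)
  have hk0' : k ≠ 0 := by exact_mod_cast hk0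
  have hkle : k ≤ Nat.card P :=
    Int.le_of_dvd (by exact_mod_cast Nat.card_pos) ⟨n, by exact_mod_cast hn⟩
  have hu0 := isPBlock_principalBlock.finsum_mul_conj_eq_zero_of_regular (G := G) hM
    (g := 1) (h := u) (by simp) (not_not.1 hur)
  have hk2 : 2 ∣ k := by
    have h1 := hE 1
    rw [hu0, ← MF.one_add_sum_eq_finsum hM, sub_zero] at h1
    simp only [IrrCharacter.apply_one, IrrCharacter.charDegree_one, map_natCast, map_intCast,
      ← sq] at h1
    have h3 : ((1 + ∑ χ ∈ B, charDegree χ.1 ^ 2 : ℕ) : ℤ) =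
        k * (∑ χ ∈ B, charDegree χ.1 : ℕ) := by exact_mod_cast h1
    have h4 := Int.natCast_dvd_natCast.2 hpar.2
    rw [h3] at h4
    exact (Int.prime_two.dvd_mul.1 h4).resolve_right fun h => hpar.1 (Int.natCast_dvd_natCast.1 h)
  haveI : Nontrivial P := ⟨⟨⟨t, htP⟩, 1, fun e => ht1 (congrArg Subtype.val e)⟩⟩
  have hm : ∀ χ : IrrCharacter G, ∃ m : ℕ, χ 1 = χ t + Nat.card P * m ∧ (χ ∈ B → m ≠ 0) :=
    fun χ => by
    have hx : ∀ x : P, x ≠ 1 → χ x = χ t := fun x hx =>
      (χ.isClassFunction.eq_of_isConj (hconj x x.2 fun e => hx (Subtype.ext e))).symm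
    obtain ⟨c, m, h1, -⟩ := MF.exists_mult_of_const
      (fun x y : P => Subtype.ext (MF.comm_of_mul_self hP x.2 y.2))
      (χ.isCharacter.comp (P : Subgroup G).subtype) (y := χ t) hx
    have h3 : χ 1 = χ t + Nat.card P * m := h1
    refine ⟨m, h3, fun h hm => not_le_charKer hM P hk0' hk2 hk (Finset.mem_filter.1 h).2.1
      (Finset.mem_filter.1 h).2.2 fun x hxP => χ.mem_charKer.2 ?_⟩
    by_cases hx1 : x = 1
    · rw [hx1]
    · rw [hx ⟨x, hxP⟩ fun e => hx1 (congrArg Subtype.val e), h3, hm]; simp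
  choose m hm hm0 using hm
  have hχ : ∀ χ ∈ principalBlock M G, χ ≠ IrrCharacter.one G → χ 1 - χ t = Nat.card P :=
    fun χ h h1 => by
    have h3 := MF.sum_one_mul hM hP htP ht1
    rw [← MF.one_add_sum_eq_finsum hM] at hu0
    simp only [IrrCharacter.one_apply, map_one, mul_one] at hu0
    have h4 : ∑ χ ∈ B, ((charDegree χ.1 * (Nat.card P * m χ - k) : ℤ) : ℂ) = 0 := by
      rw [← sub_eq_zero.2 (hu0.trans h3.symm), add_sub_add_left_eq_sub, ← Finset.sum_sub_distrib]
      refine Finset.sum_congr rfl fun ψ hψ => ?_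
      rw [show ψ u = ψ 1 - k by linear_combination -hkB ψ hψ,
        show ψ t = ψ 1 - Nat.card P * m ψ by linear_combination -hm ψ, ψ.apply_one]
      simp only [map_sub, map_mul, map_natCast, map_intCast]
      push_cast
      ring
    have h5 : ∑ χ ∈ B, (charDegree χ.1 * (Nat.card P * m χ - k) : ℤ) = 0 := by exact_mod_cast h4
    have h6 : ∀ ψ ∈ B, (Nat.card P : ℤ) ≤ Nat.card P * m ψ := fun ψ hψ =>
      le_mul_of_one_le_right (Nat.cast_nonneg _) (by have := hm0 ψ hψ; omega)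
    have hχB : χ ∈ B := Finset.mem_filter.2 ⟨Finset.mem_univ _, h, h1⟩
    have h7 := (Finset.sum_eq_zero_iff_of_nonneg fun ψ hψ => mul_nonneg (Nat.cast_nonneg _)
      (sub_nonneg.2 (hkle.trans (h6 ψ hψ)))).1 h5 χ hχB
    have h8 := (mul_eq_zero.1 h7).resolve_left (by exact_mod_cast χ.charDegree_pos.ne')
    have h9 : (Nat.card P : ℤ) * m χ = Nat.card P := le_antisymm (by omega) (h6 χ hχB)
    have h10 : (Nat.card P : ℂ) * m χ = Nat.card P := by exact_mod_cast h9
    rw [hm χ, h10]; ring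
  have hq1 : 1 < Nat.card P := Finite.one_lt_card
  by_cases hq : Nat.card P = 2
  · haveI : IsCyclic (P : Subgroup G) := isCyclic_of_prime_card (p := 2) hq
    have htop := (hasNormalPComplement_iff_sup_eq_top P).1 (hasNormalPComplement_two_of_isCyclic P)
    rw [hO, bot_sup_eq] at htop
    exact Or.inl (by rw [← hq, ← card_top, ← htop])
  obtain ⟨F, i1, i2, hF, ⟨e⟩⟩ := MF.exists_SL2 hM hO hP hi htP ht1 hconj hχ (by
    change 2 < Nat.card P; omega)
  have hcard := P.card_eq_multiplicity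
  have hF' : Fintype.card F = 2 ^ (Nat.card G).factorization 2 := hF.trans hcard
  have h2n : 2 ≤ (Nat.card G).factorization 2 := by
    by_contra h
    have : (Nat.card G).factorization 2 = 0 ∨ (Nat.card G).factorization 2 = 1 := by omega
    rcases this with e | e <;> rw [e] at hcard <;> omega
  obtain ⟨e'⟩ := MF.nonempty_SL2_equiv_psl (F := F) (MF.two_eq_zero (n := _)
    (by rw [Nat.card_eq_fintype_card, hF']; exact dvd_pow_self _ (by omega))
    (Nat.card_eq_fintype_card.trans hF'))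
  refine Or.inr ⟨F, i1, i2, _, h2n, hF', ⟨e.trans e'⟩, ?_⟩
  rw [sq]
  exact hP u ((MF.centralizer_eq_and hM hO hP hi htP ht1 hconj hχ).1 t htP ht1 ▸
    mem_centralizer_pPart 2 u)

/-- Let G be a finite group, u an element of G, and fix a maximal ideal M of the algebraic integers containing 2 (defining the 2-blocks). There is a complex number k with χ(1) − χ(u) = k for every non-principal irreducible character χ in the principal 2-block if and only if one of the following holds: u lies in O(G); or G/O(G) has order 2 and u ∉ O(G); or G/O(G) ≅ PSL(2, 2ⁿ) for some n ≥ 2, u ∉ O(G) and u² ∈ O(G). -/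
theorem result {G : Type*} [Group G] [Finite G] (M : Ideal Cfsg.AlgInt) (hM : Cfsg.IsPModular 2 M) (u : G) :
    (∃ k : ℂ, ∀ χ : Cfsg.IrrCharacter G, χ ∈ Cfsg.principalBlock M G → (χ : G → ℂ) ≠ (fun _ => 1) →
        (χ : G → ℂ) 1 - (χ : G → ℂ) u = k) ↔
      (u ∈ Cfsg.oddCore G ∨ (Nat.card (G ⧸ Cfsg.oddCore G) = 2 ∧ u ∉ Cfsg.oddCore G) ∨
        (∃ (F : Type) (_ : Field F) (_ : Fintype F) (n : ℕ), 2 ≤ n ∧ Fintype.card F = 2 ^ n ∧
          Nonempty (G ⧸ Cfsg.oddCore G ≃* Matrix.ProjectiveSpecialLinearGroup (Fin 2) F) ∧ u ∉ Cfsg.oddCore G ∧ u ^ 2 ∈ Cfsg.oddCore G)) := by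
  have hs := QuotientGroup.mk'_surjective (pPrimeCore 2 G)
  have hker : ¬ 2 ∣ Nat.card (QuotientGroup.mk' (pPrimeCore 2 G)).ker := by
    rw [QuotientGroup.ker_mk']; exact not_dvd_card_pPrimeCore 2 G
  have hone : ∀ χ : IrrCharacter G, (χ : G → ℂ) ≠ (fun _ => 1) ↔ χ ≠ IrrCharacter.one G :=
    fun χ => not_congr ⟨fun e => Subtype.ext e, fun e => e ▸ rfl⟩
  constructor
  · rintro ⟨k, hk⟩
    by_cases hu : u ∈ oddCore G
    · exact Or.inl hu
    rcases core hM (pPrimeCore_quotient_pPrimeCore 2 G) (u := (u : G ⧸ pPrimeCore 2 G)) (k := k)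
      (fun e => hu ((QuotientGroup.eq_one_iff _).1 e)) fun β hβ h1 =>
        hk _ ((inflate_mem_principalBlock_iff hM hs hker β).2 hβ) ((hone _).2 fun e =>
          h1 (IrrCharacter.inflate_injective _ _ e)) with h | ⟨F, i1, i2, n, h1, h2, h3, h4⟩
    · exact Or.inr (Or.inl ⟨h, hu⟩)
    · exact Or.inr (Or.inr ⟨F, i1, i2, n, h1, h2, h3, hu, (QuotientGroup.eq_one_iff _).1 h4⟩)
  · have key : ∀ k : ℂ, (∀ β : IrrCharacter (G ⧸ pPrimeCore 2 G), β ≠ IrrCharacter.one _ →
        β 1 - β u = k) → ∀ χ : IrrCharacter G, χ ∈ principalBlock M G →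
        (χ : G → ℂ) ≠ (fun _ => 1) → (χ : G → ℂ) 1 - (χ : G → ℂ) u = k := fun k h χ hχ h1 => by
      rw [← image_inflate_principalBlock hM hs hker] at hχ
      obtain ⟨β, -, rfl⟩ := hχ
      exact h β fun e => h1 (e ▸ rfl)
    rintro (h | ⟨h, hu⟩ | ⟨F, i1, i2, n, h1, h2, ⟨e⟩, hu, h4⟩)
    · refine ⟨0, key 0 fun β _ => ?_⟩
      rw [(QuotientGroup.eq_one_iff _).2 h, sub_self]
    · refine ⟨2, key 2 fun β hβ => ?_⟩
      haveI : IsCyclic (G ⧸ pPrimeCore 2 G) := isCyclic_of_prime_card (p := 2) h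
      have hc : ∀ a b : G ⧸ pPrimeCore 2 G, a * b = b * a := fun a b => mul_comm' a b
      obtain ⟨lam, rfl⟩ := IrrCharacter.ofLinear_surjective_of_comm hc β
      have hu1 : (u : G ⧸ pPrimeCore 2 G) ≠ 1 := fun e => hu ((QuotientGroup.eq_one_iff _).1 e)
      have h2 : (u : G ⧸ pPrimeCore 2 G) ^ 2 = 1 :=
        (congrArg _ h.symm).trans (pow_card_eq_one' (G := G ⧸ pPrimeCore 2 G))
      have h3 : (lam u : ℂ) ^ 2 = 1 := by rw [← Units.val_pow_eq_pow_val, ← map_pow, h2]; simp
      rcases sq_eq_one_iff.1 h3 with e | e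
      · refine (hβ (IrrCharacter.ofLinear_eq_one_iff.2 (MonoidHom.ext fun g => ?_))).elim
        by_cases hg : g = 1
        · rw [hg, map_one, map_one]
        · rw [((Nat.card_eq_two_iff' 1).1 h).unique hg hu1]
          exact Units.ext e
      · simp only [IrrCharacter.ofLinear_apply, map_one, e]; norm_num
    · have hF : Nat.card F = 2 ^ n := Nat.card_eq_fintype_card.trans h2
      have hd : 2 ∣ Nat.card F := hF ▸ dvd_pow_self _ (by omega)
      obtain ⟨e'⟩ := MF.nonempty_SL2_equiv_psl (F := F) (MF.two_eq_zero hd hF)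
      let φ := e.trans e'.symm
      refine ⟨Nat.card F, key _ fun β hβ => ?_⟩
      have := MF.SL2_apply_sub hd hF (χ := IrrCharacter.comapEquiv φ.symm β) (t := φ u)
        (fun h => hβ (Subtype.ext (funext fun g => by
          simpa using congrArg (fun χ : IrrCharacter _ => χ (φ g)) h)))
        (by rw [← map_mul, ← sq, ← QuotientGroup.mk_pow, (QuotientGroup.eq_one_iff _).2 h4, map_one])
        (fun h => hu ((QuotientGroup.eq_one_iff _).1 (φ.map_eq_one_iff.1 h)))
      simpa using this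

end Cfsg.Agent.S4514
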