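import Cfsg.Statements.S4519
import Cfsg.Agent.Char.OddOver
import Cfsg.Agent.Grp.PPart
-- import your own Cfsg.Agent.* helpers here

set_option autoImplicit false
open Cfsg

namespace Cfsg.Agent.S4519

/-- Let N be a normal subgroup of odd index in the finite group G, and let k be coprime to the order of G with k ^ (2 ^ e) ≡ 1 modulo the order of G for some e and g ^ k = g⁻¹ for every element g of odd order (so g ↦ g ^ k induces a field automorphism of 2-power order inverting the roots of unity of odd order). If an irreducible character θ of N satisfies θ (n ^ k) = θ n for all n, then there is exactly one irreducible character χ of G with θ a constituent of its restriction to N and χ (g ^ k) = χ g for all g; moreover, if θ is invariant under conjugation by G, that χ restricts to θ. -/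
theorem result {G : Type*} [Group G] [Fintype G] (N : Subgroup G) [hN : N.Normal] [Fintype N] (hidx : Odd N.index) (k e : ℕ) (hk : Nat.Coprime k (Nat.card G)) (hke : k ^ (2 ^ e) ≡ 1 [MOD Nat.card G]) (hk₂ : ∀ g : G, Odd (orderOf g) → g ^ k = g⁻¹) (θ : Cfsg.IrrCharacter N) (hθ : ∀ n : N, (θ : N → ℂ) (n ^ k) = (θ : N → ℂ) n) : ∃ χ : Cfsg.IrrCharacter G, (Cfsg.classInner (fun n : N => (χ : G → ℂ) n) (θ : N → ℂ) ≠ 0 ∧ (∀ g : G, (χ : G → ℂ) (g ^ k) = (χ : G → ℂ) g) ∧ ((∀ g : G, ∀ n : N, (θ : N → ℂ) ⟨g * n * g⁻¹, hN.conj_mem n n.2 g⟩ = (θ : N → ℂ) n) → ∀ n : N, (χ : G → ℂ) n = (θ : N → ℂ) n)) ∧ ∀ χ' : Cfsg.IrrCharacter G, Cfsg.classInner (fun n : N => (χ' : G → ℂ) n) (θ : N → ℂ) ≠ 0 → (∀ g : G, (χ' : G → ℂ) (g ^ k) = (χ' : G → ℂ) g) → χ' = χ := by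
  have hk' : ∀ g : G, g ^ (k + 1) ∈ N.subtype.range := by
    intro g
    rw [Subgroup.range_subtype, ← QuotientGroup.eq_one_iff, QuotientGroup.mk_pow,
      ← orderOf_dvd_iff_pow_eq_one]
    obtain ⟨a, m, hm, ha⟩ := Nat.exists_eq_two_pow_mul_odd (orderOf_pos g).ne'
    have h1 : orderOf (g ^ 2 ^ a) = m := by
      rw [orderOf_pow_of_dvd (by positivity) (ha ▸ Dvd.intro _ rfl), ha,
        Nat.mul_div_cancel_left _ (by positivity)]
    have h2 := hk₂ _ (h1 ▸ hm)
    have h3 : (g : G ⧸ N) ^ (2 ^ a * (k + 1)) = 1 := by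
      rw [← QuotientGroup.mk_pow, pow_mul, pow_succ, h2, inv_mul_cancel, QuotientGroup.mk_one]
    have h4 : Odd (orderOf (g : G ⧸ N)) := hidx.of_dvd_nat (orderOf_dvd_natCard _)
    exact (Nat.Coprime.pow_right a (Nat.coprime_two_right.2 h4)).dvd_of_dvd_mul_left
      (orderOf_dvd_of_pow_eq_one h3)
  have hodd : Odd N.subtype.range.index := by rwa [Subgroup.range_subtype]
  obtain ⟨χ, ⟨h1, h2⟩, h3⟩ := existsUnique_liesOver_pow_fixed N.subtype hodd hk hk' hθ
  refine ⟨χ, ⟨(liesOver_iff_classInner N.subtype _ _).1 h1, h2, fun hinv n => ?_⟩,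
    fun χ' h h' => h3 χ' ⟨(liesOver_iff_classInner N.subtype _ _).2 h, h'⟩⟩
  obtain ⟨ψ, hψ, hψ'⟩ := exists_extension_pow_fixed N.subtype hodd hk hk' hθ
    (inertia_eq_top_iff_forall.2 fun g n n' h => by
      rw [← hinv g n]; exact congrArg _ (Subtype.ext h))
  rw [← h3 ψ ⟨liesOver_of_comp_eq hψ, hψ'⟩]
  exact congrFun hψ n

end Cfsg.Agent.S4519
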