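import Cfsg.Statements.S4520
import Cfsg.Agent.Blk.Gal
import Cfsg.Agent.Blk.Real
-- import your own Cfsg.Agent.* helpers here

set_option autoImplicit false
open Cfsg

namespace Cfsg.Agent.S4520

/-- Let N be a normal subgroup of odd index in the finite group G, M a maximal ideal of the algebraic integers containing 2, and k coprime to the order of G with k ^ (2 ^ e) ≡ 1 modulo the order of G for some e and g ^ k = g⁻¹ for every element g of odd order. Let θ be an irreducible character of N and χ an irreducible character of G over θ, both unchanged by composing with g ↦ g ^ k. Then χ lies in the principal 2-block of G if and only if θ lies in the principal 2-block of N. -/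
theorem result {G : Type*} [Group G] [Fintype G] (M : Ideal Cfsg.AlgInt) (hM : Cfsg.IsPModular 2 M) (N : Subgroup G) [N.Normal] [Fintype N] (hidx : Odd N.index) (k e : ℕ) (hk : Nat.Coprime k (Nat.card G)) (hke : k ^ (2 ^ e) ≡ 1 [MOD Nat.card G]) (hk₂ : ∀ g : G, Odd (orderOf g) → g ^ k = g⁻¹) (θ : Cfsg.IrrCharacter N) (hθ : ∀ n : N, (θ : N → ℂ) (n ^ k) = (θ : N → ℂ) n) (χ : Cfsg.IrrCharacter G) (hχ : ∀ g : G, (χ : G → ℂ) (g ^ k) = (χ : G → ℂ) g) (hover : Cfsg.classInner (fun n : N => (χ : G → ℂ) n) (θ : N → ℂ) ≠ 0) : χ ∈ Cfsg.principalBlock M G ↔ θ ∈ Cfsg.principalBlock M N := by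
  haveI : Fact (Nat.Prime 2) := ⟨Nat.prime_two⟩
  have h1 : LiesOver N.subtype χ.1 θ.1 := (liesOver_iff_classInner N.subtype χ.1 θ.1).2 hover
  refine ⟨fun h => h1.mem_principalBlock hM h, fun h => ?_⟩
  have hB := isPBlock_blockOf (M := M) χ
  have hc : Covers N.subtype (blockOf M χ.1) (principalBlock M N) :=
    ⟨χ, hM.mem_blockOf_self χ, θ, h, h1⟩
  obtain ⟨S⟩ : Nonempty (Sylow 2 N) := inferInstance
  obtain ⟨P, hP, -, hPS⟩ := hc.exists_isDefectGroup_inf hM hB isPBlock_principalBlock
    ((isDefectGroup_principalBlock_iff hM _).2 ⟨S, rfl⟩)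
  have hd : blockDefect 2 (blockOf M χ.1) = (Nat.card G).factorization 2 := by
    refine le_antisymm (blockDefect_le _) ?_
    have e1 := hP.card_eq hB hM
    have e2 : Nat.card S ∣ Nat.card P := by
      rw [← card_map_subtype, ← hPS]
      exact Subgroup.card_dvd_of_le inf_le_left
    rw [e1, Sylow.card_eq_multiplicity, Nat.pow_dvd_pow_iff_le_right one_lt_two] at e2
    have e3 := factorization_index_add (p := 2) N
    rw [Nat.factorization_eq_zero_of_not_dvd hidx.not_two_dvd_nat] at e3
    omega
  have hbar : χ.bar ∈ blockOf M χ.1 := by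
    refine hB.mem_of_pRegularPart_eq hM (hM.mem_blockOf_self χ) ?_
    funext g
    by_cases hg : IsPRegular 2 g
    · rw [pRegularPart_of_reg hg, pRegularPart_of_reg hg]
      have := hχ g
      rw [hk₂ g (Nat.not_even_iff_odd.1 fun h => hg h.two_dvd)] at this
      exact (χ.isCharacter.apply_inv g).symm.trans this
    · rw [pRegularPart_of_not_reg hg, pRegularPart_of_not_reg hg]
  rw [← hB.eq_principal_of_real hM hd fun ψ hψ => ?_]
  · exact hM.mem_blockOf_self χ
  · exact ⟨ψ.bar, hB.bar_mem hB hM (hM.mem_blockOf_self χ) hψ hbar,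
      fun g _ => (ψ.isCharacter.apply_inv g).symm⟩

end Cfsg.Agent.S4520
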