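import Cfsg.Statements.S4523
import Cfsg.Agent.FT.Main
import Cfsg.Agent.Blk.AbReal
-- import your own Cfsg.Agent.* helpers here

set_option autoImplicit false
open Cfsg

namespace Cfsg.Agent.S4523

/-- Let S be a non-abelian finite simple group with commutative Sylow 2-subgroups and M a maximal ideal of the algebraic integers containing 2. Let k be a natural number with g ^ k = g for every 2-element g and g ^ k = g⁻¹ for every element g of odd order. Then S has an irreducible character χ₁ of even degree with χ₁ (g ^ k) = χ₁ g for all g, and its principal 2-block contains a character χ₂ other than the principal character with χ₂ (g ^ k) = χ₂ g for all g. -/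
theorem result {S : Type*} [Group S] [Finite S] [IsSimpleGroup S] (hna : ¬ IsMulCommutative S) (P : Sylow 2 S) (hP : IsMulCommutative P) (M : Ideal Cfsg.AlgInt) (hM : Cfsg.IsPModular 2 M) (k : ℕ) (hk₁ : ∀ g : S, (∃ j : ℕ, orderOf g = 2 ^ j) → g ^ k = g) (hk₂ : ∀ g : S, Odd (orderOf g) → g ^ k = g⁻¹) : (∃ χ₁ : Cfsg.IrrCharacter S, Even (Cfsg.charDegree (χ₁ : S → ℂ)) ∧ ∀ g : S, (χ₁ : S → ℂ) (g ^ k) = (χ₁ : S → ℂ) g) ∧ ∃ χ₂ ∈ Cfsg.principalBlock M S, (χ₂ : S → ℂ) ≠ (fun _ => 1) ∧ ∀ g : S, (χ₂ : S → ℂ) (g ^ k) = (χ₂ : S → ℂ) g := by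
  have hs : ¬ Group.IsSolvable S := fun h =>
    hna ⟨⟨IsSimpleGroup.comm_iff_isSolvable.2 h⟩⟩
  have h2 : 2 ∣ Nat.card S := by
    by_contra h
    exact hs (Cfsg.Agent.FT.oddOrder (by rwa [← Nat.not_even_iff_odd, even_iff_two_dvd]))
  refine exists_sigma_fixed hM h2 ?_ P (fun a ha b hb =>
    congrArg Subtype.val (hP.is_comm.comm (⟨a, ha⟩ : P) ⟨b, hb⟩)) hk₁ hk₂
  refine (pCore_normal 2 S).eq_bot_or_eq_top.resolve_right fun h => hs ?_
  have h3 : IsPGroup 2 S := (h ▸ isPGroup_pCore (p := 2) (G := S)).of_equiv Subgroup.topEquiv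
  haveI := h3.isNilpotent
  infer_instance

end Cfsg.Agent.S4523
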