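import Cfsg.Statements.S4529
import Cfsg.Agent.Blk.Quat
-- import your own Cfsg.Agent.* helpers here

set_option autoImplicit false
open Cfsg

namespace Cfsg.Agent.S4529

open GA MonoidAlgebra

/-- Let B be a 2-block of the finite group G (relative to a maximal ideal M of the algebraic integers containing 2) whose defect group D is semidihedral (quasi-dihedral) of order 2 ^ n, n ≥ 4. Then the number of irreducible characters in B is 2 ^ (n - 2) + 3 or 2 ^ (n - 2) + 4, its 2-regular rank l is between 1 and 3, with l = 3 forcing 2 ^ (n - 2) + 4 characters and l = 1 forcing 2 ^ (n - 2) + 3; exactly four members have height zero, exactly 2 ^ (n - 2) - 1 have height one, and every other member has height n - 2. -/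
theorem result {G : Type*} [Group G] [Finite G] (M : Ideal Cfsg.AlgInt) (hM : Cfsg.IsPModular 2 M) (B : Set (Cfsg.IrrCharacter G)) (hB : Cfsg.IsPBlock M B) (D : Subgroup G) (hD : Cfsg.IsDefectGroup 2 M B D) (n : ℕ) (hn : 4 ≤ n) (hcard : Nat.card D = 2 ^ n) (hsd : Cfsg.IsQuasiDihedral D) : (Nat.card B = 2 ^ (n - 2) + 3 ∨ Nat.card B = 2 ^ (n - 2) + 4) ∧ 1 ≤ Cfsg.blockRank 2 B ∧ Cfsg.blockRank 2 B ≤ 3 ∧ (Cfsg.blockRank 2 B = 3 → Nat.card B = 2 ^ (n - 2) + 4) ∧ (Cfsg.blockRank 2 B = 1 → Nat.card B = 2 ^ (n - 2) + 3) ∧ Nat.card {χ : Cfsg.IrrCharacter G // χ ∈ B ∧ Cfsg.blockHeight 2 B (χ : G → ℂ) = 0} = 4 ∧ Nat.card {χ : Cfsg.IrrCharacter G // χ ∈ B ∧ Cfsg.blockHeight 2 B (χ : G → ℂ) = 1} = 2 ^ (n - 2) - 1 ∧ ∀ χ ∈ B, Cfsg.blockHeight 2 B (χ : G → ℂ) = 0 ∨ Cfsg.blockHeight 2 B (χ : G → ℂ) = 1 ∨ Cfsg.blockHeight 2 B (χ : G → ℂ) = n - 2 := by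
  have := hM.charP
  obtain ⟨m, r, x, y, z, h, hy, hxy⟩ := hsd.exists_isTame
  obtain rfl : m + 4 = n := Nat.pow_right_injective le_rfl (h.card_eq.symm.trans hcard)
  obtain ⟨e, hP⟩ := (hB.isBlockIdem hM).exists_isMaxPair ((hB.isDefectGroup_iff hM D).1 hD)
  obtain ⟨j, -, h2, h1, h3, h3', h4, h5, h6⟩ := h.quaternion hM hB hP hxy
  have h7 := (em _).imp h3 h3'
  have h8 := h1 hy
  simp only [show m + 4 - 2 = m + 1 + 1 from rfl]
  refine ⟨by omega, by omega, by omega, by omega, by omega,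
    (Nat.card_congr (Equiv.subtypeSubtypeEquivSubtypeInter _ _)).symm.trans h4, ?_,
    fun χ hχ => by have := h5 χ hχ; omega⟩
  rw [← h6 (by omega), Nat.add_sub_cancel]
  exact (Nat.card_congr (Equiv.subtypeSubtypeEquivSubtypeInter _ _)).symm

end Cfsg.Agent.S4529
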