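import Cfsg.Statements.S4530
import Cfsg.Agent.Blk.Quat
-- import your own Cfsg.Agent.* helpers here

set_option autoImplicit false
open Cfsg

namespace Cfsg.Agent.S4530

open GA MonoidAlgebra

/-- Let B be a 2-block of the finite group G (relative to a maximal ideal M of the algebraic integers containing 2) whose defect group D is generalized quaternion of order 2 ^ n, n ≥ 3. Then its 2-regular rank l is between 1 and 3, the number of irreducible characters in B is l + 2 ^ (n - 2) + 2, exactly four members have height zero, and every other member has height one or height n - 2; when n ≥ 4 exactly 2 ^ (n - 2) - 1 members have height one. -/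
theorem result {G : Type*} [Group G] [Finite G] (M : Ideal Cfsg.AlgInt) (hM : Cfsg.IsPModular 2 M) (B : Set (Cfsg.IrrCharacter G)) (hB : Cfsg.IsPBlock M B) (D : Subgroup G) (hD : Cfsg.IsDefectGroup 2 M B D) (n : ℕ) (hn : 3 ≤ n) (hq : Nonempty (D ≃* QuaternionGroup (2 ^ (n - 2)))) : 1 ≤ Cfsg.blockRank 2 B ∧ Cfsg.blockRank 2 B ≤ 3 ∧ Nat.card B = Cfsg.blockRank 2 B + 2 ^ (n - 2) + 2 ∧ Nat.card {χ : Cfsg.IrrCharacter G // χ ∈ B ∧ Cfsg.blockHeight 2 B (χ : G → ℂ) = 0} = 4 ∧ (∀ χ ∈ B, Cfsg.blockHeight 2 B (χ : G → ℂ) = 0 ∨ Cfsg.blockHeight 2 B (χ : G → ℂ) = 1 ∨ Cfsg.blockHeight 2 B (χ : G → ℂ) = n - 2) ∧ (4 ≤ n → Nat.card {χ : Cfsg.IrrCharacter G // χ ∈ B ∧ Cfsg.blockHeight 2 B (χ : G → ℂ) = 1} = 2 ^ (n - 2) - 1) := by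
  have := hM.charP
  obtain ⟨n, rfl⟩ := Nat.exists_eq_add_of_le' hn
  obtain ⟨r, x, y, z, h, hy, hxy⟩ := exists_isTame_of_quaternion hq.some
  obtain ⟨e, hP⟩ := (hB.isBlockIdem hM).exists_isMaxPair ((hB.isDefectGroup_iff hM D).1 hD)
  obtain ⟨j, h1, h2, -, -, h3, h4, h5, h6⟩ := h.quaternion hM hB hP hxy
  have h7 := h3 fun e => hy e.1
  simp only [show n + 3 - 2 = n + 1 from rfl]
  refine ⟨by omega, by omega, by omega,
    (Nat.card_congr (Equiv.subtypeSubtypeEquivSubtypeInter _ _)).symm.trans h4,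
    fun χ hχ => by have := h5 χ hχ; omega, fun hn => ?_⟩
  rw [← h6 (by omega), Nat.add_sub_cancel]
  exact (Nat.card_congr (Equiv.subtypeSubtypeEquivSubtypeInter _ _)).symm

end Cfsg.Agent.S4530
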