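import Cfsg.Statements.S4531
import Cfsg.Agent.Blk.TameThree
-- import your own Cfsg.Agent.* helpers here

set_option autoImplicit false
open Cfsg

namespace Cfsg.Agent.S4531

open GA MonoidAlgebra

/-- Let the finite group G have a 2-block B (relative to a maximal ideal M of the algebraic integers containing 2) of 2-regular rank three (three irreducible Brauer characters) whose defect group D is dihedral of order 2 ^ n with n ≥ 3 or semidihedral. Then the centre of G has odd order and G is not solvable. -/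
theorem result {G : Type*} [Group G] [Finite G] (M : Ideal Cfsg.AlgInt) (hM : Cfsg.IsPModular 2 M) (B : Set (Cfsg.IrrCharacter G)) (hB : Cfsg.IsPBlock M B) (D : Subgroup G) (hD : Cfsg.IsDefectGroup 2 M B D) (hD' : (∃ n : ℕ, 3 ≤ n ∧ Nonempty (D ≃* DihedralGroup (2 ^ (n - 1)))) ∨ Cfsg.IsQuasiDihedral D) (hl : Cfsg.blockRank 2 B = 3) : Odd (Nat.card (Subgroup.center G)) ∧ ¬ Group.IsSolvable G := by
  obtain ⟨n, r, x, y, z, h, hy⟩ : ∃ n r x y z, IsTame (n + 1) r D x y z ∧ y * y = 1 := by
    rcases hD' with ⟨n, hn, ⟨ε⟩⟩ | h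
    · obtain ⟨n, rfl⟩ := Nat.exists_eq_add_of_le' hn
      obtain ⟨x, y, h, hx⟩ := exists_isDihPair_of_mulEquiv ε
      exact ⟨n, _, x, y, _, h.isTame hx, h.mul_self⟩
    · obtain ⟨n, r, x, y, z, h, hy, -⟩ := h.exists_isTame
      exact ⟨_, _, _, _, _, h, hy⟩
  refine ⟨Nat.not_even_iff_odd.1 fun e => ?_, fun _ => ?_⟩
  · obtain ⟨t, ht⟩ := exists_prime_orderOf_dvd_card' (G := Subgroup.center G) 2 e.two_dvd
    have h1 := Subgroup.mem_center_iff.1 t.2
    haveI : (Subgroup.zpowers (t : G)).Normal := ⟨fun a ha g => by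
      rwa [Subgroup.mem_center_iff.1 (Subgroup.zpowers_le.2 t.2 ha) g, mul_inv_cancel_right]⟩
    have h2 : (t : G) ∈ D := Subgroup.zpowers_le.1 (hD.le_of_normal hB hM (.of_card (n := 1) (by
      rw [Nat.card_zpowers, Subgroup.orderOf_coe, ht, pow_one])))
    have h3 : (t : G) ∈ Subgroup.zpowers x := of_not_not fun e => by
      have h4 := h.conj_of_notMem h2 e (Subgroup.mem_zpowers x)
      rw [← h1, mul_inv_cancel_right, eq_comm, h.pow_r_eq_iff h.mem_x, ← sq,
        ← orderOf_dvd_iff_pow_eq_one, h.ord] at h4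
      have := (Nat.pow_dvd_pow_iff_le_right (k := n + 2) (l := 1) one_lt_two).1 h4
      omega
    rcases h.eq_one_or_z h3 (congrArg Subtype.val (mul_self_of_orderOf_eq_two ht)) with e | e
    · simp [show t = 1 from Subtype.ext e] at ht
    · exact (h.isConj_of_rank hy hM hB hD hl.ge).1 (e ▸ t.2)
  · have := (isPSolvable_of_isSolvable 2 G).blockRank_le_two hM hB D hD n r x y z h hy
    omega

end Cfsg.Agent.S4531
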