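import Cfsg.Statements.S4534
import Cfsg.Agent.Sym.Defect

set_option autoImplicit false
open Cfsg

namespace Cfsg.Agent.S4534

/-- Let B be a p-block of a finite symmetric group (relative to a maximal ideal M of the algebraic integers containing p) with a nontrivial defect group D all of whose sections have p-rank at most s. Then the p-regular rank of B is less than p ^ s. -/
theorem result (n : ℕ) (p : ℕ) [Fact p.Prime] (M : Ideal Cfsg.AlgInt) (hM : Cfsg.IsPModular p M) (B : Set (Cfsg.IrrCharacter (Equiv.Perm (Fin n)))) (hB : Cfsg.IsPBlock M B) (D : Subgroup (Equiv.Perm (Fin n))) (hD : Cfsg.IsDefectGroup p M B D) (hD1 : D ≠ ⊥) (s : ℕ) (hs : Cfsg.SectionalPRankLE p s D) : Cfsg.blockRank p B < p ^ s := by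
  have hp := hM.prime
  obtain ⟨ρ, w, hρ, h⟩ := Sym.exists_inCls (N := Fintype.card (Fin n)) le_rfl hM hB
  have hw : 0 < w := Nat.pos_of_ne_zero fun e => hD1 ((Subgroup.eq_bot_iff_forall _).2 fun g hg =>
    Equiv.Perm.card_support_eq_zero.1 (by
      simpa [e] using Sym.card_support_le_of_mem hM hB hρ le_rfl h hD hg))
  have hA : ∀ a : Multiplicative (ZMod p), a ^ p = 1 := fun a => by
    simpa using pow_card_eq_one (x := a)
  obtain ⟨φ, h1, h2, -⟩ := Sym.exists_hom_le_defect hM hB hρ le_rfl h hD hA (m := w)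
    (by simp [mul_comm])
  have h3 := Sym.card_le_pow_of_rank hs (fun f => funext fun j => hA (f j)) h1 h2
  have h4 := (Sym.blockRank_lt_of_inCls le_rfl hρ h).1 hw
  simp only [Nat.card_eq_fintype_card, Fintype.card_pi, Fintype.card_multiplicative, ZMod.card,
    Finset.prod_const, Finset.card_fin] at h3
  refine h4.trans_lt (lt_of_lt_of_le ?_ h3)
  conv_rhs => rw [← Nat.sub_add_cancel hw, pow_succ']
  exact Nat.mul_lt_mul_of_pos_right (Nat.sub_one_lt hp.ne_zero) (pow_pos hp.pos _)

end Cfsg.Agent.S4534
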