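import Cfsg.Statements.S4535
import Cfsg.Agent.Sym.Defect
import Cfsg.Agent.Blk.IndexTwo
import Cfsg.Agent.Blk.CycBound

set_option autoImplicit false
open Cfsg

namespace Cfsg.Agent.S4535

open Equiv Finset Subgroup

variable {α : Type*} [Fintype α] [DecidableEq α]

theorem card_le_of_support_le {p w : ℕ} [hp : Fact p.Prime] {P : Subgroup (Perm α)}
    (hP : IsPGroup p P) (h : ∀ g ∈ P, #g.support ≤ p * w) (hw : w < p) : Nat.card P ≤ p ^ w := by
  classical
  let Ω : Finset α := {x | ∃ g ∈ P, g x ≠ x}
  have h1 : ∀ x ∈ Ω, (p - 1) * Nat.card P ≤ p * #{g : P | x ∈ g.1.support} := fun x hx => by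
    obtain ⟨g, hg, hx⟩ := (mem_filter.1 hx).2
    obtain ⟨k, hk⟩ := hP.index (MulAction.stabilizer P x)
    have h2 := (MulAction.stabilizer P x).card_mul_index
    have h3 : Nat.card (MulAction.stabilizer P x) + #{g : P | x ∈ g.1.support} = Nat.card P := by
      rw [Nat.card_eq_fintype_card, Nat.card_eq_fintype_card, Fintype.card_subtype, ← card_univ,
        ← card_filter_add_card_filter_not (s := univ) (· ∈ MulAction.stabilizer P x)]
      congr 2; ext; simp [Subgroup.smul_def]
    have h4 : p ≤ p ^ k := Nat.le_self_pow (fun e => hx (show (⟨g, hg⟩ : P) ∈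
      MulAction.stabilizer P x by simp [index_eq_one.1 (by simpa [e] using hk)])) p
    obtain ⟨q, rfl⟩ := Nat.exists_eq_add_of_le' hp.out.one_le
    rw [hk] at h2
    rw [Nat.add_sub_cancel]
    nlinarith
  have h2 : ∑ x ∈ Ω, #{g : P | x ∈ g.1.support} ≤ Nat.card P * (p * w) - p * w := by
    have h2 : ∑ x, #{g : P | x ∈ g.1.support} = ∑ g : P, #g.1.support := by
      simp only [card_filter]
      rw [sum_comm]
      simp only [← card_filter, filter_univ_mem]
    refine (sum_le_sum_of_subset (subset_univ _)).trans ?_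
    rw [h2, ← add_sum_erase _ _ (mem_univ 1), ← Nat.sub_one_mul, Nat.card_eq_fintype_card,
      ← card_univ, ← card_erase_of_mem (mem_univ 1), ← smul_eq_mul, ← sum_const]
    simpa using sum_le_sum fun (g : P) (_ : g ∈ univ.erase 1) => h g.1 g.2
  have h3 : #Ω < p * (w + 1) := by
    by_contra! h3
    have h4 := sum_le_sum h1
    rw [sum_const, ← mul_sum, smul_eq_mul] at h4
    have h5 := (Nat.mul_le_mul_right _ h3).trans (h4.trans (Nat.mul_le_mul_left p h2))
    have h6 : 0 < Nat.card P := Nat.card_pos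
    obtain ⟨q, rfl⟩ := Nat.exists_eq_add_of_lt hw
    obtain ⟨c, hc⟩ := Nat.exists_eq_add_one.2 h6
    have := hp.out.two_le
    rw [hc, mul_assoc, Nat.mul_le_mul_left_iff hp.out.pos, Nat.add_sub_cancel, add_mul c, one_mul,
      Nat.add_sub_cancel] at h5
    rcases w.eq_zero_or_pos with rfl | h7 <;> nlinarith
  obtain ⟨k, hk⟩ := IsPGroup.iff_card.1 hP
  have h4 : Nat.card P ∣ (#Ω).factorial := by
    refine (card_dvd_of_le (K := (Perm.ofSubtype (p := (· ∈ Ω))).range) fun g hg =>
      Perm.mem_range_ofSubtype_iff.2 fun x hx => ?_).trans ?_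
    · simpa [Ω] using ⟨g, hg, by simpa using hx⟩
    · simpa [Fintype.card_perm] using card_range_dvd (Perm.ofSubtype (p := (· ∈ Ω)))
  rw [hk, hp.out.pow_dvd_factorial_iff (b := 2)
    (Nat.log_lt_of_lt_pow' two_ne_zero (by nlinarith))] at h4
  rw [hk]
  refine Nat.pow_le_pow_right hp.out.pos (h4.trans ?_)
  simpa using Nat.le_of_lt_succ (Nat.div_lt_of_lt_mul h3)

theorem sq_klein : ∀ a : Multiplicative (ZMod 2 × ZMod 2), a ^ 2 = 1 := by decide

theorem sq_eq_one_of_support_le {g : Perm α} (h : ∀ k ∈ g.cycleType, 2 ∣ k)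
    (h4 : #g.support ≤ 4) (hs : Perm.sign g = 1) : g ^ 2 = 1 := by
  refine Perm.pow_prime_eq_one_iff.2 fun c hc => by_contra fun h2 => ?_
  obtain ⟨t, ht⟩ := Multiset.exists_cons_of_mem hc
  have h5 := Perm.two_le_of_mem_cycleType hc
  have h6 := h c hc
  rw [← Perm.sum_cycleType, ht, Multiset.sum_cons] at h4
  have h7 : t = 0 := Multiset.eq_zero_of_forall_notMem fun k hk => by
    have := Multiset.le_sum_of_mem hk
    have := Perm.two_le_of_mem_cycleType (ht ▸ Multiset.mem_cons_of_mem hk : k ∈ g.cycleType)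
    omega
  rw [Perm.sign_of_cycleType, ht, h7, show c = 4 by omega] at hs
  exact absurd hs (by decide)

/-- Let B be a p-block of a finite alternating group (relative to a maximal ideal M of the algebraic integers containing p) with a nontrivial defect group D all of whose sections have p-rank at most s. Then the p-regular rank of B is less than p ^ s. -/
theorem result (n : ℕ) (p : ℕ) [Fact p.Prime] (M : Ideal Cfsg.AlgInt) (hM : Cfsg.IsPModular p M) (B : Set (Cfsg.IrrCharacter (alternatingGroup (Fin n)))) (hB : Cfsg.IsPBlock M B) (D : Subgroup (alternatingGroup (Fin n))) (hD : Cfsg.IsDefectGroup p M B D) (hD1 : D ≠ ⊥) (s : ℕ) (hs : Cfsg.SectionalPRankLE p s D) : Cfsg.blockRank p B < p ^ s := by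
  have hp := hM.prime
  obtain ⟨B', hB', hc⟩ := hB.exists_covers_above hM (alternatingGroup (Fin n)).subtype_injective
  obtain ⟨P, hP, -, hPD⟩ := hc.exists_isDefectGroup_inf hM hB' hB hD
  obtain ⟨ρ, w, hρ, h⟩ := Sym.exists_inCls (N := Fintype.card (Fin n)) le_rfl hM hB'
  have h1 : ∀ g ∈ D, g.1 ∈ P := fun g hg => (hPD.ge ⟨g, hg, rfl⟩).1
  have h2 := fun g hg => Sym.card_support_le_of_mem hM hB' hρ le_rfl h hP (g := g) hg
  have hw : 0 < w := Nat.pos_of_ne_zero fun e => hD1 ((Subgroup.eq_bot_iff_forall _).2 fun g hg =>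
    Subtype.ext (Perm.card_support_eq_zero.1 (by simpa [e] using h2 _ (h1 g hg))))
  have h3 : ∀ τ, τ ∉ alternatingGroup (Fin n) → ∀ g, g ∈ (alternatingGroup (Fin n)).subtype.range ∨
      τ⁻¹ * g ∈ (alternatingGroup (Fin n)).subtype.range := fun τ hτ g => by
    rcases Int.units_eq_one_or (Perm.sign g) with h | h <;>
      rcases Int.units_eq_one_or (Perm.sign τ) with h' | h' <;> simp_all
  have h4 : blockRank p B ≤ 2 * blockRank p B' := by
    by_cases h4 : ∃ τ, τ ∉ alternatingGroup (Fin n)
    · exact hc.blockRank_le_two_mul hM hB' hB (h3 _ h4.choose_spec)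
    · exact hc.blockRank_le_two_mul hM hB' hB (τ := 1) fun g => .inl (by simpa using not_exists.1 h4 g)
  have h5 : ∀ {A : Type} [CommGroup A] [Finite A] (φ : A →* Perm (Fin n)), (∀ a : A, a ^ p = 1) →
      Function.Injective φ → φ.range ≤ P → Nat.card (Perm.sign.comp φ).ker ≤ p ^ s :=
    fun φ hA hφ h => by
      let ψ : (Perm.sign.comp φ).ker →* alternatingGroup (Fin n) :=
        (φ.comp (Subgroup.subtype _)).codRestrict _ fun a => a.2
      refine Sym.card_le_pow_of_rank hs (fun a => Subtype.ext (hA a)) (φ := ψ)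
        (fun a b e => Subtype.ext (hφ (congrArg Subtype.val e))) ?_
      rintro _ ⟨a, rfl⟩
      obtain ⟨g, hg, e⟩ := hPD.le ⟨h ⟨a, rfl⟩, ⟨_, a.2⟩, rfl⟩
      exact (Subtype.ext e : g = ψ a) ▸ hg
  have hd := hD.card_eq hB hM
  have h6 : Nat.card D ≤ p ^ s → Nat.card D ≤ p ^ 2 → blockRank p B < p ^ s := fun h6 h7 =>
    (hB.blockRank_lt_card hM fun e => hD1 (card_eq_one.1 (by rw [hd, e, pow_zero]))).trans_le
      ((hB.card_le_of_defect_le_two hM ((Nat.pow_le_pow_iff_right hp.one_lt).1 (hd ▸ h7))).trans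
        (hd ▸ h6))
  obtain ⟨h7, h8⟩ := Sym.blockRank_lt_of_inCls le_rfl hρ h
  have hA : ∀ a : Multiplicative (ZMod p), a ^ p = 1 := fun a => by
    simpa using pow_card_eq_one (x := a)
  obtain ⟨φ, h9, h10, -, u, hu⟩ := Sym.exists_hom_le_defect hM hB' hρ le_rfl h hP hA (m := w)
    (by simp [mul_comm])
  have h11 := h5 φ (fun f => funext fun j => hA (f j)) h9 h10
  rcases hp.eq_two_or_odd' with rfl | ho
  · rcases lt_or_ge w 3 with hw3 | hw3
    · have h12 : ∀ g : D, g ^ 2 = 1 := fun g => Subtype.ext <| Subtype.ext <| by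
        obtain ⟨k, hk⟩ := isPElt_of_mem hP.isPGroup (h1 _ g.2)
        refine sq_eq_one_of_support_le (fun j hj => ?_) ((h2 _ (h1 _ g.2)).trans (by omega)) g.1.2
        obtain ⟨i, -, rfl⟩ := (Nat.dvd_prime_pow hp).1 (hk ▸ Perm.dvd_of_mem_cycleType hj)
        exact dvd_pow_self 2 fun e => by simpa [e] using Perm.two_le_of_mem_cycleType hj
      let _ : CommGroup D := ⟨fun a b =>
        Commute.of_orderOf_dvd_two (fun g => orderOf_dvd_of_pow_eq_one (h12 g)) a b⟩
      have h13 := Sym.card_le_pow_of_rank hs h12 D.subtype_injective D.range_subtype.le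
      rcases le_or_gt s 2 with hs2 | hs2
      · exact h6 h13 (h13.trans (Nat.pow_le_pow_right two_pos hs2))
      · have := Nat.pow_le_pow_right two_pos hs2
        have := h7 hw
        interval_cases w <;> omega
    have h12 := h8 hw3
    rcases w.even_or_odd with ⟨m, rfl⟩ | ho
    · obtain ⟨ψ, h13, h14, h15, -⟩ := Sym.exists_hom_le_defect hM hB' hρ le_rfl h hP
        sq_klein (m := m) (by simp; ring)
      have h16 : ∀ f : Fin m → Multiplicative (ZMod 2 × ZMod 2), f ^ 2 = 1 := fun f =>
        funext fun j => sq_klein (f j)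
      have h17 := h5 ψ h16 h13 h14
      rw [MonoidHom.ker_eq_top_iff.2 (MonoidHom.ext fun f => ?_)] at h17
      · simp only [card_top, Nat.card_eq_fintype_card, Fintype.card_pi, Fintype.card_multiplicative,
          Fintype.card_prod, ZMod.card, prod_const, card_fin, mul_pow, ← pow_add] at h17
        omega
      have h18 := Perm.cycleType_of_pow_prime_eq_one (σ := ψ f) (p := 2)
        (by rw [← map_pow, h16, map_one])
      have h19 := Perm.sum_cycleType (ψ f)
      rw [MonoidHom.comp_apply, Perm.sign_of_cycleType, h19]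
      rw [h18, h15] at h19
      simp only [Multiset.sum_replicate, smul_eq_mul, Fintype.card_multiplicative,
        Fintype.card_prod, ZMod.card] at h19
      exact Even.neg_one_pow (by rw [h15, Nat.even_iff]; simp; omega)
    · have h13 : φ u ∉ alternatingGroup (Fin n) := by
        rw [Perm.mem_alternatingGroup, Perm.sign_of_cycleType, hu, Odd.neg_one_pow]
        · decide
        · simpa using (even_two.mul_left w).add_odd ho
      have h14 := hc.blockRank_le_of_ne_zero hM hB' hB (h3 _ h13) (by simpa using h13)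
        fun χ hχ => ((h χ hχ).spec hρ le_rfl).2 _ hu
      have h15 := (Perm.sign.comp φ).ker.card_mul_index
      have h16 : (Perm.sign.comp φ).ker.index ≤ 2 := by
        simpa [index_ker] using card_le_card_group (Perm.sign.comp φ).range
      rw [Nat.card_fun, Nat.card_eq_fintype_card (α := Multiplicative _), Nat.card_fin,
        Fintype.card_multiplicative, ZMod.card] at h15
      nlinarith
  · rw [MonoidHom.ker_eq_top_iff.2 (MonoidHom.ext fun f => ?_)] at h11
    · simp only [card_top, Nat.card_eq_fintype_card, Fintype.card_pi, Fintype.card_multiplicative,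
        ZMod.card, prod_const, card_fin] at h11
      rcases lt_or_ge w 3 with hw3 | hw3
      · have h12 : Nat.card D ≤ p ^ w := by
          refine le_trans ?_ (card_le_of_support_le hP.isPGroup h2
            (hw3.trans_le (hp.two_le.lt_of_ne fun e => by simp [← e] at ho; exact absurd ho (by decide))))
          exact Nat.card_le_card_of_injective (fun g : D => (⟨_, h1 _ g.2⟩ : P))
            fun a b e => Subtype.ext (Subtype.ext (congrArg (fun x : P => x.1) e))
        exact h6 (h12.trans h11) (h12.trans (Nat.pow_le_pow_right hp.pos (by omega)))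
      · exact (h4.trans_lt (h8 hw3)).trans_le h11
    · have : (Perm.sign.comp φ) f ^ p = 1 := by
        rw [← map_pow, show f ^ p = 1 from funext fun j => hA (f j), map_one]
      rwa [Int.units_pow_eq_pow_mod_two, Nat.odd_iff.1 ho, pow_one] at this

end Cfsg.Agent.S4535
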