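import Cfsg.Statements.S4536
import Cfsg.Agent.Gln.Final
-- import your own Cfsg.Agent.* helpers here

set_option autoImplicit false
open Cfsg

namespace Cfsg.Agent.S4536

/-- Let F be a finite field, n ≥ 2, and suppose the special linear group SL(n, F) is quasisimple. Let p be a prime different from the characteristic of F and B a p-block of SL(n, F) (relative to a maximal ideal M of the algebraic integers containing p) with a defect group D all of whose sections have p-rank at most s. Then the p-regular rank of B is at most p ^ s. -/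
theorem result {F : Type*} [Field F] [Fintype F] (n : ℕ) (hn : 2 ≤ n) (hqs : Cfsg.IsQuasisimple (Matrix.SpecialLinearGroup (Fin n) F)) (p : ℕ) [Fact p.Prime] (hp : p ≠ ringChar F) (M : Ideal Cfsg.AlgInt) (hM : Cfsg.IsPModular p M) (B : Set (Cfsg.IrrCharacter (Matrix.SpecialLinearGroup (Fin n) F))) (hB : Cfsg.IsPBlock M B) (D : Subgroup (Matrix.SpecialLinearGroup (Fin n) F)) (hD : Cfsg.IsDefectGroup p M B D) (s : ℕ) (hs : Cfsg.SectionalPRankLE p s D) : Cfsg.blockRank p B ≤ p ^ s := by
  let f : Matrix.SpecialLinearGroup (Fin n) F →* Gln.GLV F (Fin n → F) :=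
    Matrix.GeneralLinearGroup.toLin.toMonoidHom.comp Matrix.SpecialLinearGroup.toGL
  have hf : f.range = Gln.dt.ker := by
    ext g
    obtain ⟨A, rfl⟩ := Matrix.GeneralLinearGroup.toLin.surjective g
    have h : ((Gln.dt (Matrix.GeneralLinearGroup.toLin A) : Fˣ) : F) = A.1.det :=
      LinearMap.det_toLin' A.1
    rw [MonoidHom.mem_ker, ← Units.val_eq_one, h]
    refine ⟨?_, fun e => ⟨⟨A.1, e⟩, Units.ext rfl⟩⟩
    rintro ⟨x, hx⟩
    rw [← Matrix.GeneralLinearGroup.toLin.injective hx]
    exact x.2
  have : IsNormalEmb f := ⟨Matrix.GeneralLinearGroup.toLin.injective.comp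
    Matrix.SpecialLinearGroup.toGL_injective, hf ▸ inferInstance⟩
  refine Gln.rank_le (fun e => hp ?_) hM (by omega) hf hB hD hs
  exact (CharP.ringChar_of_prime_eq_zero Fact.out e).symm

end Cfsg.Agent.S4536
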