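import Cfsg.Statements.S4537
import Cfsg.Agent.Gun.Final
import Cfsg.Agent.Gun.FamU
-- import your own Cfsg.Agent.* helpers here

set_option autoImplicit false
open Cfsg

namespace Cfsg.Agent.S4537

/-- Let F be a finite field with q ^ 2 elements, n ≥ 3, and suppose the special unitary group SU(n, q) (the determinant-one isometries of the standard Hermitian form over F) is quasisimple. Let p be a prime different from the characteristic of F and B a p-block of SU(n, q) (relative to a maximal ideal M of the algebraic integers containing p) with a defect group D all of whose sections have p-rank at most s. Then the p-regular rank of B is at most p ^ s. -/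
theorem result {F : Type*} [Field F] [Fintype F] (q n : ℕ) (hF : Fintype.card F = q ^ 2) (hn : 3 ≤ n) (hqs : Cfsg.IsQuasisimple ↥(Cfsg.SU n F q)) (p : ℕ) [Fact p.Prime] (hp : p ≠ ringChar F) (M : Ideal Cfsg.AlgInt) (hM : Cfsg.IsPModular p M) (B : Set (Cfsg.IrrCharacter ↥(Cfsg.SU n F q))) (hB : Cfsg.IsPBlock M B) (D : Subgroup ↥(Cfsg.SU n F q)) (hD : Cfsg.IsDefectGroup p M B D) (s : ℕ) (hs : Cfsg.SectionalPRankLE p s D) : Cfsg.blockRank p B ≤ p ^ s := by
  have hq : Nat.card F = q ^ 2 := Nat.card_eq_fintype_card.trans hF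
  obtain ⟨inst, hS, rfl⟩ : ∃ inst : StarRing F, Gun.Sec F ∧ Gun.fq F = q :=
    ⟨Gun.starOfCard hq, Gun.sec_starOfCard hq, Gun.fq_starOfCard hq⟩
  have h1 := hS.one_lt
  obtain ⟨R, hR, hP⟩ := Gun.exists_parZ (k := AlgebraicClosure F) (Q := -(Gun.fq F : ℤ))
    (by rw [abs_neg, Nat.abs_cast]; omega) (by
      rw [Int.cast_neg, Int.cast_natCast, ← map_natCast (algebraMap F _), hS.cast_fq, map_zero,
        neg_zero]) (2 * n)
  haveI : NeZero R := ⟨hR.ne'⟩
  obtain ⟨f, hi, hf⟩ := Gun.exists_SU_emb hS n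
  replace hf := hf.trans (Gun.famU_ker hS hP rfl n le_rfl).symm
  haveI : IsNormalEmb (G := (Gun.famU hS hP rfl).G n) f := ⟨hi, hf ▸ inferInstance⟩
  refine Gun.rank_le (𝔉 := Gun.famU hS hP rfl) (f := f) (hP.mono (by omega)) (fun e => hp ?_) hM
    (by omega) le_rfl hf hB hD hs
  obtain ⟨i, hi⟩ := hS.exists_pow
  rw [dvd_neg, Int.natCast_dvd_natCast, hi] at e
  exact (Nat.prime_dvd_prime_iff_eq Fact.out (CharP.char_is_prime F _)).1
    ((Fact.out : p.Prime).dvd_of_dvd_pow e)

end Cfsg.Agent.S4537
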