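import Cfsg.Statements.S4538
import Cfsg.Agent.GA.CellSL
import Cfsg.Agent.Blk.Defect
import Cfsg.Agent.GA.First

set_option autoImplicit false
open Cfsg

namespace Cfsg.Agent.S4538

open Matrix Subgroup GA
open scoped MatrixGroups

theorem le_of_normalizer_le {k : Type*} [Field k] {p : ℕ} [Fact p.Prime] [CharP k p] {G : Type*}
    [Group G] [Finite G] {e : MonoidAlgebra k G} (he : IsBlockIdem ⊤ e) {D Q : Subgroup G}
    (h : IsDefGrp p ⊤ e D) (hQ : IsPGroup p Q)
    (hN : normalizer (D : Set G) ≤ normalizer (Q : Set G)) : Q ≤ D := by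
  have h1 : IsPGroup p ↥(Q ⊔ D) :=
    hQ.to_sup_of_normal_left' h.isPGroup (le_normalizer.trans hN)
  have h2 := he.Br_of_isDefGrp le_rfl (by rw [normalizer_eq_top]) h
  have h3 : (Q ⊔ D) ⊓ normalizer (D : Set G) ≤ D := h.Br_self.le_of_normal h1.to_inf_left
    (le_inf le_top inf_le_right) (inf_le_right.trans ((le_inf ((le_inf hN le_rfl).trans
      (normalizer_inf_normalizer_le_normalizer_sup _ _)) le_normalizer).trans
      Subgroup.inf_normalizer_le_normalizer_inf))
    (inf_le_inf_left _ (centralizer_le_normalizer _)) h2.mem h2.idem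
  by_contra h4
  exact (lt_inf_normalizer h1 (right_lt_sup.2 h4)).not_ge h3

variable {F : Type*} [Field F] [Finite F] {n p : ℕ} [hp : Fact p.Prime] [CharP F p]

theorem pow_eq {A N : Matrix (Fin n) (Fin n) F} {c : F} (h : A = c • 1 + N) (hN : N * N = 0) :
    A ^ p = c ^ p • 1 := by
  have : ∀ m : ℕ, A ^ (m + 1) = c ^ (m + 1) • 1 + (((m + 1 : ℕ) : F) * c ^ m) • N := fun m => by
    induction m with
    | zero => simp [h]
    | succ m ih =>
      rw [pow_succ, ih, h]
      simp only [add_mul, mul_add, smul_mul_assoc, mul_smul_comm, hN, one_mul, mul_one, smul_zero]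
      push_cast
      module
  have h1 := this (p - 1)
  rwa [Nat.sub_add_cancel hp.out.one_le, CharP.cast_eq_zero, zero_mul, zero_smul, add_zero] at h1

/-- The elements acting trivially on the fixed space `W` of `D` and on `V / W`. -/
def rad (D : Subgroup SL(n, F)) : Subgroup SL(n, F) where
  carrier := {g | (∀ d ∈ D, d.1 * (g.1 - 1) = g.1 - 1) ∧
    ∀ v, (∀ d ∈ D, d.1 *ᵥ v = v) → g.1 *ᵥ v = v}
  mul_mem' {a b} ha hb := ⟨fun d hd => by
    rw [SLn.val_mul, show a.1 * b.1 - 1 = (a.1 - 1) * b.1 + (b.1 - 1) by noncomm_ring, mul_add,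
      ← mul_assoc, ha.1 d hd, hb.1 d hd],
    fun v hv => by rw [SLn.val_mul, ← mulVec_mulVec, hb.2 v hv, ha.2 v hv]⟩
  one_mem' := ⟨fun d _ => by simp, fun v _ => one_mulVec v⟩
  inv_mem' {a} ha := by
    have h1 : a.1 * a⁻¹.1 = 1 := by rw [← SLn.val_mul, mul_inv_cancel]; rfl
    have h2 : a⁻¹.1 * a.1 = 1 := by rw [← SLn.val_mul, inv_mul_cancel]; rfl
    refine ⟨fun d hd => ?_, fun v hv => ?_⟩
    · rw [show a⁻¹.1 - 1 = -((a.1 - 1) * a⁻¹.1) by rw [sub_mul, h1, one_mul, neg_sub], mul_neg,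
        ← mul_assoc, ha.1 d hd]
    · conv_lhs => rw [← ha.2 v hv, mulVec_mulVec, h2, one_mulVec]

theorem mul_eq_of_col {D : Subgroup SL(n, F)} {A N : Matrix (Fin n) (Fin n) F} {c : F}
    (hA : ∀ v, (∀ d ∈ D, d.1 *ᵥ v = v) → A *ᵥ v = c • v) (hN : ∀ d ∈ D, d.1 * N = N) :
    A * N = c • N := by
  ext i j
  exact congrFun (hA (fun l => N l j) fun d hd => funext fun l => congrFun₂ (hN d hd) l j) i

include hp in
theorem isPGroup_rad (D : Subgroup SL(n, F)) : IsPGroup p (rad D) := fun g =>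
  ⟨1, Subtype.ext (Subtype.ext (by
    have h1 := mul_eq_of_col (c := 1) (fun v hv => (g.2.2 v hv).trans (one_smul _ _).symm) g.2.1
    have := pow_eq (p := p) (A := g.1.1) (N := g.1.1 - 1) (c := 1) (by simp)
      (by rw [sub_mul, h1, one_mul, one_smul, sub_self])
    simpa using this))⟩

theorem le_normalizer_rad (D : Subgroup SL(n, F)) :
    normalizer (D : Set SL(n, F)) ≤ normalizer (rad D : Set SL(n, F)) := fun x hx =>
  mem_normalizer_fintype fun g hg => by
    have h1 : x.1 * x⁻¹.1 = 1 := by rw [← SLn.val_mul, mul_inv_cancel]; rfl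
    refine ⟨fun d hd => ?_, fun v hv => ?_⟩
    · have h2 : d.1 * x.1 = x.1 * (x⁻¹ * d * x).1 := by
        rw [← SLn.val_mul, ← SLn.val_mul, show x * (x⁻¹ * d * x) = d * x by group]
      rw [SLn.val_mul, SLn.val_mul, show x.1 * g.1 * x⁻¹.1 - 1 = x.1 * (g.1 - 1) * x⁻¹.1 by
        rw [mul_sub, sub_mul, mul_one, h1], ← mul_assoc, ← mul_assoc, h2, mul_assoc x.1,
        hg.1 _ ((mem_normalizer_iff''.1 hx d).1 hd)]
    · rw [SLn.val_mul, SLn.val_mul, ← mulVec_mulVec, ← mulVec_mulVec, hg.2, mulVec_mulVec, h1,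
        one_mulVec]
      intro d hd
      rw [mulVec_mulVec, ← SLn.val_mul, show d * x⁻¹ = x⁻¹ * (x * d * x⁻¹) by group, SLn.val_mul,
        ← mulVec_mulVec, hv _ ((mem_normalizer_iff.1 hx d).1 hd)]

theorem mem_center_of {D : Subgroup SL(n, F)} (hD : IsPGroup p D) (h0 : D ≠ ⊥) {g : SL(n, F)}
    (hg : rad D ≤ centralizer {g}) (hp' : ¬ p ∣ orderOf g) : g ∈ center SL(n, F) := by
  obtain ⟨⟨d, hd⟩, hd1⟩ := (ne_bot_iff_exists_ne_one).1 h0
  obtain ⟨i, j, hij⟩ : ∃ i j, (d.1 - 1) i j ≠ 0 := by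
    by_contra! h
    exact hd1 (Subtype.ext (Subtype.ext (sub_eq_zero.1 (Matrix.ext h))))
  obtain ⟨v, -, hv0, hv⟩ := exists_fixed_mem_closure_orbit hD (V := Fin n → F)
    (fun v => by rw [← Nat.cast_smul_eq_nsmul F, CharP.cast_eq_zero, zero_smul])
    (v := Pi.single i 1) (by simp)
  replace hv : ∀ d ∈ D, d.1 *ᵥ v = v := fun d hd => hv ⟨d, hd⟩
  obtain ⟨l, hl⟩ := Function.ne_iff.1 hv0
  have key : ∀ d ∈ D, ∀ i v, (∀ d ∈ D, d.1 *ᵥ v = v) → ∀ a b,
      (g.1 *ᵥ v) a * (d.1 - 1) i b = v a * ((d.1 - 1) * g.1) i b := fun d hd i v hv a b => by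
    have h1 : ∀ v, (∀ d ∈ D, d.1 *ᵥ v = v) → (d.1 - 1) i ⬝ᵥ v = 0 := fun v hv =>
      congrFun (show (d.1 - 1) *ᵥ v = 0 by rw [sub_mulVec, hv d hd, one_mulVec, sub_self]) i
    have h2 := mem_centralizer_singleton_iff.1 (hg (x := ⟨1 + vecMulVec v ((d.1 - 1) i), by
      rw [vecMulVec_eq Unit, det_one_add_replicateCol_mul_replicateRow, h1 v hv, add_zero]⟩)
      ⟨fun d hd => by rw [add_sub_cancel_left, mul_vecMulVec, hv d hd], fun x hx => by
        rw [add_mulVec, one_mulVec, vecMulVec_mulVec, h1 x hx]; simp⟩)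
    have h3 : (1 + vecMulVec v ((d.1 - 1) i)) * g.1 = g.1 * (1 + vecMulVec v ((d.1 - 1) i)) :=
      congrArg Subtype.val h2
    rw [mul_add, add_mul, mul_one, one_mul, add_right_inj, mul_vecMulVec,
      vecMulVec_mul] at h3
    exact (congrFun₂ h3 a b).symm
  set c := ((d.1 - 1) * g.1) i j / (d.1 - 1) i j
  have h1 : ∀ v, (∀ d ∈ D, d.1 *ᵥ v = v) → g.1 *ᵥ v = c • v := fun v hv => funext fun a => by
    rw [Pi.smul_apply, smul_eq_mul, mul_comm, ← mul_div_assoc, ← key d hd i v hv a j,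
      mul_div_cancel_right₀ _ hij]
  have h2 : ∀ d ∈ D, d.1 * (g.1 - c • 1) = g.1 - c • 1 := fun d hd => by
    rw [← sub_eq_zero, ← sub_one_mul, mul_sub, mul_smul_comm, mul_one, sub_eq_zero]
    ext a b
    have := key d hd a v hv l b
    rw [h1 v hv, Pi.smul_apply, smul_eq_mul, mul_comm c, mul_assoc] at this
    exact (mul_left_cancel₀ hl this).symm
  have h3 := pow_eq (p := p) (A := g.1) (N := g.1 - c • 1) (c := c) (by simp)
    (by rw [sub_mul, mul_eq_of_col h1 h2, smul_mul_assoc, one_mul, sub_self])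
  have h4 : g ^ p ∈ center SL(n, F) := Subgroup.mem_center_iff.2 fun x => Subtype.ext (by
    rw [SLn.val_mul, SLn.val_mul, show (g ^ p).1 = _ from h3]
    simp)
  exact zpowers_le.2 h4 (mem_zpowers_pow_iff.2 ((Nat.Prime.coprime_iff_not_dvd hp.out).2 hp'))

/-- Let F be a finite field of characteristic p and n ≥ 2. Relative to a maximal ideal M of the algebraic integers containing p, the group SL(n, F) has exactly one p-block of defect zero, and every other p-block has full defect (its defect equals the exponent of p in the order of the group, so its defect groups are Sylow p-subgroups). -/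
theorem result {F : Type*} [Field F] [Fintype F] (n : ℕ) (hn : 2 ≤ n) (p : ℕ) [Fact p.Prime] [CharP F p] (M : Ideal Cfsg.AlgInt) (hM : Cfsg.IsPModular p M) : Nat.card {B : Set (Cfsg.IrrCharacter (Matrix.SpecialLinearGroup (Fin n) F)) // Cfsg.IsPBlock M B ∧ Cfsg.blockDefect p B = 0} = 1 ∧ ∀ B : Set (Cfsg.IrrCharacter (Matrix.SpecialLinearGroup (Fin n) F)), Cfsg.IsPBlock M B → Cfsg.blockDefect p B = 0 ∨ Cfsg.blockDefect p B = (Nat.card (Matrix.SpecialLinearGroup (Fin n) F)).factorization p := by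
  haveI := hM.charP
  haveI : NeZero n := ⟨by omega⟩
  constructor
  · obtain ⟨w, hw⟩ := SLn.exists_isAnti (F := F) (n := n)
    obtain ⟨e, ⟨he, h1⟩, h2⟩ := (SLn.cell (k := ResK M) (p := p) hw).existsUnique
    obtain ⟨B, hB, rfl⟩ := hM.exists_block_of_isBlockIdem he
    have key : ∀ B : Set (IrrCharacter SL(n, F)), IsPBlock M B →
        (blockDefect p B = 0 ↔ InDef p ⊤ ⊥ (blockIdem M B)) := fun B hB => by
      obtain ⟨D, hD⟩ := hB.exists_isDefectGroup hM
      have h3 := hD.card_eq hB hM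
      have h4 := (hB.isDefectGroup_iff hM D).1 hD
      refine ⟨fun h => ?_, fun h => ?_⟩
      · rw [h, pow_zero, card_eq_one] at h3
        exact h3 ▸ h4.inDef
      · obtain ⟨g, -, hg⟩ := h4.of_inDef h
        rw [(map_eq_bot_iff_of_injective _ (MulAut.conj g).injective).1 (le_bot_iff.1 hg), card_bot,
          eq_comm, Nat.pow_eq_one] at h3
        exact h3.resolve_left (Fact.out : p.Prime).ne_one
    refine Nat.card_eq_one_iff_exists.2 ⟨⟨B, hB, (key B hB).2 h1⟩, fun B' => Subtype.ext ?_⟩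
    exact B'.2.1.blockIdem_inj hB hM (h2 _ ⟨B'.2.1.isBlockIdem hM, (key _ B'.2.1).1 B'.2.2⟩)
  · intro B hB
    obtain ⟨D, hD⟩ := hB.exists_isDefectGroup hM
    obtain ⟨g, hg, h1⟩ := isDefectGroup_iff_isSylowIn.1 hD
    refine or_iff_not_imp_left.2 fun h => ?_
    have h2 : D ≠ ⊥ := by
      rintro rfl
      have h3 := hD.card_eq hB hM
      rw [card_bot, eq_comm, Nat.pow_eq_one] at h3
      exact h (h3.resolve_left (Fact.out : p.Prime).ne_one)
    have h3 := mem_center_of hD.isPGroup h2 ((le_of_normalizer_le (hB.isBlockIdem hM)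
      ((hB.isDefectGroup_iff hM D).1 hD) (isPGroup_rad D) (le_normalizer_rad D)).trans h1.le)
      (hg.not_dvd_orderOf hB hM)
    rw [← hg.factorization_card_centralizer hB hM,
      centralizer_eq_top_iff_subset.2 (Set.singleton_subset_iff.2 h3), card_top]

end Cfsg.Agent.S4538

set_option linter.all false in
theorem Cfsg.Rz.S4538_0 : True := by
  have := @_root_.Cfsg.Agent.S4538.rad.congr_simp.{0}
  have := @_root_.Cfsg.Agent.S4538.rad.eq_def.{0}
  have := @_root_.Cfsg.Agent.S4538.rad.eq_1.{0}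
  have := @_root_.Cfsg.Agent.S4538.rad.fun_cases
  trivial
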