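import Cfsg.Statements.S4540
import Cfsg.Agent.Blk.SubBound

set_option autoImplicit false
open Cfsg

namespace Cfsg.Agent.S4540

theorem aux {G H : Type*} [Group G] [Finite G] [Group H] [Finite H]
    {M : Ideal AlgInt} (hM : IsPModular 2 M) {f : H →* G} {x : G} (h : IsSec 2 f x)
    {B : Set (IrrCharacter G)} {b : Set (IrrCharacter H)} (hi : Induces M f b B)
    (hd : blockDefect 2 b = blockDefect 2 B) (hl : blockRank 2 b ≤ 3) :
    3 * Nat.card B ≤ 3 * Nat.card {χ : IrrCharacter G // χ ∈ B ∧ blockHeight 2 B χ.1 = 0} +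
      2 * (∑ᶠ χ ∈ {χ : IrrCharacter G | χ ∈ B ∧ 1 ≤ blockHeight 2 B χ.1},
        2 ^ blockHeight 2 B χ.1) ∧
    3 * Nat.card {χ : IrrCharacter G // χ ∈ B ∧ blockHeight 2 B χ.1 = 0} +
      2 * (∑ᶠ χ ∈ {χ : IrrCharacter G | χ ∈ B ∧ 1 ≤ blockHeight 2 B χ.1},
        2 ^ blockHeight 2 B χ.1) ≤ 3 * 2 ^ blockDefect 2 B := by
  classical
  obtain ⟨n, hx⟩ := h.pElt.exists_pow_succ_eq_one
  have key : 3 * Nat.card {χ : IrrCharacter G // χ ∈ B ∧ blockHeight 2 B χ.1 = 0} +
      2 * (∑ᶠ χ ∈ {χ : IrrCharacter G | χ ∈ B ∧ 1 ≤ blockHeight 2 B χ.1},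
        2 ^ blockHeight 2 B χ.1) = ∑ χ : IrrCharacter G with χ ∈ B,
          if blockHeight 2 B χ.1 = 0 then 3 else 2 ^ (blockHeight 2 B χ.1 + 1) := by
    rw [Finset.sum_ite, Finset.filter_filter, Finset.filter_filter, Finset.sum_const, smul_eq_mul,
      Nat.card_eq_fintype_card, Fintype.card_subtype, finsum_mem_irr_eq_sum, Finset.mul_sum,
      mul_comm 3]
    congr 1
    exact Finset.sum_congr (Finset.filter_congr fun χ _ => by simp [Nat.one_le_iff_ne_zero])
      fun χ _ => (pow_succ' _ _).symm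
  rw [key]
  refine ⟨?_, ?_⟩
  · rw [natCard_eq_card_filter, mul_comm, ← smul_eq_mul]
    refine Finset.card_nsmul_le_sum _ _ _ fun χ _ => ?_
    split_ifs with h0
    · rfl
    · exact le_trans (by norm_num) (Nat.pow_le_pow_right two_pos (by omega : 2 ≤ _))
  by_cases h1 : ∃ χ ∈ B, blockHeight 2 B χ.1 = 0 ∧ avgC 2 n f x b χ.1 = 1
  · obtain ⟨χ, hχ, h0, h1⟩ := h1
    have h2 := h.sum_pow_height_le hM hx hi hd hχ h0
    rw [h1, mul_one] at h2
    have h3 : ∑ ψ : IrrCharacter G with ψ ∈ B, 2 ^ (2 * blockHeight 2 B ψ.1) ≤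
        2 ^ blockDefect 2 B := by exact_mod_cast h2
    refine le_trans ?_ (Nat.mul_le_mul_left 3 h3)
    rw [Finset.mul_sum]
    refine Finset.sum_le_sum fun ψ _ => ?_
    split_ifs with h0
    · simp [h0]
    · exact (Nat.pow_le_pow_right two_pos (by omega)).trans (Nat.le_mul_of_pos_left _ three_pos)
  · have h2 := Finset.sum_le_sum (s := Finset.univ.filter (· ∈ B))
      (f := fun χ : IrrCharacter G => ((if blockHeight 2 B χ.1 = 0 then 3 else
        2 ^ (blockHeight 2 B χ.1 + 1) : ℕ) : ℝ)) (g := fun χ => avgC 2 n f x b χ.1) fun χ hχ => by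
      have hχ' := (Finset.mem_filter.1 hχ).2
      split_ifs with h0
      · obtain ⟨c, hc, c', rfl⟩ := h.exists_avgC_odd hM hx hi hχ' h0
        have : c' ≠ 0 := by rintro rfl; exact h1 ⟨χ, hχ', h0, by simpa using hc⟩
        rw [hc]
        exact_mod_cast (by omega : 3 ≤ 2 * c' + 1)
      · obtain ⟨c, hc, hc'⟩ := h.exists_avgC_even hM hx hi hd hχ' h0
        rw [hc]
        exact_mod_cast Nat.le_mul_of_pos_right _ hc'
    rw [h.sum_avgC hM hi, hd] at h2
    refine le_trans (by exact_mod_cast h2) ((Nat.mul_le_mul_left (2 ^ blockDefect 2 B) hl).trans_eq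
      (mul_comm _ _))

/-- Let B be a 2-block of the finite group G (relative to a maximal ideal M of the algebraic integers containing 2) of defect d with defect group D. Let z be an element of D commuting with every element of D, and let b be a block of the centralizer C of z with defect group D that induces B (a major subsection (z, b)). If b has 2-regular rank at most three, then 3·k(B) ≤ 3·k₀(B) + 2·Σ 2 ^ h(χ), where k(B) is the number of members of B, k₀(B) the number of members of height zero, and the sum runs over the members χ of B of positive height h(χ); this bound is at most 3·2 ^ d, so in particular B contains at most 2 ^ d irreducible characters. -/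
theorem result {G : Type*} [Group G] [Finite G] (M : Ideal Cfsg.AlgInt) (hM : Cfsg.IsPModular 2 M) (B : Set (Cfsg.IrrCharacter G)) (hB : Cfsg.IsPBlock M B) (D : Subgroup G) (hD : Cfsg.IsDefectGroup 2 M B D) (z : G) (hzD : z ∈ D) (hzc : ∀ d ∈ D, d * z = z * d) (b : Set (Cfsg.IrrCharacter ↥(Subgroup.centralizer ({z} : Set G)))) (hb : Cfsg.IsInducedBlock M (Subgroup.centralizer ({z} : Set G)) b B) (hbD : Cfsg.IsDefectGroup 2 M b (D.subgroupOf (Subgroup.centralizer ({z} : Set G)))) (hl : Cfsg.blockRank 2 b ≤ 3) : 3 * Nat.card B ≤ 3 * Nat.card {χ : Cfsg.IrrCharacter G // χ ∈ B ∧ Cfsg.blockHeight 2 B (χ : G → ℂ) = 0} + 2 * (∑ᶠ χ ∈ {χ : Cfsg.IrrCharacter G | χ ∈ B ∧ 1 ≤ Cfsg.blockHeight 2 B (χ : G → ℂ)}, 2 ^ Cfsg.blockHeight 2 B (χ : G → ℂ)) ∧ 3 * Nat.card {χ : Cfsg.IrrCharacter G // χ ∈ B ∧ Cfsg.blockHeight 2 B (χ : G → ℂ) = 0} + 2 * (∑ᶠ χ ∈ {χ : Cfsg.IrrCharacter G | χ ∈ B ∧ 1 ≤ Cfsg.blockHeight 2 B (χ : G → ℂ)}, 2 ^ Cfsg.blockHeight 2 B (χ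 : G → ℂ)) ≤ 3 * 2 ^ Cfsg.blockDefect 2 B := by
  have hi := (isInducedBlock_iff hM).1 hb
  obtain ⟨hs, hd⟩ := hD.major_of_comm hM hB hzD hzc hi.left hbD
  exact aux hM hs hi hd hl

end Cfsg.Agent.S4540
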