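import Cfsg.Statements.S4544
import Cfsg.Agent.Blk.CentIdx
import Cfsg.Agent.Grp.CycFour
-- import your own Cfsg.Agent.* helpers here

set_option autoImplicit false
open Cfsg

namespace Cfsg.Agent.S4544

open GA MonoidAlgebra

open Subgroup

theorem aux {G : Type*} [Group G] [Finite G] {M : Ideal AlgInt} [CharP (ResK M) 2]
    {B : Set (IrrCharacter G)} {P : Subgroup G} {e : (ResK M)[G]} (hM : IsPModular 2 M)
    (hB : IsPBlock M B) (hP : IsMaxPair 2 (blockIdem M B) P e) (hD : IsDefectGroup 2 M B P) {x : G}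
    (hx : x ∈ P) (h : Nat.card P ≤ 4 * orderOf x) : Nat.card B ≤ Nat.card P := by
  have h0 := hP.pair.isPGroup
  by_cases h1 : ∃ v ∈ P, Nat.card P ≤ 2 * orderOf v
  · obtain ⟨v, hv, h1⟩ := h1
    exact (hM.four_mul_card_le hB hP (one_mem _) (le_cent_zpowers (one_mem _))
      (hM.lrk_one hB hP ▸ hM.rank_le_of_cyc hB hP hv h1)).2
  by_cases h2 : ∃ v ∈ P, v ∈ centralizer (P : Set G) ∧ Nat.card P ≤ 16 * orderOf v
  · obtain ⟨v, hv, h2, h3⟩ := h2
    exact hM.card_le_of_cent hB hP hD hv h2 h3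
  push Not at h1 h2
  obtain ⟨k, hk⟩ := h0.exists_card_eq
  have h3 : ∀ K ≤ P, ∀ j, 2 ^ j < Nat.card K → 2 * 2 ^ j ≤ Nat.card K := fun K hK j hj => by
    obtain ⟨i, hi⟩ := (h0.to_le hK).exists_card_eq
    rw [hi] at hj ⊢
    rw [← pow_succ']
    exact Nat.pow_le_pow_right two_pos ((Nat.pow_lt_pow_iff_right one_lt_two).1 hj)
  obtain ⟨n, hn⟩ := isPElt_of_mem h0 hx
  have h4 : Nat.card P = 4 * orderOf x := by
    have := h3 P le_rfl (n + 1) (by have := h1 x hx; omega)
    omega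
  have h5 : ∀ v ∈ P, orderOf v = orderOf x → v ^ 4 ∉ centralizer (P : Set G) := fun v hv e e' => by
    have := h2 _ (pow_mem hv 4) e'
    have := orderOf_le_of_pow_eq_one (n := 4 * orderOf (v ^ 4)) (x := v)
      (Nat.mul_pos four_pos (orderOf_pos _)) (by rw [pow_mul, pow_orderOf_eq_one])
    omega
  by_cases h6 : ∃ v ∈ P, orderOf v = orderOf x ∧ ∃ g ∈ P, g * v = v * g ∧ g ∉ zpowers v
  · obtain ⟨v, hv, h6, g, hg, h7, h8⟩ := h6
    have h9 : zpowers v ≤ P ⊓ centralizer (zpowers v) := zpowers_le.2 ⟨hv, mem_cent_zpowers.2 rfl⟩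
    have h10 := h3 _ inf_le_left n (by
      rw [← hn, ← h6, ← Nat.card_zpowers]
      exact card_lt_of_lt (h9.lt_of_ne fun e => h8 (e.ge ⟨hg, mem_cent_zpowers.2 h7⟩)))
    have h11 : Nat.card (P ⊓ centralizer (zpowers v) : Subgroup G) ≤ 2 * 2 ^ n := not_lt.1 fun e =>
      h5 v hv h6 (pow_mem (le_centralizer_iff.1 ((eq_of_le_of_card_ge inf_le_left (by
        have := h3 _ inf_le_left (n + 1) (pow_succ' 2 n ▸ e); omega)).ge.trans inf_le_right)
          (mem_zpowers v)) 4)
    have J := idx2_of_card h9 (by rw [Nat.card_zpowers]; omega)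
    have I := idx2_of_card (inf_le_left (a := P) (b := centralizer (zpowers v))) (by omega)
    obtain ⟨u, hu, h12, h13⟩ := exists_cent_of_cyc h0 I J (J.le_cent (zpowers_le.2 fun g hg =>
      mem_cent_zpowers.1 hg.2)) (fun w hw => not_lt.1 fun e => by
        have := h3 _ (zpowers_le.2 hw.1) n (by rw [Nat.card_zpowers]; omega)
        have := h1 w hw.1
        rw [Nat.card_zpowers] at *
        omega) (h5 v hv h6)
    exact (hM.four_mul_card_le hB hP hu (le_cent_zpowers h12) (hM.lrk_le_of_idx2 hB hP hu h12 I hv h13)).2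
  push Not at h6
  obtain ⟨n, rfl⟩ : ∃ m, n = m + 4 := Nat.exists_eq_add_of_le' (by
    by_contra! e
    obtain ⟨z, hz, hz'⟩ := (bot_or_exists_ne_one _).resolve_left (inf_center_ne_bot_of_isPGroup h0
      (N := ⊤) fun e => h5 x hx rfl ((show x ^ 4 = 1 from congrArg Subtype.val
        (e.le (mem_top (⟨x, hx⟩ ^ 4 : P)))) ▸ one_mem _))
    have := h2 z z.2 fun g hg => congrArg Subtype.val (mem_center_iff.1 hz.2 ⟨g, hg⟩)
    have := two_le_orderOf (g := (z : G)) (by simpa using hz')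
    have := Nat.pow_le_pow_right two_pos (Nat.le_of_lt_succ e)
    omega)
  obtain ⟨h7, h8⟩ := exists_isDbl h0 hx hn h4 (h6 x hx rfl) (h5 x hx rfl)
  obtain ⟨H', _, _, Q, _, _, f', π, b', s', P', ρ, c', e', hR⟩ := hM.exists_red hB hP (pow_mem hx _)
    (le_cent_zpowers h7)
  obtain ⟨A, y, t, z, D⟩ := h8 (P'.subtype.comp ρ) fun a => by simp [hR.eq_one_iff]
  rw [MonoidHom.range_comp, MonoidHom.range_eq_top.2 hR.surj, ← MonoidHom.range_eq_map,
    range_subtype] at D
  have := hM.kz_le_of_forall hB hP (u := ⟨x, hx⟩) (N := orderOf x) (by simp only; omega) fun v hv => by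
    have := orderOf_eq_of_mem_fClass hv
    rw [← show orderOf (v : G) = orderOf x from this, ← Nat.card_zpowers]
    exact card_le_of_le fun g hg => h6 v v.2 this g hg.1 (mem_cent_zpowers.1 hg.2)
  exact hM.card_le_of_lrk_le_four hB hP (pow_mem hx _) (le_cent_zpowers h7)
    (hR.rank ▸ D.rank_le_four hM hR.block hR.max) (by omega)

/-- Let B be a 2-block of the finite group G (relative to a maximal ideal M of the algebraic integers containing 2) whose defect group D contains a cyclic subgroup of index at most 4 in D. Then B contains at most as many irreducible characters as D has elements. -/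
theorem result {G : Type*} [Group G] [Finite G] (M : Ideal Cfsg.AlgInt) (hM : Cfsg.IsPModular 2 M) (B : Set (Cfsg.IrrCharacter G)) (hB : Cfsg.IsPBlock M B) (D : Subgroup G) (hD : Cfsg.IsDefectGroup 2 M B D) (C : Subgroup G) (hCD : C ≤ D) (hcyc : IsCyclic C) (hidx : C.relIndex D ≤ 4) : Nat.card B ≤ Nat.card D := by
  haveI := hM.charP
  obtain ⟨e, hP⟩ := (hB.isBlockIdem hM).exists_isMaxPair ((hB.isDefectGroup_iff hM D).1 hD)
  obtain ⟨u, hu⟩ := isCyclic_iff_exists_zpowers_eq_top.1 hcyc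
  have h1 := card_mul_relIndex hCD
  rw [← Subgroup.card_top (G := C), ← hu, Nat.card_zpowers, ← Subgroup.orderOf_coe] at h1
  exact aux hM hB hP hD (hCD u.2) (h1 ▸ mul_comm 4 _ ▸ Nat.mul_le_mul_left _ hidx)

end Cfsg.Agent.S4544
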