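import Cfsg.Statements.S4543
import Cfsg.Agent.S4544
import Cfsg.Agent.Blk.GenTwo
import Cfsg.Agent.Grp.GenTwoB
-- import your own Cfsg.Agent.* helpers here

set_option autoImplicit false
open Cfsg

namespace Cfsg.Agent.S4543

open GA MonoidAlgebra

open Subgroup

/-- Let B be a 2-block of the finite group G (relative to a maximal ideal M of the algebraic integers containing 2) whose defect group D has order at most 64 and is generated by two of its elements. Then B contains at most as many irreducible characters as D has elements. -/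
theorem result {G : Type*} [Group G] [Finite G] (M : Ideal Cfsg.AlgInt) (hM : Cfsg.IsPModular 2 M) (B : Set (Cfsg.IrrCharacter G)) (hB : Cfsg.IsPBlock M B) (D : Subgroup G) (hD : Cfsg.IsDefectGroup 2 M B D) (hcard : Nat.card D ≤ 64) (hgen : ∃ x ∈ D, ∃ y ∈ D, Subgroup.closure ({x, y} : Set G) = D) : Nat.card B ≤ Nat.card D := by
  haveI := hM.charP
  obtain ⟨e, hP⟩ := (hB.isBlockIdem hM).exists_isMaxPair ((hB.isDefectGroup_iff hM D).1 hD)
  have h0 := hP.pair.isPGroup
  by_cases h1 : ∃ v ∈ D, Nat.card D ≤ 4 * orderOf v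
  · obtain ⟨v, hv, h1⟩ := h1
    exact S4544.aux hM hB hP hD hv h1
  by_cases h2 : ∃ v ∈ D, v ∈ centralizer (D : Set G) ∧ Nat.card D ≤ 16 * orderOf v
  · obtain ⟨v, hv, h2, h3⟩ := h2
    exact hM.card_le_of_cent hB hP hD hv h2 h3
  push Not at h1 h2
  have h3 : Nat.card D = 64 := by
    obtain ⟨z, hz, h3⟩ := exists_mem_orderOf_eq_prime (dvd_card_of_isPGroup_of_ne_bot
      (h0.to_le inf_le_left) (inf_centralizer_ne_bot_of_isPGroup h0 h0 le_normalizer fun e => by
        have := h1 1 (one_mem _)
        simp [e] at this))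
    have := two_mul_le_card h0 (j := 5) (by have := h2 z hz.1 hz.2; omega)
    omega
  obtain ⟨x, hx, y, hy, h4⟩ := hgen
  obtain ⟨u, hu, h5⟩ := exists_quot_of_gen (G := D) (a := ⟨x, hx⟩) (b := ⟨y, hy⟩) h0
    (map_injective D.subtype_injective (by
      rw [MonoidHom.map_closure, Set.image_pair, ← MonoidHom.range_eq_map, range_subtype]; exact h4)) h3
    (fun v => by
      obtain ⟨k, hk⟩ := isPElt_of_mem h0 v.2
      refine Subtype.ext (orderOf_dvd_iff_pow_eq_one.1 (hk ▸ pow_dvd_pow 2 (n := 3) (not_lt.1 fun e => ?_)))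
      have := h1 v v.2
      have := Nat.pow_le_pow_right two_pos e
      omega)
    fun v hv => Subtype.ext (by_contra fun e => by
      have := h2 v v.2 fun g hg => congrArg Subtype.val (hv ⟨g, hg⟩ trivial)
      have := four_le_orderOf (isPElt_of_mem h0 v.2) e
      omega)
  obtain ⟨H', _, _, Q, _, _, f', π, b', s', P', ρ, c', e', hR⟩ := hM.exists_red hB hP u.2
    (le_cent_zpowers fun g hg => congrArg Subtype.val (hu ⟨g, hg⟩ trivial))
  have h6 := h5 (P'.subtype.comp ρ) (Subgroup.ext fun a => by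
    rw [← mem_map_iff_mem D.subtype_injective (K := zpowers u), MonoidHom.map_zpowers]
    simp [hR.eq_one_iff])
  rw [MonoidHom.range_comp, MonoidHom.range_eq_top.2 hR.surj, ← MonoidHom.range_eq_map,
    range_subtype] at h6
  refine hR.card_le_of_le_three (le_trans (le_of_eq ?_) (by norm_num : 1 ≤ 3))
  rcases h6 with ⟨_, _, _, _, _, _, h6, h7⟩ | ⟨_, _, _, _, h6, h7⟩
  exacts [h6.rank_eq h7 hM hR.block hR.max, h6.rank_eq h7 hM hR.block hR.max]

end Cfsg.Agent.S4543
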