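import Cfsg.Statements.S4546
import Cfsg.Agent.Ev.Lift
-- import your own Cfsg.Agent.* helpers here

set_option autoImplicit false
open Cfsg

namespace Cfsg.Agent.S4546

open Subgroup in
theorem aut_apply_eq {A : Type*} [Group A] [Finite A] {σ : MulAut A} {s : A} (h : σ s ∈ zpowers s)
    (hc : (orderOf s).totient.Coprime (orderOf σ)) : σ s = s := by
  obtain ⟨k, hk⟩ := (mem_powers_iff_mem_zpowers.2 h)
  have h1 : ∀ m : ℕ, (σ ^ m) s = s ^ k ^ m := fun m => by
    induction m with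
    | zero => simp
    | succ m ih => rw [pow_succ', MulAut.mul_apply, ih, map_pow, ← hk, ← pow_mul, pow_succ']
  have h2 : k.Coprime (orderOf s) := by
    have := orderOf_pow s (n := k)
    rw [show s ^ k = σ s from hk, MulEquiv.orderOf_eq, eq_comm, Nat.div_eq_self] at this
    exact Nat.coprime_comm.1 (this.resolve_left (orderOf_pos s).ne')
  refine (zpowers_le (H := MulAction.stabilizer (MulAut A) s)).2 ?_ (mem_zpowers_pow_iff.2 hc)
  change (σ ^ _) s = s
  rw [h1, pow_eq_pow_iff_modEq.2 (Nat.ModEq.pow_totient h2), pow_one]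

open Subgroup in
theorem exists_fixed {A : Type*} [CommGroup A] [Finite A] {J : Subgroup (MulAut A)}
    (hJ : ¬ 2 ∣ Nat.card J) {x : A} {n : ℕ} (hx : orderOf x = 2 ^ (n + 2))
    (h : ∀ y, y * y ∈ zpowers (x * x)) :
    ∃ z : A, (∀ σ ∈ J, σ z = z) ∧ orderOf z = 2 ^ (n + 2) ∧ ∀ y, y * y ∈ zpowers z := by
  have := Fintype.ofFinite J
  have h1 : orderOf (x * x) = 2 ^ (n + 1) := by
    rw [← sq, orderOf_pow, hx, Nat.gcd_eq_right (dvd_pow_self 2 (by omega)), pow_succ,
      Nat.mul_div_cancel _ two_pos]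
  have h2 : (Nat.card J).Coprime 2 := ((Nat.prime_two.coprime_iff_not_dvd).2 hJ).symm
  have h3 : (∏ σ : J, σ.1 x) ^ 2 = (x * x) ^ Nat.card J := by
    rw [← Finset.prod_pow, Nat.card_eq_fintype_card, ← Finset.card_univ, ← Finset.prod_const]
    refine Finset.prod_congr rfl fun σ _ => ?_
    rw [sq, ← map_mul, aut_apply_eq (by rw [map_mul]; exact h _)]
    rw [h1, Nat.totient_prime_pow_succ Nat.prime_two, Nat.add_one_sub_one, mul_one]
    exact (h2.symm.pow_left n).coprime_dvd_right (orderOf_coe σ ▸ orderOf_dvd_natCard σ)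
  refine ⟨∏ σ : J, σ.1 x, fun τ hτ => ?_, ?_, fun y => ?_⟩
  · rw [map_prod]
    exact Fintype.prod_equiv (Equiv.mulLeft (⟨τ, hτ⟩ : J)) _ _ fun _ => rfl
  · refine orderOf_eq_prime_pow (fun h4 => ?_) ?_
    · rw [pow_succ', pow_mul, h3, ← pow_mul, ← orderOf_dvd_iff_pow_eq_one, h1] at h4
      exact absurd (Nat.le_of_dvd (by positivity) ((h2.symm.pow_left _).dvd_of_dvd_mul_left h4))
        (by rw [pow_succ]; have := Nat.two_pow_pos n; omega)
    · rw [pow_succ', pow_mul, h3, ← pow_mul, mul_comm (Nat.card J), pow_mul, ← h1, pow_orderOf_eq_one,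
        one_pow]
  · refine zpowers_le.2 (zpowers_le.2 (h3 ▸ npow_mem_zpowers _ 2) (mem_zpowers_pow_iff.2 ?_)) (h y)
    rw [h1]
    exact h2.pow_right _

/-- Let B be a 2-block of the finite group G (relative to a maximal ideal M of the algebraic integers containing 2) whose defect group D is the direct product of a cyclic group of order 2 ^ n (n ≥ 2) and an elementary abelian group of order 8. Then B contains exactly 2 ^ (n + 3) irreducible characters, all of height zero, and its 2-regular rank is 1, 3, 5 or 7. -/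
theorem result {G : Type*} [Group G] [Finite G] (M : Ideal Cfsg.AlgInt) (hM : Cfsg.IsPModular 2 M) (B : Set (Cfsg.IrrCharacter G)) (hB : Cfsg.IsPBlock M B) (D : Subgroup G) (hD : Cfsg.IsDefectGroup 2 M B D) (n : ℕ) (hn : 2 ≤ n) (hiso : Nonempty (D ≃* Multiplicative (ZMod (2 ^ n) × ZMod 2 × ZMod 2 × ZMod 2))) : Nat.card B = 2 ^ (n + 3) ∧ (∀ χ ∈ B, Cfsg.blockHeight 2 B (χ : G → ℂ) = 0) ∧ (Cfsg.blockRank 2 B = 1 ∨ Cfsg.blockRank 2 B = 3 ∨ Cfsg.blockRank 2 B = 5 ∨ Cfsg.blockRank 2 B = 7) := by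
  obtain ⟨ι⟩ := hiso
  obtain ⟨n, rfl⟩ := Nat.exists_eq_add_of_le' hn
  have := hM.charP
  obtain ⟨e, hP⟩ := (hB.isBlockIdem hM).exists_isMaxPair ((hB.isDefectGroup_iff hM D).1 hD)
  letI : CommGroup D := { (inferInstance : Group D) with
    mul_comm := fun a b => ι.injective (by rw [map_mul, map_mul, mul_comm]) }
  have hab : D ≤ Subgroup.centralizer (D : Set G) := fun a ha b hb =>
    congrArg Subtype.val (mul_comm (⟨b, hb⟩ : D) ⟨a, ha⟩)
  have hc : Nat.card D = 2 ^ (n + 2 + 3) := by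
    rw [Nat.card_congr ι.toEquiv]
    simp [pow_succ, mul_assoc]
  obtain ⟨z, h1, h2, h3⟩ := exists_fixed (hP.not_dvd_card_iAut hM hab)
    (x := ι.symm (Multiplicative.ofAdd (1, 0, 0, 0))) (n := n) (by
      rw [MulEquiv.orderOf_eq, orderOf_ofAdd_eq_addOrderOf, Prod.addOrderOf_mk]
      simp [Prod.mk_zero_zero, ZMod.addOrderOf_one]) fun y => by
      obtain ⟨y, rfl⟩ := ι.symm.surjective y
      refine ⟨(y.toAdd.1.val : ℤ), ?_⟩
      simp only [← map_mul, ← map_zpow]
      congr 1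
      apply Multiplicative.toAdd.injective
      ext <;> simp [CharTwo.add_self_eq_zero, mul_add]
  rw [← hc]
  refine hP.lift_eight hM hB hab h1 (fun x hx => ?_) (by rw [hc, Subgroup.orderOf_coe, h2]; ring)
  obtain ⟨k, hk⟩ := h3 ⟨x, hx⟩
  exact ⟨k, congrArg Subtype.val hk⟩

end Cfsg.Agent.S4546
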