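import Cfsg.Statements.S4549
import Cfsg.Agent.Blk.SigmaFix

set_option autoImplicit false
open Cfsg

namespace Cfsg.Agent.S4549

/-- Let G be a finite group and M a maximal ideal of the algebraic integers containing 2. Let k be a natural number with g ^ k = g ^ 3 for every 2-element g and g ^ k = g for every element g of odd order (such k exist); an irreducible character χ is unchanged by g ↦ g ^ k exactly when it is fixed by the field automorphism that cubes the 2-power roots of unity and fixes the roots of unity of odd order. Then G has a normal 2-complement if and only if every member χ of the principal 2-block of odd degree with χ (g ^ k) = χ g for all g has degree one. -/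
theorem result {G : Type*} [Group G] [Finite G] (M : Ideal Cfsg.AlgInt) (hM : Cfsg.IsPModular 2 M) (k : ℕ) (hk₁ : ∀ g : G, (∃ j : ℕ, orderOf g = 2 ^ j) → g ^ k = g ^ 3) (hk₂ : ∀ g : G, Odd (orderOf g) → g ^ k = g) : Cfsg.HasNormalPComplement 2 G ↔ ∀ χ ∈ Cfsg.principalBlock M G, Odd (Cfsg.charDegree (χ : G → ℂ)) → (∀ g : G, (χ : G → ℂ) (g ^ k) = (χ : G → ℂ) g) → Cfsg.charDegree (χ : G → ℂ) = 1 := by
  obtain ⟨σ, hσ, hσ'⟩ := exists_isTwoGal (G := G) (by decide : Odd 3) hk₁ hk₂
  constructor
  · intro h χ hχ hd _
    rw [hasNormalPComplement_iff_isPGroup_quotient] at h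
    obtain ⟨β, hβ⟩ := χ.exists_quotient (pPrimeCore 2 G)
      (fun g hg => apply_eq_of_mem_principalBlock hM (not_dvd_card_pPrimeCore 2 G) hχ hg)
    have h1 : charDegree χ.1 = charDegree β.1 := by
      have := hβ 1
      rw [QuotientGroup.mk_one, β.apply_one, χ.apply_one] at this
      exact_mod_cast this.symm
    obtain ⟨n, hn⟩ := h.exists_card_eq
    have h2 := β.charDegree_dvd_card
    rw [hn, ← h1] at h2
    exact Nat.Coprime.eq_one_of_dvd ((Nat.coprime_two_right.2 hd).pow_right n) h2
  · intro h
    exact hσ.hasNormalPComplement hM fun χ hχ hd hs => h χ hχ hd fun g => by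
      rw [hσ' _ χ.isCharacter.isGen]
      exact congrFun (congrArg Subtype.val hs) g

end Cfsg.Agent.S4549
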