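import Cfsg.Statements.S4548
import Cfsg.Agent.S4549
import Cfsg.Agent.Blk.SubContrib
import Cfsg.Agent.Blk.Orth
import Cfsg.Agent.Blk.PrinExt
import Cfsg.Agent.Blk.OneSub
import Cfsg.Agent.GA.Conj
import Cfsg.Agent.Char.Burnside
import Cfsg.Agent.Grp.DihSylow

set_option autoImplicit false
open Cfsg

namespace Cfsg.Agent.S4548

open scoped ComplexConjugate

/-- If only two characters of odd degree in the principal block are fixed, the nontrivial one never
vanishes, so it is linear. -/
theorem linear_of_two {G : Type*} [Group G] [Finite G] {M : Ideal Cfsg.AlgInt}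
    (hM : Cfsg.IsPModular 2 M) (hev : Even (Nat.card G)) {σ : ℂ ≃+* ℂ}
    (hσ : IsTwoGal (Nat.card G) σ) (hreg : ∀ (χ : IrrCharacter G) (g : G), IsPRegular 2 g →
      σ (χ g) = χ g)
    (h2 : Nat.card {χ : IrrCharacter G // χ ∈ principalBlock M G ∧ Odd (charDegree χ.1) ∧
      σ • χ = χ} = 2) {χ : IrrCharacter G} (hχ : χ ∈ principalBlock M G)
    (hd : Odd (charDegree χ.1)) (hs : σ • χ = χ) : charDegree χ.1 = 1 := by
  classical
  haveI : Fact (Nat.Prime 2) := ⟨Nat.prime_two⟩
  by_cases h1 : χ = IrrCharacter.one G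
  · rw [h1]; simp
  -- the fixed set
  have hset : ∀ ψ : IrrCharacter G, ψ ∈ principalBlock M G → Odd (charDegree ψ.1) → σ • ψ = ψ →
      ψ = IrrCharacter.one G ∨ ψ = χ := by
    intro ψ a b c
    by_contra hne
    push Not at hne
    let S := {χ : IrrCharacter G // χ ∈ principalBlock M G ∧ Odd (charDegree χ.1) ∧ σ • χ = χ}
    let x0 : S := ⟨IrrCharacter.one G, hM.one_mem_principalBlock, by simp,
      IrrCharacter.gal_smul_one σ⟩
    let x1 : S := ⟨χ, hχ, hd, hs⟩
    let x2 : S := ⟨ψ, a, b, c⟩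
    obtain ⟨y, hy⟩ := (Nat.card_eq_two_iff' x0).1 h2
    have e1 := hy.2 x1 (fun h => h1 (congrArg Subtype.val h))
    have e2 := hy.2 x2 (fun h => hne.1 (congrArg Subtype.val h))
    exact hne.2 (congrArg Subtype.val (e2.trans e1.symm))
  haveI := Fintype.ofFinite G
  obtain ⟨z, hz⟩ := exists_prime_orderOf_dvd_card' (G := G) 2 (even_iff_two_dvd.1 hev)
  have hz2 : IsPElt 2 z⁻¹ := ⟨1, by rw [orderOf_inv, hz, pow_one]⟩
  obtain ⟨j, hj⟩ := hσ.pow_smul
  let τ : Equiv.Perm (IrrCharacter G) := MulAction.toPermHom (ℂ ≃+* ℂ) (IrrCharacter G) σ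
  have hτ : IsPGroup 2 (Subgroup.zpowers τ) := by
    rw [← isPElt_iff_isPGroup_zpowers, isPElt_iff_pow_eq_one]
    refine ⟨j, ?_⟩
    rw [← map_pow]
    ext1 θ
    exact hj θ
  have hchar : (2 : ResK M) = 0 := by
    have := red_eq_zero_of_vM_lt_one hM.vM_prime_lt_one
    rw [red_natCast] at this
    exact_mod_cast this
  have hmem : ∀ (ψ : IrrCharacter G) (g : G), ψ g ∈ locO M := fun ψ g =>
    mem_locO_of_isIntegral (ψ.isCharacter.isIntegral g)
  have hval : ∀ g : G, IsPRegular 2 g → red M (χ g) = 1 := by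
    intro g hg
    have h0 := (isPBlock_principalBlock (M := M) (G := G)).finsum_mul_conj_eq_zero_of_regular hM
      (g := g) (h := z) hg (by rw [hz])
    rw [finsum_mem_eq_sum_of_inter_support_eq
      (t := Finset.univ.filter (· ∈ principalBlock M G)) _ (by simp)] at h0
    have h3 := congrArg (red M) h0
    have hc : ∀ ψ : IrrCharacter G, conj (ψ z) = ψ z⁻¹ := fun ψ =>
      (ψ.isCharacter.apply_inv z).symm
    simp only [hc] at h3
    rw [red_sum (fun ψ _ => mul_mem (hmem ψ g) (hmem ψ _)), red_zero] at h3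
    have h4 : ∀ ψ : IrrCharacter G, red M (ψ g * ψ z⁻¹) =
        red M (ψ g) * (charDegree ψ.1 : ResK M) := by
      intro ψ
      rw [red_mul (hmem ψ g) (hmem ψ _)]
      congr 1
      have := ψ.isCharacter.isGen.red_mul_eq hM (Commute.one_right z⁻¹) hz2
      rw [mul_one] at this
      change red M (ψ.1 z⁻¹) = _
      rw [this]
      change red M (ψ 1) = _
      rw [ψ.apply_one, red_natCast]
    simp only [h4] at h3
    have hpow : ∀ (u : Subgroup.zpowers τ) (ψ : IrrCharacter G),
        ∃ i : ℤ, u • ψ = (σ ^ i) • ψ := by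
      rintro ⟨_, i, rfl⟩ ψ
      exact ⟨i, by change (τ ^ i) ψ = _; rw [← map_zpow]; rfl⟩
    have hfix : ∀ (i : ℤ) (ψ : IrrCharacter G), ((σ ^ i) • ψ) g = ψ g := by
      intro i ψ
      exact (Subgroup.zpowers_le_of_mem (g := σ)
        (H := MulAction.stabilizer (ℂ ≃+* ℂ) (ψ g)) (hreg ψ g hg)) ⟨i, rfl⟩
    rw [GA.sum_eq_sum_fixed hτ (fun r => by rw [two_nsmul, ← two_mul, hchar, zero_mul]) _
      (fun u ψ hψ => by
        obtain ⟨i, hi⟩ := hpow u ψ
        simp only [Finset.mem_filter, Finset.mem_univ, true_and] at hψ ⊢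
        rw [hi]
        exact (gal_smul_mem_principalBlock_iff hM _ _).2 hψ) _
      (fun u ψ _ => by
        obtain ⟨i, hi⟩ := hpow u ψ
        rw [hi, hfix, IrrCharacter.charDegree_gal_smul])] at h3
    rw [← Finset.sum_subset (s₁ := {IrrCharacter.one G, χ}), Finset.sum_pair (Ne.symm h1)] at h3
    · obtain ⟨m, hm⟩ := hd
      rw [hm] at h3
      simp only [IrrCharacter.one_apply, red_one] at h3
      push_cast at h3
      rw [hchar] at h3
      simp only [IrrCharacter.charDegree_one, Nat.cast_one, mul_one, zero_mul, zero_add] at h3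
      linear_combination h3 - hchar
    · intro ψ hψ
      simp only [Finset.mem_insert, Finset.mem_singleton] at hψ
      simp only [Finset.mem_filter, Finset.mem_univ, true_and]
      have key : ∀ θ : IrrCharacter G, σ • θ = θ → ∀ u : Subgroup.zpowers τ, u • θ = θ :=
        fun θ hθ u => (Subgroup.zpowers_le_of_mem (g := τ)
          (H := MulAction.stabilizer (Equiv.Perm (IrrCharacter G)) θ) hθ) u.2
      rcases hψ with rfl | rfl
      · exact ⟨hM.one_mem_principalBlock, key _ (IrrCharacter.gal_smul_one σ)⟩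
      · exact ⟨hχ, key _ hs⟩
    · intro ψ hψ hn
      simp only [Finset.mem_filter, Finset.mem_univ, true_and] at hψ
      simp only [Finset.mem_insert, Finset.mem_singleton] at hn
      rcases Nat.even_or_odd (charDegree ψ.1) with ⟨m, hm⟩ | ho
      · rw [hm, ← two_mul]
        push_cast
        rw [hchar, zero_mul, mul_zero]
      · exact absurd (hset ψ hψ.1 ho (hψ.2 ⟨τ, Subgroup.mem_zpowers τ⟩)) hn
  by_contra hne
  obtain ⟨g, hg⟩ := χ.exists_apply_eq_zero (by
    rw [χ.apply_one]; exact_mod_cast hne)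
  have h5 := χ.isCharacter.isGen.red_pPrimePart hM g
  have h6 := hval _ (isPRegular_pPrimePart 2 g)
  change red M (χ _) = red M (χ g) at h5
  rw [h6, hg, red_zero] at h5
  exact one_ne_zero h5

theorem card_fixed_eq_index_frattini {G : Type*} [Group G] [Finite G] {M : Ideal Cfsg.AlgInt}
    (hM : Cfsg.IsPModular 2 M) (P : Sylow 2 G) (k : ℕ)
    (hk₁ : ∀ g : G, (∃ j : ℕ, orderOf g = 2 ^ j) → g ^ k = g ^ 3)
    (hk₂ : ∀ g : G, Odd (orderOf g) → g ^ k = g) (hN : HasNormalPComplement 2 G) :
    Nat.card {χ : Cfsg.IrrCharacter G // χ ∈ Cfsg.principalBlock M G ∧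
      Odd (Cfsg.charDegree (χ : G → ℂ)) ∧ ∀ g : G, (χ : G → ℂ) (g ^ k) = (χ : G → ℂ) g} =
      (frattini P).index := by
  obtain ⟨π, h1, h2, h3, -⟩ := hN.exists_proj_top P.isPGroup' P.not_dvd_index
  let π' : G →* (P : Subgroup G) := π.codRestrict _ h1
  have hπ' : ∀ u : (P : Subgroup G), π' u = u := fun u => Subtype.ext (h2 u u.2)
  rw [← card_linear_trivial_on_of_commutator_le (P.isPGroup'.commutator_le_frattini)]
  have hsq : ∀ lam : {lam : P →* ℂˣ // ∀ x ∈ frattini P, lam x = 1}, ∀ u,
      lam.1 u ^ 2 = 1 := fun lam u => by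
    rw [← map_pow]; exact lam.2 _ (P.isPGroup'.pow_mem_frattini u)
  have key : ∀ lam : {lam : P →* ℂˣ // ∀ x ∈ frattini P, lam x = 1},
      IrrCharacter.ofLinear (lam.1.comp π') ∈ Cfsg.principalBlock M G ∧
      Odd (Cfsg.charDegree (IrrCharacter.ofLinear (lam.1.comp π') : G → ℂ)) ∧
      ∀ g : G, (IrrCharacter.ofLinear (lam.1.comp π') : G → ℂ) (g ^ k) =
        (IrrCharacter.ofLinear (lam.1.comp π') : G → ℂ) g := by
    intro lam
    refine ⟨?_, ?_, ?_⟩
    · refine mem_principalBlock_of_red_apply_eq hM (by simp) fun g hg _ => ?_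
      have : π' g = 1 := Subtype.ext ((h3 g).2 hg)
      simp [this]
    · simp
    · intro g
      have e : (π' g) ^ k = (π' g) ^ 3 := Subtype.ext (by
        obtain ⟨j, hj⟩ := (IsPGroup.iff_orderOf.1 P.isPGroup') (π' g)
        exact hk₁ _ ⟨j, by rw [← hj, Subgroup.orderOf_coe]⟩)
      change ((lam.1 (π' (g ^ k)) : ℂˣ) : ℂ) = lam.1 (π' g)
      rw [map_pow, e, map_pow, pow_succ, hsq, one_mul]
  refine (Nat.card_eq_of_bijective (fun lam => ⟨IrrCharacter.ofLinear (lam.1.comp π'), key lam⟩)
    ⟨fun a b hab => ?_, fun χ => ?_⟩).symm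
  · have h := IrrCharacter.ofLinear_injective (congrArg Subtype.val hab)
    refine Subtype.ext (MonoidHom.ext fun u => ?_)
    have := DFunLike.congr_fun h (u : G)
    simpa [hπ'] using this
  · obtain ⟨χ, hχ, hd, hs⟩ := χ
    obtain ⟨mu, rfl⟩ := IrrCharacter.exists_ofLinear_eq_of_charDegree
      ((S4549.result M hM k hk₁ hk₂).1 hN χ hχ hd hs)
    have hreg : ∀ g, IsPRegular 2 g → mu g = 1 := by
      intro g hg
      have hg' : g ∈ pPrimeCore 2 G := hasNormalPComplement_iff_forall_mem.1 hN g hg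
      have := (mem_pPrimeCore_iff_principal hM).1 hg' _ hχ
      simpa using this
    refine ⟨⟨mu.comp (P : Subgroup G).subtype, ?_⟩, Subtype.ext ?_⟩
    · have : frattini P ≤ (mu.comp (P : Subgroup G).subtype).ker := by
        refine frattini_le_of_commutator_le_of_pow Nat.prime_two
          (Abelianization.commutator_subset_ker _) fun u => ?_
        have e : (u : G) ^ k = (u : G) ^ 3 := by
          obtain ⟨j, hj⟩ := (IsPGroup.iff_orderOf.1 P.isPGroup') u
          exact hk₁ _ ⟨j, by rw [← hj, Subgroup.orderOf_coe]⟩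
        have h := hs u
        rw [e] at h
        have h' : mu ((u : G) ^ 3) = mu u := Units.ext h
        rw [map_pow, pow_succ] at h'
        rw [MonoidHom.mem_ker, map_pow]
        exact mul_right_cancel (h'.trans (one_mul _).symm)
      exact fun x hx => this hx
    · change IrrCharacter.ofLinear _ = IrrCharacter.ofLinear mu
      congr 1
      ext g
      have h4 : π (g * (π g)⁻¹) = 1 := by rw [map_mul, map_inv, h2 _ (h1 g), mul_inv_cancel]
      have h5 := hreg _ ((h3 _).1 h4)
      rw [map_mul, map_inv, mul_inv_eq_one] at h5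
      change ((mu (π g) : ℂˣ) : ℂ) = mu g
      rw [h5]


/-- Let G be a finite group of even order with Sylow 2-subgroup P and M a maximal ideal of the algebraic integers containing 2. Let k be a natural number with g ^ k = g ^ 3 for every 2-element g and g ^ k = g for every element g of odd order (such k exist); an irreducible character χ is unchanged by g ↦ g ^ k exactly when it is fixed by the field automorphism that cubes the 2-power roots of unity and fixes the roots of unity of odd order. Then P is cyclic if and only if exactly two members χ of the principal 2-block of odd degree satisfy χ (g ^ k) = χ g for all g. -/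
theorem result {G : Type*} [Group G] [Finite G] (M : Ideal Cfsg.AlgInt) (hM : Cfsg.IsPModular 2 M) (hev : Even (Nat.card G)) (P : Sylow 2 G) (k : ℕ) (hk₁ : ∀ g : G, (∃ j : ℕ, orderOf g = 2 ^ j) → g ^ k = g ^ 3) (hk₂ : ∀ g : G, Odd (orderOf g) → g ^ k = g) : IsCyclic P ↔ Nat.card {χ : Cfsg.IrrCharacter G // χ ∈ Cfsg.principalBlock M G ∧ Odd (Cfsg.charDegree (χ : G → ℂ)) ∧ ∀ g : G, (χ : G → ℂ) (g ^ k) = (χ : G → ℂ) g} = 2 := by
  constructor
  · intro hc
    rw [card_fixed_eq_index_frattini hM P k hk₁ hk₂ (hasNormalPComplement_two_of_isCyclic P)]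
    have h1 := P.isPGroup'.isCyclic_iff_index_frattini.1 hc
    haveI : Nontrivial P := by
      rw [← Finite.one_lt_card_iff_nontrivial]
      exact lt_of_lt_of_le (by norm_num) (Nat.le_of_dvd Nat.card_pos
        (P.dvd_card_of_dvd_card (even_iff_two_dvd.1 hev)))
    rcases (Nat.dvd_prime Nat.prime_two).1 h1 with h | h
    · exact absurd (Subgroup.index_eq_one.1 h) frattini_ne_top
    · exact h
  · intro h2
    obtain ⟨σ, hσ, hσ'⟩ := exists_isTwoGal (G := G) (by decide : Odd 3) hk₁ hk₂
    have hiff : ∀ χ : IrrCharacter G, (∀ g : G, (χ : G → ℂ) (g ^ k) = (χ : G → ℂ) g) ↔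
        σ • χ = χ := fun χ => by
      simp only [hσ' _ χ.isCharacter.isGen]
      exact ⟨fun h => Subtype.ext (funext h), fun hs g => congrFun (congrArg Subtype.val hs) g⟩
    have hN : HasNormalPComplement 2 G := hσ.hasNormalPComplement hM fun χ hχ hd hs =>
      linear_of_two hM hev hσ (fun ψ g hg => by
        have := hσ' _ ψ.isCharacter.isGen g
        rw [hk₂ g (by rwa [← Nat.not_even_iff_odd, even_iff_two_dvd])] at this
        exact this.symm) (by simpa only [hiff] using h2) hχ hd hs
    rw [card_fixed_eq_index_frattini hM P k hk₁ hk₂ hN] at h2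
    exact P.isPGroup'.isCyclic_iff_index_frattini.2 (dvd_of_eq h2)

end Cfsg.Agent.S4548
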