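import Cfsg.Statements.S4550
import Cfsg.Agent.Blk.SigmaFix

set_option autoImplicit false
open Cfsg

namespace Cfsg.Agent.S4550

/-- Let G be a finite group of even order and M a maximal ideal of the algebraic integers containing 2. Let k be a natural number with g ^ k = g ^ 3 for every 2-element g and g ^ k = g for every element g of odd order (such k exist); an irreducible character χ is unchanged by g ↦ g ^ k exactly when it is fixed by the field automorphism that cubes the 2-power roots of unity and fixes the roots of unity of odd order. Then the number of members χ of the principal 2-block of odd degree with χ (g ^ k) = χ g for all g is even. -/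
theorem result {G : Type*} [Group G] [Finite G] (M : Ideal Cfsg.AlgInt) (hM : Cfsg.IsPModular 2 M) (hev : Even (Nat.card G)) (k : ℕ) (hk₁ : ∀ g : G, (∃ j : ℕ, orderOf g = 2 ^ j) → g ^ k = g ^ 3) (hk₂ : ∀ g : G, Odd (orderOf g) → g ^ k = g) : Even (Nat.card {χ : Cfsg.IrrCharacter G // χ ∈ Cfsg.principalBlock M G ∧ Odd (Cfsg.charDegree (χ : G → ℂ)) ∧ ∀ g : G, (χ : G → ℂ) (g ^ k) = (χ : G → ℂ) g}) := by
  obtain ⟨σ, hσ, hσ'⟩ := exists_isTwoGal (G := G) (by decide : Odd 3) hk₁ hk₂
  have h := hσ.even_card_fixed hM (MonoidHom.id G) (fun x => ⟨0, x ^ 2 ^ 0, rfl⟩)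
    (even_iff_two_dvd.1 hev)
  rw [even_iff_two_dvd]
  refine h.trans (dvd_of_eq (Nat.card_congr (Equiv.subtypeEquivRight fun χ => Iff.symm ?_)))
  have h1 : inertia (MonoidHom.id G) χ = ⊤ :=
    inertia_eq_top_of_comp_eq χ.isClassFunction rfl
  simp only [h1, true_and, hσ' _ χ.isCharacter.isGen]
  refine and_congr_right fun _ => and_congr_right fun _ => ⟨fun h => Subtype.ext (funext h), ?_⟩
  exact fun hs g => congrFun (congrArg Subtype.val hs) g

end Cfsg.Agent.S4550
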