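import Cfsg.Statements.S4552
import Cfsg.Agent.Blk.FrobTwo
-- import your own Cfsg.Agent.* helpers here

set_option autoImplicit false
open Cfsg

namespace Cfsg.Agent.S4552

/-- Let B be a 2-block of the finite group G (relative to a maximal ideal M of the algebraic integers containing 2) whose defect group D is the direct product of two cyclic groups of the same order 2 ^ m, m ≥ 2. Then either B has 2-regular rank one and exactly 4 ^ m irreducible characters, or B has 2-regular rank three and exactly (4 ^ m + 8) / 3 irreducible characters. -/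
theorem result {G : Type*} [Group G] [Finite G] (M : Ideal Cfsg.AlgInt) (hM : Cfsg.IsPModular 2 M) (B : Set (Cfsg.IrrCharacter G)) (hB : Cfsg.IsPBlock M B) (D : Subgroup G) (hD : Cfsg.IsDefectGroup 2 M B D) (m : ℕ) (hm : 2 ≤ m) (hiso : Nonempty (D ≃* Multiplicative (ZMod (2 ^ m) × ZMod (2 ^ m)))) : (Cfsg.blockRank 2 B = 1 ∧ Nat.card B = 4 ^ m) ∨ (Cfsg.blockRank 2 B = 3 ∧ 3 * Nat.card B = 4 ^ m + 8) := by
  let _ := Fintype.ofFinite D
  have := hM.charP
  obtain ⟨ι⟩ := hiso
  obtain ⟨e, hP⟩ := (hB.isBlockIdem hM).exists_isMaxPair ((hB.isDefectGroup_iff hM _).1 hD)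
  have hab : D ≤ Subgroup.centralizer (D : Set G) := fun x hx y hy =>
    congrArg Subtype.val (ι.injective (by rw [map_mul, map_mul, mul_comm]) :
      (⟨y, hy⟩ : D) * ⟨x, hx⟩ = ⟨x, hx⟩ * ⟨y, hy⟩)
  obtain ⟨S, X, Y, δ, ζ, a, h, o, h1, -, h2⟩ := hP.exists_out_three_invol hM hB hab
    (Cfsg.Exc.card_invol_of_homocyclic (by omega) ι) (j := D.subtype) (MulEquiv.refl D)
    (fun _ => rfl)
  have h3 := o.card_eq
  have h4 := o.cardY
  have h5 := o.rank
  have h6 : Nat.card D = 4 ^ m := by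
    rw [Nat.card_congr ι.toEquiv, Nat.card_congr Multiplicative.toAdd, Nat.card_prod,
      Nat.card_zmod, ← mul_pow]
    rfl
  rw [← h1, h6] at h4
  rcases h2 with h2 | h2 <;> rw [h2] at h3 h4 h5
  · exact Or.inl ⟨h5, by omega⟩
  · exact Or.inr ⟨h5, by omega⟩

end Cfsg.Agent.S4552
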