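import Cfsg.Statements.S4553
import Cfsg.Agent.Blk.Principal
import Cfsg.Agent.Char.Extend
import Cfsg.Agent.Char.Galois
import Cfsg.Agent.Grp.Residual
-- import your own Cfsg.Agent.* helpers here

set_option autoImplicit false
open Cfsg

namespace Cfsg.Agent.S4553

theorem card_pow_eq_one {Q : Type*} [Group Q] [Finite Q] [IsCyclic Q] {p : ℕ}
    (h : p ∣ Nat.card Q) : Nat.card {μ : Q →* ℂˣ // μ ^ p = 1} = p := by
  letI := IsCyclic.commGroup (α := Q)
  obtain ⟨e⟩ := nonempty_linear_mulEquiv_of_commGroup Q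
  haveI : IsCyclic (Q →* ℂˣ) := isCyclic_of_surjective e.symm e.symm.surjective
  have h1 := IsCyclic.card_powMonoidHom_ker (Q →* ℂˣ) p
  rw [Nat.card_congr e.toEquiv, Nat.gcd_eq_right h] at h1
  exact h1

/-- Let G be a finite group, p a prime, P a Sylow p-subgroup, N the p-residual of G (the subgroup generated by the elements of order prime to p, the smallest normal subgroup with G/N a p-group), and M a maximal ideal of the algebraic integers containing p; suppose G/N is cyclic and nontrivial. Let k be a natural number with g ^ k = g ^ (1 + p) for every p-element g and g ^ k = g for every element g of order prime to p (so that χ (g ^ k) is the image of χ g under the field automorphism that raises p-power roots of unity to the power 1 + p and fixes the roots of unity of order prime to p). Then the number of members χ of the principal block of G of degree prime to p with χ (g ^ k) = χ g for all g equals p times the number of members θ of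 the principal block of N of degree prime to p that are invariant under conjugation by P and satisfy θ (n ^ k) = θ n for all n. -/
theorem result {G : Type*} [Group G] [Finite G] (p : ℕ) [Fact p.Prime] (M : Ideal Cfsg.AlgInt) (hM : Cfsg.IsPModular p M) (P : Sylow p G) (N : Subgroup G) [hN : N.Normal] (hNres : N = Cfsg.pResidual p G) (hcyc : IsCyclic (G ⧸ N)) (hnt : N ≠ ⊤) (k : ℕ) (hk₁ : ∀ g : G, (∃ j : ℕ, orderOf g = p ^ j) → g ^ k = g ^ (1 + p)) (hk₂ : ∀ g : G, Nat.Coprime (orderOf g) p → g ^ k = g) : Nat.card {χ : Cfsg.IrrCharacter G // χ ∈ Cfsg.principalBlock M G ∧ ¬ p ∣ Cfsg.charDegree (χ : G → ℂ) ∧ ∀ g : G, (χ : G → ℂ) (g ^ k) = (χ : G → ℂ) g} = p * Nat.card {θ : Cfsg.IrrCharacter ↥N // θ ∈ Cfsg.principalBlock M ↥N ∧ ¬ p ∣ Cfsg.charDegree (θ : ↥N → ℂ) ∧ (∀ x ∈ (P : Subgroup G), ∀ n : ↥N, (θ : ↥N → ℂ) ⟨x * n * x⁻¹, hN.conj_mem n n.2 x⟩ = (θ : ↥N → ℂ) n) ∧ ∀ n : ↥N, (θ : ↥N → ℂ) (n ^ k) = (θ : ↥N → ℂ) n} := by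
  have hp : p.Prime := Fact.out
  have hQ : IsPGroup p (G ⧸ N) := pResidual_le_iff.1 hNres.ge
  obtain ⟨a, ha⟩ := IsPGroup.iff_card.1 hQ
  have hidx : N.subtype.range.index = p ^ a := by rw [Subgroup.range_subtype]; exact ha
  have hdec : ∀ g : G, ∃ n ∈ N, ∃ x ∈ (P : Subgroup G), n * x = g := fun g =>
    Subgroup.mem_sup_of_normal_left.1
      (sup_sylow_eq_top_of_isPGroup_quotient hQ P ▸ Subgroup.mem_top g)
  have hk : k.Coprime (Nat.card G) := by
    refine Nat.Coprime.symm (Nat.coprime_of_dvd fun r hr h1 h2 => ?_)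
    have := Fact.mk hr
    obtain ⟨g, hg⟩ := exists_prime_orderOf_dvd_card' r h1
    have h3 : g ^ k = 1 := orderOf_dvd_iff_pow_eq_one.1 (hg ▸ h2)
    have h4 : g = 1 := by
      by_cases h : r = p
      · rwa [hk₁ g ⟨1, by rw [hg, h, pow_one]⟩, pow_add, ← h, ← hg, pow_orderOf_eq_one, mul_one,
          pow_one] at h3
      · rwa [hk₂ g (hg ▸ (Nat.coprime_primes hr hp).2 h)] at h3
    rw [h4, orderOf_one] at hg
    exact hr.one_lt.ne hg
  obtain ⟨σ, -, hσ⟩ := exists_ringEquiv_apply_pow hk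
  have hμ : ∀ μ : G ⧸ N →* ℂˣ, (∀ g : G, μ (g ^ k : G) = μ g) ↔ μ ^ p = 1 := by
    intro μ
    have h1 : ∀ n ∈ N, ∀ x ∈ (P : Subgroup G), μ ((n * x) ^ k : G) = μ (n * x : G) *
        μ (n * x : G) ^ p := by
      intro n hn x hx
      have h2 : ((n * x : G) : G ⧸ N) = x := by
        rw [QuotientGroup.mk_mul, (QuotientGroup.eq_one_iff n).2 hn, one_mul]
      rw [QuotientGroup.mk_pow, h2, ← QuotientGroup.mk_pow,
        hk₁ x (isPElt_of_mem P.isPGroup' hx), QuotientGroup.mk_pow, map_pow, pow_add, pow_one]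
    refine ⟨fun h => MonoidHom.ext fun g => ?_, fun h g => ?_⟩
    · obtain ⟨g, rfl⟩ := QuotientGroup.mk_surjective g
      obtain ⟨n, hn, x, hx, rfl⟩ := hdec g
      exact mul_eq_left.1 ((h1 n hn x hx).symm.trans (h _))
    · obtain ⟨n, hn, x, hx, rfl⟩ := hdec g
      rw [h1 n hn x hx, show μ (n * x : G) ^ p = 1 from DFunLike.congr_fun h _, mul_one]
  have hB := principalBlock_eq_irrOver_of_pow_mem hM (f := N.subtype) fun x => by
    refine ⟨a, ?_⟩
    rw [← hidx]
    exact Subgroup.pow_index_mem _ x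
  have hdet : ∀ θ : IrrCharacter N, ¬ p ∣ detOrder θ.1 := fun θ => by
    have h0 := (detOrder_pos θ.1).ne'
    rw [detOrder_eq_orderOf_detHom] at h0 ⊢
    intro h
    subst hNres
    have h1 := orderOf_pow_orderOf_div h0 h
    rw [orderOf_monoidHom_units_eq_index_ker] at h1
    have h2 := pResidual_le (h1.trans (pow_one p).symm)
    rw [pResidual_pResidual, top_le_iff] at h2
    rw [h2, Subgroup.index_top] at h1
    exact hp.one_lt.ne h1
  have hext : ∀ θ : {θ : IrrCharacter ↥N // θ ∈ principalBlock M ↥N ∧ ¬ p ∣ charDegree θ.1 ∧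
      (∀ x ∈ (P : Subgroup G), ∀ n : ↥N, θ.1 ⟨x * n * x⁻¹, hN.conj_mem n n.2 x⟩ = θ.1 n) ∧
      ∀ n : ↥N, θ.1 (n ^ k) = θ.1 n}, ∃ χ : IrrCharacter G, χ.1 ∘ N.subtype = θ.1.1 ∧
        ∀ g, χ (g ^ k) = χ g := by
    rintro ⟨θ, -, h1, h2, h3⟩
    obtain ⟨χ, ⟨h4, h5⟩, h6⟩ := existsUnique_extension_of_coprime (f := N.subtype) (θ := θ)
      (eq_top_iff.2 fun g _ => by
        obtain ⟨n, hn, x, hx, rfl⟩ := hdec g
        refine Subgroup.mul_mem _ (le_inertia_subtype N θ hn) (mem_inertia_iff_forall.2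
          fun n n' h => ?_)
        rw [← h2 x hx n]
        exact congrArg _ (Subtype.ext h))
      (by
        rw [hidx]
        exact ((Nat.Prime.coprime_iff_not_dvd hp).2 (hp.not_dvd_mul h1 (hdet θ))).symm.pow_right _)
    refine ⟨χ, h4, fun g => ?_⟩
    rw [hσ _ χ.isCharacter.isGen]
    refine congrFun (congrArg Subtype.val (h6 (σ • χ) ⟨funext fun n => ?_, ?_⟩)) g
    · refine (hσ _ χ.isCharacter.isGen _).symm.trans ?_
      exact (congrFun h4 (n ^ k)).trans (h3 n)
    · rwa [IrrCharacter.gal_smul_coe', χ.isCharacter.detOrder_map_ringHom]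
  choose E hE hEk using hext
  have hc := card_pow_eq_one (Q := G ⧸ N) (p := p) (by
    rw [ha]
    refine dvd_pow_self p fun h => hnt ?_
    rwa [h, pow_zero, ← Subgroup.index, Subgroup.index_eq_one] at ha)
  have key : ∀ a b : ℕ, a = b * Nat.card {μ : G ⧸ N →* ℂˣ // μ ^ p = 1} → a = p * b :=
    fun a b h => by rw [h, hc, mul_comm]
  apply key
  rw [← Nat.card_prod]
  have hres : ∀ θ (μ : G ⧸ N →* ℂˣ),
      (μ.comp (QuotientGroup.mk' N) • E θ).1 ∘ N.subtype = θ.1.1 := fun θ μ => by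
    funext n
    rw [← hE θ]
    simp [(QuotientGroup.eq_one_iff _).2 n.2]
  have hinj : ∀ θ (μ μ' : G ⧸ N →* ℂˣ), μ.comp (QuotientGroup.mk' N) • E θ =
      μ'.comp (QuotientGroup.mk' N) • E θ → μ = μ' := fun θ μ μ' h =>
    IrrCharacter.ofLinear_injective (gallagher_injective (f := N.subtype)
      (QuotientGroup.mk'_surjective N) (ker_mk'_eq_range_subtype N) (E θ).isCharacter
      (hE θ ▸ θ.1.2) (congrArg Subtype.val h))
  symm
  refine Nat.card_eq_of_bijective (fun x => ⟨x.2.1.comp (QuotientGroup.mk' N) • E x.1,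
    hB ▸ ⟨x.1.1, x.1.2.1, liesOver_of_comp_eq (hres _ _)⟩,
    by rw [charDegree_eq_of_comp_eq (hres _ _)]; exact x.1.2.2.1, fun g => by
      simp only [IrrCharacter.linear_smul_apply, hEk, MonoidHom.comp_apply,
        QuotientGroup.mk'_apply, (hμ _).2 x.2.2 g]⟩) ⟨?_, ?_⟩
  · rintro ⟨θ, μ⟩ ⟨θ', μ'⟩ h
    have h1 := congrArg Subtype.val h
    have h2 : θ = θ' := Subtype.ext (Subtype.ext ((hres θ μ.1).symm.trans
      ((congrArg (fun χ : IrrCharacter G => χ.1 ∘ N.subtype) h1).trans (hres θ' μ'.1))))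
    subst h2
    exact Prod.ext rfl (Subtype.ext (hinj _ _ _ h1))
  · rintro ⟨χ, h1, h2, h3⟩
    have h4 := χ.isIrr_comp_of_coprime (f := N.subtype) (by
      rw [hidx]; exact ((Nat.Prime.coprime_iff_not_dvd hp).2 h2).symm.pow_right _)
    let θ : {θ : IrrCharacter ↥N // θ ∈ principalBlock M ↥N ∧ ¬ p ∣ charDegree θ.1 ∧
      (∀ x ∈ (P : Subgroup G), ∀ n : ↥N, θ.1 ⟨x * n * x⁻¹, hN.conj_mem n n.2 x⟩ = θ.1 n) ∧
      ∀ n : ↥N, θ.1 (n ^ k) = θ.1 n} := ⟨⟨_, h4⟩,
        LiesOver.mem_principalBlock hM h1 (liesOver_of_comp_eq rfl), h2,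
        fun x _ n => χ.isClassFunction _ _, fun n => h3 n⟩
    obtain ⟨lam, hl, hl'⟩ := exists_linear_of_comp_eq (E θ).isCharacter χ.isCharacter
      (hE θ ▸ θ.1.2) (hE θ).symm
    let μ : G ⧸ N →* ℂˣ := QuotientGroup.lift N lam fun x hx => hl ⟨x, hx⟩
    have h5 : μ.comp (QuotientGroup.mk' N) • E θ = χ := Subtype.ext hl'.symm
    refine ⟨(θ, ⟨μ, (hμ μ).1 fun g => ?_⟩), Subtype.ext h5⟩
    have h6 := hinj θ (μ ^ k) μ (Subtype.ext (funext fun g => by
      have h7 := h3 g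
      rw [← h5] at h7
      simpa [hEk] using h7))
    rw [QuotientGroup.mk_pow, map_pow]
    exact DFunLike.congr_fun h6 _

end Cfsg.Agent.S4553
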