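import Cfsg.Statements.S4560
import Cfsg.Agent.Char.Ind
import Mathlib.GroupTheory.GroupAction.MultipleTransitivity
import Mathlib.GroupTheory.Perm.Cycle.PossibleTypes
import Mathlib.RingTheory.Polynomial.Pochhammer
import Cfsg.Agent.Char.FrobSchur

set_option autoImplicit false
open Cfsg

namespace Cfsg.Agent.S4560

set_option linter.unusedSectionVars false

open MulAction Equiv
open scoped ComplexConjugate Classical

section Trans

variable {G : Type*} [Group G] [Fintype G] {Ω : Type*} [Finite Ω] [MulAction G Ω]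

theorem sum_card_eq {X : Type*} [Finite X] [Nonempty X] [MulAction G X] [IsPretransitive G X]
    (T : X → X) : ∑ g : G, Nat.card {e : X // g • e = T e} = Nat.card G := by
  letI := Fintype.ofFinite X
  have h1 : ∀ e : X, (Finset.univ.filter fun g : G => g • e = T e).card * Nat.card X =
      Nat.card G := by
    intro e
    obtain ⟨c, hc⟩ := exists_smul_eq G e (T e)
    rw [← index_stabilizer_of_transitive G e, ← Subgroup.card_mul_index (stabilizer G e)]
    congr 1
    rw [Nat.card_eq_fintype_card, Fintype.card_subtype]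
    symm
    refine Finset.card_bij (fun g _ => c * g) (fun g hg => ?_) (fun g _ g' _ h => ?_)
      (fun g hg => ⟨c⁻¹ * g, ?_, by simp⟩)
    · simp only [Finset.mem_filter, Finset.mem_univ, true_and, mem_stabilizer_iff] at hg ⊢
      rw [mul_smul, hg, hc]
    · exact mul_left_cancel h
    · simp only [Finset.mem_filter, Finset.mem_univ, true_and, mem_stabilizer_iff] at hg ⊢
      rw [mul_smul, hg, ← hc, inv_smul_smul]
  refine Nat.eq_of_mul_eq_mul_right (Nat.card_pos (α := X)) ?_
  simp only [Nat.card_eq_fintype_card (α := {e : X // _}), Fintype.card_subtype,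
    Finset.card_filter]
  rw [Finset.sum_comm, Finset.sum_mul]
  simp only [Finset.card_filter] at h1
  rw [Finset.sum_congr rfl fun e _ => h1 e, Finset.sum_const, Finset.card_univ, smul_eq_mul,
    ← Nat.card_eq_fintype_card, mul_comm]

variable (Ω) in
/-- the number of fixed points -/
noncomputable def fx (g : G) : ℕ := Nat.card (fixedBy Ω g)

variable (Ω) in
/-- the number of points in cycles of length two -/
noncomputable def sw (g : G) : ℕ := Nat.card {x : Ω // g • g • x = x ∧ g • x ≠ x}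

theorem card_fix_emb (k : ℕ) (g : G) :
    Nat.card {e : Fin k ↪ Ω // g • e = e} = (fx Ω g).descFactorial k := by
  letI := Fintype.ofFinite Ω
  rw [Nat.card_congr ((Equiv.subtypeEquivRight (q := fun e : Fin k ↪ Ω => ∀ a, e a ∈ fixedBy Ω g)
    fun e => by simp [Function.Embedding.ext_iff]).trans (Equiv.codRestrict _ _)),
    Nat.card_eq_fintype_card, Fintype.card_embedding_eq, Fintype.card_fin, fx,
    Nat.card_eq_fintype_card]

theorem card_sw_two (g : G) :
    Nat.card {e : Fin 2 ↪ Ω // g • e = (swap 0 1).toEmbedding.trans e} = sw Ω g := by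
  refine Nat.card_eq_of_bijective (fun e => ⟨e.1 0, ?_⟩) ⟨fun e e' h => ?_, fun x => ?_⟩
  · have h0 : g • e.1 0 = e.1 1 := by simpa using DFunLike.congr_fun e.2 0
    have h1 : g • e.1 1 = e.1 0 := by simpa using DFunLike.congr_fun e.2 1
    rw [h0, h1]
    exact ⟨rfl, fun h => by simpa using e.1.injective h⟩
  · have h0 : g • e.1 0 = e.1 1 := by simpa using DFunLike.congr_fun e.2 0
    have h0' : g • e'.1 0 = e'.1 1 := by simpa using DFunLike.congr_fun e'.2 0
    have h1 : e.1 0 = e'.1 0 := congrArg Subtype.val h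
    ext i
    fin_cases i
    · exact h1
    · exact h0.symm.trans (h1 ▸ h0')
  · refine ⟨⟨⟨![x.1, g • x.1], fun i j h => ?_⟩, ?_⟩, rfl⟩
    · have := x.2.2
      fin_cases i <;> fin_cases j <;> simp_all [eq_comm]
    · ext i
      fin_cases i
      · rfl
      · exact x.2.1

theorem card_sw_three (g : G) :
    Nat.card {e : Fin 3 ↪ Ω // g • e = (swap 1 2).toEmbedding.trans e} = fx Ω g * sw Ω g := by
  rw [fx, sw, ← Nat.card_prod]
  have a0 : swap (1 : Fin 3) 2 0 = 0 := by decide
  refine Nat.card_eq_of_bijective (fun e => ⟨⟨e.1 0, ?_⟩, ⟨e.1 1, ?_⟩⟩)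
    ⟨fun e e' h => ?_, fun x => ?_⟩
  · simpa [a0] using DFunLike.congr_fun e.2 0
  · have h0 : g • e.1 1 = e.1 2 := by simpa using DFunLike.congr_fun e.2 1
    have h1 : g • e.1 2 = e.1 1 := by simpa using DFunLike.congr_fun e.2 2
    rw [h0, h1]
    exact ⟨rfl, fun h => by simpa using e.1.injective h⟩
  · have h0 : g • e.1 1 = e.1 2 := by simpa using DFunLike.congr_fun e.2 1
    have h0' : g • e'.1 1 = e'.1 2 := by simpa using DFunLike.congr_fun e'.2 1
    have h1 : e.1 0 = e'.1 0 := congrArg (fun z => z.1.1) h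
    have h2 : e.1 1 = e'.1 1 := congrArg (fun z => z.2.1) h
    ext i
    fin_cases i
    · exact h1
    · exact h2
    · exact h0.symm.trans (h2 ▸ h0')
  · obtain ⟨⟨a, ha⟩, ⟨b, hb, hb'⟩⟩ := x
    rw [mem_fixedBy] at ha
    have e1 : a ≠ b := fun h => hb' (h ▸ ha)
    have e2 : a ≠ g • b := fun h => e1 (by rw [← hb, ← h, ha])
    refine ⟨⟨⟨![a, b, g • b], fun i j h => ?_⟩, ?_⟩, rfl⟩
    · fin_cases i <;> fin_cases j <;> first
        | rfl | exact absurd h e1 | exact absurd h e2 | exact absurd h hb' | exact absurd h.symm e1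
        | exact absurd h.symm e2 | exact absurd h.symm hb'
    · ext i
      fin_cases i
      · exact ha
      · rfl
      · exact hb

theorem fx_mul_self (g : G) : fx Ω (g * g) = fx Ω g + sw Ω g := by
  letI := Fintype.ofFinite Ω
  simp only [fx, sw, Nat.card_eq_fintype_card, Fintype.card_subtype, mem_fixedBy, mul_smul]
  rw [← Finset.card_union_of_disjoint (Finset.disjoint_filter.2 fun x _ h h' => h'.2 h)]
  congr 1
  ext x
  simp only [Finset.mem_filter, Finset.mem_univ, true_and, Finset.mem_union]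
  by_cases h : g • x = x <;> simp [h]

theorem sum_poly [IsMultiplyPretransitive G Ω 4] (h4 : 4 ≤ Nat.card Ω) (φ : G → ℂ)
    (a0 a1 a2 a3 a4 b0 b1 : ℂ)
    (h : ∀ g, φ g = a0 + a1 * fx Ω g + a2 * (fx Ω g * (fx Ω g - 1)) +
      a3 * (fx Ω g * (fx Ω g - 1) * (fx Ω g - 2)) +
      a4 * (fx Ω g * (fx Ω g - 1) * (fx Ω g - 2) * (fx Ω g - 3)) + b0 * sw Ω g +
      b1 * (fx Ω g * sw Ω g)) :
    (Nat.card G : ℂ)⁻¹ * ∑ g, φ g = a0 + a1 + a2 + a3 + a4 + b0 + b1 := by
  letI := Fintype.ofFinite Ω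
  have ht : ∀ k, k ≤ 4 → IsMultiplyPretransitive G Ω k := fun k hk =>
    isMultiplyPretransitive_of_le hk h4
  have hn : ∀ k, k ≤ 4 → Nonempty (Fin k ↪ Ω) := fun k hk =>
    Function.Embedding.nonempty_of_card_le (by
      rw [Fintype.card_fin, ← Nat.card_eq_fintype_card]; omega)
  have hf : ∀ k, k ≤ 4 → ∑ g : G, (descPochhammer ℂ k).eval (fx Ω g : ℂ) = Nat.card G := by
    intro k hk
    haveI := ht k hk
    haveI := hn k hk
    have := sum_card_eq (G := G) (X := Fin k ↪ Ω) id
    simp only [id, card_fix_emb] at this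
    simp only [descPochhammer_eval_eq_descFactorial]
    exact_mod_cast this
  have h1 := hf 1 (by norm_num)
  have h2 := hf 2 (by norm_num)
  have h3 := hf 3 (by norm_num)
  have h4' := hf 4 le_rfl
  simp only [descPochhammer_succ_eval, descPochhammer_zero, Polynomial.eval_one, one_mul,
    Nat.cast_zero, sub_zero, Nat.cast_one, Nat.cast_ofNat, Nat.cast_add, zero_add] at h1 h2 h3 h4'
  have h5 : ∑ g : G, (sw Ω g : ℂ) = Nat.card G := by
    haveI := ht 2 (by norm_num)
    haveI := hn 2 (by norm_num)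
    have := sum_card_eq (G := G) (X := Fin 2 ↪ Ω) fun e => (swap 0 1).toEmbedding.trans e
    simp only [card_sw_two] at this
    exact_mod_cast this
  have h6 : ∑ g : G, (fx Ω g : ℂ) * sw Ω g = Nat.card G := by
    haveI := ht 3 (by norm_num)
    haveI := hn 3 (by norm_num)
    have := sum_card_eq (G := G) (X := Fin 3 ↪ Ω) fun e => (swap 1 2).toEmbedding.trans e
    simp only [card_sw_three] at this
    exact_mod_cast this
  have h0 : (Nat.card G : ℂ) ≠ 0 := Nat.cast_ne_zero.2 Nat.card_pos.ne'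
  norm_num only at h3 h4'
  simp only [h, Finset.sum_add_distrib, ← Finset.mul_sum, h1, h2, h3, h4', h5, h6,
    Finset.sum_const, Finset.card_univ, ← Nat.card_eq_fintype_card, nsmul_eq_mul]
  field_simp

variable (G Ω) in
noncomputable def stdF : G → ℂ := fun g => (fx Ω g : ℂ) - 1

variable (G Ω) in
noncomputable def lamF : G → ℂ := fun g => (stdF G Ω g ^ 2 - stdF G Ω (g * g)) / 2

variable (G Ω) in
noncomputable def symF : G → ℂ := fun g => (stdF G Ω g ^ 2 + stdF G Ω (g * g)) / 2 - fx Ω g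

theorem isIrr_all [IsMultiplyPretransitive G Ω 4] (h4 : 4 ≤ Nat.card Ω) :
    IsIrrCharacter G (stdF G Ω) ∧ IsIrrCharacter G (lamF G Ω) ∧ IsIrrCharacter G (symF G Ω) := by
  have hπ : IsCharacter G fun g => (fx Ω g : ℂ) := permChar_isCharacter Ω
  have hf1 : fx Ω (1 : G) = Nat.card Ω := by simp [fx]
  have hn : (4 : ℝ) ≤ Nat.card Ω := by exact_mod_cast h4
  have hs : IsIrrCharacter G (stdF G Ω) := by
    refine IsGeneralizedCharacter.isIrr_of_ip_self_eq_one
      (hπ.isGen.sub (IrrCharacter.one G).isCharacter.isGen) ?_ ?_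
    · rw [ip_def, sum_poly h4 _ 1 (-1) 1 0 0 0 0 fun g => by simp [stdF]; ring]
      ring
    · simp only [stdF, hf1, Complex.sub_re, Complex.natCast_re, Complex.one_re]
      linarith
  have hL : IsCharacter G (lamF G Ω) := hs.isCharacter.altSq
  have hS := hs.isCharacter.symSq
  have hA : IsGeneralizedCharacter G (symF G Ω) := hS.isGen.sub hπ.isGen
  obtain ⟨a, ha⟩ := hL.exists_ip_eq_nat hL
  obtain ⟨b, hb⟩ := hL.exists_ip_eq_nat hS
  obtain ⟨c, hc⟩ := hS.exists_ip_eq_nat hS
  have hL1 : lamF G Ω 1 = (((Nat.card Ω - 1) * (Nat.card Ω - 2) / 2 : ℝ) : ℂ) := by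
    simp only [lamF, stdF, mul_one, hf1]
    push_cast
    ring
  have hA1 : symF G Ω 1 = ((Nat.card Ω * (Nat.card Ω - 3) / 2 : ℝ) : ℂ) := by
    simp only [symF, stdF, mul_one, hf1]
    push_cast
    ring
  have hL2 : (0 : ℝ) < (Nat.card Ω - 1) * (Nat.card Ω - 2) / 2 := by
    have : (0 : ℝ) < (Nat.card Ω - 1) * (Nat.card Ω - 2) := mul_pos (by linarith) (by linarith)
    linarith
  have hA2 : (0 : ℝ) < Nat.card Ω * (Nat.card Ω - 3) / 2 := by
    have : (0 : ℝ) < Nat.card Ω * (Nat.card Ω - 3) := mul_pos (by linarith) (by linarith)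
    linarith
  have e1 : ip (symF G Ω) (symF G Ω) = c - 2 := by
    rw [← hc, eq_sub_iff_add_eq, ← eq_sub_iff_add_eq', ip_def, ip_def, ← mul_sub,
      ← Finset.sum_sub_distrib, sum_poly h4 _ 0 (-1) 1 1 0 0 1 fun g => by
        simp [symF, stdF, fx_mul_self, map_ofNat]; ring]
    ring
  have e2 : (a : ℂ) + 2 * b + c = 4 := by
    rw [← ha, ← hb, ← hc, ip_def, ip_def, ip_def, ← mul_assoc, mul_comm 2, mul_assoc, ← mul_add,
      ← mul_add, Finset.mul_sum, ← Finset.sum_add_distrib, ← Finset.sum_add_distrib,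
      sum_poly h4 _ 1 (-1) 1 2 1 0 0 fun g => by
        simp [lamF, stdF, fx_mul_self, map_ofNat]; ring]
    ring
  have e3 : a + 2 * b + c = 4 := by exact_mod_cast e2
  have a0 : a ≠ 0 := by
    rintro rfl
    rw [Nat.cast_zero, ip_self_eq_zero] at ha
    rw [ha] at hL1
    exact hL2.ne' (Complex.ofReal_eq_zero.1 hL1.symm)
  have c2 : c ≠ 2 := by
    rintro rfl
    rw [Nat.cast_ofNat, sub_self, ip_self_eq_zero] at e1
    rw [e1] at hA1
    exact hA2.ne' (Complex.ofReal_eq_zero.1 hA1.symm)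
  have c3 : 2 ≤ c := by
    rw [ip_self_eq] at e1
    have h5 := congrArg Complex.re e1
    rw [Complex.ofReal_re] at h5
    have h6 : (0 : ℝ) ≤ ((c : ℂ) - 2).re := h5 ▸ by positivity
    have h7 : (2 : ℝ) ≤ c := by simpa using h6
    exact_mod_cast h7
  have a1 : a = 1 := by omega
  have c1 : c = 3 := by omega
  refine ⟨hs, hL.isGen.isIrr_of_ip_self_eq_one (by rw [ha, a1, Nat.cast_one]) ?_,
    hA.isIrr_of_ip_self_eq_one (by rw [e1, c1]; norm_num) ?_⟩
  · rw [hL1, Complex.ofReal_re]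
    exact hL2.le
  · rw [hA1, Complex.ofReal_re]
    exact hA2.le

end Trans

theorem exists_vanish {n : ℕ} (hn : 6 ≤ n) (x : alternatingGroup (Fin n))
    (h : fx (Fin n) x = 1 ∨ (fx (Fin n) x ≤ 3 ∧ sw (Fin n) x = 0)) :
    ∃ χ : IrrCharacter (alternatingGroup (Fin n)), χ x = 0 ∧
      ∃ ψ : IrrCharacter (Perm (Fin n)), ∀ y : alternatingGroup (Fin n), ψ y = χ y := by
  have hc : Nat.card (Fin n) = n := by simp
  haveI := alternatingGroup.isMultiplyPretransitive (Fin n)
  haveI : IsMultiplyPretransitive (alternatingGroup (Fin n)) (Fin n) 4 :=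
    isMultiplyPretransitive_of_le (n := Nat.card (Fin n) - 2) (by omega) (by omega)
  haveI := Perm.isMultiplyPretransitive (Fin n) 4
  obtain ⟨a1, a2, a3⟩ := isIrr_all (G := alternatingGroup (Fin n)) (Ω := Fin n) (by omega)
  obtain ⟨b1, b2, b3⟩ := isIrr_all (G := Perm (Fin n)) (Ω := Fin n) (by omega)
  rcases h with h | ⟨h, h'⟩
  · exact ⟨⟨_, a1⟩, by simp [stdF, h], ⟨_, b1⟩, fun y => rfl⟩
  by_cases h12 : fx (Fin n) x = 1 ∨ fx (Fin n) x = 2
  · refine ⟨⟨_, a2⟩, ?_, ⟨_, b2⟩, fun y => rfl⟩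
    rcases h12 with e | e <;> simp [lamF, stdF, fx_mul_self, e, h']
    norm_num
  · refine ⟨⟨_, a3⟩, ?_, ⟨_, b3⟩, fun y => rfl⟩
    have : fx (Fin n) x = 0 ∨ fx (Fin n) x = 3 := by omega
    rcases this with e | e <;> simp [symF, stdF, fx_mul_self, e, h']
    norm_num

theorem exists_elt {n : ℕ} (m : Multiset ℕ) (h1 : m.sum ≤ n) (h2 : ∀ a ∈ m, 2 ≤ a)
    (h3 : Even (m.sum + m.card)) :
    ∃ x : alternatingGroup (Fin n), orderOf x = m.lcm ∧ fx (Fin n) x = n - m.sum ∧
      (2 ∉ m → sw (Fin n) x = 0) := by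
  obtain ⟨g, hg⟩ := (Perm.exists_with_cycleType_iff (Fin n) (m := m)).2 ⟨by simpa using h1, h2⟩
  refine ⟨⟨g, ?_⟩, ?_, ?_, fun h => ?_⟩
  · rw [Perm.mem_alternatingGroup, Perm.sign_of_cycleType, hg]
    exact h3.neg_one_pow
  · rw [Subgroup.orderOf_mk, ← Perm.lcm_cycleType, hg]
  · have := Perm.card_fixedPoints g
    rw [hg, Fintype.card_fin, ← Nat.card_eq_fintype_card] at this
    exact this
  · rw [sw, Nat.card_eq_zero]
    refine Or.inl ⟨fun ⟨x, hx, hx'⟩ => h ?_⟩
    change g (g x) = x at hx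
    change g x ≠ x at hx'
    have hc := Perm.isCycle_cycleOf g hx'
    have h4 : g.cycleOf x ^ 2 = 1 := (hc.pow_eq_one_iff' (x := x) (by simpa using hx')).2 (by
      rw [Perm.cycleOf_pow_apply_self, sq, Perm.mul_apply, hx])
    have h5 : (g.cycleOf x).support.card = 2 := by
      have := orderOf_dvd_of_pow_eq_one h4
      rw [hc.orderOf] at this
      exact le_antisymm (Nat.le_of_dvd two_pos this) hc.two_le_card_support
    rw [← hg, Perm.cycleType_def, Multiset.mem_map]
    exact ⟨_, Perm.cycleOf_mem_cycleFactorsFinset_iff.2 (Perm.mem_support.2 hx'), h5⟩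

/-- For n ≥ 7 the alternating group on n letters has an irreducible character that vanishes at some 2-element and is the restriction of an irreducible character of the symmetric group, and an irreducible character that vanishes at some element of order 3 and is the restriction of an irreducible character of the symmetric group. -/
theorem result (n : ℕ) (hn : 7 ≤ n) : (∃ χ : Cfsg.IrrCharacter (alternatingGroup (Fin n)), (∃ x : alternatingGroup (Fin n), (∃ j : ℕ, orderOf x = 2 ^ j) ∧ (χ : alternatingGroup (Fin n) → ℂ) x = 0) ∧ ∃ ψ : Cfsg.IrrCharacter (Equiv.Perm (Fin n)), ∀ x : alternatingGroup (Fin n), (ψ : Equiv.Perm (Fin n) → ℂ) x = (χ : alternatingGroup (Fin n) → ℂ) x) ∧ (∃ χ : Cfsg.IrrCharacter (alternatingGroup (Fin n)), (∃ y : alternatingGroup (Fin n), orderOf y = 3 ∧ (χ : alternatingGroup (Fin n) → ℂ) y = 0) ∧ ∃ ψ : Cfsg.IrrCharacter (Equiv.Perm (Fin n)), ∀ x : alternatingGroup (Fin n), (ψ : Equiv.Perm (Fin n) → ℂ) x = (χ : alternatingGroup (Fin n) → ℂ) x)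 := by
  constructor
  · have key : ∃ x : alternatingGroup (Fin n), (∃ j : ℕ, orderOf x = 2 ^ j) ∧
        (fx (Fin n) x = 1 ∨ (fx (Fin n) x ≤ 3 ∧ sw (Fin n) x = 0)) := by
      rcases hn.eq_or_lt with rfl | hn
      · obtain ⟨x, h1, h2, -⟩ := exists_elt (n := 7) {4, 2} (by decide) (by decide) (by decide)
        exact ⟨x, ⟨2, h1.trans (by decide)⟩, Or.inl h2⟩
      have hd : ∀ m : Multiset ℕ, (∀ a ∈ m, a ∣ 8) → ∃ j, m.lcm = 2 ^ j := fun m hm => by
        obtain ⟨j, -, hj⟩ := (Nat.dvd_prime_pow Nat.prime_two (m := 3)).1 (Multiset.lcm_dvd.2 hm)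
        exact ⟨j, hj⟩
      rcases Nat.even_or_odd (n / 4) with ⟨k, hk⟩ | ⟨k, hk⟩
      · obtain ⟨x, h1, h2, h3⟩ := exists_elt (n := n) (Multiset.replicate (n / 4) 4)
          (by simp; omega) (by simp [Multiset.mem_replicate]) (by
            simp only [Multiset.sum_replicate, Multiset.card_replicate, smul_eq_mul]
            exact ⟨5 * k, by omega⟩)
        refine ⟨x, h1 ▸ hd _ (by simp [Multiset.mem_replicate]), Or.inr ⟨?_, h3 ?_⟩⟩
        · rw [h2]
          simp
          omega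
        · simp [Multiset.mem_replicate]
      · obtain ⟨x, h1, h2, h3⟩ := exists_elt (n := n) (8 ::ₘ Multiset.replicate (n / 4 - 2) 4)
          (by simp; omega) (by simp [Multiset.mem_replicate]) (by
            simp only [Multiset.sum_cons, Multiset.card_cons, Multiset.sum_replicate,
              Multiset.card_replicate, smul_eq_mul]
            exact ⟨5 * k + 2, by omega⟩)
        refine ⟨x, h1 ▸ hd _ (by simp [Multiset.mem_replicate]), Or.inr ⟨?_, h3 ?_⟩⟩
        · rw [h2]
          simp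
          omega
        · simp [Multiset.mem_replicate]
    obtain ⟨x, h1, h2⟩ := key
    obtain ⟨χ, h3, h4⟩ := exists_vanish (by omega) x h2
    exact ⟨χ, ⟨x, h1, h3⟩, h4⟩
  · obtain ⟨x, h1, h2, h3⟩ := exists_elt (n := n) (Multiset.replicate (n / 3) 3)
      (by simp; omega) (by simp [Multiset.mem_replicate]) (by
        simp only [Multiset.sum_replicate, Multiset.card_replicate, smul_eq_mul]
        exact ⟨2 * (n / 3), by omega⟩)
    obtain ⟨χ, h4, h5⟩ := exists_vanish (by omega) x (Or.inr ⟨by rw [h2]; simp; omega,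
      h3 (by simp [Multiset.mem_replicate])⟩)
    refine ⟨χ, ⟨x, h1.trans (Nat.dvd_antisymm ?_ ?_), h4⟩, h5⟩
    · exact Multiset.lcm_dvd.2 (by simp [Multiset.mem_replicate])
    · exact Multiset.dvd_lcm (Multiset.mem_replicate.2 ⟨by omega, rfl⟩)

end Cfsg.Agent.S4560
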