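import Cfsg.Statements.S4561
import Cfsg.Agent.Char.CentralType

set_option autoImplicit false
universe u
open Cfsg

namespace Cfsg.Agent.S4561

/-- For every finite solvable group G there is a finite group H with a faithful irreducible character χ whose degree squared equals the index of the centre Z(H) (so χ is fully ramified over the centre), such that G is isomorphic to a subgroup of H/Z(H), the primes dividing the orders of H, of Z(H) and of G are the same, and the order of Z(H) is squarefree. -/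
theorem result {G : Type u} [Group G] [Finite G] (hsolv : Group.IsSolvable G) : ∃ (H : Type u) (_ : Group H) (_ : Finite H) (χ : Cfsg.IrrCharacter H), (∀ h : H, (χ : H → ℂ) h = (χ : H → ℂ) 1 → h = 1) ∧ (Cfsg.charDegree (χ : H → ℂ)) ^ 2 = (Subgroup.center H).index ∧ (∃ f : G →* H ⧸ Subgroup.center H, Function.Injective f) ∧ (∀ p : ℕ, p.Prime → ((p ∣ Nat.card H ↔ p ∣ Nat.card G) ∧ (p ∣ Nat.card (Subgroup.center H) ↔ p ∣ Nat.card G))) ∧ Squarefree (Nat.card (Subgroup.center H)) := by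
  obtain ⟨H, _, _, χ, ⟨m, hm, h1⟩, ⟨f, h2⟩, h3, h4⟩ := exists_centralType_aux G
  obtain ⟨ψ, hψ, hf⟩ := χ.exists_faithful_quotient
  have hv : ∀ h : H, ψ (QuotientGroup.mk' _ h) = χ h := congrFun hψ
  have hv1 : ψ 1 = χ 1 := hv 1
  have hZ := ψ.charCenter_eq_center_of_faithful hf
  obtain ⟨lam, hl, hk⟩ := ψ.exists_monoidHom_center
  rw [hf, Subgroup.bot_subgroupOf, MonoidHom.ker_eq_bot_iff] at hk
  have hroot : ∀ {ζ : ℂ} {n : ℕ} {h : H}, n ≠ 0 → ζ ^ n = 1 → χ h = ζ * χ 1 →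
      h ∈ charCenter χ.1 := fun hn hζ hh => by
    rw [χ.mem_charCenter, hh, norm_mul, Complex.norm_eq_one_of_pow_eq_one hζ hn, one_mul]
    exact χ.mem_charCenter.1 (one_mem _)
  have hlam : ∀ {ζ : ℂ} (z : Subgroup.center (H ⧸ charKer χ.1)), ψ z = ζ * ψ 1 → lam z = ζ :=
    fun z hz => mul_right_cancel₀ ψ.apply_one_ne_zero (by rw [← hz, ← hl, mul_one])
  have h5 : ∀ p : ℕ, p.Prime → p ∣ Nat.card G →
      p ∣ Nat.card (Subgroup.center (H ⧸ charKer χ.1)) := by
    intro p hp hd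
    obtain ⟨h, ζ, hζ, hζ', hh⟩ := h4 p hp hd
    have hz := hroot hp.ne_zero hζ' hh
    rw [χ.charCenter_eq_comap] at hz
    have h6 := hlam (ζ := ζ) ⟨_, hz⟩ (by rw [hv1, ← hh]; exact hv h)
    haveI := Fact.mk hp
    have h7 : orderOf (lam ⟨_, hz⟩) = p := orderOf_eq_prime
      (Units.ext (by rw [Units.val_pow_eq_pow_val, h6, hζ']; rfl))
      (fun h => hζ (by rw [← h6, h]; rfl))
    exact h7 ▸ (orderOf_map_dvd _ _).trans (orderOf_dvd_natCard _)
  have h6 : ∀ p : ℕ, p.Prime → p ∣ Nat.card (H ⧸ charKer χ.1) → p ∣ Nat.card G :=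
    fun p hp hd => h3 p hp (hd.trans (Subgroup.card_quotient_dvd_card _))
  refine ⟨H ⧸ charKer χ.1, inferInstance, inferInstance, ψ,
    ψ.isCharacter.charKer_eq_bot_iff.1 hf, ?_, ?_, fun p hp => ⟨⟨h6 p hp, fun h =>
      (h5 p hp h).trans (Subgroup.card_subgroup_dvd_card _)⟩, fun h =>
      h6 p hp (h.trans (Subgroup.card_subgroup_dvd_card _)), h5 p hp⟩, ?_⟩
  · refine (ψ.sq_charDegree_eq_index_iff hZ.ge).2 fun g hg => ?_
    obtain ⟨h, rfl⟩ := QuotientGroup.mk'_surjective _ g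
    rw [hv]
    refine (h1 h).resolve_right ?_
    rintro ⟨ζ, hζ, hh⟩
    have hz := hroot hm.ne_zero hζ hh
    rw [χ.charCenter_eq_comap] at hz
    exact hg hz
  · obtain ⟨E, hE⟩ := exists_injective_of_ker_eq (QuotientGroup.mk'_surjective (charCenter χ.1))
      ((QuotientGroup.mk' (Subgroup.center (H ⧸ charKer χ.1))).comp (QuotientGroup.mk' _))
      (by rw [← MonoidHom.comap_ker, QuotientGroup.ker_mk', QuotientGroup.ker_mk',
        χ.charCenter_eq_comap])
    exact ⟨E.comp f, hE.comp h2⟩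
  · haveI := ψ.isCyclic_center_of_faithful hf
    refine hm.squarefree_of_dvd ?_
    rw [← IsCyclic.exponent_eq_card, Monoid.exponent_dvd_iff_forall_pow_eq_one]
    rintro ⟨z, hz⟩
    obtain ⟨h, rfl⟩ := QuotientGroup.mk'_surjective _ z
    rcases h1 h with h7 | ⟨ζ, hζ, hh⟩
    · have h8 := hl ⟨_, hz⟩ 1
      rw [mul_one, hv, h7] at h8
      exact absurd h8.symm (mul_ne_zero (Units.ne_zero _) ψ.apply_one_ne_zero)
    · refine hk (Units.ext ?_)
      rw [map_pow, Units.val_pow_eq_pow_val, hlam (ζ := ζ) ⟨_, hz⟩ (by rw [hv1, ← hh]; exact hv h),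
        hζ, map_one, Units.val_one]

end Cfsg.Agent.S4561
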