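import Cfsg.Statements.S4563
import Cfsg.Agent.Char.FullyRam
import Cfsg.Agent.Char.HallCrit
-- import your own Cfsg.Agent.* helpers here

set_option autoImplicit false
open Cfsg

namespace Cfsg.Agent.S4563

/-- Let χ be an irreducible character of the finite group H that is fully ramified over the normal subgroup Z: the restriction of χ to Z is e times an irreducible character of Z with e ^ 2 equal to the index of Z. If K is a proper normal subgroup of H containing Z and χ is induced from a character of K, then H/K is solvable; in particular, if K is solvable then so is H. -/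
theorem result {H : Type*} [Group H] [Fintype H] (Z : Subgroup H) [Z.Normal] (χ : Cfsg.IrrCharacter H) (hfr : ∃ (θ : Cfsg.IrrCharacter ↥Z) (e : ℕ), e ^ 2 = Z.index ∧ ∀ z : ↥Z, (χ : H → ℂ) z = (e : ℂ) * (θ : ↥Z → ℂ) z) (K : Subgroup H) [K.Normal] [Fintype K] (hZK : Z ≤ K) (hK : K ≠ ⊤) (φ : ↥K → ℂ) (hφ : Cfsg.IsCharacter ↥K φ) (hind : Cfsg.indFun K φ = (χ : H → ℂ)) : Group.IsSolvable (H ⧸ K) ∧ (Group.IsSolvable ↥K → Group.IsSolvable H) := by
  obtain ⟨θ, hθ⟩ := hfr
  have h := (isFullyRamified_subtype_iff Z χ θ).2 hθ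
  rw [indFun_eq_ind] at hind
  have h1 := hφ.isIrr_of_ind K.subtype_injective (hind ▸ χ.2)
  have h2 := (isIrr_ind_iff K.subtype ⟨φ, h1⟩).1 (hind ▸ χ.2)
  have h3 : Group.IsSolvable (H ⧸ K) := isSolvable_of_forall_exists_pComplement fun p hp => by
    have : Fact p.Prime := ⟨hp⟩
    have h4 := h.exists_index_eq_ordProj hZK (φ := ⟨φ, h1⟩) (liesOver_of_ind_eq hind) p
    rwa [h2, Subgroup.range_subtype] at h4
  exact ⟨h3, fun _ => isSolvable_of_normal_of_quotient K⟩

end Cfsg.Agent.S4563
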