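import Cfsg.Statements.S4564
import Cfsg.Agent.Char.FullyRam
import Cfsg.Agent.Grp.Hall
-- import your own Cfsg.Agent.* helpers here

set_option autoImplicit false
open Cfsg

namespace Cfsg.Agent.S4564

/-- Let χ be an irreducible character of the finite group H that is fully ramified over the normal subgroup Z: the restriction of χ to Z is e times an irreducible character of Z with e ^ 2 equal to the index of Z. Let K be a normal subgroup of H containing Z and P a cyclic Sylow p-subgroup of H/K. Then P has a complement in H/K: a subgroup meeting P trivially whose product with P is the whole group. -/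
theorem result {H : Type*} [Group H] [Finite H] (Z : Subgroup H) [Z.Normal] (χ : Cfsg.IrrCharacter H) (hfr : ∃ (θ : Cfsg.IrrCharacter ↥Z) (e : ℕ), e ^ 2 = Z.index ∧ ∀ z : ↥Z, (χ : H → ℂ) z = (e : ℂ) * (θ : ↥Z → ℂ) z) (K : Subgroup H) [K.Normal] (hZK : Z ≤ K) (p : ℕ) [Fact p.Prime] (P : Sylow p (H ⧸ K)) (hcyc : IsCyclic P) : ∃ M : Subgroup (H ⧸ K), M.IsComplement' (P : Subgroup (H ⧸ K)) := by
  obtain ⟨θ, hθ⟩ := hfr
  have h := (isFullyRamified_subtype_iff Z χ θ).2 hθ
  obtain ⟨φ, hφ⟩ := χ.exists_liesOver_below K.subtype
  obtain ⟨R, hR⟩ := h.exists_index_eq_ordProj hZK hφ p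
  have hφθ := (h.liesOver_iff_of_factor Z.subtype_injective K.subtype_injective
    (j := Subgroup.inclusion hZK) (fun _ => rfl) φ).1 hφ
  obtain ⟨ψ, hψ⟩ := exists_isFullyRamified_inertia_of_unique (f := K.subtype) (θ := φ) (χ := χ)
    fun ψ hψ => h.unique Z.subtype_injective
      (LiesOver.trans_of_eq (fun _ => rfl) ψ.isCharacter θ.isCharacter hψ hφθ)
  have hKI : K ≤ inertia K.subtype φ := le_inertia_subtype K φ
  have key : ¬ p ∣ K.relIndex (inertia K.subtype φ) := by
    set I := inertia K.subtype φ with hI
    let π : I →* H ⧸ K := (QuotientGroup.mk' K).comp I.subtype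
    obtain ⟨S⟩ : Nonempty (Sylow p π.range) := inferInstance
    let U : Subgroup I := (S : Subgroup π.range).comap π.rangeRestrict
    have hU : ∀ n, toInertia K.subtype φ n ∈ U := fun n => by
      have : π.rangeRestrict (toInertia K.subtype φ n) = 1 :=
        Subtype.ext ((QuotientGroup.eq_one_iff _).2 n.2)
      rw [Subgroup.mem_comap, this]; exact one_mem _
    have hUi : U.index = (S : Subgroup π.range).index :=
      Subgroup.index_comap_of_surjective _ π.rangeRestrict_surjective
    let j := (toInertia K.subtype φ).codRestrict U hU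
    let ρ : U →* (S : Subgroup π.range) := π.rangeRestrict.subgroupComap _
    have hρ : Function.Surjective ρ :=
      π.rangeRestrict.subgroupComap_surjective_of_surjective _ π.rangeRestrict_surjective
    have hker : ρ.ker = j.range := by
      ext u
      constructor
      · intro hu
        have h1 : π u = 1 := congrArg (fun x => x.1.1) (MonoidHom.mem_ker.1 hu)
        exact ⟨⟨_, (QuotientGroup.eq_one_iff _).1 h1⟩, rfl⟩
      · rintro ⟨n, rfl⟩
        exact Subtype.ext (Subtype.ext ((QuotientGroup.eq_one_iff _).2 n.2))
    let e : U ⧸ j.range ≃* (S : Subgroup π.range) :=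
      (QuotientGroup.quotientMulEquivOfEq hker.symm).trans
        (QuotientGroup.quotientKerEquivOfSurjective ρ hρ)
    obtain ⟨k, hk⟩ := IsPGroup.iff_card.1 S.isPGroup'
    have hk' : j.range.index = p ^ k := (Nat.card_congr e.toEquiv).trans hk
    have hcS : IsCyclic (S : Subgroup π.range) := by
      obtain ⟨P', hP'⟩ := (S.isPGroup'.map π.range.subtype).exists_le_sylow
      have : IsCyclic P' := isCyclic_of_surjective _ (P.equiv P').surjective
      have := Subgroup.isCyclic_of_le hP'
      exact isCyclic_of_surjective _
        (Subgroup.equivMapOfInjective _ _ π.range.subtype_injective).symm.surjective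
    have hc : IsCyclic (U ⧸ j.range) := isCyclic_of_surjective _ e.symm.surjective
    obtain ⟨η, hη⟩ := exists_extension_of_isCyclic (f := j) (θ := φ)
      (hψ.inertia_eq_top_of_factor (i := U.subtype) fun _ => rfl) hc
    have h1 := (hψ.of_sylow U.subtype_injective (j := j) (fun _ => rfl)
      (by rw [Subgroup.range_subtype, hUi]; exact S.not_dvd_index) hk'
      (liesOver_of_comp_eq hη)).index_eq_one_of_extension IsNormalEmb.injective hη
    have h2 := index_range_of_factor (IsNormalEmb.injective (f := toInertia K.subtype φ))
      U.subtype_injective (j := j) (fun _ => rfl)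
    rw [h1, mul_one, range_toInertia, Subgroup.range_subtype, Subgroup.range_subtype, hUi] at h2
    change ¬ p ∣ (K.subgroupOf I).index
    rw [h2]; exact S.not_dvd_index
  have h1 : (inertia K.subtype φ).index.factorization p = (Nat.card (H ⧸ K)).factorization p := by
    change _ = K.index.factorization p
    rw [← Subgroup.relIndex_mul_index hKI, Nat.factorization_mul (fun h0 => key (by rw [h0]; exact dvd_zero p))
      Subgroup.index_ne_zero_of_finite, Finsupp.add_apply,
      Nat.factorization_eq_zero_of_not_dvd key, zero_add]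
  rw [h1] at hR
  refine ⟨R, (isComplement'_sylow_of_index_eq_pow (fun hd => ?_) hR P).symm⟩
  have h2 : p ^ ((Nat.card (H ⧸ K)).factorization p + 1) ∣ Nat.card (H ⧸ K) := by
    rw [pow_succ, ← hR, mul_comm]
    exact (Nat.mul_dvd_mul_right hd _).trans R.card_mul_index.dvd
  exact Nat.pow_succ_factorization_not_dvd Nat.card_pos.ne' Fact.out h2

end Cfsg.Agent.S4564
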