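import Cfsg.Statements.S4565
import Cfsg.Agent.Char.Count
import Cfsg.Agent.Char.Cover
import Cfsg.Agent.Char.Gallagher

set_option autoImplicit false
open Cfsg

namespace Cfsg.Agent.S4565

/-- Let χ be an irreducible character of the finite group H that is fully ramified over the normal subgroup Z: the restriction of χ to Z is e times an irreducible character of Z with e ^ 2 equal to the index of Z. If Z ≠ H, then H/Z has no cyclic subgroup that is its own centralizer. -/
theorem result {H : Type*} [Group H] [Finite H] (Z : Subgroup H) [Z.Normal] (χ : Cfsg.IrrCharacter H) (hfr : ∃ (θ : Cfsg.IrrCharacter ↥Z) (e : ℕ), e ^ 2 = Z.index ∧ ∀ z : ↥Z, (χ : H → ℂ) z = (e : ℂ) * (θ : ↥Z → ℂ) z) (hZ : Z ≠ ⊤) (C : Subgroup (H ⧸ Z)) (hC : IsCyclic C) : Subgroup.centralizer (C : Set (H ⧸ Z)) ≠ C := by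
  intro hcent
  obtain ⟨θ, hθ⟩ := hfr
  have hfr := (isFullyRamified_subtype_iff Z χ θ).2 hθ
  obtain ⟨c⟩ := nonempty_charCover hfr.inertia_eq_top
  let e : (H ⧸ Z.subtype.range) ≃* (H ⧸ Z) :=
    QuotientGroup.quotientMulEquivOfEq (Subgroup.range_subtype Z)
  let π : c.Q →* H ⧸ Z := e.toMonoidHom.comp c.toQuot
  have hπ : Function.Surjective π := e.surjective.comp c.toQuot_surjective
  have hker : π.ker = c.zEmb.range := by
    rw [← c.toQuot_ker]; ext x; simp [π]
  have hc : ∀ n g, c.zEmb n * g = g * c.zEmb n := fun n g =>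
    (Subgroup.mem_center_iff.1 (c.zEmb_range_le_center ⟨n, rfl⟩) g).symm
  have hinj : Function.Injective c.zEmb := IsNormalEmb.injective
  have hπz : ∀ n, π (c.zEmb n) = 1 := fun n => by
    rw [← MonoidHom.mem_ker, hker]; exact ⟨n, rfl⟩
  have h1 := card_liesOver_eq_card_good hc hinj hπ hker c.lam⁻¹
  have h2 : Nat.card {β : IrrCharacter c.Q // LiesOver c.zEmb β.1 c.lamInv.1} = 1 := by
    rw [← Nat.card_congr c.irrEquiv, Nat.card_eq_one_iff_unique]
    exact ⟨⟨fun a b => Subtype.ext ((hfr.unique Z.subtype_injective a.2).trans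
      (hfr.unique Z.subtype_injective b.2).symm)⟩, ⟨⟨χ, hfr.liesOver⟩⟩⟩
  have h3 := (Nat.card_eq_one_iff_unique.1 (h1.symm.trans h2)).1
  obtain ⟨⟨x, hxC⟩, hx⟩ := hC.exists_zpow_surjective
  have hx' : ∀ u ∈ C, ∃ k : ℤ, x ^ k = u := fun u hu => by
    obtain ⟨k, hk⟩ := hx ⟨u, hu⟩
    exact ⟨k, congrArg Subtype.val hk⟩
  obtain ⟨y, rfl⟩ := hπ x
  have g1 : ∀ n, IsConj (c.zEmb n * 1) 1 → c.lam⁻¹ n = 1 := fun n hn => by
    rw [mul_one, isConj_one_left, map_eq_one_iff _ hinj] at hn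
    rw [hn, map_one]
  have g2 : ∀ n, IsConj (c.zEmb n * y) y → c.lam⁻¹ n = 1 := fun n hn => by
    obtain ⟨u, hu⟩ := isConj_iff.1 hn
    have h4 : π u * π y * (π u)⁻¹ = π y := by
      have := congrArg π hu
      simpa only [map_mul, map_inv, hπz, one_mul] using this
    have h5 : π u ∈ C := by
      rw [← hcent, Subgroup.mem_centralizer_iff]
      intro v hv
      obtain ⟨k, rfl⟩ := hx' v hv
      exact (Commute.zpow_left (show Commute (π y) (π u) from
        (mul_inv_eq_iff_eq_mul.1 h4).symm) k).eq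
    obtain ⟨k, hk⟩ := hx' _ h5
    have h6 : (y ^ k)⁻¹ * u ∈ π.ker := by
      rw [MonoidHom.mem_ker, map_mul, map_inv, map_zpow, hk, inv_mul_cancel]
    rw [hker] at h6
    obtain ⟨m, hm⟩ := h6
    have h7 : u * y = y * u := by
      rw [show u = y ^ k * c.zEmb m by rw [hm]; group, mul_assoc, hc m y, ← mul_assoc,
        ← mul_assoc, (Commute.zpow_left (Commute.refl y) k).eq]
    rw [← mul_assoc, ← hc n u, mul_assoc, mul_assoc, ← mul_assoc u, h7, mul_inv_cancel_right,
      mul_eq_right, map_eq_one_iff _ hinj] at hu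
    rw [hu, map_one]
  have h8 := congrArg Subtype.val (h3.elim ⟨_, 1, rfl, g1⟩ ⟨_, y, rfl, g2⟩)
  simp only [map_one, ConjClasses.mk_eq_mk_iff_isConj, isConj_one_right] at h8
  apply hZ
  rw [eq_top_iff]
  intro g _
  have h9 : (g : H ⧸ Z) ∈ C := by
    rw [← hcent, Subgroup.mem_centralizer_iff]
    intro v hv
    obtain ⟨k, rfl⟩ := hx' v hv
    simp [h8]
  obtain ⟨k, hk⟩ := hx' _ h9
  rw [h8, one_zpow] at hk
  exact (QuotientGroup.eq_one_iff g).1 hk.symm

end Cfsg.Agent.S4565
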