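import Cfsg.Statements.S4566
import Cfsg.Agent.Char.Count

set_option autoImplicit false
open Cfsg

namespace Cfsg.Agent.S4566

/-- Let N be a central subgroup of the finite group G, ψ a faithful irreducible (hence degree-one) character of N, and χ an irreducible character of G whose restriction to N contains ψ. If g ∈ G and some x ∈ G has commutator x⁻¹ g⁻¹ x g in N but different from 1, then χ g = 0. -/
theorem result {G : Type*} [Group G] [Fintype G] (N : Subgroup G) [Fintype N] (hN : N ≤ Subgroup.center G) (ψ : Cfsg.IrrCharacter ↥N) (hfaith : ∀ n : ↥N, (ψ : ↥N → ℂ) n = (ψ : ↥N → ℂ) 1 → n = 1) (χ : Cfsg.IrrCharacter G) (hover : Cfsg.classInner (fun n : ↥N => (χ : G → ℂ) n) (ψ : ↥N → ℂ) ≠ 0) (g x : G) (hcomm : x⁻¹ * g⁻¹ * x * g ∈ N) (hne : x⁻¹ * g⁻¹ * x * g ≠ 1) : (χ : G → ℂ) g = 0 := by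
  have hc : ∀ (n : N) (g : G), N.subtype n * g = g * N.subtype n := fun n g =>
    (Subgroup.mem_center_iff.1 (hN n.2) g).symm
  obtain ⟨mu, rfl⟩ := IrrCharacter.ofLinear_surjective_of_comm
    (fun a b : N => Subtype.ext (hc a b)) ψ
  rw [classInner_eq_ip] at hover
  have h : LiesOver N.subtype χ.1 (fun n => (mu n : ℂ)) := hover
  have h1 : χ g⁻¹ = 0 := by
    refine h.apply_eq_zero_of_isConj hc (n := ⟨_, hcomm⟩) (fun e => hne ?_) ?_
    · exact congrArg Subtype.val (hfaith ⟨_, hcomm⟩ (by simp [e]))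
    · exact isConj_iff.2 ⟨x⁻¹, by simp⟩
  rw [χ.apply_inv] at h1
  simpa using h1

end Cfsg.Agent.S4566
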