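import Cfsg.Statements.S4567
import Cfsg.Agent.Char.Count

set_option autoImplicit false
open Cfsg

namespace Cfsg.Agent.S4567

/-- Let N be a central subgroup of the finite group G and ψ a faithful irreducible (hence degree-one) character of N. Call a coset g N special when every x ∈ G whose commutator x⁻¹ g⁻¹ x g lies in N actually commutes with g (this depends only on the coset). Then the number of irreducible characters of G whose restriction to N contains ψ equals the number of conjugacy classes of G/N consisting of special cosets. -/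
theorem result {G : Type*} [Group G] [Fintype G] (N : Subgroup G) [N.Normal] [Fintype N] (hN : N ≤ Subgroup.center G) (ψ : Cfsg.IrrCharacter ↥N) (hfaith : ∀ n : ↥N, (ψ : ↥N → ℂ) n = (ψ : ↥N → ℂ) 1 → n = 1) : Nat.card {χ : Cfsg.IrrCharacter G // Cfsg.classInner (fun n : ↥N => (χ : G → ℂ) n) (ψ : ↥N → ℂ) ≠ 0} = Nat.card {C : ConjClasses (G ⧸ N) // ∃ g : G, ConjClasses.mk (g : G ⧸ N) = C ∧ ∀ x : G, x⁻¹ * g⁻¹ * x * g ∈ N → x * g = g * x} := by
  have hc : ∀ (n : N) (g : G), N.subtype n * g = g * N.subtype n := fun n g =>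
    (Subgroup.mem_center_iff.1 (hN n.2) g).symm
  obtain ⟨mu, rfl⟩ := IrrCharacter.ofLinear_surjective_of_comm
    (fun a b : N => Subtype.ext (hc a b)) ψ
  have h := card_liesOver_eq_card_good hc N.subtype_injective (QuotientGroup.mk'_surjective N)
    (by simp) mu
  simp only [classInner_eq_ip]
  refine Eq.trans h (Nat.card_congr (Equiv.subtypeEquivRight fun C =>
    exists_congr fun g => and_congr Iff.rfl ⟨fun h x hx => ?_, fun h n hn => ?_⟩))
  · have h1 := h ⟨_, N.inv_mem hx⟩ (isConj_iff.2 ⟨x, by
      rw [hc]; simp only [Subgroup.coe_subtype]; group⟩).symm.symm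
    have h2 := congrArg Subtype.val (hfaith ⟨_, N.inv_mem hx⟩ (by
      rw [IrrCharacter.ofLinear_apply, IrrCharacter.ofLinear_apply, h1, map_one]))
    simp only [OneMemClass.coe_one, inv_eq_one] at h2
    calc x * g = g * x * (x⁻¹ * g⁻¹ * x * g) := by group
      _ = g * x := by rw [h2, mul_one]
  · obtain ⟨x, hx⟩ := isConj_iff.1 hn
    have h1 : x⁻¹ * g * x = n * g := by
      conv_lhs => rw [← hx]
      simp [mul_assoc]
    have h2 : x⁻¹ * g⁻¹ * x * g = (n : G)⁻¹ := by
      have : x⁻¹ * g⁻¹ * x = (x⁻¹ * g * x)⁻¹ := by group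
      rw [this, h1, mul_inv_rev]
      have h3 := hc n⁻¹ g⁻¹
      simp only [Subgroup.coe_subtype, InvMemClass.coe_inv] at h3
      rw [← h3]; group
    have h3 := h x (h2 ▸ N.inv_mem n.2)
    have h4 : (n : G) = 1 := by
      rw [mul_assoc, ← h3, inv_mul_cancel_left] at h1
      simpa using h1
    rw [show n = 1 from Subtype.ext h4, map_one]

end Cfsg.Agent.S4567
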