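import Cfsg.Statements.S4569
import Cfsg.Agent.Blk.Sixteen
import Cfsg.Agent.Mod.PrinNilp
-- import your own Cfsg.Agent.* helpers here

set_option autoImplicit false
open Cfsg

namespace Cfsg.Agent.S4569

/-- Let G be a finite group whose Sylow 2-subgroup P is elementary abelian of order 16, suppose the centralizer of P has index 9 in its normalizer, and let M be a maximal ideal of the algebraic integers containing 2. Then the principal 2-block contains exactly 16 irreducible characters and has 2-regular rank 9. -/
theorem result {G : Type*} [Group G] [Finite G] (M : Ideal Cfsg.AlgInt) (hM : Cfsg.IsPModular 2 M) (P : Sylow 2 G) (hcard : Nat.card P = 16) (hel : ∀ x : P, x ^ 2 = 1) (he : (Subgroup.centralizer ((P : Subgroup G) : Set G)).relIndex (Subgroup.normalizer ((P : Subgroup G) : Set G)) = 9) : Nat.card (Cfsg.principalBlock M G) = 16 ∧ Cfsg.blockRank 2 (Cfsg.principalBlock M G) = 9 := by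
  have hab : (P : Subgroup G) ≤ Subgroup.centralizer ((P : Subgroup G) : Set G) := by
    intro x hx y hy
    have hi : ∀ u ∈ (P : Subgroup G), u⁻¹ = u := fun u hu => inv_eq_of_mul_eq_one_right (by
      rw [← pow_two]; exact congrArg Subtype.val (hel ⟨u, hu⟩))
    rw [← hi _ ((P : Subgroup G).mul_mem hy hx), mul_inv_rev, hi x hx, hi y hy]
  obtain ⟨h1, h2⟩ := card_principal_sixteen_nine hM hab hcard
    ((card_autOf_subtype le_rfl).trans he)
  have h3 : blockRank 2 (principalBlock M G) ≠ 1 := fun e => by
    obtain ⟨k, hk⟩ := (hM.hasNormalPComplement_of_blockRank e).exists_relIndex_eq P.isPGroup'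
    rw [he] at hk
    rcases k with _ | k
    · omega
    · rw [pow_succ] at hk
      omega
  omega

end Cfsg.Agent.S4569
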