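import Cfsg.Statements.S4570
import Cfsg.Agent.Blk.Sixteen
import Cfsg.Agent.Mod.PrinNilp
-- import your own Cfsg.Agent.* helpers here

set_option autoImplicit false
open Cfsg

namespace Cfsg.Agent.S4570

/-- Let G be a finite group with a commutative Sylow 2-subgroup P and M a maximal ideal of the algebraic integers containing 2, and suppose some involution x of G has the property that the principal 2-block of its centralizer has 2-regular rank one. If P has order 8 then the principal 2-block of G contains exactly 8 irreducible characters, and if P has order 16 it contains 8 or 16. -/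
theorem result {G : Type*} [Group G] [Finite G] (M : Ideal Cfsg.AlgInt) (hM : Cfsg.IsPModular 2 M) (P : Sylow 2 G) (hab : IsMulCommutative P) (x : G) (hx : orderOf x = 2) (hl : Cfsg.blockRank 2 (Cfsg.principalBlock M ↥(Subgroup.centralizer ({x} : Set G))) = 1) : (Nat.card P = 8 → Nat.card (Cfsg.principalBlock M G) = 8) ∧ (Nat.card P = 16 → Nat.card (Cfsg.principalBlock M G) = 8 ∨ Nat.card (Cfsg.principalBlock M G) = 16) := by
  have hpe : IsPElt 2 x := ⟨1, by simpa using hx⟩
  obtain ⟨Q, hQ⟩ := hpe.exists_mem_sylow
  have e := Sylow.equiv P Q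
  have hc : Nat.card Q = Nat.card P := (Nat.card_congr e.toEquiv).symm
  have hab' : (Q : Subgroup G) ≤ Subgroup.centralizer ((Q : Subgroup G) : Set G) := by
    intro a ha b hb
    have := mul_comm' (e.symm ⟨b, hb⟩) (e.symm ⟨a, ha⟩)
    rw [← map_mul, ← map_mul] at this
    exact congrArg Subtype.val (e.symm.injective this)
  have key := fun h => card_principal_of_dvd_sixteen hM _ G rfl Q hab' h x hQ
    (hx ▸ pow_orderOf_eq_one x) (hM.hasNormalPComplement_of_blockRank hl)
  rw [hc] at key
  refine ⟨fun h => ?_, fun h => ?_⟩
  · have := key (by rw [h]; norm_num)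
    omega
  · have := key h.dvd
    omega

end Cfsg.Agent.S4570
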