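import Cfsg.Statements.S4574
import Cfsg.Agent.Char.Burnside
import Cfsg.Agent.Char.Ker
import Cfsg.Agent.Char.Galois

set_option autoImplicit false
open Cfsg

namespace Cfsg.Agent.S4574

/-- Let χ be an irreducible character of the finite group G, of degree d, and let Z(χ) be the set of elements g with |χ g| = d (the centre of χ). Then χ vanishes on at least (d ^ 2 - 1) · |Z(χ)| elements of G, with equality when every value |χ g| is 0, 1 or d. -/
theorem result {G : Type*} [Group G] [Fintype G] [DecidableEq G] (χ : G → ℂ) (hχ : Cfsg.IsIrrCharacter G χ) : (Cfsg.charDegree χ ^ 2 - 1) * (Finset.univ.filter (fun g : G => ‖χ g‖ = (Cfsg.charDegree χ : ℝ))).card ≤ (Finset.univ.filter (fun g : G => χ g = 0)).card ∧ ((∀ g : G, ‖χ g‖ = 0 ∨ ‖χ g‖ = 1 ∨ ‖χ g‖ = (Cfsg.charDegree χ : ℝ)) → (Cfsg.charDegree χ ^ 2 - 1) * (Finset.univ.filter (fun g : G => ‖χ g‖ = (Cfsg.charDegree χ : ℝ))).card = (Finset.univ.filter (fun g : G => χ g = 0)).card) :=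 by
  classical
  set d := charDegree χ with hd
  have hdpos : 0 < d := IrrCharacter.charDegree_pos ⟨χ, hχ⟩
  have hc := hχ.isCharacter
  set Z := Finset.univ.filter (fun g : G => ‖χ g‖ = (d : ℝ)) with hZ
  set N := Finset.univ.filter (fun g : G => χ g = 0) with hN
  set A := Finset.univ.filter (fun g : G => ¬ ‖χ g‖ = (d : ℝ) ∧ ¬ χ g = 0) with hA
  have hdR : (d : ℝ) ≠ 0 := by exact_mod_cast hdpos.ne'
  have split : ∀ F : G → ℝ, ∑ g, F g = ∑ g ∈ Z, F g + ∑ g ∈ N, F g + ∑ g ∈ A, F g := fun F => by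
    simp only [hZ, hN, hA, Finset.sum_filter, ← Finset.sum_add_distrib]
    refine Finset.sum_congr rfl fun g _ => ?_
    by_cases h1 : χ g = 0
    · simp [h1, hdR.symm]
    · by_cases h2 : ‖χ g‖ = (d : ℝ) <;> simp [h1, h2]
  have h1 : ∑ g, ‖χ g‖ ^ 2 = (Nat.card G : ℝ) := by
    have h := IrrCharacter.ip_self ⟨χ, hχ⟩
    rw [ip_self_eq] at h
    have h' : (Nat.card G : ℝ)⁻¹ * ∑ g, ‖χ g‖ ^ 2 = 1 := by exact_mod_cast h
    have hG : (Nat.card G : ℝ) ≠ 0 := by exact_mod_cast Nat.card_pos.ne'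
    field_simp at h'
    exact h'
  have h2 := split fun _ => 1
  simp only [Finset.sum_const, Finset.card_univ, nsmul_eq_mul, mul_one,
    ← Nat.card_eq_fintype_card] at h2
  have h3 := split fun g => ‖χ g‖ ^ 2
  have h4 : ∑ g ∈ Z, ‖χ g‖ ^ 2 = (d : ℝ) ^ 2 * Z.card := by
    rw [Finset.sum_congr rfl (g := fun _ => (d : ℝ) ^ 2)
      (fun g hg => by rw [(Finset.mem_filter.1 hg).2])]
    simp [mul_comm]
  have h5 : ∑ g ∈ N, ‖χ g‖ ^ 2 = 0 :=
    Finset.sum_eq_zero fun g hg => by simp [(Finset.mem_filter.1 hg).2]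
  have hcast : (((d ^ 2 - 1) * Z.card : ℕ) : ℝ) = ((d : ℝ) ^ 2 - 1) * Z.card := by
    rw [Nat.cast_mul, Nat.cast_sub (Nat.one_le_pow _ _ hdpos)]; simp
  rw [h1, h4, h5] at h3
  constructor
  · have h6 := hc.isGen.card_ne_zero_le_sum_norm_sq A (fun g hg k hk => by
      obtain ⟨-, hg1, hg2⟩ := Finset.mem_filter.1 hg
      refine Finset.mem_filter.2 ⟨Finset.mem_univ _, fun e => hg1 ?_, fun e => hg2 ?_⟩
      · rw [hd, ← hc.mem_charCenter] at e ⊢
        obtain ⟨m, hm⟩ := exists_pow_eq_self_of_coprime hk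
        rw [← hm]; exact Subgroup.pow_mem _ e m
      · exact (hc.isGen.apply_pow_eq_zero_iff hk).1 e)
      (fun g hg => (Finset.mem_filter.1 hg).2.2)
    have : (((d ^ 2 - 1) * Z.card : ℕ) : ℝ) ≤ N.card := by rw [hcast]; linarith
    exact_mod_cast this
  · intro h
    have h6 : ∑ g ∈ A, ‖χ g‖ ^ 2 = A.card := by
      rw [Finset.sum_congr rfl (g := fun _ => (1 : ℝ)) (fun g hg => by
        obtain ⟨-, hg1, hg2⟩ := Finset.mem_filter.1 hg
        rcases h g with e | e | e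
        · exact absurd (norm_eq_zero.1 e) hg2
        · simp [e]
        · exact absurd e hg1)]
      simp
    have : (((d ^ 2 - 1) * Z.card : ℕ) : ℝ) = N.card := by rw [hcast]; linarith
    exact_mod_cast this

end Cfsg.Agent.S4574
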