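import Cfsg.Statements.S4575
import Cfsg.Agent.Blk.SubBound

set_option autoImplicit false
open Cfsg

namespace Cfsg.Agent.S4575

theorem aux {G H : Type*} [Group G] [Finite G] [Group H] [Finite H]
    {M : Ideal AlgInt} (hM : IsPModular 2 M) {f : H →* G} {x : G} (h : IsSec 2 f x)
    {B : Set (IrrCharacter G)} {b : Set (IrrCharacter H)} (hi : Induces M f b B)
    (hd : blockDefect 2 b = blockDefect 2 B) (hl : Nat.card B ≤ blockRank 2 b + 3) :
    Nat.card B ≤ 2 ^ blockDefect 2 B := by
  classical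
  by_cases hd0 : blockDefect 2 B = 0
  · rw [(hi.right.blockDefect_eq_zero_iff_card hM).1 hd0, hd0, pow_zero]
  by_contra hk
  obtain ⟨n, hx⟩ := h.pElt.exists_pow_succ_eq_one
  have h2 := Finset.card_nsmul_le_sum (Finset.univ.filter (· ∈ B))
    (fun χ => 2 ^ blockDefect 2 B - avgC 2 n f x b χ.1) 3 fun χ hχ => by
      have hχ' := (Finset.mem_filter.1 hχ).2
      by_cases h0 : blockHeight 2 B χ.1 = 0
      · obtain ⟨c, hc, hc'⟩ := h.exists_avgC_odd hM hx hi hχ' h0
        have h3 := h.sum_pow_height_le_compl hM hx hi hd hd0 hχ' h0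
        have h4 : (Nat.card B : ℝ) ≤ ∑ ψ : IrrCharacter G with ψ ∈ B,
            ((2 : ℕ) : ℝ) ^ (2 * blockHeight 2 B ψ.1) := by
          exact_mod_cast card_le_sum_pow_height (p := 2) B
        have h5 : ((2 ^ blockDefect 2 B : ℕ) : ℝ) < Nat.card B := by exact_mod_cast not_le.1 hk
        rw [hc] at h3 ⊢
        push_cast at h3 h4 h5
        have h6 : (c : ℝ) + 1 < 2 ^ blockDefect 2 B := by
          nlinarith [pow_pos (two_pos (α := ℝ)) (blockDefect 2 B)]
        have h7 : c + 1 < 2 ^ blockDefect 2 B := by exact_mod_cast h6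
        obtain ⟨e, he⟩ := Nat.exists_eq_succ_of_ne_zero hd0
        obtain ⟨c', rfl⟩ := hc'
        have h8 : 2 * c' + 1 + 3 ≤ 2 ^ blockDefect 2 B := by
          rw [he, pow_succ] at h7 ⊢; omega
        have : ((2 * c' + 1 + 3 : ℕ) : ℝ) ≤ (2 ^ blockDefect 2 B : ℕ) := by exact_mod_cast h8
        push_cast at this ⊢
        linarith
      · obtain ⟨c, hc, hc'⟩ := h.exists_avgC_even hM hx hi hd hχ' h0
        have h3 := h.avgC_lt (n := n) hM hi hd hχ' h0
        rw [hc] at h3 ⊢
        have h4 : 2 ^ (blockHeight 2 B χ.1 + 1) * c < 2 ^ blockDefect 2 B := by exact_mod_cast h3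
        obtain ⟨e, he⟩ := Nat.exists_eq_succ_of_ne_zero h0
        have h5 : blockHeight 2 B χ.1 + 1 < blockDefect 2 B :=
          (Nat.pow_lt_pow_iff_right one_lt_two).1 (lt_of_le_of_lt (Nat.le_mul_of_pos_right _ hc') h4)
        obtain ⟨e', he'⟩ : ∃ e', blockDefect 2 B = e' + 2 := ⟨blockDefect 2 B - 2, by omega⟩
        have h6 : 2 ^ (blockHeight 2 B χ.1 + 1) * c + 3 ≤ 2 ^ blockDefect 2 B := by
          have e1 : 2 ^ (blockHeight 2 B χ.1 + 1) * c = 4 * (2 ^ e * c) := by
            rw [he, Nat.succ_eq_add_one]; ring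
          have e2 : 2 ^ blockDefect 2 B = 4 * 2 ^ e' := by rw [he']; ring
          rw [e1, e2] at h4 ⊢
          omega
        have : ((2 ^ (blockHeight 2 B χ.1 + 1) * c + 3 : ℕ) : ℝ) ≤ (2 ^ blockDefect 2 B : ℕ) := by
          exact_mod_cast h6
        push_cast at this ⊢
        linarith
  rw [Finset.sum_sub_distrib, h.sum_avgC hM hi, hd, Finset.sum_const, ← natCard_eq_card_filter,
    nsmul_eq_mul, nsmul_eq_mul] at h2
  have h5 : ((2 ^ blockDefect 2 B : ℕ) : ℝ) < Nat.card B := by exact_mod_cast not_le.1 hk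
  have h6 : (Nat.card B : ℝ) ≤ blockRank 2 b + 3 := by exact_mod_cast hl
  push_cast at h2 h5
  nlinarith [pow_pos (two_pos (α := ℝ)) (blockDefect 2 B)]

/-- Let B be a 2-block of the finite group G (relative to a maximal ideal M of the algebraic integers containing 2) of defect d with defect group D. Let z be an element of D commuting with every element of D, and let b be a block of the centralizer of z with defect group D that induces B (a major subsection (z, b)). If the number of irreducible characters in B exceeds the 2-regular rank of b by at most three, then B contains at most 2 ^ d irreducible characters. -/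
theorem result {G : Type*} [Group G] [Finite G] (M : Ideal Cfsg.AlgInt) (hM : Cfsg.IsPModular 2 M) (B : Set (Cfsg.IrrCharacter G)) (hB : Cfsg.IsPBlock M B) (D : Subgroup G) (hD : Cfsg.IsDefectGroup 2 M B D) (z : G) (hzD : z ∈ D) (hzc : ∀ d ∈ D, d * z = z * d) (b : Set (Cfsg.IrrCharacter ↥(Subgroup.centralizer ({z} : Set G)))) (hb : Cfsg.IsInducedBlock M (Subgroup.centralizer ({z} : Set G)) b B) (hbD : Cfsg.IsDefectGroup 2 M b (D.subgroupOf (Subgroup.centralizer ({z} : Set G)))) (h : Nat.card B ≤ Cfsg.blockRank 2 b + 3) : Nat.card B ≤ 2 ^ Cfsg.blockDefect 2 B := by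
  have hi := (isInducedBlock_iff hM).1 hb
  obtain ⟨hs, hd⟩ := hD.major_of_comm hM hB hzD hzc hi.left hbD
  exact aux hM hs hi hd h

end Cfsg.Agent.S4575
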