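import Cfsg.Statements.S4578
import Cfsg.Agent.Sym.Robinson

set_option autoImplicit false
open Cfsg

namespace Cfsg.Agent.S4578

/-- Let H be a finite quasisimple group whose central quotient H/Z(H) is isomorphic to the alternating group on n ≥ 5 letters, p any prime, M a maximal ideal of the algebraic integers containing p, and B a p-block of H with defect group D. For every irreducible character χ in B, p raised to the height of χ is at most the index of Z(D) in D, with equality exactly when D is abelian. -/
theorem result {H : Type*} [Group H] [Finite H] (hq : Cfsg.IsQuasisimple H) (n : ℕ) (hn : 5 ≤ n) (e : H ⧸ Subgroup.center H ≃* alternatingGroup (Fin n)) (p : ℕ) [Fact p.Prime] (M : Ideal Cfsg.AlgInt) (hM : Cfsg.IsPModular p M) (B : Set (Cfsg.IrrCharacter H)) (hB : Cfsg.IsPBlock M B) (D : Subgroup H) (hD : Cfsg.IsDefectGroup p M B D) (χ : Cfsg.IrrCharacter H) (hχ : χ ∈ B) :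
    Cfsg.blockHeight p B (χ : H → ℂ) ≤ ((Subgroup.center D).index).factorization p ∧
      (Cfsg.blockHeight p B (χ : H → ℂ) = ((Subgroup.center D).index).factorization p ↔ IsMulCommutative D) := by
  have := hq.1
  let π : H →* Equiv.Perm (Fin n) :=
    (alternatingGroup _).subtype.comp (e.toMonoidHom.comp (QuotientGroup.mk' _))
  have h := Sym.htOk hM hB hD hχ (π := π) (fun g hg => by simpa [π] using hg)
    (by
      rw [MonoidHom.range_comp, MonoidHom.range_eq_top.2 (e.surjective.comp
        (QuotientGroup.mk'_surjective _)), ← MonoidHom.range_eq_map, Subgroup.range_subtype]) (by simpa)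
  have hp : p.Prime := Fact.out
  obtain ⟨k, hk⟩ := hD.isPGroup.index (Subgroup.center D)
  rw [hk, hp.factorization_pow, Finsupp.single_eq_same, ← Subgroup.center_eq_top_iff,
    ← Subgroup.index_eq_one, hk, Nat.pow_eq_one, or_iff_right hp.ne_one]
  rcases h with h | h
  · omega
  rw [← (Subgroup.center D).card_mul_index, hk, Nat.mul_lt_mul_left Nat.card_pos,
    Nat.pow_lt_pow_iff_right hp.one_lt] at h
  omega

end Cfsg.Agent.S4578
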