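import Cfsg.Statements.S4580
import Cfsg.Agent.Blk.Real
import Cfsg.Agent.Char.Gallagher
import Cfsg.Agent.Char.Abelian
-- import your own Cfsg.Agent.* helpers here

set_option autoImplicit false
open Cfsg

namespace Cfsg.Agent.S4580

/-- Let N be a normal subgroup of the finite group G, M a maximal ideal of the algebraic integers containing 2, and θ a real-valued irreducible character of N of odd degree that extends to G (some irreducible character of G restricts to θ). Then θ has an extension to G lying in the principal 2-block of G. -/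
theorem result {G : Type*} [Group G] [Finite G] (N : Subgroup G) [N.Normal] (M : Ideal Cfsg.AlgInt) (hM : Cfsg.IsPModular 2 M) (θ : Cfsg.IrrCharacter N) (hreal : ∀ n : N, ((θ : N → ℂ) n).im = 0) (hodd : Odd (Cfsg.charDegree (θ : N → ℂ))) (hext : ∃ η : Cfsg.IrrCharacter G, ∀ n : N, (η : G → ℂ) n = (θ : N → ℂ) n) :
    ∃ η : Cfsg.IrrCharacter G, (∀ n : N, (η : G → ℂ) n = (θ : N → ℂ) n) ∧ η ∈ Cfsg.principalBlock M G := by
  obtain ⟨η, hη⟩ := hext
  have h1 : η.1 ∘ N.subtype = θ.1 := funext hη
  have h2 : η.bar.1 ∘ N.subtype = η.1 ∘ N.subtype := by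
    funext n
    change (starRingEnd ℂ) (η.1 n) = η.1 n
    rw [hη n]
    exact Complex.conj_eq_iff_im.2 (hreal n)
  obtain ⟨μ, hμ1, hμ⟩ := exists_linear_of_comp_eq (f := N.subtype) η.isCharacter η.bar.isCharacter
    (h1 ▸ θ.2) h2
  have hm : Odd (ordCompl[2] (Nat.card G)) :=
    Nat.not_even_iff_odd.1 fun h =>
      Nat.not_dvd_ordCompl Nat.prime_two Nat.card_pos.ne' h.two_dvd
  obtain ⟨k, hk⟩ := hm
  refine ⟨μ ^ (k + 1) • η, fun n => ?_, hM.mem_principalBlock_of_real ?_ fun g hg => ?_⟩
  · have := hμ1 n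
    rw [Subgroup.subtype_apply] at this
    change ((μ ^ (k + 1)) n : ℂ) * η.1 n = _
    rw [MonoidHom.pow_apply, this, one_pow, Units.val_one, one_mul, hη]
  · rw [IrrCharacter.charDegree_linear_smul, charDegree_eq_of_apply_one (n := charDegree θ.1)]
    · exact hodd.not_two_dvd_nat
    · rw [← θ.apply_one, ← hη 1]; rfl
  · congr 1
    have hc : Subgroup.centralizer ({g⁻¹} : Set G) = Subgroup.centralizer {g} := by
      ext x
      simp only [Subgroup.mem_centralizer_singleton_iff]
      exact ⟨fun h => by simpa using (Commute.inv_right (h : Commute x g⁻¹)).eq,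
        fun h => (Commute.inv_right (h : Commute x g)).eq⟩
    unfold centralChar
    rw [hc]
    congr 2
    have e1 : η.1 g⁻¹ = μ g * η.1 g := (η.isCharacter.apply_inv g).trans (congrFun hμ g)
    have e2 : μ g ^ (2 * k + 1) = 1 := by
      rw [← hk, ← map_pow]
      have : orderOf g ∣ ordCompl[2] (Nat.card G) :=
        (Nat.Coprime.dvd_mul_left (m := 2 ^ (Nat.card G).factorization 2)
          (Nat.Coprime.pow_right _ ((Nat.Prime.coprime_iff_not_dvd Nat.prime_two).2 hg).symm)).1
          (by rw [Nat.ordProj_mul_ordCompl_eq_self]; exact orderOf_dvd_natCard g)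
      rw [orderOf_dvd_iff_pow_eq_one.1 this, map_one]
    change ((μ ^ (k + 1)) g⁻¹ : ℂ) * η.1 g⁻¹ = ((μ ^ (k + 1)) g : ℂ) * η.1 g
    rw [e1, ← mul_assoc, ← Units.val_mul, MonoidHom.pow_apply, MonoidHom.pow_apply, map_inv]
    congr 2
    have : μ g ^ (k + 1) = μ g ^ (k + 1) * (μ g ^ (2 * k + 1))⁻¹ := by rw [e2]; simp
    rw [this]
    group

end Cfsg.Agent.S4580
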