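import Cfsg.Statements.S4581
import Cfsg.Agent.Char.RelMcKay
import Cfsg.Agent.Char.FrobSchur
import Cfsg.Agent.Grp.Frattini

set_option autoImplicit false
open Cfsg

namespace Cfsg.Agent.S4581

open Subgroup

universe u

section
variable {G H V T : Type*} [Group G] [Finite G] [Group H] [Finite H] [Group V] [Finite V]
  [Group T] [Finite T]

/-- real of odd degree -/
abbrev RO (χ : G → ℂ) : Prop := star χ = χ ∧ ¬ 2 ∣ charDegree χ

theorem card_clifford {f : V →* G} [IsNormalEmb f] {i : T →* G} (hi : Function.Injective i)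
    {j : V →* T} (hfac : ∀ n, i (j n) = f n) {θ : IrrCharacter V} (hθ : star θ.1 = θ.1)
    (hT : inertia f θ ≤ i.range) (hd : ¬ 2 ∣ i.range.index) :
    Nat.card {χ : IrrCharacter G // RO χ.1 ∧ LiesOver f χ.1 θ.1} =
      Nat.card {ψ : IrrCharacter T // RO ψ.1 ∧ LiesOver j ψ.1 θ.1} := by
  simp only [and_comm (a := RO _)]
  rw [← Nat.card_congr (Equiv.subtypeSubtypeEquivSubtypeInter _ fun χ : IrrCharacter G => RO χ.1),
    ← Nat.card_congr (Equiv.subtypeSubtypeEquivSubtypeInter _ fun χ : IrrCharacter T => RO χ.1)]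
  refine (Nat.card_congr ((cliffordEquiv hi hfac hT).subtypeEquiv fun ψ => ?_)).symm
  refine and_congr ?_ ?_
  · rw [cliffordEquiv_apply, ← ind_star]
    exact ⟨congrArg _, fun e => congrArg Subtype.val
      (clifford_injective hi hfac hT (ψ := ψ.1.bar) (by have := ψ.2.bar; rwa [hθ] at this) ψ.2 e)⟩
  · simp [ψ.1.isCharacter.charDegree_ind hi, Nat.prime_two.dvd_mul, hd]

theorem card_mul_linear {f : V →* T} {δ : T →* ℂˣ} (hδ : ∀ t, starRingEnd ℂ (δ t) = δ t)
    {θ : IrrCharacter V} (hθ : ∀ v, θ v = δ (f v)) :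
    Nat.card {χ : IrrCharacter T // RO χ.1 ∧ LiesOver f χ.1 (IrrCharacter.one V).1} =
      Nat.card {χ : IrrCharacter T // RO χ.1 ∧ LiesOver f χ.1 θ.1} := by
  refine Nat.card_congr ((MulAction.toPerm δ).subtypeEquiv fun χ => and_congr (and_congr ?_
    (by simp)) ?_)
  · simp [funext_iff, hδ]
  · unfold LiesOver
    rw [← ip_linear_mul_linear_mul (δ.comp f), show θ.1 = _ from funext fun v => (hθ v).trans
      (mul_one _).symm]
    rfl

theorem exists_real_linear {f : V →* T} {θ : IrrCharacter V} (hθ : ∀ v, θ v ^ 2 = 1)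
    {η : T → ℂ} (hη : IsCharacter T η) (h : RO η) (hu : ∀ θ', LiesOver f η θ'.1 → θ' = θ) :
    ∃ δ : T →* ℂˣ, (∀ t, starRingEnd ℂ (δ t) = δ t) ∧ ∀ v, θ v = δ (f v) := by
  have h1 : θ.1 1 = 1 := by
    have := hθ 1
    rw [show θ 1 = _ from θ.apply_one] at this ⊢
    exact_mod_cast (Nat.pow_eq_one.1 (by exact_mod_cast this)).resolve_right two_ne_zero
  have h2 := (hη.comp f).eq_smul_of_unique θ hu
  refine ⟨detHom η, fun t => congrFun (hη.detChar_star.symm.trans (congrArg _ h.1)) t, fun v => ?_⟩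
  have h3 := congrArg charDegree h2
  rw [charDegree_comp, θ.isCharacter.charDegree_nsmul, θ.apply_one_eq_one_iff.1 h1, mul_one] at h3
  obtain ⟨k, hk⟩ := Nat.two_dvd_ne_zero.1 h.2 |> Nat.odd_iff.2
  rw [coe_detHom, ← Function.comp_apply (f := detChar η), ← hη.detChar_comp, h2,
    θ.isCharacter.detChar_nsmul, θ.isCharacter.detChar_of_apply_one_eq_one h1, ← h3, hk,
    Pi.pow_apply, pow_succ, pow_mul, show θ.1 v ^ 2 = 1 from hθ v, one_pow, one_mul]

theorem card_liesOver_one {Q : Type*} [Group Q] [Finite Q] {f : V →* G} [IsNormalEmb f]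
    {π : G →* Q} (hπ : Function.Surjective π) (hker : π.ker = f.range) :
    Nat.card {χ : IrrCharacter G // RO χ.1 ∧ LiesOver f χ.1 (IrrCharacter.one V).1} =
      Nat.card {χ : IrrCharacter Q // RO χ.1} := by
  have e : ∀ χ : IrrCharacter G, LiesOver f χ.1 (IrrCharacter.one V).1 ↔
      ∀ g ∈ π.ker, χ g = χ 1 := fun χ => (χ.liesOver_one_iff f).trans (by simp [hker])
  simp only [and_comm (a := RO _), e]
  rw [← Nat.card_congr (Equiv.subtypeSubtypeEquivSubtypeInter _ _)]
  refine (Nat.card_congr ((IrrCharacter.inflateEquiv π hπ).subtypeEquiv fun β =>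
    and_congr ?_ ?_)).symm
  · simp [funext_iff, hπ.forall]
  · exact (congrArg (¬ 2 ∣ ·) (charDegree_comp β.1 π)).symm.to_iff

theorem liesOver_one_of_odd (f : V →* G) [IsNormalEmb f] (hV : ¬ 2 ∣ Nat.card V)
    {χ : IrrCharacter G} (h : RO χ.1) : LiesOver f χ.1 (IrrCharacter.one V).1 := by
  classical
  obtain ⟨θ, h1⟩ := χ.exists_liesOver_below f
  by_contra h2
  refine h.2 (dvd_trans ?_ h1.index_inertia_dvd)
  rw [← card_conjOrbit, ← ZMod.natCast_eq_zero_iff, Finset.card_eq_sum_ones, Nat.cast_sum]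
  refine Finset.sum_involution (fun η _ => η.bar) (fun _ _ => rfl) (fun η hη _ e => h2 ?_)
    (fun η hη => h1.mem_conjOrbit (h.1 ▸ (h1.of_mem_conjOrbit χ.isClassFunction hη).bar))
    fun η _ => Subtype.ext (star_star _)
  rw [← IrrCharacter.eq_one_of_real_of_odd (Nat.odd_iff.2 (Nat.two_dvd_ne_zero.1 hV))
    (η.real_iff_bar_eq.2 e)]
  exact h1.of_mem_conjOrbit χ.isClassFunction hη

end

theorem card_real {G H : Type u} [Group G] [Finite G] [Group H] [Finite H] [Group.IsSolvable G]
    (S : Sylow 2 G) {i : H →* G} (hi : Function.Injective i)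
    (hH : i.range = normalizer ((S : Subgroup G) : Set G)) :
    Nat.card {χ : IrrCharacter G // RO χ.1} = Nat.card {χ : IrrCharacter H // RO χ.1} := by
  induction hn : Nat.card G using Nat.strong_induction_on generalizing G H with | _ n ih
  have key : ∀ {G H V W : Type u} [Group G] [Finite G] [Group H] [Finite H] [Group.IsSolvable G]
      [Group V] [Finite V] [Nontrivial V] [Group W] [Finite W] (S : Sylow 2 G) {i : H →* G}
      (f : V →* G) [IsNormalEmb f] (j : W →* H) [IsNormalEmb j], Function.Injective i →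
      i.range = normalizer ((S : Subgroup G) : Set G) → j.range = f.range.comap i →
      Nat.card G ≤ n →
      Nat.card {χ : IrrCharacter G // RO χ.1 ∧ LiesOver f χ.1 (IrrCharacter.one V).1} =
      Nat.card {χ : IrrCharacter H // RO χ.1 ∧ LiesOver j χ.1 (IrrCharacter.one W).1} := by
    intro G H V W _ _ _ _ _ _ _ _ _ _ S i f hf j _ hi hH hj hn
    rw [card_liesOver_one (QuotientGroup.mk'_surjective _) (QuotientGroup.ker_mk' _),
      card_liesOver_one (π := ((QuotientGroup.mk' f.range).comp i).rangeRestrict)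
        (MonoidHom.rangeRestrict_surjective _) (by
          rw [MonoidHom.ker_rangeRestrict, ← MonoidHom.comap_ker, QuotientGroup.ker_mk', hj])]
    refine ih _ ((card_quotient_lt (MonoidHom.range_eq_bot_iff.not.2 fun e => ?_)).trans_le hn)
      (S.mapSurjective (QuotientGroup.mk'_surjective _)) (subtype_injective _) ?_ rfl
    · obtain ⟨v, hv⟩ := exists_ne (1 : V)
      exact hv (hf.1 (by simp [e]))
    · rw [range_subtype, MonoidHom.range_comp, hH, Sylow.coe_mapSurjective]
      refine comap_injective (QuotientGroup.mk'_surjective f.range) ?_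
      rw [comap_mk'_normalizer_map, comap_map_mk'_eq_sup, sup_comm (S : Subgroup G),
        normalizer_sup_sylow, sup_comm]
  subst hn
  have hSi : (S : Subgroup G) ≤ i.range := hH ▸ le_normalizer
  rcases subsingleton_or_nontrivial G with _ | _
  · have hπ : Function.Surjective i := fun g => ⟨1, Subsingleton.elim _ _⟩
    exact Nat.card_congr ((IrrCharacter.comapEquiv (MulEquiv.ofBijective i
      ⟨hi, hπ⟩)).subtypeEquiv fun χ => by
      simp only [RO, funext_iff, hπ.forall, ← charDegree_comp χ.1 i]; rfl)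
  obtain ⟨V, hV⟩ := exists_isMinNormal G
  haveI := hV.normal
  haveI := hV.nontrivial
  by_cases h2 : 2 ∣ Nat.card V
  swap
  · rw [← Nat.card_congr (Equiv.subtypeEquivRight fun χ => and_iff_left_of_imp
      (liesOver_one_of_odd V.subtype h2)), ← Nat.card_congr (Equiv.subtypeEquivRight fun χ =>
      and_iff_left_of_imp (liesOver_one_of_odd (V.comap i).subtype
        fun e => h2 (e.trans (card_comap_dvd_of_injective V i hi))))]
    exact key S _ _ hi hH (by simp) le_rfl
  haveI := hV.isMulCommutative_of_isSolvable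
  have h3 := hV.isElementaryAbelian_of_dvd h2
  have h4 : V ≤ S := h3.isPGroup.le_sylow_of_normal S
  let j : V →* H := (MonoidHom.ofInjective hi).symm.toMonoidHom.comp (inclusion (h4.trans hSi))
  have hj : ∀ v, i (j v) = V.subtype v := fun v => MonoidHom.apply_ofInjective_symm hi _
  haveI := IsNormalEmb.of_factor hi hj
  refine card_eq_card_of_conjOrbit V.subtype j
    (fun θ θ' => θ = θ' ∧ (S : Subgroup G) ≤ inertia V.subtype θ) (fun χ hχ => ?_) (fun ψ hψ => ?_)
    ?_ ?_
  · obtain ⟨θ, h5, h6⟩ := IrrCharacter.exists_liesOver_le_inertia V.subtype hχ.2 S.2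
    exact ⟨θ, θ, ⟨rfl, h6⟩, h5⟩
  · obtain ⟨θ, h5, h6⟩ := IrrCharacter.exists_liesOver_le_inertia j hψ.2
      (S.2.comap_of_injective i hi)
    refine ⟨θ, θ, ⟨rfl, fun x hx => ?_⟩, h5⟩
    obtain ⟨y, rfl⟩ := hSi hx
    exact (inertia_of_factor hj θ).le (h6 hx)
  · rintro θ _ η _ ⟨rfl, h5⟩ ⟨rfl, h6⟩
    exact mem_conjOrbit_iff_of_sylow_le S hH.ge hj h5 h6
  rintro θ _ ⟨rfl, h5⟩
  have h6 : ∀ v, θ v ^ 2 = 1 := fun v => by
    have h7 := θ.apply_one_eq_one_of_comm fun a b => mul_comm' a b
    rw [← show θ (v ^ 2) = _ from θ.isCharacter.map_pow_of_apply_one h7 v 2,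
      show v ^ 2 = 1 from Subtype.ext (h3.2 v v.2), h7]
  have h7 : star θ.1 = θ.1 := funext fun v => by
    rcases sq_eq_one_iff.1 (h6 v) with e | e <;> simp [show θ.1 v = _ from e]
  let T := inertia V.subtype θ
  have h8 : ¬ 2 ∣ (T.comap i).index := fun e => S.not_dvd_index
    ((e.trans (index_dvd_of_le (comap_mono h5))).trans (by
      rw [index_comap]; exact relIndex_dvd_index_of_le hSi))
  let j' := j.codRestrict (T.comap i) fun v => show i (j v) ∈ T from hj v ▸ map_mem_inertia _ θ v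
  let i' := i.subgroupComap T
  have hi' : Function.Injective i' := fun _ _ e => Subtype.ext (hi (congrArg Subtype.val e))
  have hj' : ∀ v, i' (j' v) = toInertia V.subtype θ v := fun v => Subtype.ext (hj v)
  have hH' : i'.range = normalizer ((S.subtype h5 : Subgroup T) : Set T) := by
    rw [Sylow.coe_subtype, ← subgroupOf_normalizer_eq h5, ← hH]
    exact Subgroup.ext fun x => ⟨fun ⟨y, e⟩ => ⟨y, congrArg Subtype.val e⟩, fun ⟨y, e⟩ =>
      ⟨⟨y, show i y ∈ T from (show i y = x from e) ▸ x.2⟩, Subtype.ext e⟩⟩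
  rw [card_clifford T.subtype_injective (j := toInertia V.subtype θ) (fun _ => rfl) h7
    (range_subtype _).ge (by rw [range_subtype]; exact not_dvd_index_of_sylow_le S h5),
    card_clifford (T.comap i).subtype_injective (j := j') (fun _ => rfl) h7
    (by rw [range_subtype, inertia_of_factor hj]) (by rwa [range_subtype])]
  by_cases h9 : ∃ δ : T →* ℂˣ, (∀ t, starRingEnd ℂ (δ t) = δ t) ∧
    ∀ v, θ v = δ (toInertia V.subtype θ v)
  · obtain ⟨δ, h9, h10⟩ := h9
    rw [← card_mul_linear h9 h10, ← card_mul_linear (δ := δ.comp i') (fun t => h9 _)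
      fun v => by rw [h10, ← hj']; rfl]
    haveI := IsNormalEmb.of_factor hi' hj'
    refine key (S.subtype h5) _ _ hi' hH' (Subgroup.ext fun x => ⟨fun ⟨v, e⟩ =>
      ⟨v, by rw [← hj', e]⟩, fun ⟨v, e⟩ => ⟨v, hi' (by rw [hj', e])⟩⟩) (T.card_le_card_group)
  have hu : ∀ χ : IrrCharacter T, LiesOver (toInertia V.subtype θ) χ.1 θ.1 → ∀ θ',
      LiesOver (toInertia V.subtype θ) χ.1 θ'.1 → θ' = θ := fun χ e θ' e' => by
    simpa [conjOrbit_eq_singleton (inertia_toInertia V.subtype θ)] using e.mem_conjOrbit e'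
  rw [Nat.card_eq_zero.2 (Or.inl ⟨fun χ => h9 (exists_real_linear h6 χ.1.isCharacter χ.2.1
    (hu _ χ.2.2))⟩), Nat.card_eq_zero.2 (Or.inl ⟨fun ψ => h9 (exists_real_linear h6
    (ψ.1.isCharacter.ind i') ⟨by rw [← ind_star, ψ.2.1.1], ?_⟩ fun θ' e => ?_)⟩)]
  · rw [ψ.1.isCharacter.charDegree_ind hi', Nat.prime_two.dvd_mul, hH']
    exact not_or.2 ⟨not_dvd_index_of_sylow_le _ le_normalizer, ψ.2.1.2⟩
  · obtain ⟨χ, e1, e2⟩ := e.exists_constituent (ind_isClassFunction _ _)
    exact hu χ (((liesOver_iff_ip_ind χ.isClassFunction _).2 e1).trans_of_eq hj' χ.isCharacter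
      θ.isCharacter ψ.2.2) θ' e2

theorem forall_iff_card {α : Type*} [Finite α] {p q : α → Prop} :
    (∀ a, q a → p a) ↔ Nat.card {a // p a ∧ q a} = Nat.card {a // q a} :=
  ⟨fun h => Nat.card_congr (Equiv.subtypeEquivRight fun a => and_iff_right_of_imp (h a)),
    fun h a ha => by
      obtain ⟨b, hb⟩ := ((Nat.bijective_iff_injective_and_card
        (Subtype.map id (fun _ h => h.2) : {a // p a ∧ q a} → {a // q a})).2
        ⟨Subtype.map_injective _ Function.injective_id, h⟩).2 ⟨a, ha⟩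
      exact (show b.1 = a from congrArg Subtype.val hb) ▸ b.2.1⟩

theorem real_iff {A : Type*} [Group A] (χ : IrrCharacter A) :
    (∀ g, (χ.1 g).im = 0) ↔ star χ.1 = χ.1 := by
  simp [funext_iff, Complex.conj_eq_iff_im]

theorem pGroup_iff {Q : Type*} [Group Q] [Finite Q] (hQ : IsPGroup 2 Q) : (∀ ψ : IrrCharacter Q,
    ¬ 2 ∣ charDegree ψ.1 → star ψ.1 = ψ.1) ↔ commutator Q = frattini Q := by
  refine ⟨fun h => le_antisymm (IsPGroup.commutator_le_frattini hQ)
    ((IsPGroup.frattini_le_iff hQ).2 ⟨le_rfl, fun x => mem_commutator_iff_forall_linear.2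
      fun l => Units.ext ?_⟩), fun h ψ hψ => funext fun x => ?_⟩
  · have : starRingEnd ℂ (l x) = l x := congrFun (h (.ofLinear l) (by simp)) x
    simpa [sq, this] using linear_mul_conj_apply l x
  · obtain ⟨l, rfl⟩ := IrrCharacter.exists_ofLinear_eq_of_charDegree
      (IrrCharacter.charDegree_eq_one_of_le_charKer hψ bot_le (hQ.to_quotient _))
    have := linear_apply_of_mem_commutator l (h ▸ IsPGroup.pow_mem_frattini hQ x)
    rw [map_pow, sq, ← eq_inv_iff_mul_eq_one] at this
    exact (linear_conj_apply l x).trans (by simpa using (congrArg Units.val this).symm)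

/-- Let G be a finite solvable group, P a Sylow 2-subgroup and N its normalizer. Then G and N have the same number of real-valued irreducible characters of odd degree; and every odd-degree irreducible character of G is real-valued exactly when the derived subgroup of P equals the Frattini subgroup of P and P is its own normalizer in G. -/
theorem result {G : Type*} [Group G] [Finite G] [Group.IsSolvable G] (P : Sylow 2 G) :
    Nat.card {χ : Cfsg.IrrCharacter G // (∀ g : G, ((χ : G → ℂ) g).im = 0) ∧ Odd (Cfsg.charDegree (χ : G → ℂ))} =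
      Nat.card {ψ : Cfsg.IrrCharacter (Subgroup.normalizer ((P : Subgroup G) : Set G)) // (∀ g, ((ψ : Subgroup.normalizer ((P : Subgroup G) : Set G) → ℂ) g).im = 0) ∧ Odd (Cfsg.charDegree (ψ : Subgroup.normalizer ((P : Subgroup G) : Set G) → ℂ))} ∧
    ((∀ χ : Cfsg.IrrCharacter G, Odd (Cfsg.charDegree (χ : G → ℂ)) → ∀ g : G, ((χ : G → ℂ) g).im = 0) ↔
      (commutator (P : Subgroup G) = frattini (P : Subgroup G) ∧ Subgroup.normalizer ((P : Subgroup G) : Set G) = (P : Subgroup G))) := by
  simp only [real_iff, Nat.odd_iff, ← Nat.two_dvd_ne_zero]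
  have h1 := card_real P (subtype_injective _) (range_subtype _)
  refine ⟨h1, ?_⟩
  rw [forall_iff_card, h1, (isPSolvable_of_isSolvable 2 G).card_pPrime_eq P, ← forall_iff_card]
  refine ⟨fun h => ?_, fun ⟨h2, h3⟩ => by rw [h3]; exact (pGroup_iff P.2).2 h2⟩
  have h3 : normalizer ((P : Subgroup G) : Set G) = P := by
    refine le_antisymm (subgroupOf_eq_top.1 (eq_top_iff.2 fun x _ => ?_)) le_normalizer
    have h4 : ¬ 2 ∣ Nat.card (_ ⧸ (P : Subgroup G).subgroupOf (normalizer ((P : Subgroup G) : Set G))) :=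
      (P.subtype le_normalizer).not_dvd_index
    refine (QuotientGroup.eq_one_iff x).1 (eq_one_iff_forall_irr.2 fun β => ?_)
    rw [IrrCharacter.eq_one_of_real_of_odd (Nat.odd_iff.2 (Nat.two_dvd_ne_zero.1 h4)) (χ := β)
      fun q => by
        obtain ⟨y, rfl⟩ := QuotientGroup.mk'_surjective _ q
        exact (real_iff _).2 (h (β.inflate _ (QuotientGroup.mk'_surjective _)) fun d =>
          h4 ((d.trans (charDegree_comp β.1 _).dvd).trans β.charDegree_dvd_card)) y]
    rfl
  rw [h3] at h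
  exact ⟨(pGroup_iff P.2).1 h, h3⟩

end Cfsg.Agent.S4581

set_option linter.all false in
theorem Cfsg.Rz.S4581_0 : True := by
  have := @_root_.Cfsg.Agent.S4581.RO.eq_def.{0}
  have := @_root_.Cfsg.Agent.S4581.RO.eq_1.{0}
  have := @_root_.Cfsg.Agent.S4581.RO.fun_cases
  trivial
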