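import Cfsg.Statements.S4582
import Cfsg.Agent.Grp.Misc

set_option autoImplicit false
open Cfsg

namespace Cfsg.Agent.S4582

open Subgroup

theorem transfer_div_mem {G A : Type*} [Group G] [CommGroup A] {H : Subgroup G} [H.FiniteIndex]
    (φ : H →* A) (B : Subgroup A) (x : H)
    (h : ∀ (k : ℕ) (g : G) (hg : g⁻¹ * (x : G) ^ k * g ∈ H), φ ⟨_, hg⟩ / φ x ^ k ∈ B) :
    MonoidHom.transfer φ x / φ x ^ H.index ∈ B := by
  have : Fintype (Quotient (MulAction.orbitRel (zpowers (x : G)) (G ⧸ H))) := Fintype.ofFinite _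
  rw [index_eq_sum_minimalPeriod H x, ← Finset.prod_pow_eq_pow_sum,
    MonoidHom.transfer_eq_prod_quotient_orbitRel_zpowers_quot, ← Finset.prod_div_distrib]
  exact B.prod_mem fun q _ => h _ _ _

/-- Let N be a normal subgroup of the finite group G, P a Sylow 2-subgroup of G and Q = P ∩ N. Suppose that P/QP' and Q/Q' are elementary abelian (every square of an element of P lies in the subgroup generated by Q and the derived subgroup of P, and every square of an element of Q lies in the derived subgroup of Q), and that the commutator factor group N/N' has odd order. Then P/P' is elementary abelian. -/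
theorem result {G : Type*} [Group G] [Finite G] (N : Subgroup G) [N.Normal] (P : Sylow 2 G)
    (hP : ∀ x ∈ (P : Subgroup G), x ^ 2 ∈ ((P : Subgroup G) ⊓ N) ⊔ ⁅(P : Subgroup G), (P : Subgroup G)⁆)
    (hQ : ∀ x ∈ (P : Subgroup G) ⊓ N, x ^ 2 ∈ ⁅(P : Subgroup G) ⊓ N, (P : Subgroup G) ⊓ N⁆)
    (hodd : Odd (Nat.card (Abelianization N))) :
    ∀ x ∈ (P : Subgroup G), x ^ 2 ∈ ⁅(P : Subgroup G), (P : Subgroup G)⁆ := by
  intro x hx
  set G₀ : Subgroup G := (P : Subgroup G) ⊔ N with hG₀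
  have hPG : (P : Subgroup G) ≤ G₀ := le_sup_left
  have hNG : N ≤ G₀ := le_sup_right
  let π : (P : Subgroup G) →* Abelianization (P : Subgroup G) := Abelianization.of
  have hπ : ∀ y : (P : Subgroup G), π y = 1 ↔ (y : G) ∈ ⁅(P : Subgroup G), (P : Subgroup G)⁆ :=
    fun y => by
      rw [← map_subtype_commutator]
      exact (QuotientGroup.eq_one_iff _).trans (mem_map_iff_mem (subtype_injective _)).symm
  let φ := π.comp (subgroupOfEquivOfLe hPG).toMonoidHom
  let B := (N.subgroupOf (P : Subgroup G)).map π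
  have hB : ∀ b ∈ B, b ^ 2 = 1 := by
    rintro _ ⟨q, hq, rfl⟩
    rw [← map_pow, hπ]
    exact commutator_mono inf_le_left inf_le_left (hQ q ⟨q.2, hq⟩)
  let V := MonoidHom.transfer φ
  have hVN : ∀ n : N, V (inclusion hNG n) = 1 := fun n => by
    have h1 : orderOf (Abelianization.lift (V.comp (inclusion hNG)) (Abelianization.of n)) ∣
        Nat.card (Abelianization N) := (orderOf_map_dvd _ _).trans (orderOf_dvd_natCard _)
    obtain ⟨k, hk⟩ := IsPGroup.iff_orderOf.mp (P.isPGroup'.to_quotient (commutator _))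
      (V (inclusion hNG n))
    refine orderOf_eq_one_iff.mp (Nat.eq_one_of_dvd_coprimes
      (Nat.Coprime.pow_left k (Nat.coprime_two_left.mpr hodd)) hk.dvd h1)
  have h1 := transfer_div_mem φ B ⟨⟨x, hPG hx⟩, hx⟩ fun k g hg => by
    obtain ⟨u, hu, n, hn, e⟩ := (mem_sup_of_le_normalizer le_normalizer_of_normal).mp g.2
    have h2 : u⁻¹ * x ^ k * u ∈ (P : Subgroup G) := mul_mem (mul_mem (inv_mem hu) (pow_mem hx k)) hu
    have hg' : (g : G)⁻¹ * x ^ k * g ∈ (P : Subgroup G) := hg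
    refine ⟨⟨(g : G)⁻¹ * x ^ k * g, hg'⟩ * ⟨u⁻¹ * x ^ k * u, h2⟩⁻¹, ?_, ?_⟩
    · change (g : G)⁻¹ * x ^ k * g * (u⁻¹ * x ^ k * u)⁻¹ ∈ N
      convert mul_mem (inv_mem hn) (Normal.conj_mem inferInstance _ hn (u⁻¹ * x ^ k * u)) using 1
      rw [← e]; group
    · rw [map_mul, map_inv, div_eq_mul_inv]
      have e2 : π (⟨u, hu⟩⁻¹ * ⟨x, hx⟩ ^ k * ⟨u, hu⟩) = π ⟨x, hx⟩ ^ k := by
        rw [map_mul, map_mul, map_inv, map_pow, mul_comm, mul_inv_cancel_left]
      exact congrArg (fun z => π ⟨(g : G)⁻¹ * x ^ k * g, hg'⟩ * z⁻¹) e2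
  have h2 := hB _ h1
  obtain ⟨q, hq, d, hd, e⟩ := (mem_sup_of_le_normalizer (inf_le_left.trans
    (normalizer_commutator_ge_left _ _))).mp (hP x hx)
  have hdP : d ∈ (P : Subgroup G) := commutator_le_self _ hd
  have h3 : V ⟨x, hPG hx⟩ ^ 2 = 1 := by
    rw [← map_pow, show (⟨x, hPG hx⟩ : G₀) ^ 2 = inclusion hNG ⟨q, hq.2⟩ * ⟨d, hPG hdP⟩ from
      Subtype.ext e.symm, map_mul, hVN, one_mul]
    refine Abelianization.commutator_subset_ker V ?_
    rw [← mem_map_iff_mem G₀.subtype_injective, map_subtype_commutator]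
    exact commutator_mono hPG hPG hd
  rw [div_pow, h3, one_div, inv_eq_one, ← pow_mul, mul_comm, pow_mul] at h2
  have h4 : (φ ⟨⟨x, hPG hx⟩, hx⟩ ^ 2) ^ 2 = 1 := by
    refine hB _ ⟨⟨q, hq.1⟩, hq.2, ?_⟩
    change π ⟨q, hq.1⟩ = π ⟨x, hx⟩ ^ 2
    rw [← map_pow, show (⟨x, hx⟩ : (P : Subgroup G)) ^ 2 = ⟨q, hq.1⟩ * ⟨d, hdP⟩ from
      Subtype.ext e.symm, map_mul, (hπ ⟨d, hdP⟩).mpr hd, mul_one]
  have h5 : ¬ 2 ∣ ((P : Subgroup G).subgroupOf G₀).index :=
    fun h => P.not_dvd_index (h.trans (relIndex_dvd_index_of_le hPG))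
  exact (hπ (⟨x, hx⟩ ^ 2)).mp ((map_pow π _ 2).trans (orderOf_eq_one_iff.mp
    (Nat.eq_one_of_dvd_coprimes (Nat.prime_two.coprime_iff_not_dvd.mpr h5)
      (orderOf_dvd_of_pow_eq_one h4) (orderOf_dvd_of_pow_eq_one h2))))

end Cfsg.Agent.S4582
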