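import Cfsg.Statements.S4583
import Cfsg.Agent.Blk.PrinInd
-- import your own Cfsg.Agent.* helpers here

set_option autoImplicit false
open Cfsg

namespace Cfsg.Agent.S4583

/-- Let N be a normal subgroup of the finite group G, p a prime, M a maximal ideal of the algebraic integers containing p, and P a Sylow p-subgroup of G. Let θ be an irreducible character of N of degree prime to p lying in the principal p-block of N, and suppose θ extends to the subgroup NP (some irreducible character of NP restricts to θ). Then some irreducible character χ of G of degree prime to p in the principal p-block of G lies over θ (θ is a constituent of the restriction of χ to N). -/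
theorem result {G : Type*} [Group G] [Finite G] (N : Subgroup G) [N.Normal] (p : ℕ) [Fact p.Prime] (M : Ideal Cfsg.AlgInt) (hM : Cfsg.IsPModular p M) (P : Sylow p G)
    (θ : Cfsg.IrrCharacter N) (hθ : θ ∈ Cfsg.principalBlock M N) (hdeg : ¬ p ∣ Cfsg.charDegree (θ : N → ℂ))
    (hext : ∃ η : Cfsg.IrrCharacter ↥(N ⊔ (P : Subgroup G)), ∀ n : N, (η : ↥(N ⊔ (P : Subgroup G)) → ℂ) (Subgroup.inclusion le_sup_left n) = (θ : N → ℂ) n) :
    ∃ χ : Cfsg.IrrCharacter G, χ ∈ Cfsg.principalBlock M G ∧ ¬ p ∣ Cfsg.charDegree (χ : G → ℂ) ∧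
      haveI := Fintype.ofFinite N; Cfsg.classInner (fun n : N => (χ : G → ℂ) n) (θ : N → ℂ) ≠ 0 := by
  obtain ⟨η, hη⟩ := hext
  have h1 : η.1 ∘ Subgroup.inclusion (le_sup_left : N ≤ N ⊔ (P : Subgroup G)) = θ.1 := funext hη
  have h2 : η ∈ principalBlock M ↥(N ⊔ (P : Subgroup G)) := by
    rw [principalBlock_eq_irrOver_of_pow_mem hM
      (f := Subgroup.inclusion (le_sup_left : N ≤ N ⊔ (P : Subgroup G))) fun x => ?_]
    · exact ⟨θ, hθ, liesOver_of_comp_eq h1⟩
    · obtain ⟨n, hn, u, hu, e⟩ := Subgroup.mem_sup_of_normal_left.1 x.2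
      obtain ⟨k, hk⟩ := P.isPGroup' ⟨u, hu⟩
      refine ⟨k, ⟨⟨(x : G) ^ p ^ k, ?_⟩, rfl⟩⟩
      rw [← QuotientGroup.eq_one_iff, QuotientGroup.mk_pow, ← e, QuotientGroup.mk_mul,
        (QuotientGroup.eq_one_iff n).2 hn, one_mul, ← QuotientGroup.mk_pow]
      have : u ^ p ^ k = 1 := congrArg Subtype.val hk
      rw [this, QuotientGroup.mk_one]
  obtain ⟨χ, h3, h4, h5⟩ := exists_principalBlock_liesOver_of_not_dvd hM
    (N ⊔ (P : Subgroup G)).subtype_injective (by
      rw [Subgroup.range_subtype]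
      exact fun h => P.not_dvd_index (h.trans (Subgroup.index_dvd_of_le le_sup_right))) h2
    (by rwa [← charDegree_comp η.1 (Subgroup.inclusion le_sup_left), h1])
  refine ⟨χ, h3, h4, ?_⟩
  letI := Fintype.ofFinite N
  exact (liesOver_iff_classInner N.subtype χ.1 θ.1).1
    (LiesOver.trans_of_eq (fun _ => rfl) χ.isCharacter θ.isCharacter h5 (liesOver_of_comp_eq h1))

end Cfsg.Agent.S4583
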