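import Cfsg.Statements.S4584
import Cfsg.Agent.Grp.CommCount

set_option autoImplicit false
open Cfsg

namespace Cfsg.Agent.S4584

/-- Let p be a prime and P a group of order p^4. Then the derived subgroup P' has order p if and only if the centre Z(P) has index p^2 in P. -/
theorem result {P : Type*} [Group P] [Finite P] (p : ℕ) [Fact p.Prime] (hP : Nat.card P = p ^ 4) :
    Nat.card (commutator P) = p ↔ (Subgroup.center P).index = p ^ 2 := by
  have hp : p.Prime := Fact.out
  have hG : IsPGroup p P := IsPGroup.of_card hP
  constructor
  · intro h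
    have hna : ¬ IsMulCommutative P := fun hc => by
      rw [_root_.commutator_eq_bot, Subgroup.card_bot] at h
      exact hp.one_lt.ne h
    have h2 := IsPGroup.sq_dvd_index_center hG hna
    have hidx : ∀ w : P, w ∉ Subgroup.center P → (Subgroup.centralizer {w}).index = p := by
      intro w hw
      obtain ⟨k, hk⟩ := hG.index (Subgroup.centralizer {w})
      have h3 := index_centralizer_le_card_commutator w
      rw [h, hk] at h3
      rcases k with _ | k
      · exact absurd (Subgroup.centralizer_eq_top_iff_subset.mp (Subgroup.index_eq_one.mp hk)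
          (Set.mem_singleton w)) hw
      · have : k + 1 ≤ 1 := (Nat.pow_le_pow_iff_right hp.one_lt).mp (by rwa [pow_one])
        rw [hk, show k = 0 by omega, zero_add, pow_one]
    obtain ⟨x, y, hxy⟩ : ∃ x y : P, x * y ≠ y * x := by
      by_contra! hc
      exact hna ⟨⟨hc⟩⟩
    have hx : x ∉ Subgroup.center P := fun hx => hxy (Subgroup.mem_center_iff.mp hx y).symm
    have hy : y ∉ Subgroup.center P := fun hy => hxy (Subgroup.mem_center_iff.mp hy x)
    have h4 : (Subgroup.centralizer {x} ⊓ Subgroup.centralizer {y}).index ≤ p ^ 2 := by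
      rw [pow_two]
      exact Subgroup.index_inf_le.trans (by rw [hidx x hx, hidx y hy])
    refine le_antisymm (h4.trans' (Nat.le_of_dvd (index_pos _) (Subgroup.index_dvd_of_le (fun w hw => ?_))))
      (Nat.le_of_dvd (index_pos _) h2)
    by_contra hwZ
    have h5 : (Subgroup.center P).index ∣ p ^ 3 := by
      have := Subgroup.card_mul_index (Subgroup.center P)
      obtain ⟨k, hk, e⟩ := IsPGroup.card_center_eq_prime_pow hP (by norm_num)
      obtain ⟨k, rfl⟩ := Nat.exists_eq_add_of_lt hk
      rw [e, hP, zero_add, pow_succ', mul_assoc, pow_succ' p 3,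
        Nat.mul_right_inj hp.ne_zero] at this
      exact Dvd.intro_left _ this
    have hle : Subgroup.zpowers w ⊔ Subgroup.center P ≤ Subgroup.centralizer {w} :=
      sup_le (Subgroup.zpowers_le.mpr (Subgroup.mem_centralizer_singleton_iff.mpr rfl))
        (Subgroup.center_le_centralizer _)
    have hcomm : IsMulCommutative (Subgroup.centralizer ({w} : Set P)) := by
      have hc : Subgroup.zpowers w ⊔ Subgroup.center P ≤
          Subgroup.centralizer (Subgroup.centralizer ({w} : Set P) : Set P) :=
        sup_le (Subgroup.le_centralizer_iff.mp (centralizer_zpowers w).ge)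
          (Subgroup.center_le_centralizer _)
      obtain ⟨a, ha⟩ := (hG.to_subgroup _).index ((Subgroup.center P).subgroupOf
        (Subgroup.zpowers w ⊔ Subgroup.center P))
      obtain ⟨b, hb⟩ := (hG.to_subgroup _).index ((Subgroup.zpowers w ⊔
        Subgroup.center P).subgroupOf (Subgroup.centralizer ({w} : Set P)))
      change Subgroup.relIndex _ _ = _ at ha hb
      rw [← Subgroup.relIndex_mul_index (le_sup_right.trans hle), hidx w hwZ,
        ← Subgroup.relIndex_mul_relIndex _ _ _ le_sup_right hle, ha, hb, ← pow_add, ← pow_succ,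
        Nat.pow_dvd_pow_iff_le_right hp.one_lt] at h5
      have ha0 : a ≠ 0 := by
        rintro rfl
        exact hwZ (Subgroup.relIndex_eq_one.mp ha (Subgroup.mem_sup_left (Subgroup.mem_zpowers w)))
      rcases (show b = 0 ∨ b = 1 by omega) with rfl | rfl
      · exact Subgroup.le_centralizer_iff_isMulCommutative.mp
          ((Subgroup.relIndex_eq_one.mp hb).trans hc)
      · exact isMulCommutative_of_prime_relIndex hc hle (by rwa [hb, pow_one])
    exact hxy (isMulCommutative_iff_forall.mp hcomm x
      (Subgroup.mem_centralizer_singleton_iff.mpr (Subgroup.mem_centralizer_singleton_iff.mp hw.1).symm)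
      y (Subgroup.mem_centralizer_singleton_iff.mpr
        (Subgroup.mem_centralizer_singleton_iff.mp hw.2).symm))
  · intro h
    have hZ : Nat.card (Subgroup.center P) = p ^ 2 := by
      have := Subgroup.card_mul_index (Subgroup.center P)
      rw [h, hP, show 4 = 2 + 2 by rfl, pow_add] at this
      exact Nat.eq_of_mul_eq_mul_right (pow_pos hp.pos 2) this
    have hne : Subgroup.center P ≠ ⊤ := fun e => by
      rw [e, Subgroup.index_top] at h
      exact (Nat.one_lt_pow two_ne_zero hp.one_lt).ne h
    obtain ⟨A, hZA, hA, hi⟩ := IsPGroup.exists_index_eq_ge hG hne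
    have h1 : (Subgroup.center P).relIndex A = p := by
      have := Subgroup.relIndex_mul_index hZA
      rw [hi, h, pow_two] at this
      exact Nat.eq_of_mul_eq_mul_right hp.pos this
    have := isMulCommutative_of_prime_relIndex (Subgroup.center_le_centralizer _) hZA (h1 ▸ hp)
    have : IsCyclic (P ⧸ A) := isCyclic_of_prime_card hi
    have h2 := card_commutator_mul_of_isCyclic_quotient A
    rw [inf_eq_right.mpr hZA, ← card_mul_relIndex hZA, h1, mul_comm] at h2
    exact Nat.eq_of_mul_eq_mul_left Nat.card_pos h2

end Cfsg.Agent.S4584
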