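import Cfsg.Statements.S4585
import Cfsg.Agent.S4584

set_option autoImplicit false
open Cfsg

namespace Cfsg.Agent.S4585

/-- Let p be a prime and P a group of order p^4. Then P' has index p^2 in P if and only if P has maximal nilpotency class, that is, nilpotency class exactly 3. -/
theorem result {P : Type*} [Group P] [Finite P] (p : ℕ) [Fact p.Prime] (hP : Nat.card P = p ^ 4) :
    (commutator P).index = p ^ 2 ↔ Group.nilpotencyClass P = 3 := by
  have hp : p.Prime := Fact.out
  have hG : IsPGroup p P := IsPGroup.of_card hP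
  have := hG.isNilpotent
  have hcard : ∀ H : Subgroup P, H.index = p ^ 2 ↔ Nat.card H = p ^ 2 := fun H => by
    have h1 := Subgroup.card_mul_index H
    rw [hP, show 4 = 2 + 2 by rfl, pow_add] at h1
    exact ⟨fun h => Nat.eq_of_mul_eq_mul_right (pow_pos hp.pos 2) (h ▸ h1),
      fun h => Nat.eq_of_mul_eq_mul_left (pow_pos hp.pos 2) (h ▸ h1)⟩
  have hlt : ∀ {H K : Subgroup P}, H < K → p * Nat.card H ≤ Nat.card K := fun {H K} h => by
    obtain ⟨k, hk⟩ := (hG.to_subgroup K).index (H.subgroupOf K)
    change H.relIndex K = _ at hk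
    rcases k with _ | k
    · exact absurd (Subgroup.relIndex_eq_one.mp hk) h.not_ge
    · rw [← card_mul_relIndex h.le, hk, mul_comm, pow_succ']
      exact Nat.mul_le_mul_left _ (Nat.le_mul_of_pos_right _ (pow_pos hp.pos k))
  have h1 : ∀ n, Group.nilpotencyClass P ≤ n ↔ (⊤ : Subgroup P).lowerCentralSeries n = ⊥ :=
    fun n => Subgroup.lowerCentralSeries_eq_bot_iff_nilpotencyClass_le.symm
  have e2 : (⊤ : Subgroup P).lowerCentralSeries 2 = ⁅commutator P, (⊤ : Subgroup P)⁆ := rfl
  have e3 : (⊤ : Subgroup P).lowerCentralSeries 3 =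
    ⁅⁅commutator P, (⊤ : Subgroup P)⁆, (⊤ : Subgroup P)⁆ := rfl
  constructor
  · intro h
    have hc := (hcard _).mp h
    have hne : commutator P ≠ ⊥ := fun e => by
      rw [e, Subgroup.card_bot] at hc
      exact (Nat.one_lt_pow two_ne_zero hp.one_lt).ne hc
    refine le_antisymm ((h1 3).mpr ?_) (Nat.succ_le_of_lt (lt_of_not_ge fun h2 => ?_))
    · rw [e3]
      by_cases h0 : ⁅commutator P, (⊤ : Subgroup P)⁆ = ⊥
      · rw [h0, Subgroup.commutator_bot_left]
      have h3 := hlt (commutator_lt_of_isNilpotent hne)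
      have h4 := hlt (commutator_lt_of_isNilpotent h0)
      rw [hc, pow_two] at h3
      have h5 := h4.trans (Nat.le_of_mul_le_mul_left h3 hp.pos)
      rw [← Subgroup.card_le_one_iff_eq_bot]
      exact Nat.le_of_mul_le_mul_left (by rwa [mul_one]) hp.pos
    · rw [h1, e2, Subgroup.commutator_top_right_eq_bot_iff_le_center] at h2
      have h3 : (Subgroup.center P).index = p ^ 2 :=
        Nat.dvd_antisymm (h ▸ Subgroup.index_dvd_of_le h2) (IsPGroup.sq_dvd_index_center hG
          fun _ => hne (_root_.commutator_eq_bot P))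
      rw [(Cfsg.Agent.S4584.result p hP).mpr h3] at hc
      exact absurd (Nat.pow_right_injective hp.two_le ((pow_one p).trans hc)) (by norm_num)
  · intro h
    have h2 : ⁅commutator P, (⊤ : Subgroup P)⁆ ≠ ⊥ := fun e => by
      have := (h1 2).mpr (e2.trans e)
      omega
    have hne : commutator P ≠ ⊥ := fun e => h2 (by rw [e, Subgroup.commutator_bot_left])
    have h3 := hlt (commutator_lt_of_isNilpotent hne)
    have h4 := hlt (bot_lt_iff_ne_bot.mpr h2)
    rw [Subgroup.card_bot, mul_one] at h4
    have h5 : p ^ 2 ≤ Nat.card (commutator P) := by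
      rw [pow_two]; exact (Nat.mul_le_mul_left p h4).trans h3
    have h6 := IsPGroup.sq_dvd_index_commutator hG fun hc =>
      hne (have := hc.isMulCommutative; _root_.commutator_eq_bot P)
    refine le_antisymm ?_ (Nat.le_of_dvd (index_pos _) h6)
    have h7 := Subgroup.card_mul_index (commutator P)
    rw [hP, show 4 = 2 + 2 by rfl, pow_add] at h7
    exact Nat.le_of_mul_le_mul_left ((Nat.mul_le_mul_right _ h5).trans h7.le) (pow_pos hp.pos 2)

end Cfsg.Agent.S4585
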