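import Cfsg.Statements.S4586
import Cfsg.Agent.Grp.CommCount

set_option autoImplicit false
open Cfsg

namespace Cfsg.Agent.S4586

open Subgroup in
theorem key {P : Type*} [Group P] [Finite P] {p : ℕ} (hp : p.Prime) (N : Subgroup P) [N.Normal]
    (hN : N.index = p) (x : P) (hx : x ∉ N) :
    (commutator P).index * Nat.card (commutator N) =
      p * Nat.card {n : N // x * n * x⁻¹ * (n : P)⁻¹ ∈ (commutator N).map N.subtype} := by
  set D := (commutator N).map N.subtype with hD
  have hD' : D = ⁅N, N⁆ := map_subtype_commutator N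
  have : D.Normal := hD' ▸ inferInstance
  have hsurj := QuotientGroup.mk'_surjective D
  have hDN : D ≤ N := map_subtype_le _
  have : (N.map (QuotientGroup.mk' D)).Normal := Normal.map inferInstance _ hsurj
  have : IsMulCommutative (N.map (QuotientGroup.mk' D)) := by
    rw [← commutator_self_eq_bot_iff, ← map_commutator, map_mk'_eq_bot_iff, hD']
  have h1 := card_commutator_mul_of_zpowers_sup (A := N.map (QuotientGroup.mk' D))
    (x := QuotientGroup.mk' D x) (by
      rw [← MonoidHom.map_zpowers, ← Subgroup.map_sup,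
        zpowers_sup_eq_top_of_prime_index (hN ▸ hp) hx, map_top_of_surjective _ hsurj])
  have h2 : Nat.card {n : N // x * n * x⁻¹ * (n : P)⁻¹ ∈ D} =
      Nat.card (N.map (QuotientGroup.mk' D) ⊓ centralizer {QuotientGroup.mk' D x} : Subgroup _) *
        Nat.card D := by
    rw [← card_comap_mk', comap_inf, comap_map_mk'_eq_sup, sup_eq_left.mpr hDN, inf_comm,
      ← card_subgroupOf]
    refine Nat.card_congr (Equiv.subtypeEquivRight fun n => ?_)
    rw [mem_subgroupOf, mem_comap, mem_centralizer_singleton_iff, eq_comm,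
      ← commutatorElement_eq_one_iff_mul_comm, ← map_commutatorElement, ← MonoidHom.mem_ker,
      QuotientGroup.ker_mk']
    rfl
  have hDP : D ≤ commutator P := hD' ▸ commutator_mono le_top le_top
  have h3 : Nat.card (commutator (P ⧸ D)) = D.relIndex (commutator P) := by
    rw [← card_map_mk'_eq_relIndex, _root_.commutator_def, _root_.commutator_def, map_commutator,
      map_top_of_surjective _ hsurj]
  rw [h3, card_map_mk'_eq_relIndex] at h1
  rw [h2, ← card_map_subtype, ← hD, ← mul_assoc, ← hN]
  congr 1
  refine Nat.eq_of_mul_eq_mul_left (relIndex_pos D (commutator P)) ?_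
  rw [relIndex_mul_index hDP, mul_left_comm, h1, mul_comm, relIndex_mul_index hDN]

/-- Let p be a prime, P a finite p-group and N a normal subgroup of P of index p. For x ∈ P write c(x) for the number of elements n of N whose commutator x n x⁻¹ n⁻¹ lies in the derived subgroup N' (so c(x)/#N' is the order of the centralizer of x acting on N/N'). Then [P : P'] = p² if and only if c(x) = p·#N' for every x ∈ P outside N, and also if and only if c(x) = p·#N' for some x ∈ P outside N. -/
theorem result {P : Type*} [Group P] [Finite P] (p : ℕ) [Fact p.Prime] (hP : IsPGroup p P) (N : Subgroup P) [N.Normal] (hN : N.index = p) :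
    ((commutator P).index = p ^ 2 ↔ ∀ x : P, x ∉ N →
        Nat.card {n : N // x * n * x⁻¹ * (n : P)⁻¹ ∈ (commutator N).map N.subtype} = p * Nat.card (commutator N)) ∧
    ((commutator P).index = p ^ 2 ↔ ∃ x : P, x ∉ N ∧
        Nat.card {n : N // x * n * x⁻¹ * (n : P)⁻¹ ∈ (commutator N).map N.subtype} = p * Nat.card (commutator N)) := by
  have hp : p.Prime := Fact.out
  have h1 : ∀ x : P, x ∉ N → ((commutator P).index = p ^ 2 ↔
      Nat.card {n : N // x * n * x⁻¹ * (n : P)⁻¹ ∈ (commutator N).map N.subtype} =
        p * Nat.card (commutator N)) := fun x hx => by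
    have := key hp N hN x hx
    constructor
    · intro h
      rw [h, pow_two, mul_assoc] at this
      exact (Nat.eq_of_mul_eq_mul_left hp.pos this).symm
    · intro h
      rw [h, ← mul_assoc, ← pow_two] at this
      exact Nat.eq_of_mul_eq_mul_right Nat.card_pos this
  obtain ⟨x, -, hx⟩ := SetLike.exists_of_lt (show N < ⊤ from lt_top_iff_ne_top.mpr fun e =>
    hp.one_lt.ne' (by rw [← hN, e, Subgroup.index_top]))
  exact ⟨⟨fun h y hy => (h1 y hy).mp h, fun h => (h1 x hx).mpr (h x hx)⟩,
    ⟨fun h => ⟨x, hx, (h1 x hx).mp h⟩, fun ⟨y, hy, h⟩ => (h1 y hy).mpr h⟩⟩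

end Cfsg.Agent.S4586
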