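import Cfsg.Statements.S4587
import Cfsg.Agent.Grp.Tate
import Cfsg.Agent.Grp.CommCount
import Cfsg.Agent.Grp.PSolvable

set_option autoImplicit false
open Cfsg

namespace Cfsg.Agent.S4587

open Subgroup

section
universe u
variable {G : Type u} [Group G] [Finite G] {p : ℕ} [hp : Fact p.Prime]

/-- In a `p`-group, if `K X'` has index dividing `p` then `X' ≤ K`. -/
theorem commutator_le_of_index (hX : IsPGroup p G) (K : Subgroup G) [K.Normal]
    (h : (commutator G ⊔ K).index ∣ p) : commutator G ≤ K := by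
  have h1 : (commutator (G ⧸ K)).index = (commutator G ⊔ K).index := by
    rw [← index_map_mk', _root_.commutator_def, _root_.commutator_def, map_commutator,
      map_top_of_surjective _ (QuotientGroup.mk'_surjective K)]
  have hc : IsCyclic (G ⧸ K) := by
    by_contra hc
    have h2 := (IsPGroup.sq_dvd_index_commutator (hX.to_quotient K) hc).trans (h1 ▸ h)
    have := Nat.le_of_dvd hp.out.pos h2
    have h3 := hp.out.one_lt
    nlinarith
  have := hc.isMulCommutative
  rw [← map_mk'_eq_bot_iff, _root_.commutator_def, map_commutator,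
    map_top_of_surjective _ (QuotientGroup.mk'_surjective K)]
  exact _root_.commutator_eq_bot _

theorem l2 (hX : IsPGroup p G) (h2 : (commutator G).index = p ^ 2) (K : Subgroup G) [K.Normal]
    (h : ¬ K ≤ commutator G) : commutator G ≤ K ∧ K.index ∣ p := by
  have h1 : (commutator G ⊔ K).index ∣ p := by
    have h3 := relIndex_mul_index (le_sup_left : commutator G ≤ commutator G ⊔ K)
    have h4 : (commutator G).relIndex (commutator G ⊔ K) ≠ 1 := fun e =>
      h (le_sup_right.trans (relIndex_eq_one.mp e))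
    obtain ⟨k, hk, e⟩ := (Nat.dvd_prime_pow hp.out).mp (h2 ▸ Dvd.intro _ h3)
    rw [h2, e] at h3
    rcases k with _ | k
    · exact absurd e h4
    · have h5 : p * (p ^ k * (commutator G ⊔ K).index) = p * p := by
        rw [← mul_assoc, ← pow_succ', h3, pow_two]
      exact Dvd.intro_left _ (Nat.eq_of_mul_eq_mul_left hp.out.pos h5)
  have h3 := commutator_le_of_index hX K h1
  rw [sup_eq_right.mpr h3] at h1
  exact ⟨h3, h1⟩

omit [Finite G] hp in
theorem subgroupOf_commutator (P : Subgroup G) : (⁅P, P⁆ : Subgroup G).subgroupOf P = commutator P := by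
  rw [← map_subtype_commutator, subgroupOf, comap_map_eq_self_of_injective P.subtype_injective]

/-- ambient form of `l2` with Roquette's theorem -/
theorem l3 {P M : Subgroup G} (hP : IsPGroup p P) (h2 : (⁅P, P⁆ : Subgroup G).relIndex P = p ^ 2)
    (hn : P ≤ normalizer (M : Set G)) (hi : ¬ p ∣ P.relIndex M)
    (h : ¬ HasNormalPComplement p M ∨ ¬ P ⊓ M ≤ ⁅P, P⁆) :
    ⁅P, P⁆ ≤ M ∧ M.relIndex P ∣ p := by
  have h1 : ¬ P ⊓ M ≤ ⁅P, P⁆ := by
    rcases h with h | h
    · exact fun h' => h (hasNormalPComplement_of_inf_le_frattiniOf hP hn hi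
        (h'.trans (commutator_le_frattiniOf hP)))
    · exact h
  have : (M.subgroupOf P).Normal := normal_subgroupOf_of_le_normalizer hn
  rw [relIndex, subgroupOf_commutator] at h2
  have h3 := l2 hP h2 (M.subgroupOf P) fun h' => h1 fun x hx => by
    have := h' (show (⟨x, hx.1⟩ : P) ∈ M.subgroupOf P from hx.2)
    rwa [← subgroupOf_commutator] at this
  refine ⟨fun x hx => ?_, h3.2⟩
  have hxP : x ∈ P := ((commutator_le_sup P P).trans (sup_idem P).le) hx
  exact h3.1 (show (⟨x, hxP⟩ : P) ∈ commutator P by rw [← subgroupOf_commutator]; exact hx)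

theorem l4 (hcore : pPrimeCore p G = ⊥) {P N : Subgroup G} [N.Normal] (hP : IsPGroup p P)
    (hi : ¬ p ∣ P.index) (h2 : (⁅P, P⁆ : Subgroup G).relIndex P = p ^ 2)
    (hc : (⁅P, P⁆ : Subgroup G).normalCore = ⊥) (hN : N ≠ ⊥) :
    ⁅P, P⁆ ≤ N ∧ N.relIndex P ∣ p := by
  have hi' : ¬ p ∣ P.relIndex N := fun h => hi (h.trans (relIndex_normal_dvd_index P N))
  refine l3 hP h2 le_normalizer_of_normal hi' ?_
  by_contra hcon
  push Not at hcon
  have h3 : IsPGroup p N := (isPGroup_pCore p G).to_le
    (pPrimePCore_eq_pCore hcore ▸ le_pPrimePCore hcon.1)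
  have h4 : N ≤ P := by
    rw [← relIndex_eq_one]
    obtain ⟨k, hk⟩ := h3.index (P.subgroupOf N)
    change P.relIndex N = _ at hk
    rcases k with _ | k
    · simpa using hk
    · exact absurd (hk ▸ dvd_pow_self p k.succ_ne_zero) hi'
  exact hN (le_bot_iff.mp (hc ▸ normal_le_normalCore.mpr ((le_inf h4 le_rfl).trans hcon.2)))

/-- the transfer step -/
theorem transfer_step {P Q A B : Subgroup G} (hP : IsPGroup p P) (hQP : Q ≤ P)
    (hn : P ≤ normalizer (Q : Set G)) (hQ : (⁅P, P⁆ : Subgroup G).relIndex Q ∣ p)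
    (hAB : Q = A ⊔ B) (hB : Q ≤ normalizer (B : Set G))
    (hconj : ∀ t ∈ P, t ∉ Q → ∀ a ∈ A, t⁻¹ * a * t ∈ B) : ⁅Q, Q⁆ ≤ B := by
  have hAQ : A ≤ Q := hAB ▸ le_sup_left
  have hBQ : B ≤ Q := hAB ▸ le_sup_right
  set H := Q.subgroupOf P with hH
  have : H.Normal := normal_subgroupOf_of_le_normalizer hn
  let ι : H →* G := P.subtype.comp H.subtype
  have hι : Function.Injective ι := P.subtype_injective.comp H.subtype_injective
  have hr : ∀ x ∈ Q, ∃ y : H, ι y = x := fun x hx => ⟨⟨⟨x, hQP hx⟩, hx⟩, rfl⟩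
  have hBn : (B.comap ι).Normal := ⟨fun x hx g => by
    rw [mem_comap, map_mul, map_mul, map_inv]
    exact conj_mem_of_mem_normalizer (hB g.2) hx⟩
  set K := commutator H ⊔ B.comap ι with hK
  have : K.Normal := inferInstance
  have hcomm : IsMulCommutative (H ⧸ K) := Normal.quotient_commutative_iff_commutator_le.mpr
    le_sup_left
  letI : CommGroup (H ⧸ K) := { (inferInstance : Group (H ⧸ K)) with mul_comm := mul_comm' }
  let V : P →* H ⧸ K := MonoidHom.transfer (QuotientGroup.mk' K)
  have hV : ∀ a : H, ι a ∈ A → V a = QuotientGroup.mk' K a := fun a ha =>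
    transfer_eq_self_of_normal _ a fun t ht ht' => by
      rw [QuotientGroup.mk'_apply, QuotientGroup.eq_one_iff]
      exact mem_sup_right (hconj t t.2 ht _ ha)
  have hsurj : H.map V = ⊤ := by
    rw [eq_top_iff]
    intro y _
    obtain ⟨y, rfl⟩ := QuotientGroup.mk'_surjective K y
    have hy : ι y ∈ A ⊔ B := hAB ▸ y.2
    obtain ⟨a, ha, b, hb, e⟩ := (mem_sup_of_le_normalizer (hAQ.trans hB)).mp hy
    obtain ⟨a', rfl⟩ := hr a (hAQ ha)
    obtain ⟨b', rfl⟩ := hr b (hBQ hb)
    rw [← map_mul] at e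
    refine ⟨a', a'.2, ?_⟩
    rw [hV a' ha, ← hι e, map_mul, QuotientGroup.mk'_apply K b',
      (QuotientGroup.eq_one_iff b').mpr (mem_sup_right hb), mul_one]
  have h1 : K.index ∣ p := by
    have h2 := card_map_mul_card_inf_ker V H
    rw [hsurj, card_top, ← card_inf_mul_relIndex V.ker H, mul_comm] at h2
    have h3 : K.index = V.ker.relIndex H := Nat.eq_of_mul_eq_mul_left Nat.card_pos h2
    rw [h3]
    refine (relIndex_dvd_of_le_left H (Abelianization.commutator_subset_ker V)).trans ?_
    rwa [← subgroupOf_commutator, hH, relIndex_subgroupOf hQP]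
  have h2 := commutator_le_of_index (hP.to_subgroup H) (B.comap ι) h1
  have h3 : ι.range = Q := by
    ext x
    exact ⟨fun ⟨y, hy⟩ => hy ▸ y.2, hr x⟩
  rw [← h3, MonoidHom.range_eq_map, ← map_commutator]
  exact map_le_iff_le_comap.mpr h2

/-- in a `p`-group with abelian subgroup of index `p` -/
theorem card_centralizer (h2 : (commutator G).index = p ^ 2) (A : Subgroup G) [A.Normal]
    [IsMulCommutative A] (hA : A.index = p) {x : G} (hx : x ∉ A) :
    Nat.card (centralizer {x}) = p ^ 2 := by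
  have hs := zpowers_sup_eq_top_of_prime_index (hA ▸ hp.out) hx
  have h1 := card_commutator_mul_of_zpowers_sup hs
  have h3 := card_mul_index (commutator G)
  rw [← card_mul_index A, ← h1, h2, hA, mul_assoc, pow_two] at h3
  have h4 := Nat.eq_of_mul_eq_mul_right hp.out.pos (Nat.eq_of_mul_eq_mul_left Nat.card_pos h3)
  have h5 : A.relIndex (centralizer {x}) = p := by
    rw [← relIndex_sup_of_le_normalizer le_normalizer_of_normal, eq_top_iff.mpr (hs.ge.trans
      (sup_le_sup_right (zpowers_le.mpr (mem_centralizer_singleton_iff.mpr rfl)) A)),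
      relIndex_top_right, hA]
  rw [← card_inf_mul_relIndex A, ← h4, h5, pow_two]

/-- The simple factor step. -/
theorem comm_le_centralizer (hcore : pPrimeCore p G = ⊥) {P N S : Subgroup G} [N.Normal]
    (hP : IsPGroup p P) (hi : ¬ p ∣ P.index) (h2 : (⁅P, P⁆ : Subgroup G).relIndex P = p ^ 2)
    (hne : ⁅P, P⁆ ≠ ⊥) (hPN : ⁅P, P⁆ ≤ N ∧ N.relIndex P ∣ p)
    (hSN : S ≤ N) (hNS : N ≤ normalizer (S : Set G)) [IsSimpleGroup S] (hS : ¬ IsMulCommutative S)
    (hsup : (⨆ g : G, S.map (MulAut.conj g).toMonoidHom) = N) (hne' : S ≠ N)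
    (halt : ∀ g : G, S.map (MulAut.conj g).toMonoidHom = S ∨
      S.map (MulAut.conj g).toMonoidHom ≤ centralizer (S : Set G)) :
    N.relIndex P = p ∧ ⁅P ⊓ N, P ⊓ N⁆ ≤ centralizer (S : Set G) := by
  set T := N ⊓ centralizer (S : Set G) with hT
  have hNT : N ≤ normalizer (T : Set G) := (le_inf le_normalizer
    (hNS.trans (normalizer_le_normalizer_centralizer S))).trans inf_normalizer_le_normalizer_inf
  have hSs : S.IsSubnormal := isSubnormal_of_le_normalizer hSN hNS (Normal.isSubnormal ‹_›)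
  have hTs : T.IsSubnormal := isSubnormal_of_le_normalizer inf_le_left hNT (Normal.isSubnormal ‹_›)
  have hiS : ¬ p ∣ P.relIndex S := fun h => hi (h.trans (relIndex_dvd_index_of_isSubnormal P hSs))
  have hiT : ¬ p ∣ P.relIndex T := fun h => hi (h.trans (relIndex_dvd_index_of_isSubnormal P hTs))
  have hSb : S ≠ ⊥ := (nontrivial_iff_ne_bot S).mp inferInstance
  have hpS : p ∣ Nat.card S := by
    by_contra h
    exact hSb (le_bot_iff.mp (hcore ▸ le_pPrimeCore_of_isSubnormal hSs h))
  have hZ : S ⊓ centralizer (S : Set G) = ⊥ := by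
    rw [← center_map_subtype]
    rcases (inferInstance : (center S).Normal).eq_bot_or_eq_top with h | h
    · rw [h, Subgroup.map_bot]
    · exact absurd ⟨⟨fun a b => (mem_center_iff.mp (h ▸ mem_top b : b ∈ center S) a)⟩⟩ hS
  have hST : S ⊓ T = ⊥ := le_bot_iff.mp (hZ ▸ inf_le_inf_left S inf_le_right)
  have hnpc : ¬ HasNormalPComplement p S := fun h => by
    rcases (inferInstance : (pPrimeCore p S).Normal).eq_bot_or_eq_top with h' | h'
    · have h3 := hasNormalPComplement_iff_pResidual_eq.mp h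
      rw [h', pResidual_eq_bot_iff] at h3
      have := h3.isNilpotent
      exact hS (IsSimpleGroup.comm_iff_isSolvable.mpr inferInstance |> fun h => ⟨⟨h⟩⟩)
    · exact pPrimeCore_eq_top_iff.mp h' hpS
  have hconjN (g : G) : S.map (MulAut.conj g).toMonoidHom ≤ N :=
    map_conj_eq_of_normal g N ▸ map_mono hSN
  have hnotn : ¬ P ≤ normalizer (S : Set G) := fun hn => by
    obtain ⟨g, hg⟩ : ∃ g : G, S.map (MulAut.conj g).toMonoidHom ≠ S := by
      by_contra h
      push Not at h
      exact hne' (le_antisymm hSN (hsup ▸ iSup_le fun g => (h g).le))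
    have hgT : S.map (MulAut.conj g).toMonoidHom ≤ T := le_inf (hconjN g) ((halt g).resolve_left hg)
    have hnT : ¬ HasNormalPComplement p T := fun h => hnpc ((h.to_le hgT).of_equiv
      (S.equivMapOfInjective _ (MulAut.conj g).injective).symm)
    have hPT : P ≤ normalizer (T : Set G) := (le_inf le_normalizer_of_normal
      (hn.trans (normalizer_le_normalizer_centralizer S))).trans inf_normalizer_le_normalizer_inf
    exact hne (le_bot_iff.mp (hST ▸ le_inf (l3 hP h2 hn hiS (Or.inl hnpc)).1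
      (l3 hP h2 hPT hiT (Or.inl hnT)).1))
  have hrel : N.relIndex P = p := by
    rcases (Nat.dvd_prime hp.out).mp hPN.2 with h | h
    · exact absurd ((relIndex_eq_one.mp h).trans hNS) hnotn
    · exact h
  refine ⟨hrel, ?_⟩
  have hNeq : N = S ⊔ T := by
    refine le_antisymm (hsup.ge.trans (iSup_le fun g => ?_)) (sup_le hSN inf_le_left)
    rcases halt g with h | h
    · exact h.le.trans le_sup_left
    · exact (le_inf (hconjN g) h).trans le_sup_right
  have hQ : P ⊓ N = (P ⊓ S) ⊔ (P ⊓ T) := by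
    conv_lhs => rw [hNeq]
    exact inf_sup_eq_of_not_dvd_relIndex hP (le_centralizer_iff.mpr inf_le_right) hST hiS hiT
  refine (transfer_step hP inf_le_left ((le_inf le_normalizer le_normalizer_of_normal).trans
    inf_normalizer_le_normalizer_inf) ?_ hQ ((inf_le_inf le_normalizer hNT).trans
    inf_normalizer_le_normalizer_inf) fun t ht htQ a ha => ?_).trans
      (inf_le_right.trans inf_le_right)
  · have h3 := relIndex_mul_relIndex ⁅P, P⁆ (P ⊓ N) P
      (le_inf ((commutator_le_sup P P).trans (sup_idem P).le) hPN.1) inf_le_left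
    rw [h2, inf_comm P N, inf_relIndex_right, hrel, pow_two, inf_comm N P] at h3
    exact dvd_of_eq (Nat.eq_of_mul_eq_mul_right hp.out.pos h3)
  · refine mem_inf.mpr ⟨mul_mem (mul_mem (inv_mem ht) ha.1) ht, ?_⟩
    have h3 : t⁻¹ * a * t ∈ S.map (MulAut.conj t⁻¹).toMonoidHom := by
      rw [mem_map_conj]; simpa [mul_assoc] using ha.2
    refine ⟨hconjN _ h3, ((halt t⁻¹).resolve_left fun e => hnotn fun y hy => ?_) h3⟩
    have h4 : t ∈ normalizer (S : Set G) := by simpa using inv_mem (map_conj_eq_iff.mp e)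
    have h5 := zpowers_sup_eq_top_of_prime_index (N := N.subgroupOf P)
      (show (N.relIndex P).Prime from hrel ▸ hp.out)
      (x := ⟨t, ht⟩) fun h => htQ ⟨ht, h⟩
    have h6 : (⊤ : Subgroup P) ≤ (normalizer (S : Set G)).subgroupOf P :=
      h5 ▸ sup_le (zpowers_le.mpr h4) (comap_mono hNS)
    exact h6 (mem_top ⟨y, hy⟩)

/-- structure of the group -/
theorem exists_normal (hcore : pPrimeCore p G = ⊥)
    (hnas : ¬ ∃ S : Subgroup G, S.Normal ∧ IsSimpleGroup S ∧ ¬ IsMulCommutative S ∧
      centralizer (S : Set G) = ⊥)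
    (hall : ∀ P : Sylow p G, (⁅(P : Subgroup G), (P : Subgroup G)⁆ : Subgroup G).relIndex P = p ^ 2 ∧
      (⁅(P : Subgroup G), (P : Subgroup G)⁆ : Subgroup G).normalCore = ⊥ ∧
      (⁅(P : Subgroup G), (P : Subgroup G)⁆ : Subgroup G) ≠ ⊥) :
    ∃ N : Subgroup G, N.Normal ∧ ∀ P : Sylow p G, N.relIndex P = p ∧
      (⁅(P : Subgroup G) ⊓ N, (P : Subgroup G) ⊓ N⁆ : Subgroup G) = ⊥ := by
  obtain ⟨P₀⟩ : Nonempty (Sylow p G) := inferInstance
  have : Nontrivial G := by
    by_contra h
    rw [not_nontrivial_iff_subsingleton] at h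
    exact (hall P₀).2.2 (Subsingleton.elim _ _)
  obtain ⟨N, hN⟩ := exists_isMinNormal G
  have := hN.normal
  have h4 := fun (P : Sylow p G) (M : Subgroup G) [M.Normal] (hM : M ≠ ⊥) =>
    l4 hcore P.isPGroup' P.not_dvd_index (hall P).1 (hall P).2.1 hM
  refine ⟨N, this, ?_⟩
  by_cases hab : IsMulCommutative N
  · intro P
    have h1 : (⁅N, N⁆ : Subgroup G) = ⊥ := commutator_self_eq_bot_iff.mpr hab
    refine ⟨?_, le_bot_iff.mp (h1 ▸ commutator_mono inf_le_right inf_le_right)⟩
    rcases (Nat.dvd_prime hp.out).mp (h4 P N hN.ne_bot).2 with h | h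
    · rw [relIndex_eq_one] at h
      exact absurd (le_bot_iff.mp (h1 ▸ commutator_mono h h)) (hall P).2.2
    · exact h
  have hC : centralizer (N : Set G) = ⊥ := by
    by_contra h
    refine (hall P₀).2.2 (le_bot_iff.mp ?_)
    rw [← (hN.isMulCommutative_or_inf_centralizer_eq_bot).resolve_left hab]
    exact le_inf (h4 P₀ N hN.ne_bot).1 (h4 P₀ _ h).1
  obtain ⟨S, hSN, hNS, hS, hsup, halt⟩ := hN.exists_simple_factor
  have hne : S ≠ N := fun e => hnas ⟨N, this, e ▸ hS, hab, hC⟩
  have halt' : ∀ g : G, S.map (MulAut.conj g).toMonoidHom = S ∨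
      S.map (MulAut.conj g).toMonoidHom ≤ centralizer (S : Set G) := fun g =>
    (halt g).imp id And.right
  have hcent : ∀ X : Subgroup G, (∀ g : G, X.map (MulAut.conj g).toMonoidHom ≤
      centralizer (S : Set G)) → X = ⊥ := fun X hX => by
    rw [← le_bot_iff, ← hC, le_centralizer_iff, ← hsup]
    refine iSup_le fun g => ?_
    rw [le_centralizer_iff, centralizer_map_conj, ← map_conj_le_map_conj_iff (g := g⁻¹),
      map_conj_inv_map_conj]
    exact hX g⁻¹
  have hSab : ¬ IsMulCommutative S := fun h => by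
    refine (nontrivial_iff_ne_bot S).mp inferInstance (hcent S fun g => ?_)
    rcases halt' g with h' | h'
    · rw [h']; exact le_centralizer S
    · exact h'
  have key := fun P : Sylow p G => comm_le_centralizer hcore P.isPGroup' P.not_dvd_index
    (hall P).1 (hall P).2.2 (h4 P N hN.ne_bot) hSN hNS hSab hsup hne halt'
  refine fun P => ⟨(key P).1, hcent _ fun g => ?_⟩
  have := (key (g • P)).2
  rwa [Sylow.coe_smul_eq_map', ← map_conj_eq_of_normal g N, ← map_conj_inf, ← map_commutator] at this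

theorem card_inf_centralizer {P N : Subgroup G} [N.Normal]
    (h2 : (⁅P, P⁆ : Subgroup G).relIndex P = p ^ 2) (hN : N.relIndex P = p)
    (hab : (⁅P ⊓ N, P ⊓ N⁆ : Subgroup G) = ⊥) {x : G} (hx : x ∈ P) (hxN : x ∉ N) :
    Nat.card (centralizer {x} ⊓ P : Subgroup G) = p ^ 2 := by
  rw [relIndex, subgroupOf_commutator] at h2
  have : IsMulCommutative (N.subgroupOf P) := by
    rw [commutator_self_eq_bot_iff, isMulCommutative_iff_forall] at hab
    exact isMulCommutative_iff_forall.mpr fun a ha b hb =>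
      Subtype.ext (hab a ⟨a.2, ha⟩ b ⟨b.2, hb⟩)
  have h1 := card_centralizer h2 (N.subgroupOf P) hN (x := ⟨x, hx⟩) hxN
  rwa [centralizer_singleton_subgroupOf, card_subgroupOf] at h1

end

/-- Let G be a finite group, p a prime and P a Sylow p-subgroup of order at least p². Assume that G has no nontrivial normal subgroup of order prime to p, that the derived subgroup P' of P contains no nontrivial normal subgroup of G, and that G is not almost simple (there is no non-abelian simple normal subgroup of G with trivial centralizer). Then [P : P'] = p² if and only if some p-element x of G has centralizer whose order has p-part exactly p². -/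
theorem result {G : Type*} [Group G] [Finite G] (p : ℕ) [Fact p.Prime] (P : Sylow p G) (hbig : p ^ 2 ∣ Nat.card G) (hcore : Cfsg.pPrimeCore p G = ⊥)
    (hcore' : (⁅(P : Subgroup G), (P : Subgroup G)⁆).normalCore = ⊥) (hnas : ¬ ∃ S : Subgroup G, S.Normal ∧ IsSimpleGroup S ∧ ¬ IsMulCommutative S ∧ Subgroup.centralizer (S : Set G) = ⊥) :
    (⁅(P : Subgroup G), (P : Subgroup G)⁆).relIndex (P : Subgroup G) = p ^ 2 ↔
      ∃ x : G, (∃ k : ℕ, orderOf x = p ^ k) ∧ (Nat.card (Subgroup.centralizer ({x} : Set G))).factorization p = 2 := by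
  have hp : p.Prime := Fact.out
  have hPc : p ^ 2 ∣ Nat.card (P : Subgroup G) := by
    rw [P.card_eq_multiplicity]
    exact pow_dvd_pow p ((hp.pow_dvd_iff_le_factorization Nat.card_pos.ne').mp hbig)
  constructor
  · intro h2
    by_cases hab : (⁅(P : Subgroup G), (P : Subgroup G)⁆ : Subgroup G) = ⊥
    · refine ⟨1, ⟨0, by simp⟩, ?_⟩
      rw [hab, relIndex_bot_left, P.card_eq_multiplicity] at h2
      rw [show centralizer ({1} : Set G) = ⊤ from eq_top_iff.mpr fun y _ =>
        mem_centralizer_singleton_iff.mpr (by simp), card_top]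
      exact Nat.pow_right_injective hp.two_le h2
    obtain ⟨N, hN, hall⟩ := exists_normal hcore hnas (p := p) fun Q => by
      obtain ⟨g, rfl⟩ := MulAction.exists_smul_eq G P Q
      rw [Sylow.coe_smul_eq_map', ← map_commutator, relIndex_map_conj, ne_eq, map_conj_eq_bot_iff]
      refine ⟨h2, ?_, hab⟩
      rw [← le_bot_iff, ← hcore', normal_le_normalCore, ← map_conj_le_map_conj_iff (g := g),
        map_conj_eq_of_normal]
      exact normalCore_le _
    obtain ⟨x, hx, hxN⟩ : ∃ x ∈ (P : Subgroup G), x ∉ N := by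
      by_contra h
      push Not at h
      exact hp.one_lt.ne' ((hall P).1.symm.trans (relIndex_eq_one.mpr h))
    have hxp : IsPGroup p (zpowers x) := P.isPGroup'.to_le (zpowers_le.mpr hx)
    refine ⟨x, ?_, ?_⟩
    · obtain ⟨k, hk⟩ := hxp.exists_card_eq
      exact ⟨k, by rw [← Nat.card_zpowers, hk]⟩
    obtain ⟨R, hR⟩ := IsPGroup.exists_le_sylow (hxp.comap_subtype (K := centralizer {x}))
    obtain ⟨Q, hQ⟩ := exists_sylow_inf_eq R
    have hxC : x ∈ centralizer ({x} : Set G) := mem_centralizer_singleton_iff.mpr rfl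
    have hxQ : x ∈ (Q : Subgroup G) := by
      have : x ∈ (Q : Subgroup G) ⊓ centralizer {x} :=
        hQ ▸ ⟨⟨x, hxC⟩, hR (mem_zpowers x), rfl⟩
      exact this.1
    have hQ2 : (⁅(Q : Subgroup G), (Q : Subgroup G)⁆ : Subgroup G).relIndex Q = p ^ 2 := by
      obtain ⟨g, rfl⟩ := MulAction.exists_smul_eq G P Q
      rwa [Sylow.coe_smul_eq_map', ← map_commutator, relIndex_map_conj]
    have h3 := card_inf_centralizer hQ2 (hall Q).1 (hall Q).2 hxQ hxN
    rw [inf_comm, ← hQ, card_map_subtype, R.card_eq_multiplicity] at h3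
    exact Nat.pow_right_injective hp.two_le h3
  · rintro ⟨x, ⟨k, hk⟩, hx⟩
    have hxp : IsPGroup p (zpowers x) := IsPGroup.of_card (by rw [Nat.card_zpowers, hk])
    obtain ⟨g, hg⟩ := exists_map_conj_le_sylow hxp P
    have hy : g * x * g⁻¹ ∈ (P : Subgroup G) := hg (conj_mem_map_conj.mpr (mem_zpowers x))
    rw [relIndex, subgroupOf_commutator]
    have h1 := index_centralizer_le_card_commutator (⟨_, hy⟩ : (P : Subgroup G))
    have h2 : Nat.card (centralizer {(⟨_, hy⟩ : (P : Subgroup G))}) ≤ p ^ 2 := by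
      obtain ⟨m, hm⟩ := (P.isPGroup'.to_subgroup (centralizer {(⟨_, hy⟩ : (P : Subgroup G))})).exists_card_eq
      rw [hm, ← hx]
      refine Nat.pow_le_pow_right hp.pos ((hp.pow_dvd_iff_le_factorization Nat.card_pos.ne').mp ?_)
      rw [← hm, centralizer_singleton_subgroupOf, card_subgroupOf,
        ← card_map_conj g (centralizer {x}), ← centralizer_singleton_conj]
      exact card_dvd_of_le inf_le_left
    have h3 : p ^ 2 ∣ (commutator (P : Subgroup G)).index := by
      by_cases hc : IsCyclic (P : Subgroup G)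
      · have := hc.isMulCommutative
        rwa [_root_.commutator_eq_bot, index_bot]
      · exact IsPGroup.sq_dvd_index_commutator P.isPGroup' hc
    refine le_antisymm ?_ (Nat.le_of_dvd (index_pos _) h3)
    have h4 := card_mul_index (commutator (P : Subgroup G))
    rw [← card_mul_index (centralizer {(⟨_, hy⟩ : (P : Subgroup G))}), mul_comm] at h4
    exact Nat.le_of_mul_le_mul_right (h4.le.trans (Nat.mul_le_mul h2 h1)) Nat.card_pos

end Cfsg.Agent.S4587
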