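import Cfsg.Statements.S4588
import Cfsg.Agent.Blk.CycBound

set_option autoImplicit false
open Cfsg

namespace Cfsg.Agent.S4588

/-- Let G be a finite group, p a prime and M a maximal ideal of the algebraic integers containing p. If some p-element x of G (possibly x = 1) has centralizer whose order has p-part at most p², then the principal p-block of G contains at most p² irreducible characters of degree prime to p. -/
theorem result {G : Type*} [Group G] [Finite G] (p : ℕ) [Fact p.Prime] (M : Ideal Cfsg.AlgInt) (hM : Cfsg.IsPModular p M)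
    (hx : ∃ x : G, (∃ k : ℕ, orderOf x = p ^ k) ∧ (Nat.card (Subgroup.centralizer ({x} : Set G))).factorization p ≤ 2) :
    Nat.card {χ : Cfsg.IrrCharacter G // χ ∈ Cfsg.principalBlock M G ∧ ¬ p ∣ Cfsg.charDegree (χ : G → ℂ)} ≤ p ^ 2 := by
  obtain ⟨x, hx, h2⟩ := hx
  by_cases h1 : x = 1
  · subst h1
    rw [card_centralizer_one, ← hM.blockDefect_principalBlock] at h2
    exact (Nat.card_mono (Set.toFinite (principalBlock M G)) fun χ h => h.1).trans
        ((isPBlock_principalBlock.card_le_of_defect_le_two hM h2).trans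
          (Nat.pow_le_pow_right hM.prime.pos h2))
  have hs := isSec_centralizer hx
  let z : Subgroup.centralizer ({x} : Set G) := ⟨x, Subgroup.mem_centralizer_singleton_iff.2 rfl⟩
  have hz : Subgroup.zpowers z ≤ Subgroup.center _ := Subgroup.zpowers_le.2 (hs.mem_center rfl)
  have : (Subgroup.zpowers z).Normal := normal_of_le_center hz
  have hπ := QuotientGroup.mk'_surjective (Subgroup.zpowers z)
  have hk : IsPGroup p (QuotientGroup.mk' (Subgroup.zpowers z)).ker := by
    rw [QuotientGroup.ker_mk']; exact isPElt_iff_isPGroup_zpowers.1 (hs.isPElt_of_eq rfl)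
  rw [← QuotientGroup.ker_mk' (Subgroup.zpowers z)] at hz
  have hi := hs.induces_principal hM
  obtain ⟨D, hD⟩ := hi.left.exists_isDefectGroup hM
  have hq := hi.left.preimage_inflate_of_centralizer hM hπ hk fun g _ =>
    fun z h => (Subgroup.mem_center_iff.1 (hz h) g).symm
  obtain ⟨h3, h4⟩ := hD.preimage_inflate hM hπ hk hi.left hq
  rw [← hM.blockDefect_principalBlock] at h2
  have : IsCyclic (D.map (QuotientGroup.mk' (Subgroup.zpowers z))) := by
    refine isCyclic_of_card_dvd_prime (p := p) ?_
    obtain ⟨k, hk⟩ := prime_dvd_orderOf_of_mem (isPElt_iff_isPGroup_zpowers.1 hx)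
      (Subgroup.mem_zpowers x) h1
    have h5 : p ^ (_ + 1) ∣ p ^ blockDefect p (principalBlock M _) := ⟨k, by
      rw [h4, QuotientGroup.ker_mk', Nat.card_zpowers, ← Subgroup.orderOf_coe, hk, pow_succ,
        mul_comm, mul_assoc]⟩
    rw [Nat.pow_dvd_pow_iff_le_right hM.prime.one_lt] at h5
    rw [h3.card_eq hq hM]
    exact (pow_dvd_pow p (by omega)).trans (pow_one p).dvd
  refine (hs.card_le_of_isCyclic_map hM hi (fun χ hχ => ⟨hχ.1, fun h => ?_⟩) hπ hk hz hD).trans
    (Nat.pow_le_pow_right hM.prime.pos h2)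
  have h0 : blockHeight p (principalBlock M G) χ.1 = 0 := by
    rw [blockHeight_principalBlock_eq hM, Nat.factorization_eq_zero_of_not_dvd hχ.2]
  have := hs.vM_pow_mul_contrib_eq_one hM hi hχ.1 hχ.1 h0 h0
  simp [hs.contrib_eq_ip_subPart hM hi.left _ χ.isClassFunction, h] at this

end Cfsg.Agent.S4588
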