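import Cfsg.Statements.S4591
import Cfsg.Agent.Char.PPrimeDeg
import Cfsg.Agent.Char.ResidualSum

set_option autoImplicit false
open Cfsg

namespace Cfsg.Agent.S4591

/-- Let G be a finite group, p a prime and P a Sylow p-subgroup, and let N be the largest normal subgroup of G in which P has trivial centralizer (N is normal with C_N(P) = 1 and contains every normal subgroup with that property). Then the intersection of the kernels of the irreducible characters of G of degree prime to p is the normal core in G of the subgroup N·P' (P' the derived subgroup of P). In particular, when G has no nontrivial normal subgroup of order prime to p, that intersection is the normal core of P'. -/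
theorem result {G : Type*} [Group G] [Finite G] (p : ℕ) [Fact p.Prime] (P : Sylow p G) (N : Subgroup G) [N.Normal]
    (hN : N ⊓ Subgroup.centralizer ((P : Subgroup G) : Set G) = ⊥)
    (hmax : ∀ L : Subgroup G, L.Normal → L ⊓ Subgroup.centralizer ((P : Subgroup G) : Set G) = ⊥ → L ≤ N) :
    {g : G | ∀ χ : Cfsg.IrrCharacter G, ¬ p ∣ Cfsg.charDegree (χ : G → ℂ) → (χ : G → ℂ) g = (χ : G → ℂ) 1} =
      ((N ⊔ ⁅(P : Subgroup G), (P : Subgroup G)⁆).normalCore : Set G) := by
  have hp : p.Prime := Fact.out
  have hq : ∀ (L : Subgroup G) [L.Normal],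
      IsPGroup p ((L ⊔ P : Subgroup G) ⧸ L.subgroupOf (L ⊔ P)) := fun L _ => by
    obtain ⟨k, hk⟩ := IsPGroup.iff_card.1 (P.2.map (QuotientGroup.mk' L))
    refine isPGroup_quotient_iff_index.2 ⟨k, ?_⟩
    rw [← hk, card_map_mk'_eq_relIndex, ← Subgroup.relIndex_sup_left]; rfl
  have hNp : ¬ p ∣ Nat.card N := fun h => inf_centralizer_ne_bot_of_isPGroup
    (P.2.to_inf_left (K := N)) P.2 (le_normalizer_inf Subgroup.le_normalizer
      Subgroup.le_normalizer_of_normal) (sylow_inf_ne_bot_of_isSubnormal P
      (Subgroup.Normal.isSubnormal ‹_›) h)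
    (eq_bot_iff.2 fun x hx => hN ▸ ⟨hx.1.2, hx.2⟩)
  set K := ⨅ χ : {χ : IrrCharacter G // ¬ p ∣ charDegree χ.1}, charKer χ.1.1
  haveI : K.Normal := Subgroup.normal_iInf_normal fun _ => inferInstance
  have hK : ∀ χ : IrrCharacter G, ¬ p ∣ charDegree χ.1 → K ≤ charKer χ.1 := fun χ h =>
    iInf_le_of_le ⟨χ, h⟩ le_rfl
  suffices K = (N ⊔ ⁅(P : Subgroup G), (P : Subgroup G)⁆).normalCore by
    rw [← this]; ext g; simp [K, Subgroup.mem_iInf, IrrCharacter.mem_charKer]
  refine le_antisymm (Subgroup.normal_le_normalCore.2 ?_) (le_iInf fun ⟨χ, hχ⟩ => ?_)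
  · have h1 : ∀ U : Subgroup G, P ≤ U → ∀ ψ : IrrCharacter U, ¬ p ∣ charDegree ψ.1 →
        K.subgroupOf U ≤ charKer ψ.1 := fun U hU ψ hψ => by
      obtain ⟨χ, h2, h3⟩ := IrrCharacter.exists_liesOver_above_not_dvd hp U.subtype_injective
        (by rw [U.range_subtype]; exact not_dvd_index_of_sylow_le P hU) hψ
      exact (Subgroup.comap_mono (hK χ h3)).trans h2.comap_charKer_le
    have h2 : HasNormalPComplement p K := HasNormalPComplement.to_le
      (hasNormalPComplement_of_forall_dvd_charDegree fun ψ h => by_contra fun h' => h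
        (IrrCharacter.charDegree_eq_one_of_le_charKer h' (h1 _ le_sup_right ψ h') (hq K)))
      le_sup_left
    set L := K ⊓ pPrimeCore p G
    have hL : ¬ p ∣ Nat.card L := fun h => not_dvd_card_pPrimeCore p G
      (h.trans (Subgroup.card_dvd_of_le inf_le_right))
    have h3 : K ≤ L ⊔ P := by
      have h3 := congrArg (Subgroup.map K.subtype)
        ((hasNormalPComplement_iff_sup_eq_top (sylowInfNormal P K)).1 h2)
      rw [Subgroup.map_sup, map_sylowInfNormal, pPrimeCore_eq_subgroupOf_of_normal,
        Subgroup.subgroupOf_map_subtype, ← MonoidHom.range_eq_map, K.range_subtype] at h3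
      exact h3.ge.trans (sup_le_sup (inf_comm _ _).le inf_le_left)
    have h4 : L ≤ N := hmax L inferInstance <| by
      have h4 := (forall_le_inertia_eq_one_iff L.subtype P.2 hL).1 fun θ hθ => by
        obtain ⟨k, hk⟩ := isPGroup_quotient_iff_index.1 (hq L)
        obtain ⟨η, h5, -⟩ := exists_extension_of_coprime_card
          (f := Subgroup.inclusion (le_sup_left : L ≤ L ⊔ P)) (θ := θ) (by
            rw [inertia_of_factor (f := L.subtype) (i := Subgroup.subtype _) fun _ => rfl]
            exact Subgroup.subgroupOf_eq_top.2 (sup_le (le_inertia_subtype L θ) hθ)) (by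
            rw [Subgroup.inclusion_range, hk]
            exact (hp.coprime_iff_not_dvd.2 hL).symm.pow_right k)
        refine θ.charKer_eq_top_iff.1 (eq_top_iff.2 fun x _ =>
          (liesOver_of_comp_eq h5).comap_charKer_le (h1 _ le_sup_right η (fun h => hL ?_) x.2.1))
        exact (charDegree_eq_of_comp_eq h5 ▸ h).trans θ.charDegree_dvd_card
      rwa [L.range_subtype] at h4
    have h5 : K ≤ ⁅L ⊔ P, L ⊔ P⁆ := fun k hk => by
      rw [← Subgroup.map_subtype_commutator]
      refine ⟨⟨k, h3 hk⟩, mem_commutator_iff_forall_linear.2 fun lam => ?_, rfl⟩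
      simpa using (IrrCharacter.mem_charKer _).1
        (h1 _ le_sup_right (.ofLinear lam) (by simpa using hp.ne_one) (x := ⟨k, h3 hk⟩) hk)
    refine h5.trans (le_trans (map_mk'_le_map_mk'_iff (N := L).1 ?_) (sup_le le_sup_right
      (h4.trans le_sup_left)))
    simp [Subgroup.map_commutator, Subgroup.map_sup]
  · obtain ⟨θ, h1, h2⟩ := IrrCharacter.exists_liesOver_le_inertia N.subtype hχ P.2
    rw [(forall_le_inertia_eq_one_iff N.subtype P.2 hNp).2 (by rwa [N.range_subtype]) θ h2] at h1
    have h3 : N ≤ charKer χ.1 := fun n hn =>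
      χ.mem_charKer.2 ((χ.liesOver_one_iff _).1 h1 ⟨n, hn⟩)
    obtain ⟨ψ, h4, h5⟩ := IrrCharacter.exists_liesOver_below_not_dvd (N ⊔ P).subtype hχ
    have h6 := (Subgroup.comap_mono h3).trans h4.comap_charKer_le
    refine h4.le_charKer_of_le_map (Subgroup.subtype_injective _)
      ((Subgroup.normalCore_le _).trans (sup_le ?_ ?_))
    · exact fun n hn => ⟨⟨n, Subgroup.mem_sup_left hn⟩, h6 hn, rfl⟩
    · refine (Subgroup.commutator_mono (K₁ := N ⊔ P) (K₂ := N ⊔ P) le_sup_right
        le_sup_right).trans ?_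
      rw [← Subgroup.map_subtype_commutator]
      exact Subgroup.map_mono (ψ.commutator_le_charKer_iff.2 (ψ.apply_one_eq_one_iff.2
        (IrrCharacter.charDegree_eq_one_of_le_charKer h5 h6 (hq N))))

end Cfsg.Agent.S4591
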