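import Cfsg.Statements.S4593
import Cfsg.Agent.Blk.ZStar

set_option autoImplicit false
open Cfsg

namespace Cfsg.Agent.S4593

/-- Let G be a finite group with trivial centre and no nontrivial normal subgroup of odd order, whose Sylow 2-subgroups are abelian, and let P be a Sylow 2-subgroup. Every automorphism of G of 2-power order that fixes P elementwise is inner. -/
theorem result {G : Type*} [Group G] [Finite G] (hZ : Subgroup.center G = ⊥) (hcore : Cfsg.pPrimeCore 2 G = ⊥) (P : Sylow 2 G) (hab : IsMulCommutative (P : Subgroup G))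
    (α : MulAut G) (h2 : ∃ j : ℕ, orderOf α = 2 ^ j) (hfix : ∀ x ∈ (P : Subgroup G), α x = x) :
    ∃ g : G, ∀ x : G, α x = g * x * g⁻¹ := by
  haveI : Finite (MulAut G) := Finite.of_injective (fun e : MulAut G => (e : G → G))
    DFunLike.coe_injective
  let Γ : Subgroup (MulAut G) := Subgroup.zpowers α ⊔ (MulAut.conj : G →* MulAut G).range
  let f : G →* Γ := (MulAut.conj : G →* MulAut G).codRestrict Γ
    fun g => Subgroup.mem_sup_right ⟨g, rfl⟩
  let a : Γ := ⟨α, Subgroup.mem_sup_left (Subgroup.mem_zpowers α)⟩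
  have hcen : ∀ x : G, (∀ g, g * x = x * g) → x = 1 := fun x hx => by
    rw [← Subgroup.mem_bot, ← hZ]; exact Subgroup.mem_center_iff.2 hx
  have hf : Function.Injective f := (injective_iff_map_eq_one f).2 fun x hx => hcen x fun g => by
    have := congrArg (fun e : Γ => (e : MulAut G) g) hx
    exact (mul_inv_eq_iff_eq_mul.1 this).symm
  have hconj : ∀ (b : Γ) (x : G), b * f x * b⁻¹ = f ((b : MulAut G) x) := fun b x =>
    Subtype.ext (MulEquiv.ext fun y => by simp [f])
  haveI : f.range.Normal := ⟨by rintro _ ⟨x, rfl⟩ b; exact ⟨_, (hconj b x).symm⟩⟩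
  have htop : Subgroup.zpowers a ⊔ f.range = ⊤ := by
    apply Subgroup.map_injective Γ.subtype_injective
    rw [Subgroup.map_sup, MonoidHom.map_zpowers, ← MonoidHom.range_eq_map, Subgroup.range_subtype,
      ← MonoidHom.range_comp]
    rfl
  have hO : pPrimeCore 2 f.range = ⊥ := by
    rw [← pPrimeCore_map_equiv (MonoidHom.ofInjective hf), hcore, Subgroup.map_bot]
  have hZ' : Subgroup.center Γ = ⊥ := by
    rw [eq_bot_iff]
    intro b hb
    refine Subtype.ext (MulEquiv.ext fun x => hf ?_)
    rw [← hconj, ← Subgroup.mem_center_iff.1 hb, mul_inv_cancel_right]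
    rfl
  obtain ⟨g, hg⟩ := mem_of_centralizes_comm_sylow (Q := (P : Subgroup G).map f) (a := a)
    (isPElt_coe_iff.1 h2) htop (P.isPGroup'.map f)
    (by rw [MonoidHom.range_eq_map, Subgroup.relIndex_map_map_of_injective _ _ hf,
      Subgroup.relIndex_top_right]; exact P.not_dvd_index)
    (by
      rintro _ ⟨x, hx, rfl⟩ _ ⟨y, hy, rfl⟩
      rw [← map_mul, ← map_mul, isMulCommutative_iff_forall.1 hab x hx y hy])
    (by
      rintro _ ⟨x, hx, rfl⟩
      rw [eq_comm, ← mul_inv_eq_iff_eq_mul, hconj]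
      exact congrArg f (hfix x hx)) hO hZ'
  exact ⟨g, fun x => (congrArg (fun e : Γ => (e : MulAut G) x) hg).symm⟩

end Cfsg.Agent.S4593
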