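import Cfsg.Statements.S4602
import Cfsg.Agent.Grp.Misc

set_option autoImplicit false
open Cfsg

namespace Cfsg.Agent.S4602

/-- Let G be a finite p-solvable group and q a prime different from p. Some Sylow p-subgroup of G normalizes some Sylow q-subgroup of G if and only if q does not divide the order of G/O_{p'}(G), the quotient by the largest normal subgroup of order prime to p. -/
theorem result {G : Type*} [Group G] [Finite G] (p q : ℕ) [Fact p.Prime] [Fact q.Prime] (hpq : p ≠ q) (hsolv : Cfsg.IsPSolvable p G) :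
    (∃ (P : Sylow p G) (Q : Sylow q G), (P : Subgroup G) ≤ Subgroup.normalizer ((Q : Subgroup G) : Set G)) ↔ ¬ q ∣ (Cfsg.pPrimeCore p G).index := by
  constructor
  · rintro ⟨P, Q, h⟩
    refine not_dvd_index_of_sylow_le Q ?_
    have hsurj := QuotientGroup.mk'_surjective (pPrimeCore p G)
    have h1 : pCore p (G ⧸ pPrimeCore p G) ≤ Subgroup.normalizer
        (((Q : Subgroup G).map (QuotientGroup.mk' (pPrimeCore p G)) : Subgroup _) : Set _) :=
      (pCore_le_sylow (P.mapSurjective hsurj)).trans
        ((Subgroup.map_mono h).trans (Subgroup.le_normalizer_map _))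
    have h2 := (IsPGroup.disjoint_of_ne q p hpq.symm _ _ (Q.isPGroup'.map
      (QuotientGroup.mk' (pPrimeCore p G))) (isPGroup_pCore p _)).eq_bot
    have h3 := (le_centralizer_of_normalizes_of_inf_eq_bot Subgroup.le_normalizer_of_normal h1
      h2).trans ((hsolv.to_quotient _).centralizer_pCore_le (pPrimeCore_quotient_pPrimeCore p G))
    rwa [inf_eq_left.mpr h3, map_mk'_eq_bot_iff] at h2
  · intro h
    obtain ⟨P⟩ := Sylow.nonempty (p := p) (G := G)
    obtain ⟨Q, hQ, hQq, hi, hn⟩ := (isCoprimeAction_of_isPGroup_left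
      Subgroup.le_normalizer_of_normal P.isPGroup'
      (not_dvd_card_pPrimeCore p G)).exists_invariant_sylow q
    refine ⟨P, hQq.toSylow fun hd => ?_, hn⟩
    rw [← Subgroup.relIndex_mul_index hQ] at hd
    exact ((Nat.Prime.dvd_mul Fact.out).mp hd).elim hi h

end Cfsg.Agent.S4602
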