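import Cfsg.Statements.S4601
import Cfsg.Agent.S4602

set_option autoImplicit false
open Cfsg

namespace Cfsg.Agent.S4601

universe u

open Subgroup

theorem hyp_quot {G G' : Type*} [Group G] [Finite G] [Group G'] {p q : ℕ} [Fact q.Prime]
    (h : ∀ y : G, IsPElt q y → ¬ p ∣ (centralizer {y}).index) {f : G →* G'}
    (hf : Function.Surjective f) (y : G') (hy : IsPElt q y) : ¬ p ∣ (centralizer {y}).index := by
  obtain ⟨x, hx, rfl⟩ := hy.exists_lift hf
  exact fun hd => h x hx (hd.trans (index_centralizer_map_dvd hf x))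

theorem qsolv {p q : ℕ} [Fact p.Prime] [Fact q.Prime] (G : Type u) [Group G] [Finite G] :
    IsPSolvable q G → (∀ y : G, IsPElt q y → ¬ p ∣ (centralizer {y}).index) →
      ∀ Q : Sylow q G, ¬ p ∣ (normalizer ((Q : Subgroup G) : Set G)).index := by
  refine card_induction (P := fun G _ _ => IsPSolvable q G →
    (∀ y : G, IsPElt q y → ¬ p ∣ (centralizer {y}).index) →
      ∀ Q : Sylow q G, ¬ p ∣ (normalizer ((Q : Subgroup G) : Set G)).index)
    (fun G _ _ ih hs h Q => ?_) G
  rcases subsingleton_or_nontrivial G with _ | _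
  · rw [Subsingleton.elim (normalizer _) ⊤, index_top]
    exact (Fact.out : p.Prime).not_dvd_one
  obtain ⟨N, hN⟩ := exists_isMinNormal G
  have := hN.normal
  have hsurj := QuotientGroup.mk'_surjective N
  have h1 := ih _ (card_quotient_lt hN.ne_bot) (hs.to_quotient N) (hyp_quot h hsurj)
    (Q.mapSurjective hsurj)
  rw [Sylow.coe_mapSurjective] at h1
  rcases hN.isPGroup_or (hs.to_subgroup N) with h2 | h2
  · rwa [← index_comap_of_surjective _ hsurj, comap_mk'_normalizer_map,
      sup_eq_left.mpr (h2.le_sylow_of_normal Q)] at h1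
  · have hc := isCoprimeAction_of_isPGroup_left (N := N) le_normalizer_of_normal Q.isPGroup' h2
    rw [hc.normalizer_map_mk'] at h1
    rw [index_eq_relIndex_mul_index_map _ N, Nat.Prime.dvd_mul Fact.out, not_or]
    refine ⟨?_, h1⟩
    obtain ⟨R, hRN, hR, hRi, hRQ⟩ := hc.exists_invariant_sylow p
    refine fun hd => hRi (hd.trans (relIndex_dvd_of_le_left _ ?_))
    refine (le_centralizer_iff.mp fun y hy => ?_).trans (centralizer_le_normalizer _)
    have hy' : zpowers y ≤ Q := zpowers_le.mpr hy
    have h3 := (hc.mono_left hy').not_dvd_relIndex_inf_centralizer hRN hR hRi (hy'.trans hRQ)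
    rw [centralizer_zpowers] at h3
    have h4 : ¬ p ∣ (centralizer {y}).relIndex N := fun hd =>
      h y (isPElt_of_mem Q.isPGroup' hy) (hd.trans (relIndex_normal_dvd_index _ N))
    have h5 : (R ⊓ centralizer {y}).relIndex N =
        R.relIndex (N ⊓ centralizer {y}) * (centralizer {y}).relIndex N := by
      rw [inf_comm N, relIndex_inf_mul_relIndex]
    have h6 : (R ⊓ centralizer {y}).relIndex R = 1 := by
      refine Nat.eq_one_of_dvd_coprimes (IsPGroup.coprime_card_of_not_dvd hR (n :=
        (R ⊓ centralizer {y}).relIndex N) ?_) (relIndex_dvd_card _ _)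
        (Dvd.intro _ (relIndex_mul_relIndex _ _ _ inf_le_left hRN))
      rw [h5, Nat.Prime.dvd_mul Fact.out, not_or]
      exact ⟨h3, h4⟩
    intro r hr
    exact mem_centralizer_singleton_iff.mp (relIndex_eq_one.mp h6 hr).2

/-- Let p and q be primes and G a finite group that is p-solvable or q-solvable, in which no q-element has conjugacy class size divisible by p. Then some Sylow p-subgroup of G normalizes some Sylow q-subgroup of G. -/
theorem result {G : Type*} [Group G] [Finite G] (p q : ℕ) [Fact p.Prime] [Fact q.Prime] (hsolv : Cfsg.IsPSolvable p G ∨ Cfsg.IsPSolvable q G)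
    (h : ∀ y : G, (∃ k : ℕ, orderOf y = q ^ k) → ¬ p ∣ (Subgroup.centralizer ({y} : Set G)).index) :
    ∃ (P : Sylow p G) (Q : Sylow q G), (P : Subgroup G) ≤ Subgroup.normalizer ((Q : Subgroup G) : Set G) := by
  by_cases hpq : p = q
  · subst hpq
    obtain ⟨P⟩ := Sylow.nonempty (p := p) (G := G)
    exact ⟨P, P, le_normalizer⟩
  rcases hsolv with hs | hs
  · refine (Cfsg.Agent.S4602.result p q hpq hs).mpr fun hd => ?_
    obtain ⟨y, hy⟩ := exists_prime_orderOf_dvd_card' (G := G ⧸ pPrimeCore p G) q hd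
    have hq : IsPElt q y := ⟨1, by rw [hy, pow_one]⟩
    have h1 := pCore_le_of_not_dvd_index
      (hyp_quot h (QuotientGroup.mk'_surjective (pPrimeCore p G)) y hq)
    rw [← centralizer_zpowers, le_centralizer_iff] at h1
    have h2 := (hs.to_quotient _).centralizer_pCore_le (pPrimeCore_quotient_pPrimeCore p G)
      (h1 (mem_zpowers y))
    have h3 := (isPElt_of_mem (isPGroup_pCore p _) h2).eq_one_of_isPRegular
      (hq.isPRegular_of_ne (Ne.symm hpq))
    rw [h3, orderOf_one] at hy
    exact (Fact.out : q.Prime).one_lt.ne hy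
  · obtain ⟨Q⟩ := Sylow.nonempty (p := q) (G := G)
    obtain ⟨P, hP⟩ := exists_sylow_le_of_not_dvd_index (qsolv G hs h Q)
    exact ⟨P, Q, hP⟩

end Cfsg.Agent.S4601
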