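import Cfsg.Statements.S4604
import Cfsg.Agent.Char.Congr

set_option autoImplicit false
open Cfsg

namespace Cfsg.Agent.S4604

/-- Let G be a finite group, p a prime and p^a the p-part of the order of G. Let x, y ∈ G and let x′, y′ be their p-regular parts: x′ has order prime to p, commutes with x·x′⁻¹, and x·x′⁻¹ has p-power order (likewise for y). Then x′ and y′ are conjugate in G if and only if for every irreducible character χ of G the algebraic integer χ(x)^(p^a) − χ(y)^(p^a) is p times an algebraic integer. -/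
theorem result {G : Type*} [Group G] [Finite G] (p : ℕ) [Fact p.Prime] (x y x' y' : G)
    (hx : (∃ k : ℕ, orderOf (x * x'⁻¹) = p ^ k) ∧ Commute (x * x'⁻¹) x' ∧ ¬ p ∣ orderOf x')
    (hy : (∃ k : ℕ, orderOf (y * y'⁻¹) = p ^ k) ∧ Commute (y * y'⁻¹) y' ∧ ¬ p ∣ orderOf y') :
    IsConj x' y' ↔ ∀ χ : Cfsg.IrrCharacter G, ∃ γ : Cfsg.AlgInt,
      (χ : G → ℂ) x ^ (p ^ (Nat.card G).factorization p) - (χ : G → ℂ) y ^ (p ^ (Nat.card G).factorization p) = (p : ℂ) * (γ : ℂ) := by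
  have hp : p.Prime := Fact.out
  set a := (Nat.card G).factorization p with ha
  have hpow : ∀ u : G, (∃ k : ℕ, orderOf u = p ^ k) → u ^ p ^ a = 1 := by
    rintro u ⟨k, hk⟩
    rw [← orderOf_dvd_iff_pow_eq_one, hk]
    exact pow_dvd_pow p ((hp.pow_dvd_iff_le_factorization Nat.card_pos.ne').1
      (hk ▸ orderOf_dvd_natCard u))
  have hx1 : x ^ p ^ a = x' ^ p ^ a := by
    have := hx.2.1.mul_pow (p ^ a)
    rwa [hpow _ hx.1, one_mul, inv_mul_cancel_right] at this
  have hy1 : y ^ p ^ a = y' ^ p ^ a := by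
    have := hy.2.1.mul_pow (p ^ a)
    rwa [hpow _ hy.1, one_mul, inv_mul_cancel_right] at this
  constructor
  · intro h χ
    obtain ⟨γ, hγ, h1⟩ := χ.isCharacter.isGen.exists_pow_prime_pow_sub hp x a
    obtain ⟨δ, hδ, h2⟩ := χ.isCharacter.isGen.exists_pow_prime_pow_sub hp y a
    have h3 : χ (x ^ p ^ a) = χ (y ^ p ^ a) := by
      rw [hx1, hy1]; exact χ.isClassFunction.eq_of_isConj (h.pow _)
    exact ⟨⟨γ - δ, hγ.sub hδ⟩, by change _ = _ * (γ - δ); linear_combination h1 - h2 + h3⟩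
  · intro h
    obtain ⟨M, hM⟩ := exists_isPModular_of_prime hp
    refine isConj_of_forall_memLocalIdeal hM hx.2.2 hy.2.2 fun χ => ?_
    have h1 := χ.isCharacter.isGen.sub_mem_of_isPrime hp hM.2.1.isPrime hM.2.2 hx.2.1 (hpow _ hx.1)
    have h2 := χ.isCharacter.isGen.sub_mem_of_isPrime hp hM.2.1.isPrime hM.2.2 hy.2.1 (hpow _ hy.1)
    simp only [inv_mul_cancel_right] at h1 h2
    have h3 : (⟨χ x, χ.mem_algInt x⟩ - ⟨χ y, χ.mem_algInt y⟩ : AlgInt) ∈ M := by
      obtain ⟨γ, hγ⟩ := h χ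
      have := charP_algInt_quotient hp
      have h4 := (algInt_quotient_mk_eq_iff (p := p) (a := ⟨χ x, χ.mem_algInt x⟩ ^ p ^ a)
        (b := ⟨χ y, χ.mem_algInt y⟩ ^ p ^ a)).2 ⟨γ, γ.2, by simpa using hγ⟩
      rw [map_pow, map_pow, ← sub_eq_zero, ← sub_pow_char_pow, ← map_sub, ← map_pow,
        Ideal.Quotient.eq_zero_iff_mem] at h4
      refine hM.2.1.isPrime.mem_of_pow_mem (p ^ a) ?_
      exact (Ideal.span_le.2 (Set.singleton_subset_iff.2 hM.2.2)) h4
    refine memLocalIdeal_of_mem hM (sub_mem (χ.mem_algInt _) (χ.mem_algInt _)) ?_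
    convert M.add_mem (M.sub_mem h3 h1) h2 using 1
    exact Subtype.ext (by simp)

end Cfsg.Agent.S4604
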