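import Cfsg.Statements.S4648
import Cfsg.Agent.Blk.BasicAlg
import Cfsg.Agent.Blk.LocNilp
-- import your own Cfsg.Agent.* helpers here

set_option autoImplicit false
open Cfsg

namespace Cfsg.Agent.S4648

open GA MonoidAlgebra

theorem comm_of_card_le_four {G : Type*} [Group G] [Finite G] {p : ℕ} [hp : Fact p.Prime]
    {Q : Subgroup G} (hQ : IsPGroup p Q) (h4 : Nat.card Q ≤ 4) {u x : G} (hu : u ∈ Q) (hu1 : u ≠ 1)
    (hx : x ∈ Subgroup.normalizer (Q : Set G)) (hxu : x * u * x⁻¹ = u) (hr : IsPRegular p x) :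
    x ∈ Subgroup.centralizer (Q : Set G) := by
  rw [mem_centralizer_sub_conj']
  intro y hy
  by_contra hne
  have inj : ∀ {a b : G}, x * a * x⁻¹ = x * b * x⁻¹ → a = b := fun h => by simpa using h
  have h1 : y ≠ 1 := fun e => hne (by simp [e])
  have h2 : y ≠ u := fun e => hne (by rw [e, hxu])
  have h3 : x * y * x⁻¹ ≠ 1 := fun e => h1 (inj (by simpa using e))
  have h5 : x * y * x⁻¹ ≠ u := fun e => h2 (inj (e.trans hxu.symm))
  have hy' := conj_mem_of_mem_normalizer hx hy
  have hsub : ({1, u, y, x * y * x⁻¹} : Set G) ⊆ Q := by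
    rintro _ (rfl | rfl | rfl | rfl) <;> first | exact one_mem _ | assumption
  have hc : ({1, u, y, x * y * x⁻¹} : Set G).ncard = 4 := by
    rw [Set.ncard_insert_of_notMem (by simp [hu1.symm, h1.symm, h3.symm]),
      Set.ncard_insert_of_notMem (by simp [h2.symm, h5.symm]), Set.ncard_pair (Ne.symm hne)]
  have heq := Set.eq_of_subset_of_ncard_le hsub (by rw [hc]; exact h4)
  have h6 : Nat.card Q = 4 := by rw [← hc, heq]; rfl
  obtain ⟨n, hn⟩ := hQ.exists_card_eq
  have hp2 : p = 2 := by
    have : 2 ∣ p ^ n := by rw [← hn, h6]; norm_num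
    exact ((Nat.prime_dvd_prime_iff_eq Nat.prime_two hp.out).1 (Nat.prime_two.dvd_of_dvd_pow this)).symm
  subst hp2
  have h7 : x * (x * y * x⁻¹) * x⁻¹ = y := by
    have := conj_mem_of_mem_normalizer hx hy'
    rw [← SetLike.mem_coe, ← heq] at this
    rcases this with e | e | e | e
    · exact absurd (inj (by simpa using e)) h3
    · exact absurd (inj (e.trans hxu.symm)) h5
    · exact e
    · exact absurd (inj e) hne
  have h8 : x ^ 2 ∈ Subgroup.centralizer ({y} : Set G) := by
    rw [Subgroup.mem_centralizer_singleton_iff]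
    conv_rhs => rw [← h7]
    simp [sq, mul_assoc]
  have h9 := Subgroup.mem_centralizer_singleton_iff.1
    (mem_of_pow_mem_of_isPRegular hr (n := 1) (by simpa using h8))
  exact hne (by rw [h9]; simp)

/-- Let B be a block of the finite group G relative to a maximal ideal M of the algebraic integers containing the prime p, with a nontrivial defect group D. If B has p-regular rank 1 and at most four irreducible characters, then B is nilpotent, D has exactly as many elements as B has irreducible characters, and p is 2 or 3. -/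
theorem result {G : Type*} [Group G] [Finite G] (p : ℕ) [Fact p.Prime] (M : Ideal Cfsg.AlgInt) (hM : Cfsg.IsPModular p M) (B : Set (Cfsg.IrrCharacter G)) (hB : Cfsg.IsPBlock M B) (D : Subgroup G) (hD : Cfsg.IsDefectGroup p M B D) (hD1 : D ≠ ⊥) (hl : Cfsg.blockRank p B = 1) (hk : Nat.card B ≤ 4) : Cfsg.IsNilpotentBlock p M B ∧ Nat.card D = Nat.card B ∧ (p = 2 ∨ p = 3) := by
  have := hM.charP
  classical
  have := Fintype.ofFinite D
  have hp : p.Prime := Fact.out
  have h1 := hB.pow_eq_card_of_le_four hM hl hk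
  have h2 := hD.card_eq hB hM
  have h3 : blockDefect p B ≠ 0 := fun h => hD1 (Subgroup.eq_bot_of_card_eq _ (by rw [h2, h, pow_zero]))
  have h4 : p ≤ 4 := (Nat.le_self_pow h3 p).trans (h1.le.trans hk)
  have h5 : p = 2 ∨ p = 3 := by
    have := hp.two_le
    interval_cases p <;> simp_all (config := {decide := true})
  refine ⟨(isNilpotentBlock_iff hM).2 ⟨hB, ?_⟩, h2.trans h1, h5⟩
  obtain ⟨e, hP⟩ := (hB.isBlockIdem hM).exists_isMaxPair ((hB.isDefectGroup_iff hM _).1 hD)
  have hab : D ≤ Subgroup.centralizer (D : Set G) := by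
    have h6 : blockDefect p B ≤ 2 := by
      by_contra! h
      have := (Nat.pow_le_pow_left hp.two_le 3).trans (Nat.pow_le_pow_right hp.pos h)
      omega
    have : IsMulCommutative D := by
      obtain h | h : blockDefect p B = 1 ∨ blockDefect p B = 2 := by omega
      · rw [h, pow_one] at h2
        haveI := isCyclic_of_prime_card h2
        infer_instance
      · rw [h] at h2
        exact ⟨⟨IsPGroup.commutative_of_card_eq_prime_sq h2⟩⟩
    exact Subgroup.le_centralizer D
  have h7 : ∀ u : D, lrk p M D e (Subgroup.zpowers (u : G)) = 1 := fun u => by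
    by_cases hu : (u : G) = 1
    · rw [hu, Subgroup.zpowers_one_eq_bot, hM.lrk_bot hB hP.toIsPairOf, hl]
    refine hM.lrk_eq_one_of_forall hP (Subgroup.zpowers_le.2 u.2) (Subgroup.le_centralizer _)
      (fun g _ => ?_) fun Q hQ hQ' x hx hx' hr _ => ?_
    · rw [inf_eq_left.2 (hab.trans (centralizer_anti (Subgroup.zpowers_le.2 u.2)))]
      exact Subgroup.card_le_of_le inf_le_left
    · exact comm_of_card_le_four (hD.isPGroup.to_le (hQ'.trans inf_le_left))
        ((Subgroup.card_le_of_le (hQ'.trans inf_le_left)).trans (by omega))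
        (Subgroup.zpowers_le.1 hQ) hu hx (mem_centralizer_sub_conj'.1 hx' _ (Subgroup.mem_zpowers _)) hr
  have h8 := hM.card_eq_sum_lrk_real hB hP
  have h9 : ∀ u : D, 1 ≤ (fClass p D e u).ncard := fun u =>
    (Set.ncard_pos (Set.toFinite _)).2 ⟨u, hP.pair.mem_fClass_self u⟩
  simp only [h7, Nat.cast_one] at h8
  rw [← h1, ← h2, Nat.card_eq_fintype_card, ← Finset.card_univ, Finset.card_eq_sum_ones, Nat.cast_sum,
    eq_comm, Finset.sum_eq_sum_iff_of_le fun u _ => by
      rw [Nat.cast_one]; exact div_le_one_of_le₀ (by exact_mod_cast h9 u) (by positivity)] at h8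
  refine hP.isNilpIn_of_forall fun Q hQ x _ _ hf => mem_centralizer_sub_conj'.2 fun y hy => ?_
  have h10 := h8 ⟨y, hQ hy⟩ (Finset.mem_univ _)
  rw [Nat.cast_one, one_div, inv_eq_one, Nat.cast_eq_one, Set.ncard_eq_one] at h10
  obtain ⟨a, ha⟩ := h10
  have h11 := hf.conj_mem_fClass hP.pair hy
  have h12 := hP.pair.mem_fClass_self ⟨y, hQ hy⟩
  rw [ha] at h11 h12
  exact congrArg Subtype.val (h11.trans h12.symm)

end Cfsg.Agent.S4648
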