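import Cfsg.Statements.S4607
import Cfsg.Agent.S4648
import Cfsg.Agent.Blk.RankOne

set_option autoImplicit false
open Cfsg

namespace Cfsg.Agent.S4607

/-- Let G be a finite group, p a prime, M a maximal ideal of the algebraic integers containing p, and B a p-block of G with defect group D. Then B contains exactly two irreducible characters if and only if D has order 2. -/
theorem result {G : Type*} [Group G] [Finite G] (p : ℕ) [Fact p.Prime] (M : Ideal Cfsg.AlgInt) (hM : Cfsg.IsPModular p M) (B : Set (Cfsg.IrrCharacter G)) (hB : Cfsg.IsPBlock M B) (D : Subgroup G) (hD : Cfsg.IsDefectGroup p M B D) : Nat.card B = 2 ↔ Nat.card D = 2 := by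
  have hp : p.Prime := Fact.out
  have hc := IsDefectGroup.card_eq hB hM hD
  constructor
  · intro hk
    have hd : blockDefect p B ≠ 0 := fun h => by
      rw [hB.blockDefect_eq_zero_iff_card hM] at h; omega
    have h1 := hB.blockRank_lt_card hM hd
    have h2 := hB.blockRank_pos hM
    have hD1 : D ≠ ⊥ := fun h => by
      rw [h, Subgroup.card_bot] at hc
      exact (Nat.one_lt_pow hd hp.one_lt).ne hc
    rw [(Cfsg.Agent.S4648.result p M hM B hB D hD hD1 (by omega) (by omega)).2.1, hk]
  · intro h2
    rw [h2] at hc
    obtain ⟨rfl, hd⟩ := (Nat.prime_two.pow_eq_iff).1 hc.symm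
    exact hB.card_eq_two_of_defect_one hM hd

end Cfsg.Agent.S4607
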