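import Cfsg.Statements.S4608
import Cfsg.Agent.Blk.Five
-- import your own Cfsg.Agent.* helpers here

set_option autoImplicit false
open Cfsg

namespace Cfsg.Agent.S4608

open GA MonoidAlgebra

/-- Let G be a finite group, p a prime, M a maximal ideal of the algebraic integers containing p, and B a p-block of G with defect group D. If B has p-regular rank one and exactly five irreducible characters, then D is cyclic of order 5, or D has order 8 and is non-abelian (dihedral or quaternion). -/
theorem result {G : Type*} [Group G] [Finite G] (p : ℕ) [Fact p.Prime] (M : Ideal Cfsg.AlgInt) (hM : Cfsg.IsPModular p M) (B : Set (Cfsg.IrrCharacter G)) (hB : Cfsg.IsPBlock M B) (D : Subgroup G) (hD : Cfsg.IsDefectGroup p M B D)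
    (hl : Cfsg.blockRank p B = 1) (hk : Nat.card B = 5) :
    (Nat.card D = 5) ∨ (Nat.card D = 8 ∧ ¬ IsMulCommutative D) := by
  have := hM.charP
  rcases hB.pow_eq_of_card_eq_five hM hl hk with h | h
  · exact .inl ((hD.card_eq hB hM).trans h)
  obtain rfl : p = 2 := ((Nat.prime_dvd_prime_iff_eq Nat.prime_two hM.prime).1
    (Nat.prime_two.dvd_of_dvd_pow (n := blockDefect p B) (by rw [h]; decide))).symm
  exact .inr ⟨(hD.card_eq hB hM).trans h,
    hM.not_comm_of_card_eq_five hB hD ((hD.card_eq hB hM).trans h) hl hk⟩

end Cfsg.Agent.S4608
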