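import Cfsg.Statements.S4609
import Cfsg.Agent.Blk.ThreeCore
import Cfsg.Agent.Grp.Frattini

set_option autoImplicit false
open Cfsg

namespace Cfsg.Agent.S4609

open Subgroup

theorem commutator_eq_bot {G : Type*} [Group G] [Finite G] {p : ℕ} [Fact p.Prime] {D : Subgroup G}
    [D.Normal] (hD : IsPGroup p D) (h : IsCyclic (D.map (QuotientGroup.mk' ⁅D, D⁆))) :
    ⁅D, D⁆ = ⊥ := by
  obtain ⟨⟨_, x, hx, rfl⟩, h⟩ := h
  haveI := hD.isNilpotent
  have h1 : zpowers (⟨x, hx⟩ : D) = ⊤ := by
    refine eq_top_of_sup_commutator (eq_top_iff.2 fun y _ => ?_)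
    obtain ⟨k, hk⟩ := h ⟨_, y, y.2, rfl⟩
    have h2 : (x ^ k)⁻¹ * (y : G) ∈ ⁅D, D⁆ := QuotientGroup.eq.1 (congrArg Subtype.val hk)
    rw [← map_subtype_commutator] at h2
    obtain ⟨z, hz, e⟩ := h2
    have h3 : y = (⟨x, hx⟩ : D) ^ k * z := Subtype.ext (by
      rw [coe_mul, show (z : G) = _ from e]; simp)
    rw [h3]
    exact mul_mem_sup (zpow_mem_zpowers _ k) hz
  haveI : IsCyclic D := ⟨_, (eq_top_iff' _).1 h1⟩
  exact commutator_eq_bot_iff_le_centralizer.2 (le_centralizer D)

theorem card_le_three {G : Type*} [Group G] [Finite G] {p : ℕ} [Fact p.Prime] {M : Ideal AlgInt}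
    (hM : IsPModular p M) {b : Set (IrrCharacter G)} (hb : IsPBlock M b) {D : Subgroup G} [D.Normal]
    (hD : IsDefectGroup p M b D)
    (hk : Nat.card {ψ : IrrCharacter G // ψ ∈ b ∧ blockHeight p b ψ.1 = 0} ≤ 3) :
    Nat.card D = 1 ∨ Nat.card D = 2 ∨ Nat.card D = 3 := by
  have hp : p.Prime := Fact.out
  have hπ := QuotientGroup.mk'_surjective ⁅D, D⁆
  have hKD : (QuotientGroup.mk' ⁅D, D⁆).ker ≤ D := by
    rw [QuotientGroup.ker_mk']; exact commutator_le_self D
  obtain ⟨c, hc, hcb, hcD⟩ := hD.exists_block_quotient hM hπ (hD.isPGroup.to_le hKD) hb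
  haveI : (D.map (QuotientGroup.mk' ⁅D, D⁆)).Normal := Normal.map ‹_› _ hπ
  haveI : IsMulCommutative (D.map (QuotientGroup.mk' ⁅D, D⁆)) := by
    rw [← le_centralizer_iff_isMulCommutative, ← commutator_eq_bot_iff_le_centralizer,
      ← map_commutator, Subgroup.map_eq_bot_iff, QuotientGroup.ker_mk']
  have hcard : Nat.card D =
      Nat.card (QuotientGroup.mk' ⁅D, D⁆).ker * Nat.card (D.map (QuotientGroup.mk' ⁅D, D⁆)) := by
    rw [← relIndex_ker, ← relIndex_bot_left (QuotientGroup.mk' ⁅D, D⁆).ker,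
      relIndex_mul_relIndex _ _ _ bot_le hKD, relIndex_bot_left]
  have h1 : Nat.card c ≤ 3 := by
    refine (Nat.card_le_card_of_injective (fun β : c => (⟨β.1.inflate _ hπ, hcb β.2, ?_⟩ :
      {ψ : IrrCharacter G // ψ ∈ b ∧ blockHeight p b ψ.1 = 0})) fun β β' e => ?_).trans hk
    · have h2 := factorization_charDegree_add_blockDefect (p := p) (B := b)
        (χ := β.1.inflate _ hπ) (hcb β.2)
      have h3 := factorization_charDegree_add_blockDefect (p := p) β.2
      rw [hcD.blockHeight_eq_zero_of_normal_comm hM hc (le_centralizer _) β.2] at h3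
      rw [IrrCharacter.charDegree_inflate, factorization_card_of_surjective hπ] at h2
      have h4 : (Nat.card D).factorization p = _ := congrArg (fun n => n.factorization p) hcard
      rw [Nat.factorization_mul Nat.card_pos.ne' Nat.card_pos.ne'] at h4
      simp only [Finsupp.add_apply, IsDefectGroup.card_eq hb hM hD, IsDefectGroup.card_eq hc hM hcD,
        Nat.Prime.factorization_pow hp, Finsupp.single_eq_same] at h4
      omega
    · exact Subtype.ext (IrrCharacter.inflate_injective _ hπ (congrArg Subtype.val e))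
  have h0 : Nat.card c ≠ 0 := ((hc.blockRank_pos hM).trans_le (blockRank_le_card c)).ne'
  have h5 : Nat.card (D.map (QuotientGroup.mk' ⁅D, D⁆)) = 1 ∨
      Nat.card (D.map (QuotientGroup.mk' ⁅D, D⁆)) = 2 ∨
      Nat.card (D.map (QuotientGroup.mk' ⁅D, D⁆)) = 3 := by
    rcases (show Nat.card c = 1 ∨ Nat.card c = 2 ∨ Nat.card c = 3 by omega) with h | h | h
    · left
      rw [IsDefectGroup.card_eq hc hM hcD, (hc.blockDefect_eq_zero_iff_card hM).2 h, pow_zero]
    · exact Or.inr (Or.inl ((Cfsg.Agent.S4607.result p M hM c hc _ hcD).1 h))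
    · exact Or.inr (Or.inr (ThreeCore.card_eq_three_of_normal hM hc hcD h))
  have h6 : IsCyclic (D.map (QuotientGroup.mk' ⁅D, D⁆)) := by
    rcases h5 with h | h | h
    · haveI := (Nat.card_eq_one_iff_unique.1 h).1
      infer_instance
    · haveI := Fact.mk Nat.prime_two
      exact isCyclic_of_prime_card h
    · haveI := Fact.mk Nat.prime_three
      exact isCyclic_of_prime_card h
  rw [QuotientGroup.ker_mk', Subgroup.card_eq_one.2 (commutator_eq_bot hD.isPGroup h6),
    one_mul] at hcard
  rwa [hcard]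

/-- Let G be a finite group, p a prime, M a maximal ideal of the algebraic integers containing p, and B a p-block of G with defect group D containing exactly three irreducible characters. Suppose the number of height-zero characters of B equals the number of height-zero characters of its Brauer correspondent b, the block of N_G(D) with defect group D inducing B (as the Alperin–McKay conjecture predicts). Then D has order 3. -/
theorem result {G : Type*} [Group G] [Finite G] (p : ℕ) [Fact p.Prime] (M : Ideal Cfsg.AlgInt) (hM : Cfsg.IsPModular p M) (B : Set (Cfsg.IrrCharacter G)) (hB : Cfsg.IsPBlock M B) (D : Subgroup G) (hD : Cfsg.IsDefectGroup p M B D) (hk : Nat.card B = 3)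
    (b : Set (Cfsg.IrrCharacter (Subgroup.normalizer (D : Set G)))) (hbB : Cfsg.IsInducedBlock M (Subgroup.normalizer (D : Set G)) b B)
    (hbD : Cfsg.IsDefectGroup p M b (D.subgroupOf (Subgroup.normalizer (D : Set G))))
    (hAM : Nat.card {χ : Cfsg.IrrCharacter G // χ ∈ B ∧ Cfsg.blockHeight p B (χ : G → ℂ) = 0} =
           Nat.card {ψ : Cfsg.IrrCharacter (Subgroup.normalizer (D : Set G)) // ψ ∈ b ∧ Cfsg.blockHeight p b (ψ : Subgroup.normalizer (D : Set G) → ℂ) = 0}) :
    Nat.card D = 3 := by
  have h1 := card_le_three hM hbB.1 hbD (by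
    rw [← hAM, ← hk]
    exact Nat.card_le_card_of_injective (fun χ => (⟨χ.1, χ.2.1⟩ : B))
      fun χ χ' e => Subtype.ext (congrArg (fun x : B => x.1) e))
  rw [Nat.card_congr (subgroupOfEquivOfLe le_normalizer).toEquiv] at h1
  rcases h1 with h | h | h
  · rw [IsDefectGroup.card_eq hB hM hD, Nat.pow_eq_one, hB.blockDefect_eq_zero_iff_card hM] at h
    have := (Fact.out : p.Prime).one_lt
    omega
  · have := (Cfsg.Agent.S4607.result p M hM B hB D hD).2 h
    omega
  · exact h

end Cfsg.Agent.S4609
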