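import Cfsg.Agent.Blk.PrinMeet
-- Template for statement S4610 (row 4610; see /opt/grader/pristine/manifest.json for weights).
-- Copy to Cfsg/Agent/S4610.lean and replace the sorry. The statement below is byte-identical to the frozen
-- statement Cfsg.CfsgFrozen.S4610 (Cfsg/Statements/S4610.lean; the theorem Cfsg.blk3_principal_blocks_pairwise_meet_trivially_iff_sylow_direct_factor);
-- the grader kernel-checks Cfsg.Agent.S4610.result against that frozen type. Keep the theorem IN THIS FILE
-- (a `result` declared elsewhere and merely imported here is not credited); helpers may live anywhere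
-- under Cfsg/Agent/.
import Cfsg.Statements.S4610
-- import your own Cfsg.Agent.* helpers here

set_option autoImplicit false
open Cfsg

namespace Cfsg.Agent.S4610

/-- Let G be a finite group and p a prime dividing its order; fix for every prime r a maximal ideal M r of the algebraic integers containing r. Then, for every prime q ≠ p dividing the order of G, the principal p-block and the principal q-block of G have only the principal character in common, if and only if a Sylow p-subgroup P of G is normal and G is generated by P and its largest normal subgroup of order prime to p (that is, G is the direct product of P and that subgroup). -/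
theorem result {G : Type*} [Group G] [Finite G] (p : ℕ) [Fact p.Prime] (hp : p ∣ Nat.card G) (M : ℕ → Ideal Cfsg.AlgInt) (hM : ∀ r : ℕ, r.Prime → Cfsg.IsPModular r (M r)) (P : Sylow p G) :
    (∀ q : ℕ, q.Prime → q ≠ p → q ∣ Nat.card G →
        ∀ χ : Cfsg.IrrCharacter G, χ ∈ Cfsg.principalBlock (M p) G → χ ∈ Cfsg.principalBlock (M q) G → (χ : G → ℂ) = fun _ => 1) ↔
      ((P : Subgroup G).Normal ∧ (P : Subgroup G) ⊔ Cfsg.pPrimeCore p G = ⊤) := by
  have hp' := hM p Fact.out
  refine ⟨fun h => normal_of_forall_not_dvd_index P fun u hu q hq hne hd => ?_,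
    fun ⟨hn, h⟩ q hq hne _ χ h1 h2 => ?_⟩
  · haveI := Fact.mk hq
    exact not_dvd_index_centralizer_of_meet hne.symm hp' (hM q hq) (fun χ h1 h2 => Subtype.ext
      (h q hq hne (hd.trans (Subgroup.index_dvd_card _)) χ h1 h2)) hu hd
  · haveI := Fact.mk hq
    have : charKer χ.1 = ⊤ := top_le_iff.1 (h.ge.trans (sup_le
      (fun g hg => χ.mem_charKer.2 ((mem_pPrimeCore_iff_principal (hM q hq)).1
        (pCore_le_pPrimeCore_of_ne hne.symm (le_pCore P.isPGroup' hg)) χ h2))
      fun g hg => χ.mem_charKer.2 ((mem_pPrimeCore_iff_principal hp').1 hg χ h1)))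
    rw [χ.charKer_eq_top_iff.1 this]
    rfl

end Cfsg.Agent.S4610
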