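import Cfsg.Statements.S4611
import Cfsg.Agent.Blk.Fong
import Cfsg.Agent.Char.Ker
-- import your own Cfsg.Agent.* helpers here

set_option autoImplicit false
open Cfsg

namespace Cfsg.Agent.S4611

/-- Let G be a finite solvable group and π a nonempty set of primes, each dividing the order of G; fix for each p in π a maximal ideal M p of the algebraic integers containing p. Then the only irreducible character lying in the principal p-block for every p in π is the principal character if and only if G is generated by the subgroups O_{p'}(G), p in π (the largest normal subgroups of order prime to p). -/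
theorem result {G : Type*} [Group G] [Finite G] [Group.IsSolvable G] (π : Set ℕ) (hπ : ∀ p ∈ π, p.Prime ∧ p ∣ Nat.card G) (hne : π.Nonempty) (M : ℕ → Ideal Cfsg.AlgInt) (hM : ∀ p ∈ π, Cfsg.IsPModular p (M p)) :
    (∀ χ : Cfsg.IrrCharacter G, (∀ p ∈ π, χ ∈ Cfsg.principalBlock (M p) G) → (χ : G → ℂ) = fun _ => 1) ↔
      ⨆ p ∈ π, Cfsg.pPrimeCore p G = ⊤ := by
  have key : ∀ χ : IrrCharacter G, (∀ p ∈ π, χ ∈ principalBlock (M p) G) ↔
      ⨆ p ∈ π, pPrimeCore p G ≤ charKer χ.1 := by
    intro χ
    simp only [iSup_le_iff]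
    refine forall₂_congr fun p hp => ?_
    haveI : Fact p.Prime := ⟨(hπ p hp).1⟩
    rw [(isPSolvable_of_isSolvable p G).mem_principalBlock_iff (hM p hp),
      χ.isCharacter.le_charKer_iff]
  simp only [key]
  haveI : (⨆ p ∈ π, pPrimeCore p G).Normal :=
    Subgroup.biSup_normal π _ fun p hp => inferInstance
  constructor
  · intro h
    by_contra hne
    obtain ⟨g, hg⟩ : ∃ g, g ∉ ⨆ p ∈ π, pPrimeCore p G := by
      by_contra! h'
      exact hne (eq_top_iff.2 fun g _ => h' g)
    obtain ⟨χ, h1, h2⟩ := exists_irr_le_charKer_not_mem _ hg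
    exact h2 (χ.mem_charKer.2 ((congrFun (h χ h1) g).trans (congrFun (h χ h1) 1).symm))
  · intro h χ hχ
    rw [h, top_le_iff, χ.charKer_eq_top_iff] at hχ
    rw [hχ]
    rfl

end Cfsg.Agent.S4611
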