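import Cfsg.Statements.S4613
import Cfsg.Agent.Lie.Orth
import Cfsg.Agent.Lie.RigSz
import Cfsg.Agent.Lie.RigRee
import Cfsg.Agent.Lie.RigTw
import Cfsg.Agent.Lie.RigE7
import Cfsg.Agent.Lie.RigE8
-- import your own Cfsg.Agent.* helpers here

set_option autoImplicit false
open Cfsg

namespace Cfsg.Agent.S4613

/-- Let G be a finite simple group of Lie type in characteristic p and α an automorphism of G of order prime to p that fixes some Sylow p-subgroup of G elementwise. Then α is the identity. -/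
theorem result {G : Type*} [Group G] [Finite G] [IsSimpleGroup G] (p : ℕ) [Fact p.Prime] (hG : Cfsg.IsLieTypeChar p G) (α : MulAut G) (hα : ¬ p ∣ orderOf α) (U : Sylow p G) (hfix : ∀ x ∈ (U : Subgroup G), α x = x) : α = 1 := by
  suffices h : PRigid p G from
    h α hα fun h => U.not_dvd_index (h.trans (Subgroup.index_dvd_of_le fun x hx => hfix x hx))
  have tr : ∀ {H : Type} [Group H], Nonempty (G ≃* H) →
      (∀ [Finite H] [IsSimpleGroup H], PRigid p H) → PRigid p G := fun {H} _ ⟨e⟩ h => by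
    haveI := Finite.of_equiv G e.toEquiv
    haveI := e.symm.isSimpleGroup
    exact h.of_equiv e
  rcases hG with ⟨F, _, _, _, n, hn, -, e⟩ | ⟨F, _, _, _, n, hn, -, e⟩ |
    ⟨F, _, _, _, n, q, hq, hn, -, e⟩ | ⟨F, _, _, _, n, hn, hF, e⟩ | ⟨F, _, _, _, n, hn, e⟩ |
    ⟨F, _, _, _, n, a, b, hn, hab, e⟩ | ⟨F, _, _, _, ⟨-, e⟩ | e | e | e | e⟩ |
    ⟨F, _, _, _, q, hq, ⟨hF, e⟩ | ⟨hF, e⟩⟩ | ⟨rfl, F, _, _, m, hm, hF, e⟩ |
    ⟨rfl, F, _, _, m, hm, hF, e⟩ | ⟨rfl, F, _, _, m, hm, hF, e⟩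
  · exact tr e (pRigid_psl (by omega))
  · exact tr e (pRigid_psp hn)
  · exact tr e (pRigid_psu hq hn)
  · exact tr e (omegaData_odd (by omega) (two_ne_zero_of_odd_card hF)).pRigid
  · exact tr e (omegaData_plus (by omega)).pRigid
  · exact tr e (omegaData_minus (by omega) hab).pRigid
  · exact tr e Chev.pRigid_G2
  · exact tr e Chev.pRigid_F4
  · exact tr e Chev.pRigid_E6
  · exact tr e Chev.pRigid_E7
  · exact tr e Chev.pRigid_E8
  · exact tr e (Chev.pRigid_twistedE6 hq.one_lt hF)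
  · exact tr e (Chev.pRigid_twistedD4 hq.one_lt hF)
  · exact tr e (pRigid_sz hF)
  · haveI : CharP F 2 := charP_of_card_eq_prime_pow hF
    exact tr e (Chev.pRigid_twistedF4 (Nat.one_lt_two_pow (by omega))
      (fun h => by have := h ▸ dvd_pow_self 2 (show m ≠ 0 by omega); omega) (by rw [hF]; ring))
  · exact tr e (pRigid_twistedG2 hm hF)

end Cfsg.Agent.S4613
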