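import Cfsg.Statements.S4620
import Cfsg.Agent.Grp.Misc

set_option autoImplicit false
open scoped Pointwise
open Cfsg

namespace Cfsg.Agent.S4620

open Subgroup

/-- Let H be a finite group with no nontrivial normal p-subgroup and no nontrivial normal subgroup of order prime to p, whose Sylow p-subgroup P is nontrivial and a trivial-intersection set (P meets its conjugates by elements outside N_H(P) trivially). Then H has a unique minimal normal subgroup N; N is non-abelian simple with trivial centralizer in H (so H embeds in Aut(N)), and a Sylow p-subgroup of N is again a nontrivial trivial-intersection set in N. -/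
theorem result {H : Type*} [Group H] [Finite H] (p : ℕ) [Fact p.Prime] (hOp : Cfsg.pCore p H = ⊥) (hOp' : Cfsg.pPrimeCore p H = ⊥) (P : Sylow p H) (hP1 : (P : Subgroup H) ≠ ⊥)
    (hTI : ∀ g : H, g ∉ Subgroup.normalizer ((P : Subgroup H) : Set H) → (P : Subgroup H) ⊓ (MulAut.conj g • (P : Subgroup H)) = ⊥) :
    ∃ N : Subgroup H, N.Normal ∧ N ≠ ⊥ ∧ (∀ K : Subgroup H, K.Normal → K ≠ ⊥ → N ≤ K) ∧
      IsSimpleGroup N ∧ ¬ IsMulCommutative N ∧ Subgroup.centralizer (N : Set H) = ⊥ ∧
      ∀ Q : Sylow p N, (Q : Subgroup N) ≠ ⊥ ∧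
        ∀ n : N, n ∉ Subgroup.normalizer ((Q : Subgroup N) : Set N) → (Q : Subgroup N) ⊓ (MulAut.conj n • (Q : Subgroup N)) = ⊥ := by
  have hti : ∀ {X : Subgroup H}, X ≤ P → X ≠ ⊥ →
      centralizer (X : Set H) ≤ normalizer ((P : Subgroup H) : Set H) := fun {X} hX h0 g hg => by
    by_contra hn
    refine h0 (eq_bot_iff.mpr (hTI g hn ▸ le_inf hX fun x hx => ?_))
    rw [conj_smul_eq_map, mem_map_conj, mul_assoc, hg x hx, inv_mul_cancel_left]
    exact hX hx
  have hdvd : ∀ {S : Subgroup H}, S.IsSubnormal → S ≠ ⊥ → (P : Subgroup H) ⊓ S ≠ ⊥ :=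
    fun {S} hS h0 => sylow_inf_ne_bot_of_isSubnormal P hS (by
      by_contra hn
      exact h0 (eq_bot_iff.mpr (hOp' ▸ le_pPrimeCore_of_isSubnormal hS hn)))
  have key : ∀ {S T : Subgroup H}, S.IsSubnormal → T.IsSubnormal → S ≠ ⊥ → T ≠ ⊥ →
      ¬ S ≤ centralizer (T : Set H) := fun {S T} hS hT hS0 hT0 hc => by
    have h1 : S ≤ normalizer ((P : Subgroup H) : Set H) :=
      (hc.trans (centralizer_le (SetLike.coe_subset_coe.mpr inf_le_right))).trans
        (hti inf_le_left (hdvd hT hT0))
    exact hdvd hS hS0 (eq_bot_iff.mpr (hOp ▸ le_pCore_of_isSubnormal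
      (isSubnormal_of_le_normalizer inf_le_right (le_normalizer_inf h1 le_normalizer) hS)
      (P.isPGroup'.to_le inf_le_left)))
  have : Nontrivial H := by
    by_contra hn
    rw [not_nontrivial_iff_subsingleton] at hn
    exact hP1 (Subsingleton.elim _ _)
  obtain ⟨N, hN⟩ := exists_isMinNormal H
  have := hN.normal
  have hNs : N.IsSubnormal := Normal.isSubnormal hN.normal
  refine ⟨N, hN.normal, hN.ne_bot, fun K hK hK0 => ?_, ?_, fun hc => ?_, ?_, fun Q => ⟨?_, ?_⟩⟩
  · by_contra hn
    exact key hNs (Normal.isSubnormal hK) hN.ne_bot hK0 (hN.le_centralizer_of_not_le hn)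
  · obtain ⟨S, hSN, hNS, hS, hsup, hc⟩ := hN.exists_simple_factor
    have hS0 : S ≠ ⊥ := (isSimpleGroup_subgroup_iff.mp hS).1
    have hSs := isSubnormal_of_le_normalizer hSN hNS hNs
    have : N = S := by
      refine le_antisymm (hsup ▸ iSup_le fun g => ?_) hSN
      rcases hc g with e | e
      · exact e.le
      · exact absurd e.2 (key (hSs.map (MulAut.conj g).surjective) hSs
          (mt map_conj_eq_bot_iff.mp hS0) hS0)
    exact this ▸ hS
  · exact key hNs hNs hN.ne_bot hN.ne_bot (le_centralizer_iff_isMulCommutative.mpr hc)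
  · by_contra hn
    exact key (Normal.isSubnormal inferInstance) hNs hn hN.ne_bot le_rfl
  · rw [sylow_ne_bot_iff]
    by_contra hn
    exact hN.ne_bot (eq_bot_iff.mpr (hOp' ▸ le_pPrimeCore_of_not_dvd hn))
  · intro n hn
    obtain ⟨R, hR⟩ := exists_sylow_inf_eq Q
    obtain ⟨g, rfl⟩ := MulAction.exists_smul_eq H P R
    have hQ : (Q : Subgroup N) = ((g • P : Sylow p H) : Subgroup H).subgroupOf N := by
      apply map_injective N.subtype_injective
      rw [hR, subgroupOf_map_subtype]
    rw [hQ] at hn ⊢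
    rw [conj_smul_eq_map, map_conj_subgroupOf, subgroupOf, subgroupOf, ← comap_inf]
    have h1 : g⁻¹ * n * g ∉ normalizer ((P : Subgroup H) : Set H) := fun h => hn (by
      refine le_normalizer_comap N.subtype ?_
      rw [mem_comap, Sylow.coe_smul_eq_map', normalizer_map_conj, mem_map_conj]
      exact h)
    have h2 := congrArg (Subgroup.map (MulAut.conj g).toMonoidHom) (hTI _ h1)
    rw [conj_smul_eq_map, map_conj_inf, map_conj_map_conj, Subgroup.map_bot] at h2
    rw [Sylow.coe_smul_eq_map', map_conj_map_conj, show (n : H) * g = g * (g⁻¹ * n * g) by group,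
      h2, MonoidHom.comap_bot, ker_subtype]

end Cfsg.Agent.S4620
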