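import Cfsg.Statements.S4625
import Cfsg.Agent.Lie.SylTw
import Cfsg.Agent.Lie.TabG2
import Cfsg.Agent.Lie.TabE7
import Cfsg.Agent.Lie.TabE8
-- import your own Cfsg.Agent.* helpers here

set_option autoImplicit false
open Cfsg

namespace Cfsg.Agent.S4625

/-- Let G be a finite simple group of Lie type in characteristic 2, not counting the Tits group ²F₄(2)′. Then a Sylow 2-subgroup P of G has P/P' elementary abelian: the square of every element of P lies in the derived subgroup of P. -/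
theorem result {G : Type*} [Group G] [Finite G] [IsSimpleGroup G] (hG : Cfsg.IsLieTypeChar 2 G) (P : Sylow 2 G) :
    ∀ x : (P : Subgroup G), x ^ 2 ∈ commutator (P : Subgroup G) := by
  suffices h : SylowEA 2 G from h P
  have tr : ∀ {H : Type} [Group H], Nonempty (G ≃* H) →
      (∀ [Finite H], SylowEA 2 H) → SylowEA 2 G := fun {H} _ ⟨e⟩ h => by
    haveI := Finite.of_equiv G e.toEquiv
    exact h.of_surjective e.symm.toMonoidHom e.symm.surjective
  have qt : ∀ {H : Type} [Group H] [Finite H] (N : Subgroup H) [N.Normal], SylowEA 2 H →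
      SylowEA 2 (H ⧸ N) := fun N _ h => h.of_surjective _ (QuotientGroup.mk'_surjective N)
  have fr : ∀ {F : Type} [Field F] [Fintype F] [CharP F 2] {q n : ℕ}, Fintype.card F = q ^ (n + 1) →
      ∃ φ : F →+* F, (∀ t, t ^ q = φ t) ∧ ∀ t : F, t ^ q ^ (n + 1) = t := fun {F} _ _ _ q n hq => by
    obtain ⟨m, hp, hm⟩ := FiniteField.card F 2
    obtain ⟨k, -, rfl⟩ := (Nat.dvd_prime_pow hp).1 ((dvd_pow_self q n.succ_ne_zero).trans
      (hq.symm.trans hm).dvd)
    exact ⟨iterateFrobenius F 2 k, fun _ => rfl, fun t => hq ▸ FiniteField.pow_card t⟩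
  rcases hG with ⟨F, _, _, _, n, hn, -, e⟩ | ⟨F, _, _, _, n, hn, -, e⟩ |
    ⟨F, _, _, _, n, q, hq, hn, -, e⟩ | ⟨F, _, _, _, n, hn, hF, e⟩ | ⟨F, _, _, _, n, hn, e⟩ |
    ⟨F, _, _, _, n, a, b, hn, hab, e⟩ | ⟨F, _, _, _, ⟨-, e⟩ | e | e | e | e⟩ |
    ⟨F, _, _, _, q, hq, ⟨hF, e⟩ | ⟨hF, e⟩⟩ | ⟨-, F, _, _, m, hm, hF, e⟩ |
    ⟨-, F, _, _, m, hm, hF, e⟩ | ⟨h, -⟩
  · exact tr e (qt _ (sylowEA_sl n))
  · exact tr e (qt _ (sylowEA_sp n))
  · exact tr e (qt _ (sylowEA_su n hq))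
  · exact (two_ne_zero_of_odd_card hF (CharTwo.two_eq_zero)).elim
  · exact tr e (qt _ (omegaData_plus (by omega)).sylowEA)
  · exact tr e (qt _ (omegaData_minus (by omega) hab).sylowEA)
  · exact tr e (Chev.certG2.sylowEA F)
  · exact tr e (Chev.certF4.sylowEA F)
  · exact tr e (Chev.certE6.sylowEA F)
  · exact tr e (Chev.certE7.sylowEA F)
  · exact tr e (Chev.certE8.sylowEA F)
  · obtain ⟨φ, h1, h2⟩ := fr hF
    exact tr e (Chev.sylowEA_twE6 h1 fun t => by simpa [pow_succ, pow_mul, h1] using h2 t)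
  · obtain ⟨φ, h1, h2⟩ := fr hF
    exact tr e (Chev.sylowEA_twD4 h1 fun t => by simpa [pow_succ, pow_mul, h1] using h2 t)
  · exact tr e (sylowEA_sz hm hF)
  · haveI : CharP F 2 := charP_of_card_eq_prime_pow hF
    refine tr e (Chev.sylowEA_twF4 (φ := iterateFrobenius F 2 m) (fun _ => rfl) (fun t => ?_) ?_)
    · rw [iterateFrobenius_def, iterateFrobenius_def, ← pow_mul, ← pow_mul,
        show 2 ^ m * (2 ^ m * 2) = Fintype.card F by rw [hF]; ring, FiniteField.pow_card]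
    obtain ⟨t, ht⟩ := Chev.exists_pow_ne_pow (K := F) one_pos (Nat.one_lt_two_pow (n := m) (by omega))
      (hF ▸ Nat.pow_lt_pow_right one_lt_two (by omega))
    exact ⟨t, fun e => ht (by simpa [iterateFrobenius_def] using (CharTwo.add_eq_zero.1 e).symm)⟩
  · omega

end Cfsg.Agent.S4625
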