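import Cfsg.Statements.S4629
import Cfsg.Agent.Grp.FormOrth

set_option autoImplicit false
open Cfsg

namespace Cfsg.Agent.S4629

/-- Let F be a finite field of odd order and m ≥ 3. For the commutator subgroup Ω of the isometry group of the non-singular quadratic form x₀² + Σ x_i y_i in dimension 2m + 1 over F, a Sylow 2-subgroup P of Ω has P/P' elementary abelian: the square of every element of P lies in the derived subgroup of P. -/
theorem result {F : Type*} [Field F] [Fintype F] (hF : Odd (Fintype.card F)) (m : ℕ) (hm : 3 ≤ m) (P : Sylow 2 (Cfsg.Omega F (Cfsg.quadFormOdd m F))) : ∀ x : (P : Subgroup (Cfsg.Omega F (Cfsg.quadFormOdd m F))), x ^ 2 ∈ commutator (P : Subgroup (Cfsg.Omega F (Cfsg.quadFormOdd m F))) := by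
  refine sylowEA_omega hF (by simp; omega) (coordForm F (.inl ()) (.inl ()) +
    ∑ i : Fin m, coordForm F (.inr (.inl i)) (.inr (.inr i)))
    (fun v => by simp [quadFormOdd, LinearMap.sum_apply, pow_two]) (fun u h => funext ?_) P
  rintro (_ | i | i)
  · have := h (Pi.single (.inl ()) 1)
    simpa [LinearMap.sum_apply, ← two_mul, two_ne_zero_of_odd_card hF] using this
  · simpa [LinearMap.sum_apply, Pi.single_apply] using h (Pi.single (.inr (.inr i)) 1)
  · simpa [LinearMap.sum_apply, Pi.single_apply] using h (Pi.single (.inr (.inl i)) 1)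

end Cfsg.Agent.S4629
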