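import Cfsg.Statements.S4630
import Cfsg.Agent.Grp.FormOrth

set_option autoImplicit false
open Cfsg

namespace Cfsg.Agent.S4630

/-- Let F be a finite field of odd order and m ≥ 1 with m even or m ≥ 4. For the commutator subgroup Ω of the isometry group of the plus-type quadratic form Σ_{i<m} x_i y_i in dimension 2m over F, a Sylow 2-subgroup P of Ω has P/P' elementary abelian: the square of every element of P lies in the derived subgroup of P. -/
theorem result {F : Type*} [Field F] [Fintype F] (hF : Odd (Fintype.card F)) (m : ℕ) (hm : 1 ≤ m) (hm' : Even m ∨ 4 ≤ m) (P : Sylow 2 (Cfsg.Omega F (Cfsg.quadFormPlus m F))) : ∀ x : (P : Subgroup (Cfsg.Omega F (Cfsg.quadFormPlus m F))), x ^ 2 ∈ commutator (P : Subgroup (Cfsg.Omega F (Cfsg.quadFormPlus m F))) := by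
  refine sylowEA_omega hF (by have := hm'.imp_left Nat.even_iff.mp; simp; omega)
    (∑ i : Fin m, coordForm F (.inl i) (.inr i))
    (fun v => by simp [quadFormPlus, LinearMap.sum_apply]) (fun u h => funext ?_) P
  rintro (i | i)
  · simpa [LinearMap.sum_apply, Pi.single_apply] using h (Pi.single (.inr i) 1)
  · simpa [LinearMap.sum_apply, Pi.single_apply] using h (Pi.single (.inl i) 1)

end Cfsg.Agent.S4630
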