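import Cfsg.Statements.S4631
import Cfsg.Agent.Grp.FormOrth

set_option autoImplicit false
open Cfsg

namespace Cfsg.Agent.S4631

/-- Let F be a finite field of odd order, m ≥ 4, and a, b ∈ F with z₁² + a z₁ z₂ + b z₂² anisotropic. For the commutator subgroup Ω of the isometry group of the minus-type quadratic form Σ_{i<m−1} x_i y_i + (z₁² + a z₁ z₂ + b z₂²) in dimension 2m over F, a Sylow 2-subgroup P of Ω has P/P' elementary abelian: the square of every element of P lies in the derived subgroup of P. -/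
theorem result {F : Type*} [Field F] [Fintype F] (hF : Odd (Fintype.card F)) (m : ℕ) (hm : 4 ≤ m) (a b : F) (hab : ∀ z₁ z₂ : F, z₁ ^ 2 + a * z₁ * z₂ + b * z₂ ^ 2 = 0 → z₁ = 0 ∧ z₂ = 0) (P : Sylow 2 (Cfsg.Omega F (Cfsg.quadFormMinus (m - 1) F a b))) : ∀ x : (P : Subgroup (Cfsg.Omega F (Cfsg.quadFormMinus (m - 1) F a b))), x ^ 2 ∈ commutator (P : Subgroup (Cfsg.Omega F (Cfsg.quadFormMinus (m - 1) F a b))) := by
  have h2 := two_ne_zero_of_odd_card hF
  refine sylowEA_omega hF (by simp; omega)
    (∑ i : Fin (m - 1), coordForm F (.inl (.inl i)) (.inl (.inr i)) +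
      (coordForm F (.inr 0) (.inr 0) + a • coordForm F (.inr 0) (.inr 1) +
        b • coordForm F (.inr 1) (.inr 1)))
    (fun v => by simp [quadFormMinus, LinearMap.sum_apply, pow_two, mul_assoc])
    (fun u h => funext ?_) P
  have h0 := h (Pi.single (.inr 0) 1)
  have h1 := h (Pi.single (.inr 1) 1)
  simp [LinearMap.sum_apply] at h0 h1
  have := hab (u (.inr 0)) (u (.inr 1)) (mul_left_cancel₀ h2 (by
    linear_combination u (.inr 0) * h0 + u (.inr 1) * h1))
  rintro ((i | i) | i)
  · simpa [LinearMap.sum_apply, Pi.single_apply] using h (Pi.single (.inl (.inr i)) 1)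
  · simpa [LinearMap.sum_apply, Pi.single_apply] using h (Pi.single (.inl (.inl i)) 1)
  · fin_cases i
    exacts [this.1, this.2]

end Cfsg.Agent.S4631
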