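import Cfsg.Statements.S4742
import Cfsg.Agent.Blk.Robinson

set_option autoImplicit false
open Cfsg

namespace Cfsg.Agent.S4742

/-- Let p ≠ q be primes dividing the order of the finite group G, and suppose the centralizer of every non-identity p-element of G has order prime to q. Then either G has an irreducible character of p-defect zero, or for every non-identity q-element z of G there are conjugates g, h of z such that g h⁻¹ is a non-identity p-element. -/
theorem result {G : Type*} [Group G] [Finite G] (p q : ℕ) [Fact p.Prime] [Fact q.Prime] (hppq : p ≠ q) (hpG : p ∣ Nat.card G) (hqG : q ∣ Nat.card G) (hC : ∀ g : G, g ≠ 1 → (∃ k : ℕ, orderOf g = p ^ k) → ¬ q ∣ Nat.card ↥(Subgroup.centralizer ({g} : Set G))) : (∃ χ : Cfsg.IrrCharacter G, (Cfsg.charDegree (χ : G → ℂ)).factorization p = (Nat.card G).factorization p) ∨ ∀ z : G, z ≠ 1 → (∃ k : ℕ, orderOf z = q ^ k) → ∃ g h : G, IsConj z g ∧ IsConj z h ∧ g * h⁻¹ ≠ 1 ∧ ∃ k : ℕ, orderOf (g * h⁻¹) = p ^ k := by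
  refine or_iff_not_imp_right.2 fun h => ?_
  push Not at h
  obtain ⟨z, hz1, ⟨k, hk⟩, h⟩ := h
  refine exists_defect_zero_of_separated (x := z) (fun h1 => ?_) fun g g' hg hg' ⟨k, hk⟩ =>
    by_contra fun h0 => h g' g hg' hg (mul_inv_eq_one.not.2 h0) k hk
  obtain ⟨g, hg⟩ := exists_prime_orderOf_dvd_card' p h1
  rw [← Subgroup.orderOf_coe] at hg
  have := orderOf_dvd_natCard (⟨z, Subgroup.mem_centralizer_singleton_iff.2
    (Subgroup.mem_centralizer_singleton_iff.1 g.2).symm⟩ : Subgroup.centralizer ({g.1} : Set G))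
  rw [← Subgroup.orderOf_coe, hk] at this
  exact hC g (fun h => (Fact.out : p.Prime).ne_one (by rw [← hg, h, orderOf_one]))
    ⟨1, by rw [hg, pow_one]⟩ ((dvd_pow_self q fun h => hz1 (orderOf_eq_one_iff.1
      (by rw [hk, h, pow_zero]))).trans this)

end Cfsg.Agent.S4742
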