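import Cfsg.Statements.S4743
import Cfsg.Agent.S4742
import Cfsg.Agent.Blk.Weight

set_option autoImplicit false
open Cfsg

namespace Cfsg.Agent.S4743

theorem aux {G : Type*} [Group G] [Finite G] {p q : ℕ} [hp : Fact p.Prime] [hq : Fact q.Prime]
    (hpq : p ≠ q) (hpG : p ∣ Nat.card G)
    (h1 : ∀ z : G, z ≠ 1 → IsPElt q z → ∃ g h : G, IsConj z g ∧ IsConj z h ∧ g * h⁻¹ ≠ 1 ∧
      IsPElt p (g * h⁻¹))
    (h2 : ∀ z : G, z ≠ 1 → IsPElt p z → ∃ g h : G, IsConj z g ∧ IsConj z h ∧ g * h⁻¹ ≠ 1 ∧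
      IsPElt q (g * h⁻¹)) (hs : IsPSolvable p G) : False := by
  obtain ⟨n, H, h0, hn, -, hN, hi⟩ := hs
  have hc : ∀ i, ∀ z ∈ H i, ∀ g h, IsConj z g → IsConj z h → g * h⁻¹ ∈ H i := by
    intro i z hz g h hg hh
    obtain ⟨a, rfl⟩ := isConj_iff.1 hg
    obtain ⟨b, rfl⟩ := isConj_iff.1 hh
    exact mul_mem ((hN i).conj_mem z hz a) (inv_mem ((hN i).conj_mem z hz b))
  have key : ∀ i, ∀ z ∈ H i, (IsPElt p z → z = 1) ∧ (IsPElt q z → z = 1) := by
    intro i
    induction i using Fin.induction with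
    | zero => exact fun z hz => ⟨fun _ => by simpa [h0] using hz, fun _ => by simpa [h0] using hz⟩
    | succ i ih =>
      have hn : H i.succ ≤ Subgroup.normalizer (H i.castSucc : Set G) := by
        rw [Subgroup.normalizer_eq_top]; exact le_top
      rcases hi i with ⟨m, hm⟩ | hm
      · have h3 : ∀ z ∈ H i.succ, IsPElt q z → z = 1 := fun z hz hzq => by
          obtain ⟨k, hk⟩ := isPElt_iff_pow_eq_one.1 hzq
          exact (ih z (GA.mem_of_not_dvd_relIndex hn (fun h => hpq.symm ((Nat.prime_dvd_prime_iff_eq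
            hq.out hp.out).1 (hq.out.dvd_of_dvd_pow (hm ▸ h)))) hz hk)).2 hzq
        refine fun z hz => ⟨fun hzp => by_contra fun h => ?_, h3 z hz⟩
        obtain ⟨a, b, ha, hb, h4, h5⟩ := h2 z h hzp
        exact h4 (h3 _ (hc _ z hz a b ha hb) h5)
      · have h3 : ∀ z ∈ H i.succ, IsPElt p z → z = 1 := fun z hz hzp => by
          obtain ⟨k, hk⟩ := isPElt_iff_pow_eq_one.1 hzp
          exact (ih z (GA.mem_of_not_dvd_relIndex hn (hp.out.coprime_iff_not_dvd.1 hm.symm)
            hz hk)).1 hzp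
        refine fun z hz => ⟨h3 z hz, fun hzq => by_contra fun h => ?_⟩
        obtain ⟨a, b, ha, hb, h4, h5⟩ := h1 z h hzq
        exact h4 (h3 _ (hc _ z hz a b ha hb) h5)
  obtain ⟨g, hg⟩ := exists_prime_orderOf_dvd_card' p hpG
  exact hp.out.ne_one (by
    rw [← hg, (key _ g (hn ▸ Subgroup.mem_top g)).1 ⟨1, by rw [hg, pow_one]⟩, orderOf_one])

/-- Let p ≠ q be primes dividing the order of the finite group G, suppose the centralizer of every non-identity p-element has order prime to q, and suppose G is p-solvable or q-solvable. Then G has an irreducible character of p-defect zero or an irreducible character of q-defect zero. -/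
theorem result {G : Type*} [Group G] [Finite G] (p q : ℕ) [Fact p.Prime] [Fact q.Prime] (hppq : p ≠ q) (hpG : p ∣ Nat.card G) (hqG : q ∣ Nat.card G) (hC : ∀ g : G, g ≠ 1 → (∃ k : ℕ, orderOf g = p ^ k) → ¬ q ∣ Nat.card ↥(Subgroup.centralizer ({g} : Set G))) (hsolv : Cfsg.IsPSolvable p G ∨ Cfsg.IsPSolvable q G) : (∃ χ : Cfsg.IrrCharacter G, (Cfsg.charDegree (χ : G → ℂ)).factorization p = (Nat.card G).factorization p) ∨ (∃ χ : Cfsg.IrrCharacter G, (Cfsg.charDegree (χ : G → ℂ)).factorization q = (Nat.card G).factorization q) := by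
  have hC' : ∀ g : G, g ≠ 1 → (∃ k : ℕ, orderOf g = q ^ k) →
      ¬ p ∣ Nat.card ↥(Subgroup.centralizer ({g} : Set G)) := by
    rintro z hz1 ⟨k, hk⟩ h1
    obtain ⟨g, hg⟩ := exists_prime_orderOf_dvd_card' p h1
    rw [← Subgroup.orderOf_coe] at hg
    have := orderOf_dvd_natCard (⟨z, Subgroup.mem_centralizer_singleton_iff.2
      (Subgroup.mem_centralizer_singleton_iff.1 g.2).symm⟩ : Subgroup.centralizer ({g.1} : Set G))
    rw [← Subgroup.orderOf_coe, hk] at this
    exact hC g (fun h => (Fact.out : p.Prime).ne_one (by rw [← hg, h, orderOf_one]))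
      ⟨1, by rw [hg, pow_one]⟩ ((dvd_pow_self q fun h => hz1 (orderOf_eq_one_iff.1
        (by rw [hk, h, pow_zero]))).trans this)
  refine (S4742.result p q hppq hpG hqG hC).elim Or.inl fun h1 =>
    (S4742.result q p hppq.symm hqG hpG hC').elim Or.inr fun h2 => ?_
  exact (hsolv.elim (aux hppq hpG h1 h2) (aux hppq.symm hqG h2 h1)).elim

end Cfsg.Agent.S4743
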