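import Cfsg.Statements.S4746
import Cfsg.Agent.Blk.Robinson

set_option autoImplicit false
open Cfsg

namespace Cfsg.Agent.S4746

/-- Let p be an odd prime and G a finite group of even order divisible by p in which the centralizer of every non-identity p-element has odd order. Then G has an irreducible character of p-defect zero or an irreducible character of even degree. -/
theorem result {G : Type*} [Group G] [Finite G] (p : ℕ) [Fact p.Prime] (hp2 : p ≠ 2) (hpG : p ∣ Nat.card G) (h2G : 2 ∣ Nat.card G) (hC : ∀ g : G, g ≠ 1 → (∃ k : ℕ, orderOf g = p ^ k) → Odd (Nat.card ↥(Subgroup.centralizer ({g} : Set G)))) : (∃ χ : Cfsg.IrrCharacter G, (Cfsg.charDegree (χ : G → ℂ)).factorization p = (Nat.card G).factorization p) ∨ ∃ χ : Cfsg.IrrCharacter G, Even (Cfsg.charDegree (χ : G → ℂ)) := by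
  refine (exists_defect_zero_or_sylow_inverted hC).imp_right fun h => ?_
  classical
  obtain ⟨t, ht⟩ := exists_prime_orderOf_dvd_card' 2 h2G
  obtain ⟨u, hu⟩ := exists_prime_orderOf_dvd_card' p hpG
  have hu' : IsPElt p u := ⟨1, by rw [hu, pow_one]⟩
  have hu1 : u ≠ 1 := fun h => (Fact.out : p.Prime).ne_one (by rw [← hu, h, orderOf_one])
  obtain ⟨P, hP⟩ := (isPElt_iff_isPGroup_zpowers.1 hu').exists_le_sylow
  obtain ⟨a, -, h1⟩ := h t ht P
  have h2 : ∀ χ : IrrCharacter G, starRingEnd ℂ (χ u) = χ u := fun χ => by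
    rw [← χ.apply_inv, ← h1 u (hP (Subgroup.mem_zpowers u)), χ.isClassFunction]
  by_contra! h3
  obtain ⟨M, hM⟩ := exists_isPModular Nat.prime_two
  haveI := hM.charP
  have h4 : ∀ {n : ℕ}, Odd n → (n : ResK M) = 1 := by
    rintro _ ⟨k, rfl⟩
    simp [CharTwo.two_eq_zero]
  have h5 := congrArg (red M) (sum_irr_mul_conj_of_isConj (IsConj.refl u))
  have h6 := congrArg (red M) (sum_irr_mul_conj_of_not_isConj (g := u) (h := 1) (by simpa))
  rw [red_sum fun χ _ => mul_mem (χ.mem_locO _) (χ.conj_mem_locO _)] at h5 h6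
  simp only [red_mul (IrrCharacter.mem_locO _ _) (IrrCharacter.conj_mem_locO _ _)] at h5 h6
  simp only [h2, IrrCharacter.apply_one, map_natCast, red_natCast, red_zero, mul_one,
    h4 (Nat.not_even_iff_odd.1 (h3 _)), h4 (hC u hu1 hu'), ← sq] at h5 h6
  rw [← CharTwo.sum_sq, h6] at h5
  simp at h5

end Cfsg.Agent.S4746
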