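import Cfsg.Statements.S4748
import Cfsg.Agent.Char.Clifford
import Cfsg.Agent.Char.Arith
import Cfsg.Agent.Char.Abelian
import Cfsg.Agent.Grp.MinAct
import Cfsg.Agent.Grp.PSolvable

set_option autoImplicit false
open scoped Pointwise
open Cfsg

namespace Cfsg.Agent.S4748

open Subgroup
open scoped commutatorElement

section
variable {G : Type*} [Group G] [Finite G]

theorem exists_stab {χ : G → ℂ} (hχ : IsCharacter G χ) {Q P : Subgroup G}
    (hn : P ≤ normalizer (Q : Set G)) {θ : IrrCharacter Q} (h : LiesOver Q.subtype χ θ.1) :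
    ∃ T ≤ P, (∀ u ∈ T, ∀ n n' : Q, (n' : G) = u * n * u⁻¹ → θ n' = θ n) ∧
      T.relIndex P * charDegree θ.1 ≤ charDegree χ := by
  set H := normalizer (Q : Set G)
  have hQH : Q ≤ H := le_normalizer
  have : (Q.subgroupOf H).Normal := normal_subgroupOf_of_le_normalizer le_rfl
  obtain ⟨ψ, h1, h2⟩ := h.exists_mid (i := H.subtype) (j := inclusion hQH) (fun _ => rfl) hχ
  refine ⟨(inertia (inclusion hQH) θ).map H.subtype ⊓ P, inf_le_right, ?_, ?_⟩
  · rintro _ ⟨⟨u, hu, rfl⟩, -⟩ n n' e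
    exact mem_inertia_iff_forall.1 hu n n' (Subtype.ext e)
  · refine le_trans ?_ (h1.charDegree_le hχ)
    rw [h2.charDegree_eq, inf_relIndex_right]
    refine Nat.mul_le_mul_right _ (le_trans ?_ (Nat.le_mul_of_pos_left _
      ((liesOver_iff_ipNat_pos ψ.isCharacter θ.isCharacter).1 h2)))
    refine (relIndex_le_of_le_right hn (relIndex_pos _ _).ne').trans_eq ?_
    rw [relIndex, subgroupOf, comap_map_eq_self_of_injective H.subtype_injective]

theorem card_lt {T Q : Subgroup G} (Z : Subgroup Q) (hn : T ≤ normalizer (Q : Set G))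
    (hZ : ∀ u ∈ T, ∀ n n' : Q, (n' : G) = u * n * u⁻¹ → n ∈ Z → n' ∈ Z)
    (hc : IsCoprimeAction T Q) (hC : ∀ u ∈ T, u ≠ 1 → ∀ y : Q, u * y = y * u → y ∈ Z)
    (hZ' : Z ≠ ⊤) : Nat.card T < Z.index := by
  obtain ⟨x, hx⟩ : ∃ x, x ∉ Z := by
    by_contra! h
    exact hZ' (eq_top_iff.2 fun x _ => h x)
  let c : T → Q := fun t => ⟨t * x * (t : G)⁻¹, conj_mem_of_mem_normalizer (hn t.2) x.2⟩
  have hZn : T ≤ normalizer ((Z.map Q.subtype : Subgroup G) : Set G) := fun u hu =>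
    mem_normalizer_of_forall_conj_mem (by
      rintro _ ⟨y, hy, rfl⟩
      exact ⟨⟨_, conj_mem_of_mem_normalizer (hn hu) y.2⟩, hZ u hu y _ rfl hy, rfl⟩)
  let U : Subgroup G :=
    { carrier := {a | a ∈ T ∧ (x : G)⁻¹ * a * x * a⁻¹ ∈ Z.map Q.subtype}
      one_mem' := ⟨one_mem _, by simp⟩
      mul_mem' := fun {a b} ha hb => ⟨mul_mem ha.1 hb.1, by
        convert mul_mem ha.2 (conj_mem_of_mem_normalizer (hZn ha.1) hb.2) using 1
        group⟩
      inv_mem' := fun {a} ha => ⟨inv_mem ha.1, by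
        convert inv_mem (conj_mem_of_mem_normalizer (hZn (inv_mem ha.1)) ha.2) using 1
        group⟩ }
  have hU : ∀ a ∈ U, a = 1 := fun a ha => by
    by_contra h1
    obtain ⟨_, ⟨m, hm, rfl⟩, h2⟩ := (hc.mono (B := U) (fun _ h => h.1) (map_subtype_le Z)
      fun _ h => hZn h.1).exists_mul_mem_centralizer (x := x) fun _ h => h.2
    exact hx ((mul_mem_cancel_right hm).1 (hC a ha.1 h1 (x * m) (h2 a ha)))
  have h1 : ∀ t, c t ∉ Z := fun t h =>
    hx (hZ _ (inv_mem t.2) (c t) x (by simp [c, mul_assoc]) h)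
  have := Nat.card_le_card_of_injective (fun t : Option T => ((t.elim 1 c : Q) : Q ⧸ Z)) (by
    rintro (_ | s) (_ | t) h
    · rfl
    · exact absurd (by simpa using QuotientGroup.eq.1 h) (h1 t)
    · exact absurd (by simpa using QuotientGroup.eq.1 h.symm) (h1 s)
    · refine congrArg some (inv_mul_eq_one.1 (Subtype.ext (hU _ ⟨(s⁻¹ * t).2, ?_⟩)))
      convert conj_mem_of_mem_normalizer (hZn (inv_mem s.2))
        (mem_map_of_mem Q.subtype (QuotientGroup.eq.1 h)) using 1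
      simp [c, mul_assoc])
  rwa [Finite.card_option] at this

theorem main {p : ℕ} [Fact p.Prime] {K P : Subgroup G} (hP : IsPGroup p P)
    (hc : IsCoprimeAction P K) (hne : ⁅K, P⁆ ≠ ⊥)
    (hC : ∀ u ∈ P, u ≠ 1 → K ⊓ centralizer {u} ≤ centralizer (P : Set G)) {χ : G → ℂ}
    (hχ : IsCharacter G χ) (hf : charKer χ = ⊥) : Nat.card P < charDegree χ ^ 2 := by
  obtain ⟨q, Q, hq, hQK, -, hn, h0, h1, h2, h3, -⟩ := hc.exists_minimal hne
  have hQ := hc.mono_right hQK hn
  have h4 : ∀ u ∈ P, u ≠ 1 → ∀ y : Q, u * y = y * u → y ∈ commutator Q := fun u hu h y hy => by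
    rw [← mem_map_iff_mem Q.subtype_injective, Q.map_subtype_commutator, ← h3]
    exact ⟨y.2, hC u hu h ⟨hQK y.2, fun _ h => h ▸ hy⟩⟩
  obtain ⟨θ, hθ, hθ1⟩ : ∃ θ : IrrCharacter Q, LiesOver Q.subtype χ θ.1 ∧ charKer θ.1 ≠ ⊤ := by
    by_contra! h
    refine h0 (eq_bot_iff.2 fun x hx => hf ▸ ?_)
    have := (hχ.comp Q.subtype).mem_charKer_iff_forall (g := ⟨x, hx⟩) |>.2
      fun φ hφ => (h φ hφ).symm ▸ mem_top _
    rwa [hχ.charKer_comp] at this
  obtain ⟨T, hTP, h5, h6⟩ := exists_stab hχ hn hθ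
  have h7 := card_mul_relIndex hTP
  have h8 := relIndex_pos T P
  have h9 := θ.charDegree_pos
  refine lt_of_lt_of_le ?_ (Nat.pow_le_pow_left h6 2)
  by_cases hT : T = ⊥
  · have : 1 < Nat.card P := one_lt_card_iff_ne_bot _ |>.2 fun h => hne (by
      rw [h, commutator_bot_right])
    rw [hT, relIndex_bot_left]
    nlinarith [Nat.le_mul_of_pos_right (Nat.card P) h9]
  have h10 : commutator Q ≤ charCenter θ.1 := le_trans (fun x hx => mem_center_iff.2 fun y =>
    Subtype.ext (commutator_eq_bot_iff_le_centralizer.1 h2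
      (Q.map_subtype_commutator ▸ mem_map_of_mem Q.subtype hx) y y.2)) θ.center_le_charCenter
  have h11 := card_lt (charCenter θ.1) (hTP.trans hn) (fun u hu n n' e hz => by
    rwa [θ.mem_charCenter, h5 u hu n n' e, ← θ.mem_charCenter]) (hQ.mono_left hTP)
    (fun u hu h y hy => h10 (h4 u (hTP hu) h y hy)) (fun h => hθ1 (by
      obtain ⟨u, hu, hu1⟩ := (bot_or_exists_ne_one T).resolve_left hT
      have hA := hQ.mono_left (zpowers_le.2 (hTP hu))
      rw [θ.charCenter_eq_top_iff] at h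
      have hK : ⁅Q, zpowers u⁆ ≤ (charKer θ.1).map Q.subtype := commutator_le.2 fun x hx a ha => by
        have ha' := zpowers_le.2 hu ha
        have hx' := conj_mem_of_mem_normalizer (hn (hTP ha')) (inv_mem hx)
        refine ⟨⟨x, hx⟩ * ⟨_, hx'⟩, ?_, by simp [commutatorElement_def, mul_assoc]⟩
        rw [SetLike.mem_coe, θ.isCharacter.mem_charKer, θ.isCharacter.map_mul_of_apply_one h,
          h5 a ha' ⟨x, hx⟩⁻¹ ⟨_, hx'⟩ rfl, ← θ.isCharacter.map_mul_of_apply_one h, mul_inv_cancel]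
      refine eq_top_iff.2 fun x _ => ?_
      obtain ⟨c, hc, m, hm, e⟩ := hA.exists_centralizer_mul_commutator x.2
      obtain ⟨m, hm', rfl⟩ := hK hm
      rw [show x = ⟨c, hc.1⟩ * m from Subtype.ext e.symm]
      exact mul_mem (θ.commutator_le_charKer_iff.2 h (h4 u (hTP hu) hu1 _
        (hc.2 u (mem_zpowers u)))) hm'))
  rw [← θ.sq_charDegree_eq_index_of_commutator_le h10] at h11
  rw [← h7, mul_pow, mul_comm]
  exact Nat.mul_lt_mul_of_le_of_lt (Nat.le_self_pow two_ne_zero _) h11 (by positivity)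

end

/-- Let G be a finite p-solvable group whose Sylow p-subgroup P meets each conjugate g P g⁻¹ with g outside N_G(P) trivially, and let χ be a faithful character of G (χ g = χ 1 only for g = 1) whose degree d satisfies d² ≤ |P|. Then P is normal in G. -/
theorem result {G : Type*} [Group G] [Finite G] (p : ℕ) [Fact p.Prime] (hsolv : Cfsg.IsPSolvable p G) (P : Sylow p G) (hTI : ∀ g : G, g ∉ Subgroup.normalizer ((P : Subgroup G) : Set G) → (P : Subgroup G) ⊓ (MulAut.conj g • (P : Subgroup G)) = ⊥) (χ : G → ℂ) (hχ : Cfsg.IsCharacter G χ) (hfaith : ∀ g : G, χ g = χ 1 → g = 1) (hdeg : Cfsg.charDegree χ ^ 2 ≤ Nat.card ↥(P : Subgroup G)) : (P : Subgroup G).Normal := by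
  by_contra hN
  obtain ⟨g, hg⟩ : ∃ g, g ∉ normalizer ((P : Subgroup G) : Set G) := by
    by_contra! h
    exact hN (normalizer_eq_top_iff.1 (eq_top_iff.2 fun g _ => h g))
  have h0 : pCore p G = ⊥ := eq_bot_iff.2 (hTI g hg ▸ le_inf (pCore_le_sylow P)
    (pCore_le_sylow (g • P)))
  have hc := isCoprimeAction_of_isPGroup_left (N := pPrimeCore p G) (A := P)
    (by rw [normalizer_eq_top]; exact le_top) P.isPGroup' (not_dvd_card_pPrimeCore p G)
  refine (main P.isPGroup' hc (fun h => hN ?_) (fun u hu h1 k hk => ?_) hχ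
    (hχ.charKer_eq_bot_iff.2 hfaith)).not_ge hdeg
  · rw [commutator_comm, commutator_eq_bot_iff_le_centralizer] at h
    rw [← inf_eq_right.2 (h.trans (hsolv.centralizer_pPrimeCore_le h0)), hc.inf_eq_bot]
    infer_instance
  · refine mem_centralizer_of_mem_normalizer_of_inf_eq_bot hc.1 hc.inf_eq_bot hk.1 ?_
    by_contra h2
    refine h1 (mem_bot.1 (hTI k h2 ▸ mem_inf.2 ⟨hu, ?_⟩))
    rw [conj_smul_eq_map, mem_map_conj, mul_assoc, hk.2 u rfl]
    simpa using hu

end Cfsg.Agent.S4748
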