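import Cfsg.Statements.S4750
import Cfsg.Agent.Mod.Lift
import Cfsg.Agent.GA.Nil
import Cfsg.Agent.Char.LiesOver
import Cfsg.Agent.Char.MatRep
import Cfsg.Agent.Char.Abelian
-- import your own Cfsg.Agent.* helpers here

set_option autoImplicit false
open scoped Pointwise
open Cfsg

namespace Cfsg.Agent.S4750

open scoped Matrix

theorem card_le_of_sum_ne_zero {p : ℕ} [Fact p.Prime] {k : Type*} [Field k] [CharP k p]
    {P : Type*} [Group P] [Fintype P] (hP : IsPGroup p P) {n : ℕ}
    (ρ : P →* Matrix (Fin n) (Fin n) k) (h : ∑ x, ρ x ≠ 0) : Nat.card P ≤ n := by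
  classical
  obtain ⟨v, hv⟩ : ∃ v, (∑ x, ρ x) *ᵥ v ≠ 0 := by
    by_contra hcon
    push Not at hcon
    exact h (Matrix.toLin'.map_eq_zero_iff.1 (LinearMap.ext hcon))
  let φ : (P → k) →ₗ[k] (Fin n → k) := Fintype.linearCombination k fun x => ρ x *ᵥ v
  have hφ : ∀ a, φ a = ∑ x, a x • (ρ x *ᵥ v) := fun a => Fintype.linearCombination_apply _ _ _
  letI : DistribMulAction P (P → k) :=
    { smul := fun u a x => a (u⁻¹ * x)
      one_smul := fun a => funext fun x => congrArg a (by simp)
      mul_smul := fun u w a => funext fun x => congrArg a (by simp [mul_assoc])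
      smul_zero := fun _ => rfl
      smul_add := fun _ _ _ => rfl }
  have hs : ∀ (u : P) (a : P → k) (x : P), (u • a) x = a (u⁻¹ * x) := fun _ _ _ => rfl
  have hinj : Function.Injective φ := by
    rw [injective_iff_map_eq_zero]
    intro a ha
    by_contra h0
    obtain ⟨w, hw, hw0, hfix⟩ := GA.exists_fixed_mem_closure_orbit hP (V := P → k)
      (fun v => by ext x; simp) h0
    have h1 : φ w = 0 := by
      refine (AddSubgroup.closure_le (LinearMap.ker φ).toAddSubgroup).2 ?_ hw
      rintro _ ⟨u, rfl⟩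
      change φ (u • a) = 0
      have h2 := congrArg (fun y => ρ u *ᵥ y) ha
      simp only [hφ, Matrix.mulVec_sum, Matrix.mulVec_smul, Matrix.mulVec_mulVec, ← map_mul,
        Matrix.mulVec_zero] at h2
      rw [hφ, ← h2, ← Equiv.sum_comp (Equiv.mulLeft u)]
      simp [hs]
    have h2 : ∀ x, w x = w 1 := fun x => by
      have := congrFun (hfix x) x
      rw [hs, inv_mul_cancel] at this
      exact this.symm
    rw [hφ, Finset.sum_congr rfl fun x _ => by rw [h2 x], ← Finset.smul_sum,
      ← Matrix.sum_mulVec, smul_eq_zero] at h1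
    exact hw0 (funext fun x => (h2 x).trans (h1.resolve_right hv))
  simpa using LinearMap.finrank_le_finrank_of_injective hinj

theorem exists_sum_eq_mul {P X A : Type*} [Group P] [Fintype P] [MulAction P X] [Ring A]
    (ρ : P →* A) (F : X → A) (hF : ∀ u x, F (u • x) = ρ u * F x) (s : Finset X)
    (hs : ∀ (u : P), ∀ x ∈ s, u • x ∈ s) (hfree : ∀ (u : P), ∀ x ∈ s, u • x = x → u = 1) :
    ∃ Y, ∑ x ∈ s, F x = (∑ u, ρ u) * Y := by
  classical
  induction s using Finset.strongInduction with
  | H s ih =>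
    rcases s.eq_empty_or_nonempty with rfl | ⟨x, hx⟩
    · exact ⟨0, by simp⟩
    have h1 : Finset.univ.image (fun u : P => u • x) ⊆ s := by
      intro y hy
      obtain ⟨u, -, rfl⟩ := Finset.mem_image.1 hy
      exact hs u x hx
    obtain ⟨Y, hY⟩ := ih (s \ Finset.univ.image (fun u : P => u • x))
      (Finset.sdiff_ssubset h1 ⟨x, Finset.mem_image.2 ⟨1, Finset.mem_univ _, one_smul _ _⟩⟩)
      (fun u y hy => by
        rw [Finset.mem_sdiff] at hy ⊢
        refine ⟨hs u y hy.1, fun h => hy.2 ?_⟩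
        obtain ⟨w, -, hw⟩ := Finset.mem_image.1 h
        exact Finset.mem_image.2 ⟨u⁻¹ * w, Finset.mem_univ _, by
          rw [mul_smul, hw, inv_smul_smul]⟩)
      (fun u y hy => hfree u y (Finset.mem_sdiff.1 hy).1)
    refine ⟨Y + F x, ?_⟩
    rw [← Finset.sum_sdiff h1, hY, Finset.sum_image, mul_add]
    · simp only [hF, Finset.sum_mul]
    · intro a _ b _ hab
      have := hfree (b⁻¹ * a) x hx (by
        rw [mul_smul, show a • x = b • x from hab, inv_smul_smul])
      exact (inv_mul_eq_one.1 this).symm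

theorem card_le_charDegree {G : Type*} [Group G] [Finite G] {p : ℕ} [hp : Fact p.Prime]
    {P H : Subgroup G} (hP : IsPGroup p P) (hPH : P ≤ H)
    (hTI : ∀ x ∈ P, x ≠ 1 → ∀ g : G, g⁻¹ * x * g ∈ H → g ∈ H) (η : IrrCharacter G)
    (h1 : η ≠ IrrCharacter.one G) (h2 : ip (η.1 ∘ H.subtype) (fun _ => 1) ≠ 0) :
    Nat.card P ≤ charDegree η.1 := by
  classical
  cases nonempty_fintype G
  cases nonempty_fintype H
  cases nonempty_fintype P
  cases nonempty_fintype (G ⧸ H)
  obtain ⟨M, hM⟩ := exists_isPModular hp.out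
  have := hM.charP
  obtain ⟨n, R, hR⟩ := η.isCharacter.exists_latC (M := M)
  have hn : charDegree η.1 = n := by rw [← hR, charDegree_character]; simp
  let X := matMap R (locO M).subtype
  have hX : (fun g => (X g).trace) = η.1 := by
    rw [← hR]; funext g; rw [character_latC]; rfl
  have hG : ∑ g, X g = 0 := by
    obtain ⟨c, hc⟩ := matrix_schur (X := X) (hX ▸ η.2) (T := ∑ g, X g) fun g => by
      rw [Finset.sum_mul, Finset.mul_sum]
      simp only [← map_mul]
      exact (Equiv.sum_comp (Equiv.mulRight g) X).trans (Equiv.sum_comp (Equiv.mulLeft g) X).symm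
    have h3 := IrrCharacter.ip_of_ne h1
    rw [ip_def, mul_eq_zero, ← hX] at h3
    have h4 := h3.resolve_left (inv_ne_zero (natCard_cast_ne_zero G))
    simp only [IrrCharacter.one_apply, map_one, mul_one, ← Matrix.trace_sum, hc,
      Matrix.trace_smul, Matrix.trace_one, Fintype.card_fin, smul_eq_mul, mul_eq_zero,
      Nat.cast_eq_zero] at h4
    rw [hc, h4.resolve_right (hn ▸ η.charDegree_pos.ne'), zero_smul]
  set A := ∑ h : H, X h with hA
  have hA0 : A ≠ 0 := by
    intro h0
    apply h2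
    rw [ip_def, ← hX]
    simp only [Function.comp_apply, map_one, mul_one, Subgroup.coe_subtype, ← Matrix.trace_sum,
      ← hA, h0, Matrix.trace_zero, mul_zero]
  have hAH : ∀ h ∈ H, X h * A = A := fun h hh => by
    rw [hA, Finset.mul_sum, ← Equiv.sum_comp (Equiv.mulLeft (⟨h, hh⟩ : H)) (fun y : H => X y)]
    simp
  have hne : Nonempty (Fin n × Fin n) := by
    by_contra h0
    exact hA0 (Matrix.ext fun i j => (h0 ⟨(i, j)⟩).elim)
  obtain ⟨⟨i, j⟩, hij⟩ := Finite.exists_max fun ij : Fin n × Fin n => vM M (A ij.1 ij.2)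
  have hij0 : A i j ≠ 0 := by
    intro h0
    refine hA0 (Matrix.ext fun a b => ?_)
    have := hij (a, b)
    simpa [h0] using this
  let W : Matrix (Fin n) (Fin n) (locO M) := fun a b =>
    ⟨A a b / A i j, (div_mem_locO_iff hij0).2 (hij (a, b))⟩
  have hW : (locO M).subtype.mapMatrix W = (A i j)⁻¹ • A := by
    ext a b
    exact div_eq_inv_mul _ _
  have hinj : Function.Injective
      ((locO M).subtype.mapMatrix : Matrix (Fin n) (Fin n) (locO M) →+* _) :=
    fun a b h => Matrix.map_injective (locO M).subtype_injective h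
  have hXR : ∀ g, (locO M).subtype.mapMatrix (R g) = X g := fun _ => rfl
  have hWH : ∀ h ∈ H, R h * W = W := fun h hh => hinj (by
    rw [map_mul, hXR, hW, Matrix.mul_smul, hAH h hh])
  have hsum : ∑ q : G ⧸ H, R q.out * W = 0 := by
    have h3 := sum_eq_card_smul_sum_section H (F := fun g => R g * W)
      (fun x l hl => by rw [map_mul, mul_assoc, hWH l hl]) Quotient.out Quotient.out_eq'
    apply hinj
    have h4 := congrArg (locO M).subtype.mapMatrix h3
    rw [← Finset.sum_mul, map_mul, map_sum, Finset.sum_congr rfl fun g _ => hXR g, hG, zero_mul,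
      map_nsmul, eq_comm, ← Nat.cast_smul_eq_nsmul ℂ, smul_eq_zero] at h4
    rw [map_zero]
    exact h4.resolve_left (natCard_cast_ne_zero H)
  have hout : ∀ g : G, R (g : G ⧸ H).out * W = R g * W := fun g => by
    obtain ⟨h, hh⟩ := QuotientGroup.mk_out_eq_mul H g
    rw [hh, map_mul, mul_assoc, hWH h h.2]
  obtain ⟨Y, hY⟩ := exists_sum_eq_mul (R.comp P.subtype) (fun q : G ⧸ H => R q.out * W)
    (fun u q => by
      obtain ⟨g, rfl⟩ := QuotientGroup.mk_surjective q
      exact (hout (u * g)).trans (by rw [hout, map_mul, mul_assoc]; rfl))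
    (Finset.univ.erase ((1 : G) : G ⧸ H))
    (fun u q hq => by
      obtain ⟨g, rfl⟩ := QuotientGroup.mk_surjective q
      refine Finset.mem_erase.2 ⟨fun h => Finset.ne_of_mem_erase hq ?_, Finset.mem_univ _⟩
      have h3 : ((u * g : G) : G ⧸ H) = ((1 : G) : G ⧸ H) := h
      rw [eq_comm, QuotientGroup.eq, inv_one, one_mul] at h3 ⊢
      exact (H.mul_mem_cancel_left (hPH u.2)).1 h3)
    (fun u q hq h => by
      obtain ⟨g, rfl⟩ := QuotientGroup.mk_surjective q
      by_contra hu
      have h3 : ((u * g : G) : G ⧸ H) = (g : G ⧸ H) := h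
      rw [eq_comm, QuotientGroup.eq, ← mul_assoc] at h3
      refine Finset.ne_of_mem_erase hq ?_
      rw [eq_comm, QuotientGroup.eq, inv_one, one_mul]
      exact hTI u u.2 (fun h4 => hu (Subtype.ext h4)) g h3)
  rw [← Finset.add_sum_erase _ _ (Finset.mem_univ ((1 : G) : G ⧸ H)), hY, hout, map_one,
    one_mul] at hsum
  rw [hn]
  refine card_le_of_sum_ne_zero hP
    ((matMap R (IsLocalRing.residue (locO M))).comp P.subtype) fun h0 => ?_
  have h3 := congrArg (IsLocalRing.residue (locO M)).mapMatrix hsum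
  rw [map_add, map_mul, map_sum, map_zero] at h3
  erw [h0] at h3
  rw [zero_mul, add_zero] at h3
  have h4 := congrFun (congrFun h3 i) j
  have h5 : W i j = 1 := Subtype.ext (div_self hij0)
  simp [h5] at h4

/-- Let P be a Sylow p-subgroup of the finite group G that meets each conjugate g P g⁻¹ with g outside N_G(P) trivially, χ a character of G with χ(1)² ≤ |P|, and H a subgroup of G containing N_G(P). Then the inner product of χ with itself over G equals the inner product over H of the restriction of χ to H. -/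
theorem result {G : Type*} [Group G] [Fintype G] [DecidableEq G] (p : ℕ) [Fact p.Prime] (P : Sylow p G) (hTI : ∀ g : G, g ∉ Subgroup.normalizer ((P : Subgroup G) : Set G) → (P : Subgroup G) ⊓ (MulAut.conj g • (P : Subgroup G)) = ⊥) (χ : G → ℂ) (hχ : Cfsg.IsCharacter G χ) (hdeg : Cfsg.charDegree χ ^ 2 ≤ Nat.card ↥(P : Subgroup G)) (H : Subgroup G) [Fintype ↥H] (hH : Subgroup.normalizer ((P : Subgroup G) : Set G) ≤ H) : Cfsg.classInner χ χ = Cfsg.classInner (fun h : ↥H => χ h) (fun h : ↥H => χ h) := by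
  classical
  simp only [classInner_eq_ip]
  by_cases h0 : χ = 0
  · subst h0
    rw [ip_zero_left]
    exact (ip_zero_left _).symm
  have hPH : (P : Subgroup G) ≤ H := Subgroup.le_normalizer.trans hH
  have hTI' : ∀ x ∈ (P : Subgroup G), x ≠ 1 → ∀ g : G, g⁻¹ * x * g ∈ H → g ∈ H := by
    intro x hx hx1 g hg
    obtain ⟨h, hh⟩ := IsPElt.exists_conj_mem (g := (⟨_, hg⟩ : H)) (isPElt_coe_iff.1 (by
      have := (isPElt_conj_iff (x := g⁻¹)).2 (isPElt_of_mem P.isPGroup' hx)
      rwa [inv_inv] at this)) (P.subtype hPH)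
    have h1 : g * (h : G)⁻¹ ∈ Subgroup.normalizer ((P : Subgroup G) : Set G) := by
      by_contra h1
      have h2 : x ∈ (P : Subgroup G) ⊓ (MulAut.conj (g * (h : G)⁻¹) • (P : Subgroup G)) := by
        refine ⟨hx, Subgroup.mem_pointwise_smul_iff_inv_smul_mem.2 ?_⟩
        have h3 : (h : G) * (g⁻¹ * x * g) * (h : G)⁻¹ ∈ (P : Subgroup G) := hh
        simpa [mul_assoc] using h3
      rw [hTI _ h1] at h2
      exact hx1 h2
    simpa using H.mul_mem (hH h1) h.2
  have hψ : IsCharacter G (χ * star χ) := hχ.mul hχ.star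
  have key : ∀ φ : G → ℂ, ip φ φ = ip (φ * star φ) (fun _ => 1) := fun φ => by
    simp [ip_def]
  have key' : ip (fun h : H => χ h) (fun h : H => χ h) =
      ip ((χ * star χ) ∘ H.subtype) (fun _ => 1) := by
    simp [ip_def]
  have h1 : ip (χ * star χ) (IrrCharacter.one G).1 ≠ 0 := by
    change ip (χ * star χ) (fun _ => 1) ≠ 0
    rw [← key]; exact fun h => h0 (ip_self_eq_zero.1 h)
  have hd : charDegree (χ * star χ) = charDegree χ ^ 2 := by
    apply charDegree_eq_of_apply_one
    simp [hχ.apply_one, sq]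
  rw [key, key']
  conv_rhs => rw [hψ.isClassFunction.eq_sum]
  have h2 : ((∑ η : IrrCharacter G, ip (χ * star χ) η.1 • η.1) ∘ H.subtype) =
      ∑ η : IrrCharacter G, ip (χ * star χ) η.1 • (η.1 ∘ H.subtype) := by
    funext h; simp [Finset.sum_apply]
  rw [h2, ip_sum_left, Finset.sum_eq_single (IrrCharacter.one G)]
  · rw [ip_smul_left]
    erw [ip_one_one, mul_one]
    rfl
  · intro η _ hη
    rw [ip_smul_left]
    by_contra h3
    have h4 := card_le_charDegree P.isPGroup' hPH hTI' η hη (right_ne_zero_of_mul h3)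
    have h5 := Finset.sum_le_sum_of_subset (f := fun φ : IrrCharacter G =>
      ipNat (χ * star χ) φ.1 * charDegree φ.1) (Finset.subset_univ {η, IrrCharacter.one G})
    rw [Finset.sum_pair hη, ← hψ.charDegree_eq_sum, hd, IrrCharacter.charDegree_one] at h5
    have h6 := (hψ.ipNat_pos_iff η.isCharacter).2 (left_ne_zero_of_mul h3)
    have h7 := (hψ.ipNat_pos_iff (IrrCharacter.one G).isCharacter).2 h1
    have h8 := Nat.le_mul_of_pos_left (charDegree η.1) h6
    omega
  · simp

end Cfsg.Agent.S4750
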