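import Cfsg.Agent.Blk.Ext27
-- Template for statement S4752 (row 4752; see /opt/grader/pristine/manifest.json for weights).
-- Copy to Cfsg/Agent/S4752.lean and replace the sorry. The statement below is byte-identical to the frozen
-- statement Cfsg.CfsgFrozen.S4752 (Cfsg/Statements/S4752.lean; the theorem Cfsg.blk8_principal_three_block_extraspecial_order_27_exponent_three_invariants);
-- the grader kernel-checks Cfsg.Agent.S4752.result against that frozen type. Keep the theorem IN THIS FILE
-- (a `result` declared elsewhere and merely imported here is not credited); helpers may live anywhere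
-- under Cfsg/Agent/.
import Cfsg.Statements.S4752
-- import your own Cfsg.Agent.* helpers here

set_option autoImplicit false
open Cfsg

namespace Cfsg.Agent.S4752

/-- Let G be a finite group whose Sylow 3-subgroup P is extraspecial of order 27 and exponent 3, with N_G(P) ≤ C_G(Z(P)), and let M be a maximal ideal of the algebraic integers containing 3, B the principal 3-block of G, k its number of irreducible characters, k₀ the number of those of height zero, l its 3-regular rank (number of irreducible Brauer characters), and e the index of P·C_G(P) in N_G(P) (the order of the inertial quotient). Then e = 1 gives (k, k₀, l) = (11, 9, 1); e = 2 gives (10, 6, 2); e = 4 gives (14, 6, 4); e = 8 gives (16, 6, 5). -/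
theorem result {G : Type*} [Group G] [Finite G] (P : Sylow 3 G) (hE : Cfsg.IsExtraspecial 3 ↥(P : Subgroup G)) (h27 : Nat.card ↥(P : Subgroup G) = 27) (hexp : ∀ x ∈ (P : Subgroup G), x ^ 3 = 1) (hNC : ∀ g ∈ Subgroup.normalizer ((P : Subgroup G) : Set G), ∀ z ∈ (P : Subgroup G), (∀ y ∈ (P : Subgroup G), z * y = y * z) → g * z = z * g) (M : Ideal Cfsg.AlgInt) (hM : Cfsg.IsPModular 3 M) (k k₀ l e : ℕ) (hk : Nat.card ↥(Cfsg.principalBlock M G) = k) (hk₀ : Nat.card {χ : Cfsg.IrrCharacter G // χ ∈ Cfsg.principalBlock M G ∧ Cfsg.blockHeight 3 (Cfsg.principalBlock M G) (χ : G → ℂ) = 0} = k₀) (hl : Cfsg.blockRank 3 (Cfsg.principalBlock M G) = l) (he : ((P : Subgroup G) ⊔ Subgroup.centralizer ((P : Subgroup G) : Set G)).relIndex (Subgroup.normalizer ((P : Subgroup G) : Set G)) = e) : (e = 1 → k = 11 ∧ k₀ = 9 ∧ l = 1) ∧ (e = 2 → k = 10 ∧ k₀ = 6 ∧ l = 2) ∧ (e = 4 → k = 14 ∧ k₀ = 6 ∧ l = 4) ∧ (e = 8 → k = 16 ∧ k₀ = 6 ∧ l = 5) := by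
  obtain ⟨z, U, U', h, h', hc, h8, hr, h1⟩ := exists_ext27 P hE h27 hexp hNC he
  subst hk hk₀ hl
  have key : Even e → _ := fun he2 =>
    h.invariants hM (isSec_centralizer h.isPElt_z) rfl h' hc (hr he2).1 (hr he2).2
      (Finset.card_pos.1 (Nat.pos_of_ne_zero fun e0 => by rw [e0] at h8; omega))
  refine ⟨fun e1 => h.invariants_nilp hM (by rw [e1] at h8; omega) (h1 e1), fun e1 => ?_,
    fun e1 => ?_, fun e1 => ?_⟩
  all_goals
    have := key (by rw [e1]; decide)
    rw [e1] at h8
    omega

end Cfsg.Agent.S4752
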