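import Cfsg.Statements.S4754
import Cfsg.Agent.Char.Count

set_option autoImplicit false
open Cfsg

namespace Cfsg.Agent.S4754

/-- For elements x, y of a finite group G, the conjugacy class of x y equals the set of all products of a conjugate of x with a conjugate of y if and only if χ(1) χ(a x a⁻¹ b y b⁻¹) = χ(x) χ(y) for all a, b ∈ G and every irreducible character χ. -/
theorem result {G : Type*} [Group G] [Finite G] (x y : G) : (∀ z : G, IsConj (x * y) z ↔ ∃ a b : G, z = a * x * a⁻¹ * (b * y * b⁻¹)) ↔ ∀ (a b : G) (χ : Cfsg.IrrCharacter G), (χ : G → ℂ) 1 * (χ : G → ℂ) (a * x * a⁻¹ * (b * y * b⁻¹)) = (χ : G → ℂ) x * (χ : G → ℂ) y := by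
  cases nonempty_fintype G
  constructor
  · intro h a b χ
    have h1 : ∀ a b : G, χ (a * x * a⁻¹ * (b * y * b⁻¹)) = χ (x * y) := fun a b =>
      (χ.isClassFunction.eq_of_isConj ((h _).2 ⟨a, b, rfl⟩)).symm
    have h2 := χ.sum_apply_conj_mul x y
    have h3 : ∀ a : G, χ (a * x * a⁻¹ * y) = χ (x * y) := fun a => by simpa using h1 a 1
    simp only [h3, Finset.sum_const, Finset.card_univ, nsmul_eq_mul,
      ← Nat.card_eq_fintype_card] at h2
    have hG := natCard_cast_ne_zero G
    have h4 := χ.apply_one_ne_zero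
    rw [h1]
    field_simp at h2
    rw [← h2, mul_comm]
  · intro h z
    constructor
    · intro hz
      obtain ⟨c, rfl⟩ := isConj_iff.1 hz
      exact ⟨c, c, by group⟩
    · rintro ⟨a, b, rfl⟩
      refine isConj_iff_forall_irr.2 fun χ => mul_left_cancel₀ χ.apply_one_ne_zero ?_
      rw [h a b χ]
      simpa using h 1 1 χ

end Cfsg.Agent.S4754
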