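import Cfsg.Statements.S4755
import Cfsg.Agent.Char.Count

set_option autoImplicit false
open Cfsg

namespace Cfsg.Agent.S4755

/-- Let x, y be non-identity elements of the finite group G such that χ(x' y') = χ(x') χ(y') for all conjugates x' of x, y' of y and every irreducible character χ. Then the conjugacy class of x y is the set of all products of a conjugate of x with a conjugate of y; every irreducible character of degree greater than 1 vanishes at x y; and the conjugacy class of x y is the coset of the commutator subgroup containing x y. -/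
theorem result {G : Type*} [Group G] [Finite G] (x y : G) (hx : x ≠ 1) (hy : y ≠ 1) (h : ∀ (a b : G) (χ : Cfsg.IrrCharacter G), (χ : G → ℂ) (a * x * a⁻¹ * (b * y * b⁻¹)) = (χ : G → ℂ) (a * x * a⁻¹) * (χ : G → ℂ) (b * y * b⁻¹)) : (∀ z : G, IsConj (x * y) z ↔ ∃ a b : G, z = a * x * a⁻¹ * (b * y * b⁻¹)) ∧ (∀ χ : Cfsg.IrrCharacter G, (χ : G → ℂ) 1 ≠ 1 → (χ : G → ℂ) (x * y) = 0) ∧ (∀ z : G, IsConj (x * y) z ↔ (x * y)⁻¹ * z ∈ commutator G) := by
  cases nonempty_fintype G
  have h0 : ∀ (a b : G) (χ : IrrCharacter G), χ (a * x * a⁻¹ * (b * y * b⁻¹)) = χ x * χ y :=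
    fun a b χ => by rw [h, χ.isClassFunction, χ.isClassFunction]
  have h1 : ∀ χ : IrrCharacter G, χ 1 ≠ 1 → χ (x * y) = 0 := fun χ hχ => by
    have h2 := χ.sum_apply_conj_mul x y
    have h3 : ∀ a : G, χ (a * x * a⁻¹ * y) = χ x * χ y := fun a => by simpa using h0 a 1 χ
    simp only [h3, Finset.sum_const, Finset.card_univ, nsmul_eq_mul,
      ← Nat.card_eq_fintype_card] at h2
    have hG := natCard_cast_ne_zero G
    have h4 := χ.apply_one_ne_zero
    have h5 : χ (x * y) = χ x * χ y := by simpa using h3 1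
    rw [mul_assoc, mul_div_assoc, mul_right_inj' hG, eq_div_iff h4, ← sub_eq_zero, ← mul_sub_one,
      mul_eq_zero, sub_eq_zero] at h2
    rw [h5, h2.resolve_right hχ]
  refine ⟨fun z => ⟨fun hz => ?_, ?_⟩, h1, isConj_iff_of_nonlinear_vanish h1⟩
  · obtain ⟨c, rfl⟩ := isConj_iff.1 hz
    exact ⟨c, c, by group⟩
  · rintro ⟨a, b, rfl⟩
    refine isConj_iff_forall_irr.2 fun χ => ?_
    rw [h0 a b χ]
    simpa using h0 1 1 χ

end Cfsg.Agent.S4755
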