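import Cfsg.Statements.S4756
import Cfsg.Agent.Char.MulPP

set_option autoImplicit false
open Cfsg

namespace Cfsg.Agent.S4756

/-- For a finite group G the following are equivalent. (1) χ(x y) = χ(x) χ(y) for every irreducible character χ and all non-identity elements x, y of prime power orders for two different primes. (2) G is a p-group for some prime p, or G is abelian, or for some prime p: G = A P with P a normal Sylow p-subgroup and A a nontrivial cyclic subgroup of order prime to p such that, with C = C_P(A) and D = [A, P], one has P = C D, C abelian, D normal in G, C ∩ D = 1, and A acts fixed-point-freely on D (no non-identity element of A centralizes a non-identity element of D). -/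
theorem result {G : Type*} [Group G] [Finite G] : (∀ (x y : G) (χ : Cfsg.IrrCharacter G), x ≠ 1 → y ≠ 1 → (∃ p q a b : ℕ, p.Prime ∧ q.Prime ∧ p ≠ q ∧ orderOf x = p ^ a ∧ orderOf y = q ^ b) → (χ : G → ℂ) (x * y) = (χ : G → ℂ) x * (χ : G → ℂ) y) ↔ ((∃ p : ℕ, p.Prime ∧ IsPGroup p G) ∨ IsMulCommutative G ∨ ∃ (p : ℕ) (_ : Fact p.Prime) (P : Sylow p G) (A : Subgroup G), (P : Subgroup G).Normal ∧ IsCyclic ↥A ∧ A ≠ ⊥ ∧ (Nat.card ↥A).Coprime p ∧ A ⊔ (P : Subgroup G) = ⊤ ∧ IsMulCommutative ↥((P : Subgroup G) ⊓ Subgroup.centralizer (A : Set G)) ∧ (⁅A, (P : Subgroup G)⁆).Normal ∧ ((P : Subgroup G) ⊓ Subgroup.centralizer (A : Set G)) ⊔ ⁅A, (P : Subgroup G)⁆ = (P : Subgroup G) ∧ ((P : Subgroup G) ⊓ Subgroup.centralizer (A : Set G)) ⊓ ⁅A, (P : Subgroup G)⁆ = ⊥ ∧ ∀ a ∈ A, a ≠ 1 → ∀ d ∈ ⁅A, (P : Subgroup G)⁆, a * d = d * a → d = 1) := by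
  constructor
  · intro h
    by_cases h1 : ∃ p : ℕ, p.Prime ∧ IsPGroup p G
    · exact Or.inl h1
    by_cases h2 : IsMulCommutative G
    · exact Or.inr (Or.inl h2)
    exact Or.inr (Or.inr (mulPP_structure (fun x y hx hy p q hp hq hpq ha hb =>
      isConj_mul_iff_of_mulPP h hx hy hp hq hpq (a := 1) (b := 1) (by rwa [pow_one])
        (by rwa [pow_one])) (fun p hp h => h1 ⟨p, hp, h⟩) h2))
  · rintro h x y χ hx hy ⟨p, q, a, b, hp, hq, hpq, ha, hb⟩
    have key : ∀ {r : ℕ} (z : G) {s c : ℕ}, r.Prime → s.Prime → z ≠ 1 → orderOf z = s ^ c →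
        ∀ k, z ^ r ^ k = 1 → s = r := by
      intro r z s c hr hs hz hc k hk
      have h1 := orderOf_dvd_of_pow_eq_one hk
      have h2 : c ≠ 0 := by
        rintro rfl
        exact hz (orderOf_eq_one_iff.1 hc)
      rw [hc] at h1
      exact (Nat.prime_dvd_prime_iff_eq hs hr).1
        (hs.dvd_of_dvd_pow ((dvd_pow_self s h2).trans h1))
    by_cases hχ : χ 1 = 1
    · exact χ.isCharacter.map_mul_of_apply_one hχ x y
    rcases h with ⟨r, hr, h⟩ | h | ⟨r, hr, P, A, hP, hA, -, hc, hAP, hC, hD, hCD, -, hf⟩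
    · obtain ⟨k, hk⟩ := h x
      obtain ⟨l, hl⟩ := h y
      exact absurd ((key x hr hp hx ha k hk).trans (key y hr hq hy hb l hl).symm) hpq
    · exact absurd χ.apply_one_eq_one_of_isMulCommutative hχ
    · have hz := fun g => eq_zero_of_mulPP_structure P.isPGroup' hc hAP hCD hf χ hχ (g := g)
      have hm : ∀ (z : G) {s c : ℕ}, s.Prime → z ≠ 1 → orderOf z = s ^ c →
          z ∈ (P : Subgroup G) → s = r := by
        intro z s c hs hz hc hzP
        obtain ⟨k, hk⟩ := P.isPGroup' ⟨z, hzP⟩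
        exact key z hr.out hs hz hc k (congrArg Subtype.val hk)
      by_cases hxP : x ∈ (P : Subgroup G)
      · have hyP : y ∉ (P : Subgroup G) := fun h =>
          hpq ((hm x hp hx ha hxP).trans (hm y hq hy hb h).symm)
        rw [hz y hyP, mul_zero, hz _ fun h => hyP ((Subgroup.mul_mem_cancel_left _ hxP).1 h)]
      · rw [hz x hxP, zero_mul, hz _ fun h => hxP ?_]
        have h1 : (QuotientGroup.mk' (P : Subgroup G)) x =
            (QuotientGroup.mk' (P : Subgroup G)) y⁻¹ := by
          rw [map_inv, ← mul_eq_one_iff_eq_inv, ← map_mul]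
          exact (QuotientGroup.eq_one_iff _).2 h
        have h2 := orderOf_map_dvd (QuotientGroup.mk' (P : Subgroup G)) x
        have h3 := orderOf_map_dvd (QuotientGroup.mk' (P : Subgroup G)) y⁻¹
        rw [← h1, orderOf_inv, hb] at h3
        rw [ha] at h2
        exact (QuotientGroup.eq_one_iff _).1 (orderOf_eq_one_iff.1 (Nat.eq_one_of_dvd_coprimes
          (Nat.Coprime.pow _ _ ((Nat.coprime_primes hp hq).2 hpq)) h2 h3))

end Cfsg.Agent.S4756
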