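import Cfsg.Statements.S4757
import Cfsg.Agent.Char.Abelian
import Cfsg.Agent.Char.LiesOver
import Cfsg.Agent.Grp.SelfCent
-- import your own Cfsg.Agent.* helpers here

set_option autoImplicit false
open Cfsg

namespace Cfsg.Agent.S4757

/-- Let u ≠ 1 be an element of the finite group G and c a complex number such that every non-principal irreducible character χ satisfies χ(1) − χ(u) = c or χ(u) = 0. Then the following are equivalent: (a) u has order 2, G is generated by u together with O(G), the largest normal subgroup of G of odd order, and the centralizer of u is {1, u}; (b) G is not perfect; (c) c = 2. -/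
theorem result {G : Type*} [Group G] [Finite G] (u : G) (hu : u ≠ 1) (c : ℂ) (hyp : ∀ χ : Cfsg.IrrCharacter G, (χ : G → ℂ) ≠ (fun _ => (1 : ℂ)) → ((χ : G → ℂ) 1 - (χ : G → ℂ) u = c ∨ (χ : G → ℂ) u = 0)) : ((orderOf u = 2 ∧ Subgroup.zpowers u ⊔ Cfsg.oddCore G = ⊤ ∧ Subgroup.centralizer ({u} : Set G) = Subgroup.zpowers u) ↔ commutator G ≠ ⊤) ∧ (commutator G ≠ ⊤ ↔ c = 2) := by
  classical
  have hsum := sum_irr_one_mul_of_ne_one hu
  have hne : ∀ {χ : IrrCharacter G}, χ ≠ IrrCharacter.one G → χ.1 ≠ fun _ => 1 :=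
    fun h h' => h (Subtype.ext h')
  have hlin : ∀ lam : G →* ℂˣ, lam ≠ 1 → 1 - (lam u : ℂ) = c := fun lam h => by
    simpa using hyp (IrrCharacter.ofLinear lam) (hne (by simpa using h))
  have hkey : ∀ m : ℤ, c = m → ∃ χ : IrrCharacter G, χ ≠ IrrCharacter.one G ∧
      (charDegree χ.1 : ℤ) < m := by
    intro m hm
    by_contra hcon
    push Not at hcon
    have h1 : ∀ χ : IrrCharacter G, ∃ n : ℕ, χ 1 * χ u = n := fun χ => by
      by_cases h : χ = IrrCharacter.one G
      · exact ⟨1, by simp [h]⟩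
      rcases hyp χ (hne h) with h2 | h2
      · obtain ⟨n, hn⟩ := Int.eq_ofNat_of_zero_le (sub_nonneg.2 (hcon χ h))
        refine ⟨charDegree χ.1 * n, ?_⟩
        have h3 : ((charDegree χ.1 : ℂ) - m) = n := by exact_mod_cast hn
        rw [Nat.cast_mul, ← h3, ← hm, ← h2, χ.apply_one]
        ring
      · exact ⟨0, by simp [h2]⟩
    choose n hn using h1
    simp only [hn] at hsum
    have h2 := Finset.sum_eq_zero_iff.1 (by exact_mod_cast hsum : ∑ χ, n χ = 0)
      (IrrCharacter.one G) (Finset.mem_univ _)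
    simpa [h2] using hn (IrrCharacter.one G)
  have hbc : commutator G ≠ ⊤ → c = 2 := fun h => by
    obtain ⟨lam, hlam⟩ := exists_linear_ne_one_of_commutator_ne_top h
    have h1 := hlin lam hlam
    have h2 := hlin lam⁻¹ (fun h => hlam (MonoidHom.ext fun g => inv_eq_one.1 (DFunLike.congr_fun h g)))
    have h3 : (lam u : ℂ) * lam u = 1 := by
      nth_rewrite 1 [sub_right_injective (h1.trans h2.symm)]
      simp
    rcases mul_self_eq_one_iff.1 h3 with h4 | h4
    · obtain ⟨χ, -, hχ⟩ := hkey 0 (by rw [← h1, h4]; simp)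
      omega
    · rw [← h1, h4]; norm_num
  have hcb : c = 2 → commutator G ≠ ⊤ := fun h h' => by
    obtain ⟨χ, h1, h2⟩ := hkey 2 (by rw [h]; simp)
    have := χ.charDegree_pos
    obtain ⟨lam, rfl⟩ := IrrCharacter.exists_ofLinear_eq_of_charDegree (χ := χ) (by omega)
    exact h1 (by simp [commutator_eq_top_iff_forall_linear.1 h' lam])
  refine ⟨⟨fun ⟨h1, h2, h3⟩ h => ?_, fun h => ?_⟩, hbc, hcb⟩
  · have hS : SelfCent 2 u := ⟨h1, h3⟩
    have h4 : commutator G ≤ oddCore G := by
      have h5 : ∀ g : G, ∃ a ∈ Subgroup.zpowers u, ∃ n ∈ pPrimeCore 2 G, a * n = g := fun g =>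
        Subgroup.mem_sup_of_normal_right.1 (h2 ▸ Subgroup.mem_top g)
      rw [commutator_def, Subgroup.commutator_le]
      intro x _ y _
      obtain ⟨_, ⟨i, rfl⟩, n, hn, rfl⟩ := h5 x
      obtain ⟨_, ⟨j, rfl⟩, m, hm, rfl⟩ := h5 y
      change _ ∈ pPrimeCore 2 G
      rw [← QuotientGroup.eq_one_iff, ← QuotientGroup.mk'_apply, map_commutatorElement,
        commutatorElement_eq_one_iff_commute]
      simp only [QuotientGroup.mk'_apply, QuotientGroup.mk_mul, (QuotientGroup.eq_one_iff _).2 hn,
        (QuotientGroup.eq_one_iff _).2 hm, mul_one, QuotientGroup.mk_zpow]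
      exact Commute.zpow_zpow_self _ _ _
    exact not_dvd_card_pPrimeCore 2 G (hS.dvd_of_le (le_top.trans (h ▸ h4)))
  have hc := hbc h
  obtain ⟨lam, hlam⟩ := exists_linear_ne_one_of_commutator_ne_top h
  have hval : ∀ mu : G →* ℂˣ, mu ≠ 1 → (mu u : ℂ) = -1 := fun mu h => by
    have := hlin mu h
    rw [hc] at this
    linear_combination -this
  have huniq : ∀ mu : G →* ℂˣ, mu ≠ 1 → mu = lam := fun mu hmu => by
    by_contra h1
    have h2 := hval (mu * lam⁻¹) (fun h => h1 (mul_inv_eq_one.1 h))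
    rw [MonoidHom.mul_apply, MonoidHom.inv_apply, Units.val_mul, Units.val_inv_eq_inv_val,
      hval mu hmu, hval lam hlam] at h2
    norm_num at h2
  have hvan : ∀ χ : IrrCharacter G, χ ≠ IrrCharacter.one G → χ ≠ IrrCharacter.ofLinear lam →
      χ u = 0 := fun χ h1 h2 => by
    by_contra h0
    have h3 : charDegree χ.1 ≠ 1 := fun h => by
      obtain ⟨mu, rfl⟩ := IrrCharacter.exists_ofLinear_eq_of_charDegree h
      exact h2 (congrArg _ (huniq mu (by simpa using h1)))
    have h4 := (hyp χ (hne h1)).resolve_right h0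
    have h5 := hyp (lam • χ) (hne fun h => h3 (by
      rw [← IrrCharacter.charDegree_linear_smul lam, h, IrrCharacter.charDegree_one]))
    simp only [IrrCharacter.linear_smul_apply, map_one, Units.val_one, one_mul, hval lam hlam,
      neg_mul, neg_eq_zero, h0, or_false] at h5
    exact h0 (by linear_combination (h5 - h4) / 2)
  have hcard : Nat.card (Subgroup.centralizer ({u} : Set G)) = 2 := by
    have h1 := sum_irr_mul_conj_of_isConj (IsConj.refl u)
    rw [Fintype.sum_eq_add (IrrCharacter.one G) (IrrCharacter.ofLinear lam)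
      (fun h => hlam (IrrCharacter.ofLinear_eq_one_iff.1 h.symm))
      (fun χ hχ => by rw [hvan χ hχ.1 hχ.2, zero_mul])] at h1
    simp only [IrrCharacter.one_apply, map_one, mul_one, IrrCharacter.ofLinear_apply,
      hval lam hlam, map_neg, neg_mul_neg] at h1
    exact_mod_cast (h1.symm.trans one_add_one_eq_two)
  have hle : Subgroup.zpowers u ≤ Subgroup.centralizer {u} :=
    Subgroup.zpowers_le.2 (Subgroup.mem_centralizer_singleton_iff.2 rfl)
  have hord : orderOf u = 2 := by
    have h1 := Subgroup.card_dvd_of_le hle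
    rw [Nat.card_zpowers, hcard, Nat.dvd_prime Nat.prime_two, orderOf_eq_one_iff] at h1
    exact h1.resolve_left hu
  have hcent : Subgroup.centralizer ({u} : Set G) = Subgroup.zpowers u :=
    (Subgroup.eq_of_le_of_card_ge hle (by rw [Nat.card_zpowers, hcard, hord])).symm
  have hS : SelfCent 2 u := ⟨hord, hcent⟩
  have hu' : u ∉ commutator G := fun h => by
    have := hval lam hlam
    rw [linear_apply_of_mem_commutator lam h] at this
    norm_num at this
  have hidx : (commutator G).index = 2 := by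
    rw [← card_linear, Nat.card_eq_two_iff' 1]
    exact ⟨lam, hlam, huniq⟩
  refine ⟨hord, ?_, hcent⟩
  have h1 : commutator G ≤ pPrimeCore 2 G := le_pPrimeCore_of_not_dvd fun h =>
    hu' (hS.le_of_dvd h (Subgroup.mem_zpowers u))
  refine eq_top_iff.2 fun g _ => ?_
  by_cases hg : g ∈ commutator G
  · exact Subgroup.mem_sup_right (h1 hg)
  · rw [← mul_inv_cancel_left u g]
    refine Subgroup.mul_mem_sup (Subgroup.mem_zpowers u) (h1 ?_)
    rw [Subgroup.mul_mem_iff_of_index_two hidx]
    simp [hu', hg]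

end Cfsg.Agent.S4757
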