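import Cfsg.Statements.S4758
import Cfsg.Agent.Char.FourC
import Cfsg.Agent.Grp.Residual

set_option autoImplicit false
open Cfsg

namespace Cfsg.Agent.S4758

open Subgroup Cfsg.Four
open scoped ComplexConjugate MatrixGroups

section

variable {G : Type*} [Group G] [Finite G] {u : G}
  (hyp : ∀ χ : IrrCharacter G, χ ≠ IrrCharacter.one G → χ 1 - χ u = 4 ∨ χ u = 0)
include hyp

theorem hyp_map {H : Type*} [Group H] [Finite H] {π : G →* H} (hπ : Function.Surjective π)
    (β : IrrCharacter H) (h : β ≠ IrrCharacter.one H) : β 1 - β (π u) = 4 ∨ β (π u) = 0 := by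
  have := hyp (β.inflate π hπ) fun e => h (IrrCharacter.inflate_injective π hπ
    (e.trans (by ext g; simp)))
  simpa using this

theorem isSimpleGroup (hu2 : u ^ 2 = 1) (hu : u ≠ 1) : IsSimpleGroup G := by
  haveI : Nontrivial G := ⟨u, 1, hu⟩
  refine ⟨fun N hN => or_iff_not_imp_right.2 fun h => ?_⟩
  have h1 := hyp_map hyp (QuotientGroup.mk'_surjective N)
  have h2 : QuotientGroup.mk' N u ≠ 1 := by
    intro e
    refine h (eq_top_iff.2 fun g _ => (QuotientGroup.eq_one_iff g).1
      (eq_one_iff_forall_irr.2 fun β => ?_))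
    by_cases hβ : β = IrrCharacter.one _
    · simp [hβ]
    · exact absurd (by rw [e]) (apply_ne h1 hβ)
  have h3 := (card_eq_sixty h1 (by rw [← map_pow, hu2, map_one]) h2).1
  have h4 := (card_eq_sixty hyp hu2 hu).1
  have h5 := N.card_mul_index
  rw [h4, index_eq_card, h3] at h5
  exact card_eq_one.1 (by omega)

theorem le_charKer {χ : IrrCharacter G} (h : charDegree χ.1 = 3 ∧ χ u = -1) :
    normalClosure {u * u} ≤ charKer χ.1 := by
  refine normalClosure_le_normal (Set.singleton_subset_iff.2 (χ.mem_charKer.2 ?_))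
  rw [apply_mul_self hyp h.1, h.2, χ.apply_one, h.1]
  norm_num

theorem sum_mul_conj (hu : u ≠ 1) {H : Type*} [Group H] [Finite H] {π : G →* H}
    (hπ : Function.Surjective π) (hker : π.ker = normalClosure {u * u}) (hu' : π u ≠ 1) (g : G) :
    ∑ χ : IrrCharacter G, χ g * conj (χ u) = ∑ β : IrrCharacter H, β (π g) * conj (β (π u)) := by
  classical
  have h1 := sum_irr_one_mul_of_ne_one hu
  have h2 := sum_irr_inflate π hπ fun χ => χ 1 * χ u
  simp only [IrrCharacter.inflate_apply, map_one] at h2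
  rw [sum_irr_one_mul_of_ne_one hu'] at h2
  rw [← Finset.sum_filter_add_sum_filter_not _ (fun χ : IrrCharacter G => ∀ g ∈ π.ker, χ g = χ 1),
    ← h2, zero_add] at h1
  have h3 : ∀ χ : IrrCharacter G, ∃ m : ℕ, (¬ ∀ g ∈ π.ker, χ g = χ 1) → χ u = m := fun χ => by
    by_cases h : charDegree χ.1 = 3 ∧ χ u = -1
    · exact ⟨0, fun hn => absurd (fun g hg => χ.mem_charKer.1 (le_charKer hyp h (hker ▸ hg))) hn⟩
    · obtain ⟨m, hm⟩ := re_nonneg hyp h
      exact ⟨m, fun _ => hm⟩
  choose m hm using h3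
  have h4 : ((∑ χ : IrrCharacter G with ¬ ∀ g ∈ π.ker, χ g = χ 1, charDegree χ.1 * m χ : ℕ) : ℂ) =
      0 := by
    rw [← h1]; push_cast
    exact Finset.sum_congr rfl fun χ hχ => by rw [χ.apply_one, hm χ (Finset.mem_filter.1 hχ).2]
  have h5 := Finset.sum_eq_zero_iff.1 (Nat.cast_eq_zero.1 h4)
  have h6 := sum_irr_inflate π hπ fun χ => χ g * conj (χ u)
  simp only [IrrCharacter.inflate_apply] at h6
  rw [h6, ← Finset.sum_filter_add_sum_filter_not _
    (fun χ : IrrCharacter G => ∀ g ∈ π.ker, χ g = χ 1), add_eq_left]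
  refine Finset.sum_eq_zero fun χ hχ => ?_
  rw [hm χ (Finset.mem_filter.1 hχ).2,
    (Nat.mul_eq_zero.1 (h5 χ hχ)).resolve_left χ.charDegree_pos.ne']
  simp

end

theorem eq_of_mem_zpowers {G : Type*} [Group G] {x y : G} (hx : orderOf x = 4)
    (hy : y ∈ zpowers x) (h : y * y = 1) : y = 1 ∨ y = x * x := by
  have h4 : x ^ 4 = 1 := by rw [← hx, pow_orderOf_eq_one]
  have h2 : x ^ 2 ≠ 1 := fun e => by
    have := orderOf_dvd_of_pow_eq_one e
    rw [hx] at this; omega
  obtain ⟨k, hk, rfl⟩ : ∃ k < 4, x ^ k = y := by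
    obtain ⟨k, rfl⟩ := ((isOfFinOrder_iff_pow_eq_one.2 ⟨4, by norm_num, h4⟩).mem_powers_iff_mem_zpowers).2 hy
    exact ⟨k % 4, Nat.mod_lt _ (by norm_num), by rw [← hx, pow_mod_orderOf]⟩
  interval_cases k
  · simp
  · exact absurd (by simpa [sq] using h) h2
  · exact Or.inr (sq x)
  · refine absurd ?_ h2
    rw [← pow_add, show 3 + 3 = 4 + 2 by rfl, pow_add, h4, one_mul] at h
    exact h

theorem eq_inv_of_three {G : Type*} [Group G] {x y a : G} (h1 : x * a * (x * a) = x * x)
    (h2 : y * a * (y * a) = y * y) (h3 : x * y * a * (x * y * a) = x * y * (x * y)) :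
    a * a = 1 ∧ a * x = x * a := by
  have key : ∀ x : G, x * a * (x * a) = x * x → x⁻¹ * a * x = a⁻¹ := fun x h => by
    calc x⁻¹ * a * x = x⁻¹ * x⁻¹ * (x * a * (x * a)) * a⁻¹ := by group
      _ = a⁻¹ := by rw [h]; group
  have e1 := key x h1
  have e2 := key y h2
  have e3 := key _ h3
  have e4 : a⁻¹ = a := by
    calc a⁻¹ = y⁻¹ * (x⁻¹ * a * x) * y := by rw [← e3]; group
      _ = (y⁻¹ * a * y)⁻¹ := by rw [e1]; group
      _ = a := by rw [e2, inv_inv]
  refine ⟨by nth_rewrite 1 [← e4]; group, ?_⟩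
  rw [e4] at e1
  calc a * x = x * (x⁻¹ * a * x) := by group
    _ = x * a := by rw [e1]

/-- Let u ≠ 1 be an element of the finite group G such that every non-principal irreducible character χ satisfies χ(1) − χ(u) = 4 or χ(u) = 0. Then O(G), the largest normal subgroup of odd order, is abelian, and either G ⧸ O(G) ≅ PSL₂(5) and u is an involution, or G ⧸ O(G) ≅ SL₂(5) and u has order 4. -/
theorem result {G : Type*} [Group G] [Finite G] (u : G) (hu : u ≠ 1) (hyp : ∀ χ : Cfsg.IrrCharacter G, (χ : G → ℂ) ≠ (fun _ => (1 : ℂ)) → ((χ : G → ℂ) 1 - (χ : G → ℂ) u = 4 ∨ (χ : G → ℂ) u = 0)) : IsMulCommutative ↥(Cfsg.oddCore G) ∧ ((Nonempty (G ⧸ Cfsg.oddCore G ≃* Matrix.ProjectiveSpecialLinearGroup (Fin 2) (ZMod 5)) ∧ orderOf u = 2) ∨ (Nonempty (G ⧸ Cfsg.oddCore G ≃* Matrix.SpecialLinearGroup (Fin 2) (ZMod 5)) ∧ orderOf u = 4)) := by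
  classical
  replace hyp : ∀ χ : IrrCharacter G, χ ≠ IrrCharacter.one G → χ 1 - χ u = 4 ∨ χ u = 0 :=
    fun χ h => hyp χ fun e => h (Subtype.ext e)
  have hperf := commutator_eq_top hyp
  have hcore : ∀ {H : Type _} [Group H] [Finite H] [IsSimpleGroup H], Nat.card H = 60 →
      ∀ π : G →* H, Function.Surjective π → oddCore G ≤ π.ker := by
    intro H _ _ _ h π hπ
    have h1 : pPrimeCore 2 H = ⊥ := by
      refine (inferInstance : (pPrimeCore 2 H).Normal).eq_bot_or_eq_top.resolve_right fun e => ?_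
      exact pPrimeCore_eq_top_iff.1 e (by rw [h]; norm_num)
    rw [← Subgroup.map_eq_bot_iff, eq_bot_iff, ← h1]
    exact map_pPrimeCore_le hπ
  by_cases hu2 : u ^ 2 = 1
  · haveI := isSimpleGroup hyp hu2 hu
    have h60 := (card_eq_sixty hyp hu2 hu).1
    have h1 : oddCore G = ⊥ := by
      simpa using hcore h60 (MonoidHom.id G) Function.surjective_id
    obtain ⟨e⟩ := nonempty_equiv_psl h60 hperf
    refine ⟨by rw [h1]; infer_instance, Or.inl ⟨⟨((QuotientGroup.quotientMulEquivOfEq h1).trans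
      QuotientGroup.quotientBot).trans e⟩, orderOf_eq_prime hu2 hu⟩⟩
  set K := normalClosure ({u * u} : Set G) with hK
  let π := QuotientGroup.mk' K
  have hπ : Function.Surjective π := QuotientGroup.mk'_surjective K
  have hker : π.ker = K := QuotientGroup.ker_mk' K
  have hmem : ∀ g, π g = 1 ↔ g ∈ K := fun g => QuotientGroup.eq_one_iff g
  have hz : u * u ∈ K := subset_normalClosure rfl
  have hu' : π u ≠ 1 := by
    obtain ⟨τ, hτ⟩ := exists_three hyp hu
    intro e
    have := τ.mem_charKer.1 (le_charKer hyp hτ ((hmem u).1 e))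
    rw [hτ.2, τ.apply_one, hτ.1] at this
    norm_num at this
  have hu2' : π u ^ 2 = 1 := by rw [← map_pow, sq, hmem]; exact hz
  have hyp' := hyp_map hyp hπ
  haveI := isSimpleGroup hyp' hu2' hu'
  obtain ⟨h60, hC4, hconj⟩ := card_eq_sixty hyp' hu2' hu'
  obtain ⟨e⟩ := nonempty_equiv_psl h60 (commutator_eq_top hyp')
  have hOK : oddCore G ≤ K := hker ▸ hcore h60 π hπ
  have hsum := sum_mul_conj hyp hu hπ hker hu'
  have hC : Nat.card (centralizer ({u} : Set G)) = 4 := by
    have := hsum u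
    rw [sum_irr_mul_conj_of_isConj (IsConj.refl _), sum_irr_mul_conj_of_isConj (IsConj.refl _),
      hC4] at this
    exact_mod_cast this
  have hcj : ∀ g, IsPElt 2 (π g) → π g ≠ 1 → IsConj u g := fun g h1 h2 => by
    by_contra hn
    have := hsum g
    rw [sum_irr_mul_conj_of_not_isConj (fun h => hn h.symm),
      sum_irr_mul_conj_of_isConj (hconj _ h1 h2).symm] at this
    exact natCard_cast_ne_zero _ this.symm
  have hu4 : orderOf u = 4 := by
    have h1 : orderOf u ∣ 2 ^ 2 := by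
      have := orderOf_dvd_natCard
        (⟨u, mem_centralizer_singleton_iff.2 rfl⟩ : centralizer ({u} : Set G))
      rwa [hC, ← orderOf_coe] at this
    exact Nat.eq_prime_pow_of_dvd_least_prime_pow Nat.prime_two
      (fun h => hu2 (orderOf_dvd_iff_pow_eq_one.1 h)) h1
  have hord : ∀ g, IsPElt 2 (π g) → π g ≠ 1 → orderOf g = 4 ∧
      ∀ y, y * g = g * y → y * y = 1 → y = 1 ∨ y = g * g := fun g h1 h2 => by
    have h3 := hcj g h1 h2
    have h4 : orderOf g = 4 := by
      obtain ⟨c, rfl⟩ := isConj_iff.1 h3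
      rw [← hu4]; exact (MulAut.conj c).orderOf_eq u
    refine ⟨h4, fun y hy hy2 => eq_of_mem_zpowers h4 ?_ hy2⟩
    have h5 : zpowers g = centralizer ({g} : Set G) := by
      refine eq_of_le_of_card_ge (zpowers_le.2 (mem_centralizer_singleton_iff.2 rfl)) ?_
      have h6 := (centralizer ({g} : Set G)).card_mul_index
      rw [← index_centralizer_eq_of_isConj h3, ← (centralizer ({u} : Set G)).card_mul_index] at h6
      rw [Nat.card_zpowers, h4, ← hC]
      exact (Nat.eq_of_mul_eq_mul_right (Nat.pos_of_ne_zero index_ne_zero_of_finite) h6).le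
    rw [h5]; exact mem_centralizer_singleton_iff.2 hy
  have hup : IsPElt 2 u := ⟨2, hu4⟩
  obtain ⟨P, huP⟩ := hup.exists_mem_sylow
  have hPp : ∀ x ∈ (P : Subgroup G), IsPElt 2 (π x) := fun x hx =>
    (isPElt_of_mem P.isPGroup' hx).map π
  have hz1 : u * u ≠ 1 := fun h => hu2 (by rw [sq, h])
  have hzz : u * u * (u * u) = 1 := by
    rw [← pow_orderOf_eq_one u, hu4]; simp only [pow_succ, pow_zero, one_mul, mul_assoc]
  have hsq : ∀ x ∈ (P : Subgroup G), π x ≠ 1 → x * x = u * u := by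
    haveI : Nontrivial P := ⟨⟨u, huP⟩, 1, fun h => hu (congrArg Subtype.val h)⟩
    haveI := P.isPGroup'.center_nontrivial
    obtain ⟨n, hn⟩ := (P.isPGroup'.to_subgroup (center P)).exists_card_eq
    obtain ⟨c, hc⟩ := exists_prime_orderOf_dvd_card' (G := center P) 2 (by
      rw [hn]; refine dvd_pow_self 2 ?_
      rintro rfl
      exact absurd hn (Finite.one_lt_card (α := center P)).ne')
    have h1 : ∀ x ∈ (P : Subgroup G), π x ≠ 1 → (c.1.1 : G) = x * x := fun x hx h => by
      refine ((hord x (hPp x hx) h).2 _ ?_ ?_).resolve_left fun h0 => ?_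
      · exact congrArg Subtype.val (mem_center_iff.1 c.2 ⟨x, hx⟩).symm
      · have := pow_orderOf_eq_one c
        rw [hc, sq] at this
        exact congrArg (fun y : center P => (y.1.1 : G)) this
      · have : c = 1 := Subtype.ext (Subtype.ext h0)
        rw [this, orderOf_one] at hc; omega
    exact fun x hx h => (h1 x hx h).symm.trans (h1 u huP hu')
  obtain ⟨y, hyP, hy1, hy2⟩ : ∃ y ∈ (P : Subgroup G), π y ≠ 1 ∧ π (u * y) ≠ 1 := by
    by_contra hn
    push Not at hn
    have h1 : Nat.card (P.mapSurjective hπ) = 4 := by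
      rw [Sylow.card_eq_multiplicity, h60]; decide +kernel
    have h2 : ((P.mapSurjective hπ : Subgroup (G ⧸ K)) : Set (G ⧸ K)) ⊆ {1, (π u)⁻¹} := by
      rintro _ ⟨x, hx, rfl⟩
      by_cases h : π x = 1
      · exact Or.inl h
      · exact Or.inr (eq_inv_of_mul_eq_one_right (by rw [← map_mul]; exact hn x hx h))
    have h3 := (Set.ncard_le_ncard h2).trans (Set.ncard_insert_le _ _)
    rw [Set.ncard_singleton, ← Nat.card_coe_set_eq] at h3
    exact absurd (h1 ▸ h3 : 4 ≤ 1 + 1) (by norm_num)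
  have three : ∀ a ∈ K, (∀ x ∈ (P : Subgroup G), π (x * a) ≠ 1 → x * a * (x * a) = u * u) →
      a = 1 ∨ a = u * u := fun a ha h => by
    have h1 : ∀ x ∈ (P : Subgroup G), π x ≠ 1 → x * a * (x * a) = x * x := fun x hx h2 => by
      rw [hsq x hx h2, h x hx (by rwa [map_mul, (hmem a).2 ha, mul_one])]
    obtain ⟨h2, h3⟩ := eq_inv_of_three (h1 u huP hu') (h1 y hyP hy1) (h1 _ (mul_mem huP hyP) hy2)
    exact (hord u (hPp u huP) hu').2 a h3 h2
  have hQ : ∀ a ∈ K, a ∈ (P : Subgroup G) → a = 1 ∨ a = u * u := fun a ha haP =>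
    three a ha fun x hx h => hsq _ (mul_mem hx haP) h
  have hodd : ∀ a ∈ oddCore G, a * a = 1 → a = 1 := fun a ha h =>
    (isPElt_iff_pow_eq_one.2 ⟨1, by rw [pow_one, sq, h]⟩ : IsPElt 2 a).eq_one_of_isPRegular
      (isPRegular_of_mem_pPrimeCore ha)
  have hzO : u * u ∉ oddCore G := fun h => hz1 (hodd _ h hzz)
  have hfpf : ∀ a ∈ oddCore G, a * (u * u) = u * u * a → a = 1 := fun a ha hc => by
    refine (three a (hOK ha) fun x hx h => ?_).resolve_right fun e => hzO (e ▸ ha)
    have h0 : π (x * a) = π x := by rw [map_mul, (hmem a).2 (hOK ha), mul_one]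
    have h1 := hsq x hx (h0 ▸ h)
    have h2 : x⁻¹ * a * x * a ∈ oddCore G :=
      mul_mem (by simpa using (inferInstance : (oddCore G).Normal).conj_mem a ha x⁻¹) ha
    have h3 : x * a * (x * a) = u * u * (x⁻¹ * a * x * a) := by rw [← h1]; group
    have h4 : (x * a) ^ 4 = 1 := by
      rw [← (hord _ (h0 ▸ hPp x hx) h).1, pow_orderOf_eq_one]
    have h5 : Commute (u * u) (x⁻¹ * a * x * a) := by
      have c1 : Commute (u * u) x := by rw [← h1]; exact (Commute.refl x).mul_left (Commute.refl x)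
      have c2 : Commute (u * u) a := hc.symm
      exact ((c1.inv_right.mul_right c2).mul_right c1).mul_right c2
    have h6 : x⁻¹ * a * x * a = 1 := by
      refine hodd _ h2 ?_
      rw [show 4 = 2 * 2 by rfl, pow_mul, sq (x * a), h3, h5.mul_pow, sq, hzz, one_mul, sq] at h4
      exact h4
    rw [h3, h6, mul_one]
  refine ⟨⟨⟨fun a b => ?_⟩⟩, Or.inr ⟨?_, hu4⟩⟩
  · refine MonoidHom.FixedPointFree.commute_all_of_involutive
      (φ := MulAut.conjNormal (H := oddCore G) (u * u)) (fun g hg => Subtype.ext ?_)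
      (fun g => ?_) a b
    · refine hfpf _ g.2 ?_
      have := congrArg Subtype.val hg
      rw [MulAut.conjNormal_apply] at this
      exact (mul_inv_eq_iff_eq_mul.1 this).symm
    · rw [← MulAut.mul_apply, ← map_mul, hzz, map_one, MulAut.one_apply]
  haveI : IsCyclic (sylowInfNormal P K : Subgroup K) := by
    refine ⟨⟨⟨⟨u * u, hz⟩, mul_mem huP huP⟩, fun x => ?_⟩⟩
    rcases hQ x.1.1 x.1.2 x.2 with h | h
    · exact ⟨0, Subtype.ext (Subtype.ext (by simpa using h.symm))⟩
    · exact ⟨1, Subtype.ext (Subtype.ext (by simpa using h.symm))⟩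
  have htop := (hasNormalPComplement_iff_sup_eq_top (sylowInfNormal P K)).1
    (hasNormalPComplement_two_of_isCyclic (sylowInfNormal P K))
  let ρ : G ⧸ oddCore G →* G ⧸ K := QuotientGroup.map _ _ (MonoidHom.id G) hOK
  have hρ : ∀ g : G, ρ g = π g := fun g => rfl
  have hk : ∀ x, (e.toMonoidHom.comp ρ) x = 1 ↔ x = 1 ∨ x = ((u * u : G) : G ⧸ oddCore G) := by
    intro x
    induction x using QuotientGroup.induction_on with
    | H g =>
    simp only [MonoidHom.comp_apply, MulEquiv.coe_toMonoidHom, map_eq_one_iff e e.injective, hρ,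
      hmem]
    constructor
    · intro hg
      have : (⟨g, hg⟩ : K) ∈ pPrimeCore 2 K ⊔ (sylowInfNormal P K : Subgroup K) := by
        rw [htop]; trivial
      obtain ⟨a, ha, b, hb, hab⟩ := mem_sup_of_normal_left.1 this
      rw [pPrimeCore_eq_subgroupOf_of_normal] at ha
      have h1 : ((g : G) : G ⧸ oddCore G) = b.1 := by
        rw [show g = a.1 * b.1 from (congrArg Subtype.val hab).symm, QuotientGroup.mk_mul,
          (QuotientGroup.eq_one_iff (a : G)).2 ha, one_mul]
      rw [h1]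
      rcases hQ b.1 b.2 hb with h | h <;> simp [h]
    · rintro (h | h)
      · exact hOK ((QuotientGroup.eq_one_iff _).1 h)
      · have := mul_mem hz (hOK (QuotientGroup.eq.1 h.symm))
        rwa [mul_inv_cancel_left] at this
  refine nonempty_equiv_sl (π := e.toMonoidHom.comp ρ) ?_
    (fun h => hzO ((QuotientGroup.eq_one_iff _).1 h)) hk ?_ ?_
  · refine e.surjective.comp fun q => ?_
    obtain ⟨g, rfl⟩ := hπ q
    exact ⟨g, rfl⟩
  · intro x hx h1
    have h2 : (e.toMonoidHom.comp ρ) (x * x) = 1 ∧ x * x ≠ 1 := by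
      induction x using QuotientGroup.induction_on with
      | H g =>
      have h3 : π g ≠ 1 := fun h => h1 (by simp [hρ, h])
      have h4 : IsPElt 2 (π g) := hx.map ρ
      obtain ⟨c, rfl⟩ := isConj_iff.1 (hcj g h4 h3)
      have h5 : c * u * c⁻¹ * (c * u * c⁻¹) = c * (u * u) * c⁻¹ := by group
      rw [← QuotientGroup.mk_mul, h5]
      refine ⟨?_, fun h => hzO ?_⟩
      · simp only [MonoidHom.comp_apply, MulEquiv.coe_toMonoidHom, hρ, map_mul π _ c⁻¹,
          map_mul π c, (hmem _).2 hz]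
        simp
      · simpa [mul_assoc] using (inferInstance : (oddCore G).Normal).conj_mem _
          ((QuotientGroup.eq_one_iff _).1 h) c⁻¹
    exact ((hk _).1 h2.1).resolve_left h2.2
  · exact commutator_eq_top (hyp_map hyp (QuotientGroup.mk'_surjective _))

end Cfsg.Agent.S4758
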