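import Cfsg.Statements.S4759
import Cfsg.Agent.Char.DadeExt
import Cfsg.Agent.FT.Main

set_option autoImplicit false
open Cfsg

namespace Cfsg.Agent.S4759

open Cfsg.Agent.FT Subgroup

/-- Let G be a finite group that is the semidirect product of a normal extraspecial 2-subgroup E and a complement H acting faithfully on E (no non-identity element of H centralizes E), and suppose H has a normal subgroup K of odd order with [E, K] = E. Then every faithful irreducible character θ of E (there is exactly one) extends to G: some irreducible character of G restricts to θ on E. -/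
theorem result {G : Type*} [Group G] [Finite G] (E H : Subgroup G) [E.Normal] (hE : Cfsg.IsExtraspecial 2 ↥E) (hEH : E ⊓ H = ⊥) (hEHtop : E ⊔ H = ⊤) (hfaith : ∀ h ∈ H, (∀ e ∈ E, h * e = e * h) → h = 1) (K : Subgroup G) (hKH : K ≤ H) (hKn : ∀ h ∈ H, ∀ k ∈ K, h * k * h⁻¹ ∈ K) (hKodd : Odd (Nat.card ↥K)) (hEK : ⁅E, K⁆ = E) (θ : Cfsg.IrrCharacter ↥E) (hθ : ∀ e : ↥E, (θ : ↥E → ℂ) e = (θ : ↥E → ℂ) 1 → e = 1) : ∃ χ : Cfsg.IrrCharacter G, ∀ e : ↥E, (χ : G → ℂ) e = (θ : ↥E → ℂ) e := by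
  obtain ⟨⟨hp, -, hd⟩, hc⟩ := hE
  have := Fact.mk Nat.prime_two
  obtain ⟨z, hz⟩ := isCyclic_iff_exists_zpowers_eq_top.1 (isCyclic_of_prime_card hc)
  have hz' : (center E).map E.subtype = zpowers ((z : E) : G) := by
    have := congrArg (fun X => (X.map (center E).subtype).map E.subtype) hz
    simp only [MonoidHom.map_zpowers, map_subtype_top] at this
    exact this.symm
  have hN : ∀ X : Subgroup G, X ≤ 𝓝(E) := fun X => le_top.trans (normalizer_eq_top E).ge
  have hX : XSp ((z : E) : G) E := ⟨by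
      rw [orderOf_coe, orderOf_coe, ← Nat.card_zpowers, hz, card_top, hc], hp,
    by rw [← map_subtype_commutator, hd, hz'], by rw [← hz', center_map_subtype]⟩
  obtain ⟨S, hS⟩ := exists_sylow 2 H
  obtain ⟨χ, hχ⟩ := XHyp.exists_ext (K := K) ⟨hX, hKodd, oddOrder hKodd, hS.pgroup, hN K, hN S,
    le_norm_of_forall fun s hs => hKn s (hS.le hs),
    le_bot_iff.1 ((inf_le_inf_left _ hS.le).trans hEH.le), (le_inf inf_le_left
      (le_cent_symm (hEK.ge.trans (hX.comm_le_cent (hN K))))).trans hX.cent.le⟩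
  obtain ⟨Θ, hΘ⟩ := exists_fun_extend θ.1
  have h1 := chOn_of_eq θ.isCharacter hΘ
  have h0 : Θ 1 ≠ 0 := (hΘ 1).trans_ne θ.apply_one_ne_zero
  have hn : Θ z = -Θ 1 := by
    have h2 := θ.isCharacter.apply_mul_of_mem_charCenter (θ.center_le_charCenter z.2) z
    have h3 : (z : E) * z = 1 := by rw [← sq, ← hX.ord, orderOf_coe, pow_orderOf_eq_one]
    rw [h3, eq_comm, mul_self_eq_mul_self_iff] at h2
    exact (hΘ z).trans ((h2.resolve_left fun e => hX.ne_one (congrArg Subtype.val (hθ _ e))).trans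
      (congrArg _ (hΘ 1).symm))
  have h2 : XExt ((z : E) : G) E ⊥ Θ := ⟨by rwa [sup_bot_eq],
    (hX.isIrr_iff h1 hn h0).1 (by rw [funext hΘ]; exact θ.2), hn⟩
  obtain ⟨ψ, hψ⟩ := exists_extension_of_forall_prime (f := E.subtype) (θ := θ)
    (inertia_eq_top_iff_forall.2 fun g n n' e => by
      have h3 : XExt ((z : E) : G) E ⊥ fun x => Θ (g * x * g⁻¹) := ⟨by
        simpa only [sup_bot_eq, inv_inv, map_conj_eq_of_normal] using h1.conj g⁻¹,
        by simpa using h2.deg, by simpa [hX.comm_of_norm (hN ⊤ trivial)] using hn⟩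
      rw [← hΘ, ← hΘ, show (n' : G) = _ from e]
      exact hX.uniq h3 h2 n.2) fun p hpp _ hpd => by
    obtain ⟨k, hk⟩ := hp.exists_card_eq
    obtain rfl : p = 2 := (Nat.prime_dvd_prime_iff_eq hpp Nat.prime_two).1 (hpp.dvd_of_dvd_pow
      (hk ▸ ((hpp.dvd_mul.1 hpd).elim (·.trans θ.charDegree_dvd_card)
        (·.trans (detOrder_dvd_card _)))))
    refine ⟨E ⊔ S, fun n => mem_sup_left n.2, fun hd => hS.not_dvd (hd.trans ?_), ⟨_,
      IsCharacter.isIrr_of_comp hχ.char (inclusion le_sup_left) (hX.isIrr hχ)⟩,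
      funext fun e => (hX.uniq hχ h2 e.2).trans (hΘ e)⟩
    have h4 : IsProd E H ⊤ := hEHtop ▸ isProd_of_le_norm (hN H)
    rw [← relIndex_top_right, (h4.mono le_sup_left le_top le_rfl le_top).relIndex_eq]
    exact relIndex_dvd_of_le_left H le_sup_right
  exact ⟨ψ, congrFun hψ⟩

end Cfsg.Agent.S4759
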