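import Cfsg.Statements.S4762
import Cfsg.Agent.Char.FullyRam
import Cfsg.Agent.Char.Central
import Cfsg.Agent.Char.Abelian
import Cfsg.Agent.Grp.Frattini
-- import your own Cfsg.Agent.* helpers here

set_option autoImplicit false
open Cfsg

namespace Cfsg.Agent.S4762

theorem dvd_iff {G : Type*} [Group G] [Finite G] {p : ℕ} [hp : Fact p.Prime] (hG : IsPGroup p G)
    (χ : IrrCharacter G) : p ∣ charDegree χ.1 ↔ χ 1 ≠ 1 := by
  rw [Ne, χ.apply_one_eq_one_iff]
  obtain ⟨k, hk⟩ := χ.exists_charDegree_eq_pow hG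
  rw [hk]
  rcases k with _ | k
  · simpa using hp.out.one_lt.ne'
  · exact iff_of_true (dvd_pow_self p k.succ_ne_zero)
      (Nat.one_lt_pow k.succ_ne_zero hp.out.one_lt).ne'

/-- Let p be a prime and G a finite nilpotent group. Then G has exactly one irreducible complex character of degree divisible by p if and only if p = 2 and G is an extraspecial 2-group. -/
theorem result {G : Type*} [Group G] [Finite G] [Group.IsNilpotent G] (p : ℕ) [Fact p.Prime] : Nat.card {χ : Cfsg.IrrCharacter G // p ∣ Cfsg.charDegree (χ : G → ℂ)} = 1 ↔ (p = 2 ∧ Cfsg.IsExtraspecial 2 G) := by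
  have hp : p.Prime := Fact.out
  constructor
  · intro h
    obtain ⟨h1, ⟨χ, hχ⟩⟩ := Nat.card_eq_one_iff_unique.1 h
    have hu : ∀ ψ : IrrCharacter G, p ∣ charDegree ψ.1 → ψ = χ := fun ψ hψ =>
      congrArg Subtype.val (h1.elim ⟨ψ, hψ⟩ ⟨χ, hχ⟩)
    have hG : IsPGroup p G := by
      obtain ⟨P⟩ : Nonempty (Sylow p G) := inferInstance
      have hn : (P : Subgroup G).Normal := isNilpotent_iff_forall_sylow_normal.1 inferInstance p P
      obtain ⟨θ, hθ⟩ := χ.exists_liesOver_below (P : Subgroup G).subtype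
      have h2 := hθ.factorization_charDegree_eq (p := p)
        (by rw [Subgroup.range_subtype]; exact P.not_dvd_index)
      have h3 : p ∣ charDegree θ.1 := by
        refine Nat.dvd_of_factorization_pos ?_
        rw [← h2]
        exact (hp.factorization_pos_of_dvd χ.charDegree_pos.ne' hχ).ne'
      have h4 := inertia_eq_range_of_unique_of_coprime (f := (P : Subgroup G).subtype) (θ := θ)
        (χ := χ) (by rw [Subgroup.range_subtype]; exact P.card_coprime_index)
        fun ψ hψ => hu ψ (h3.trans hψ.charDegree_dvd)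
      have h5 := centralizer_le_inertia (P : Subgroup G).subtype θ
      rw [h4, Subgroup.range_subtype] at h5
      have h6 : (P : Subgroup G) = ⊤ := eq_top_of_forall_exists_sylow_le fun q _ => by
        by_cases hq : q = p
        · subst hq; exact ⟨P, le_rfl⟩
        obtain ⟨Q⟩ : Nonempty (Sylow q G) := inferInstance
        refine ⟨Q, fun y hy => h5 fun x hx => commute_of_coprime_of_isNilpotent ?_⟩
        obtain ⟨a, ha⟩ := IsPGroup.iff_orderOf.1 P.isPGroup' ⟨x, hx⟩
        obtain ⟨b, hb⟩ := IsPGroup.iff_orderOf.1 Q.isPGroup' ⟨y, hy⟩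
        rw [Subgroup.orderOf_mk] at ha hb
        rw [ha, hb]
        exact Nat.Coprime.pow _ _ ((Nat.coprime_primes hp Fact.out).2 (Ne.symm hq))
      exact (h6 ▸ P.isPGroup').of_equiv Subgroup.topEquiv
    have hu' : ∀ ψ : IrrCharacter G, ¬ commutator G ≤ charKer ψ.1 → ψ = χ := fun ψ hψ =>
      hu ψ ((dvd_iff hG ψ).2 fun h2 => hψ (ψ.commutator_le_charKer_iff.2 h2))
    have hc : commutator G ≠ ⊥ := fun h2 =>
      (dvd_iff hG χ).1 hχ (χ.commutator_le_charKer_iff.1 (h2 ▸ bot_le))
    obtain ⟨z, ⟨hz, hzc⟩, hz1⟩ := (Subgroup.bot_or_exists_ne_one _).resolve_left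
      (inf_center_ne_bot_of_isPGroup hG hc)
    have hzk : z ∉ charKer χ.1 := by
      intro h2
      refine hz1 (eq_one_iff_forall_irr.2 fun ψ => ψ.mem_charKer.1 ?_)
      by_contra h3
      exact h3 (hu' ψ (fun h4 => h3 (h4 hz)) ▸ h2)
    have hzn : (Subgroup.zpowers z).Normal := ⟨fun n hn g => by
      rw [Subgroup.mem_center_iff.1 (Subgroup.zpowers_le.2 hzc hn) g, mul_inv_cancel_right]
      exact hn⟩
    have h2 : commutator G ≤ Subgroup.zpowers z := by
      intro g hg
      by_contra h3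
      obtain ⟨ψ, h4, h5⟩ := exists_irr_le_charKer_not_mem _ h3
      exact hzk (hu' ψ (fun h6 => h5 (h6 hg)) ▸ h4 (Subgroup.mem_zpowers z))
    have h3 : ∀ ζ : ℂ, ζ ^ orderOf z = 1 → ζ ≠ 1 → χ z = ζ * χ 1 := by
      intro ζ h4 h5
      obtain ⟨ψ, hψ⟩ := exists_irr_apply_eq_mul_of_mem_center hzc h4
      refine hu' ψ (fun h6 => h5 ?_) ▸ hψ
      rw [ψ.mem_charKer.1 (h6 hz)] at hψ
      exact (mul_eq_right₀ ψ.apply_one_ne_zero).1 hψ.symm
    have h4 : orderOf z = 2 := by
      have h5 := isPrimitiveRoot_exp_nat (orderOf_pos z).ne'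
      have h6 : 1 < orderOf z := by
        have := orderOf_pos z
        have := orderOf_eq_one_iff.not.2 hz1
        omega
      generalize Complex.exp (2 * Real.pi * Complex.I / (orderOf z : ℂ)) = ζ at h5
      have h7 := h3 ζ h5.pow_eq_one (h5.ne_one h6)
      rw [h3 ζ⁻¹ h5.inv.pow_eq_one (h5.inv.ne_one h6)] at h7
      have h8 : ζ ^ 2 = 1 := by
        rw [sq]
        nth_rewrite 1 [← mul_right_cancel₀ χ.apply_one_ne_zero h7]
        exact inv_mul_cancel₀ (h5.ne_zero (orderOf_pos z).ne')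
      exact le_antisymm (Nat.le_of_dvd two_pos (h5.dvd_of_pow_eq_one 2 h8)) h6
    have hp2 : p = 2 := (hG.eq_of_prime_dvd_card' Nat.prime_two (h4 ▸ orderOf_dvd_natCard z)).symm
    subst hp2
    have h5 : Subgroup.center G ≤ commutator G := by
      intro g hg
      rw [mem_commutator_iff_forall_linear]
      intro lam
      by_contra h6
      have h7 := (IrrCharacter.linear_smul_eq_iff lam χ).1 (hu _ (by simpa using hχ)) g h6
      have h8 := χ.mem_charCenter.1 (χ.center_le_charCenter hg)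
      rw [h7, norm_zero] at h8
      exact χ.charDegree_pos.ne (by exact_mod_cast h8)
    have h6 : commutator G = Subgroup.center G :=
      le_antisymm (h2.trans (Subgroup.zpowers_le.2 hzc)) h5
    have h7 : Subgroup.center G = Subgroup.zpowers z :=
      le_antisymm (h5.trans h2) (Subgroup.zpowers_le.2 hzc)
    refine ⟨rfl, ⟨hG, le_antisymm ((hG.frattini_le_iff).2 ⟨h6.le, fun x => ?_⟩)
      (h6 ▸ hG.commutator_le_frattini), h6⟩, by rw [h7, Nat.card_zpowers, h4]⟩
    rw [Subgroup.mem_center_iff]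
    intro y
    have h8 : x⁻¹ * y⁻¹ * x * y ∈ commutator G := by
      simpa [commutatorElement_def, commutator_def] using
        Subgroup.commutator_mem_commutator (Subgroup.mem_top x⁻¹) (Subgroup.mem_top y⁻¹)
    have h9 : (x⁻¹ * y⁻¹ * x * y) ^ 2 = 1 := by
      rw [← orderOf_dvd_iff_pow_eq_one, ← h4]
      exact orderOf_dvd_of_mem_zpowers (h2 h8)
    have h10 := Subgroup.mem_center_iff.1 (h6 ▸ h8)
    generalize hc : x⁻¹ * y⁻¹ * x * y = c at h9 h10
    have h11 : x * y = y * x * c := by rw [← hc]; group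
    calc y * x ^ 2 = y * x * x * c ^ 2 := by rw [h9, mul_one, sq, mul_assoc]
      _ = (y * x * c) * x * c := by rw [sq, mul_assoc (y * x) c, ← h10 x]; simp only [mul_assoc]
      _ = x * y * x * c := by rw [← h11]
      _ = x * (y * x * c) := by simp only [mul_assoc]
      _ = x ^ 2 * y := by rw [← h11, sq, mul_assoc]
  · rintro ⟨rfl, ⟨hG, -, h1⟩, h2⟩
    obtain ⟨z, hz1, hz⟩ := (Nat.card_eq_two_iff' (1 : Subgroup.center G)).1 h2
    have key : ∀ ψ : IrrCharacter G, 2 ∣ charDegree ψ.1 →
        charDegree ψ.1 ^ 2 = (Subgroup.center G).index ∧ ψ z = -ψ 1 ∧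
          ∀ g, g ∉ Subgroup.center G → ψ g = 0 := by
      intro ψ hψ
      have h3 : (z : G) ∉ charKer ψ.1 := by
        intro h4
        refine (dvd_iff hG ψ).1 hψ (ψ.commutator_le_charKer_iff.1 fun g hg => ?_)
        by_cases h5 : (⟨g, h1 ▸ hg⟩ : Subgroup.center G) = 1
        · rw [show g = 1 from congrArg Subtype.val h5]; exact one_mem _
        · rw [show g = z from congrArg Subtype.val (hz _ h5)]; exact h4
      have h4 : charKer ψ.1 = ⊥ := by
        by_contra h5
        obtain ⟨g, ⟨hg, hgc⟩, hg1⟩ := (Subgroup.bot_or_exists_ne_one _).resolve_left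
          (inf_center_ne_bot_of_isPGroup hG h5)
        have h6 : g = z := congrArg Subtype.val (hz ⟨g, hgc⟩ fun h => hg1 (congrArg Subtype.val h))
        exact h3 (h6 ▸ hg)
      have h5 := ψ.charCenter_eq_center_of_faithful h4
      refine ⟨h5 ▸ ψ.sq_charDegree_eq_index_of_commutator_le (h5 ▸ h1.le), ?_, fun g hg =>
        ψ.eq_zero_of_commutator_le_charCenter (h5 ▸ h1.le) (h5 ▸ hg)⟩
      obtain ⟨f, hf, -⟩ := ψ.exists_monoidHom_center
      have h6 := hf z 1
      rw [mul_one] at h6
      have h7 : (f z : ℂ) ^ 2 = 1 := by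
        rw [← Units.val_pow_eq_pow_val, ← map_pow, ← h2, pow_card_eq_one', map_one, Units.val_one]
      rcases sq_eq_one_iff.1 h7 with h8 | h8
      · exact absurd (ψ.mem_charKer.2 (by rw [h6, h8, one_mul])) h3
      · rw [h6, h8, neg_one_mul]
    rw [Nat.card_eq_one_iff_unique]
    refine ⟨⟨fun a b => Subtype.ext (Subtype.ext (funext fun g => ?_))⟩, ?_⟩
    · obtain ⟨a1, a2, a3⟩ := key a.1 a.2
      obtain ⟨b1, b2, b3⟩ := key b.1 b.2
      have h3 : a.1 1 = b.1 1 := by
        rw [a.1.apply_one, b.1.apply_one, Nat.pow_left_injective two_ne_zero (a1.trans b1.symm)]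
      by_cases hg : g ∈ Subgroup.center G
      · by_cases h5 : (⟨g, hg⟩ : Subgroup.center G) = 1
        · rw [show g = 1 from congrArg Subtype.val h5]; exact h3
        · rw [show g = z from congrArg Subtype.val (hz _ h5)]
          exact a2.trans (h3 ▸ b2.symm)
      · exact (a3 g hg).trans (b3 g hg).symm
    · obtain ⟨χ, hχ⟩ := exists_irr_nonlinear_of_not_comm (G := G) fun h => by
        have h3 : commutator G = ⊥ := by
          rw [commutator_eq_bot_iff_center_eq_top, eq_top_iff]
          exact fun a _ => Subgroup.mem_center_iff.2 fun b => h b a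
        rw [← h1, h3, Subgroup.card_bot] at h2
        exact absurd h2 (by norm_num)
      exact ⟨χ, (dvd_iff hG χ).2 fun h => hχ.ne' (χ.apply_one_eq_one_iff.1 h)⟩

end Cfsg.Agent.S4762
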