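import Cfsg.Statements.S4763
import Cfsg.Agent.Char.FullyRam
import Cfsg.Agent.Char.Central
import Cfsg.Agent.Char.Abelian
import Cfsg.Agent.Char.BrauerPerm
import Cfsg.Agent.Grp.Coprime
-- import your own Cfsg.Agent.* helpers here

set_option autoImplicit false
open Cfsg

namespace Cfsg.Agent.S4763

open scoped ComplexConjugate

theorem card_carrier_mk {G : Type*} [Group G] [Finite G] (g : G) :
    Nat.card (ConjClasses.mk g).carrier = (Subgroup.centralizer ({g} : Set G)).index := by
  rw [← card_isConj_eq_index]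
  refine Nat.card_congr (Equiv.subtypeEquivRight fun x => ?_)
  rw [ConjClasses.mem_carrier_iff_mk_eq, ConjClasses.mk_eq_mk_iff_isConj, isConj_comm]

theorem index_dvd_card_centralizer {G : Type*} [Group G] [Finite G] (N : Subgroup G) [N.Normal]
    (hab : commutator G ≤ N) (χ : IrrCharacter G)
    (hirr : ∀ ψ : IrrCharacter G, ψ ≠ χ → IsIrrCharacter N (ψ.1 ∘ N.subtype))
    (hχ : ¬ IsIrrCharacter N (χ.1 ∘ N.subtype)) {g : G} (hg : χ g = 0) :
    N.index ∣ Nat.card (Subgroup.centralizer ({g} : Set G)) := by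
  classical
  refine nat_dvd_of_isIntegral_div Subgroup.index_ne_zero_of_finite ?_
  rw [← sum_irr_mul_conj_of_isConj (IsConj.refl g),
    ← Finset.add_sum_erase _ _ (Finset.mem_univ χ), hg, zero_mul, zero_add,
    ← Finset.sum_fiberwise_of_maps_to (g := fun ψ : IrrCharacter G => ψ.1 ∘ N.subtype)
      (t := (Finset.univ.erase χ).image fun ψ : IrrCharacter G => ψ.1 ∘ N.subtype)
      (fun ψ hψ => Finset.mem_image_of_mem _ hψ), Finset.sum_div]
  refine IsIntegral.sum _ fun t ht => ?_
  obtain ⟨ψ, hψ, rfl⟩ := Finset.mem_image.1 ht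
  have hψ' := hirr ψ (Finset.ne_of_mem_erase hψ)
  have : Fintype {lam : G →* ℂˣ // ∀ x ∈ N, lam x = 1} := Fintype.ofFinite _
  have hres : ∀ lam : {lam : G →* ℂˣ // ∀ x ∈ N, lam x = 1},
      (lam.1 • ψ).1 ∘ N.subtype = ψ.1 ∘ N.subtype := fun lam => by
    funext n
    simp [lam.2 n n.2]
  rw [← Finset.sum_bij (s := Finset.univ) (f := fun _ => ψ g * conj (ψ g))
    (fun (lam : {lam : G →* ℂˣ // ∀ x ∈ N, lam x = 1}) _ => lam.1 • ψ)]
  · rw [Finset.sum_const, Finset.card_univ, ← Nat.card_eq_fintype_card,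
      card_linear_trivial_on_of_commutator_le hab, nsmul_eq_mul, mul_div_cancel_left₀ _
        (Nat.cast_ne_zero.2 Subgroup.index_ne_zero_of_finite)]
    exact (ψ.isIntegral g).mul (isIntegral_conj (ψ.isIntegral g))
  · intro lam _
    refine Finset.mem_filter.2 ⟨Finset.mem_erase.2 ⟨fun h => hχ ?_, Finset.mem_univ _⟩, hres lam⟩
    rw [← h, hres]; exact hψ'
  · intro a _ b _ hab
    refine Subtype.ext (IrrCharacter.ofLinear_injective (gallagher_injective' (f := N.subtype)
      ψ.isCharacter hψ' (fun n => ?_) (fun n => ?_) (congrArg Subtype.val hab)))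
    · simp [a.2 n n.2]
    · simp [b.2 n n.2]
  · intro η hη
    obtain ⟨lam, h1, h2⟩ := exists_linear_of_comp_eq ψ.isCharacter η.isCharacter hψ'
      (Finset.mem_filter.1 hη).2
    exact ⟨⟨lam, fun x hx => h1 ⟨x, hx⟩⟩, Finset.mem_univ _, Subtype.ext h2.symm⟩
  · intro lam _
    simp only [IrrCharacter.linear_smul_apply, map_mul]
    linear_combination (-(ψ g * conj (ψ g))) * linear_mul_conj_apply lam.1 g

/-- Let p be a prime and G a finite group that is not nilpotent and has a normal p-complement (a normal subgroup of order prime to p and index a power of p). If G has exactly one irreducible complex character of degree divisible by p, then G has exactly one conjugacy class whose size is divisible by p. -/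
theorem result {G : Type*} [Group G] [Finite G] (p : ℕ) [Fact p.Prime] (hnil : ¬ Group.IsNilpotent G) (N : Subgroup G) [N.Normal] (hN : (Nat.card N).Coprime p) (hidx : ∃ k : ℕ, N.index = p ^ k) (hone : Nat.card {χ : Cfsg.IrrCharacter G // p ∣ Cfsg.charDegree (χ : G → ℂ)} = 1) : Nat.card {C : ConjClasses G // p ∣ Nat.card C.carrier} = 1 := by
  classical
  have hp : p.Prime := Fact.out
  obtain ⟨k, hk⟩ := hidx
  have hpN : ¬ p ∣ Nat.card N := (hp.coprime_iff_not_dvd).1 hN.symm
  obtain ⟨h1, ⟨χ, hχ⟩⟩ := Nat.card_eq_one_iff_unique.1 hone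
  have hu : ∀ ψ : IrrCharacter G, p ∣ charDegree ψ.1 → ψ = χ := fun ψ hψ =>
    congrArg Subtype.val (h1.elim ⟨ψ, hψ⟩ ⟨χ, hχ⟩)
  have hcop : (Nat.card N).Coprime N.subtype.range.index := by
    rw [Subgroup.range_subtype, hk]; exact hN.pow_right k
  have hnon : ∀ θ : IrrCharacter N, inertia N.subtype θ ≠ ⊤ → ∀ ψ : IrrCharacter G,
      LiesOver N.subtype ψ.1 θ.1 → ψ = χ := by
    intro θ hθ ψ hψ
    refine hu ψ (Dvd.dvd.trans ?_ hψ.index_inertia_dvd)
    obtain ⟨j, -, hj⟩ := (Nat.dvd_prime_pow hp).1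
      (hk ▸ Subgroup.index_dvd_of_le (le_inertia_subtype N θ))
    rcases j with _ | j
    · exact absurd (Subgroup.index_eq_one.1 hj) hθ
    · rw [hj]; exact dvd_pow_self p j.succ_ne_zero
  have hnon' : ∀ θ : IrrCharacter N, inertia N.subtype θ ≠ ⊤ → LiesOver N.subtype χ.1 θ.1 :=
    fun θ hθ => by
      obtain ⟨ψ, hψ⟩ := θ.exists_liesOver_above N.subtype_injective
      exact hnon θ hθ ψ hψ ▸ hψ
  have hβ : ∀ β : IrrCharacter G, (∀ n : N, β n = β 1) → ¬ p ∣ charDegree β.1 := by
    intro β hβ hd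
    have h2 := hu β hd
    subst h2
    have h3 : β.1 ∘ N.subtype = β 1 • (IrrCharacter.one N).1 := funext fun n => by simp [hβ n]
    have h4 : ∀ θ : IrrCharacter N, θ = IrrCharacter.one N := by
      intro θ
      by_cases hθ : inertia N.subtype θ = ⊤
      · obtain ⟨η, hη, -⟩ := exists_extension_of_coprime_card hθ hcop
        have h5 := gallagher_isIrr' η.isCharacter (hη ▸ θ.2) hβ
        have h6 := hu ⟨_, h5⟩ (by
          rw [β.isCharacter.charDegree_mul η.isCharacter]; exact hd.mul_right _)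
        refine LiesOver.eq_of_comp_eq_smul h3 (liesOver_of_comp_eq_smul β.apply_one_ne_zero ?_)
        funext n
        have h7 := congrFun (congrArg Subtype.val h6) n
        have h8 : η n = θ n := congrFun hη n
        simp only [Pi.mul_apply, hβ n, h8] at h7
        simp [hβ n, h7]
      · exact LiesOver.eq_of_comp_eq_smul h3 (hnon' θ hθ)
    have h5 : N = ⊥ := by
      rw [eq_bot_iff]
      intro n hn
      exact congrArg Subtype.val ((eq_one_iff_forall_irr (g := (⟨n, hn⟩ : N))).2 fun θ => by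
        rw [h4 θ]; rfl)
    rw [h5, Subgroup.index_bot] at hk
    exact hnil (IsPGroup.of_card hk).isNilpotent
  have hab : commutator G ≤ N := by
    intro g hg
    by_contra h2
    obtain ⟨β, h3, h4⟩ := exists_irr_le_charKer_not_mem N h2
    have h5 := hβ β fun n => β.mem_charKer.1 (h3 n.2)
    obtain ⟨j, -, hj⟩ := (Nat.dvd_prime_pow hp).1
      (hk ▸ β.charDegree_dvd_index_of_le (h3.trans (charKer_le_charCenter _)))
    rcases j with _ | j
    · exact h4 (β.commutator_le_charKer_iff.2 (β.apply_one_eq_one_iff.2 hj) hg)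
    · exact h5 (hj ▸ dvd_pow_self p j.succ_ne_zero)
  have hinv : ∀ (ψ : IrrCharacter G) (θ : IrrCharacter N), LiesOver N.subtype ψ.1 θ.1 →
      inertia N.subtype θ = ⊤ → ψ.1 ∘ N.subtype = θ.1 := by
    intro ψ θ h2 h3
    obtain ⟨η, hη, -⟩ := exists_extension_of_coprime_card h3 hcop
    exact LiesOver.comp_eq_of_commutator_le (by rwa [Subgroup.range_subtype]) η.isCharacter hη h2
  obtain ⟨θ, hθ⟩ := χ.exists_liesOver_below N.subtype
  have hχirr : ¬ IsIrrCharacter N (χ.1 ∘ N.subtype) := fun h =>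
    hpN (hχ.trans (charDegree_comp χ.1 N.subtype ▸ IrrCharacter.charDegree_dvd_card ⟨_, h⟩))
  have hθ1 : inertia N.subtype θ ≠ ⊤ := fun h => hχirr (hinv χ θ hθ h ▸ θ.2)
  have hI : ∀ η : IrrCharacter N, inertia N.subtype η ≠ ⊤ → inertia N.subtype η = N :=
    fun η hη => (inertia_eq_range_of_unique_of_coprime hcop (hnon η hη)).trans
      (Subgroup.range_subtype N)
  have hvan : ∀ g, g ∉ N → χ g = 0 := fun g hg => by
    have h2 := hθ.ind_eq_of_inertia_eq_range ((hI θ hθ1).trans (Subgroup.range_subtype N).symm)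
    change χ.1 g = 0
    rw [← h2]
    exact ind_apply_eq_zero_of_normal _ _ (Subgroup.range_subtype N).le hg
  have hA : ∀ g, g ∉ N → ¬ p ∣ (Subgroup.centralizer ({g} : Set G)).index := by
    intro g hg hd
    have h2 := index_dvd_card_centralizer N hab χ (fun ψ hψ => by
      obtain ⟨η, hη⟩ := ψ.exists_liesOver_below N.subtype
      rw [hinv ψ η hη (by_contra fun h => hψ (hnon η h ψ hη))]
      exact η.2) hχirr (hvan g hg)
    have h3 := Nat.mul_dvd_mul h2 hd
    rw [Subgroup.card_mul_index, ← N.index_mul_card] at h3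
    exact hpN (Nat.dvd_of_mul_dvd_mul_left
      (Nat.pos_of_ne_zero Subgroup.index_ne_zero_of_finite) h3)
  have hNtop : N ≠ ⊤ := fun h => hθ1 ((hI θ hθ1).trans h)
  have hpk : p ∣ N.index := by
    rcases k with _ | k
    · exact absurd (Subgroup.index_eq_one.1 hk) hNtop
    · rw [hk]; exact dvd_pow_self p k.succ_ne_zero
  -- the action on the classes of `N`
  letI : MulAction G (ConjClasses N) := MulAction.compHom _ (conjAut N.subtype)
  have hsm : ∀ (g : G) (a : N), g • ConjClasses.mk a = ConjClasses.mk (conjAut N.subtype g a) :=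
    fun _ _ => rfl
  have hmem : ∀ (g : G) (a : N), g ∈ MulAction.stabilizer G (ConjClasses.mk a) ↔
      ∃ n ∈ N, n * a * n⁻¹ = g * a * g⁻¹ := by
    intro g a
    rw [MulAction.mem_stabilizer_iff, hsm, ConjClasses.mk_eq_mk_iff_isConj, isConj_comm,
      isConj_iff]
    constructor
    · rintro ⟨n, hn⟩
      exact ⟨n, n.2, (congrArg Subtype.val hn).trans (map_conjAut N.subtype g a)⟩
    · rintro ⟨n, hn, h⟩
      exact ⟨⟨n, hn⟩, Subtype.ext (h.trans (map_conjAut N.subtype g a).symm)⟩
  have hle : ∀ a : N, N ≤ MulAction.stabilizer G (ConjClasses.mk a) := fun a g hg =>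
    (hmem g a).2 ⟨g, hg, rfl⟩
  have hle' : ∀ a : N, Subgroup.centralizer ({(a : G)} : Set G) ≤
      MulAction.stabilizer G (ConjClasses.mk a) := fun a g hg =>
    (hmem g a).2 ⟨1, N.one_mem, by
      rw [Subgroup.mem_centralizer_singleton_iff.1 hg]; simp⟩
  have htop : ∀ a : N, ¬ p ∣ (Subgroup.centralizer ({(a : G)} : Set G)).index →
      MulAction.stabilizer G (ConjClasses.mk a) = ⊤ := fun a ha => by
    rw [eq_top_iff, ← sup_eq_top_of_coprime_index (H := N)
      (K := Subgroup.centralizer ({(a : G)} : Set G))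
      (by rw [hk]; exact ((hp.coprime_iff_not_dvd).2 ha).pow_left k)]
    exact sup_le (hle a) (hle' a)
  have htop' : ∀ a : N, MulAction.stabilizer G (ConjClasses.mk a) = ⊤ →
      ¬ p ∣ (Subgroup.centralizer ({(a : G)} : Set G)).index := by
    intro a ha hd
    have h2 : Subgroup.centralizer ({(a : G)} : Set G) ⊔ N = ⊤ := by
      rw [eq_top_iff]
      intro g _
      obtain ⟨n, hn, h⟩ := (hmem g a).1 (ha ▸ Subgroup.mem_top g)
      have h3 : n⁻¹ * g ∈ Subgroup.centralizer ({(a : G)} : Set G) := by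
        rw [Subgroup.mem_centralizer_singleton_iff]
        calc n⁻¹ * g * a = n⁻¹ * (g * a * g⁻¹) * g := by group
          _ = a * (n⁻¹ * g) := by rw [← h]; group
      simpa using Subgroup.mul_mem _ (Subgroup.mem_sup_right hn) (Subgroup.mem_sup_left h3)
    refine hpN (hd.trans ?_)
    have h3 := card_mul_relIndex (le_sup_left : Subgroup.centralizer ({(a : G)} : Set G) ≤ _ ⊔ N)
    rw [h2, Subgroup.relIndex_top_right] at h3
    have h4 := Subgroup.card_mul_index (Subgroup.centralizer ({(a : G)} : Set G))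
    have h5 : N.index ∣ Nat.card (Subgroup.centralizer ({(a : G)} : Set G)) := by
      rw [← Subgroup.relIndex_top_right, ← h2, Subgroup.relIndex_sup_right]
      exact Subgroup.relIndex_dvd_card _ _
    obtain ⟨c, hc⟩ := h5
    rw [hc, ← N.index_mul_card, mul_assoc] at h4
    exact Dvd.intro_left c (Nat.eq_of_mul_eq_mul_left
      (Nat.pos_of_ne_zero Subgroup.index_ne_zero_of_finite) h4)
  have hstab : ∀ c : ConjClasses N, MulAction.stabilizer G c ≠ ⊤ →
      MulAction.stabilizer G c = N := by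
    intro c hc
    obtain ⟨a, rfl⟩ := ConjClasses.mk_surjective c
    refine le_antisymm (fun g hg => by_contra fun hgN => hc ?_) (hle a)
    have hd : pPrimePart p g ∈ N := mem_of_coprime_orderOf_index (by
      rw [hk]; exact (isPRegular_iff_coprime.1 (isPRegular_pPrimePart p g)).pow_right k)
    have hx : pPart p g ∉ N := fun h => hgN (pPart_mul_pPrimePart p g ▸ N.mul_mem h hd)
    have hxs := pPart_mem p hg
    have hxp := isPElt_pPart p g
    generalize pPart p g = x at hx hxs hxp
    obtain ⟨n, hn, h2⟩ := (isCoprimeAction_of_isPGroup_left (A := Subgroup.zpowers x) (N := N)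
      (by rw [Subgroup.normalizer_eq_top]; exact le_top) (isPElt_iff_isPGroup_zpowers.1 hxp)
      hpN).exists_conj_mem_centralizer a fun y hy => by
        obtain ⟨n, hn, h⟩ := (hmem y a).1 (Subgroup.zpowers_le.2 hxs hy)
        exact ⟨n, hn, h.symm⟩
    let d : N := ⟨n * a * n⁻¹, N.mul_mem (N.mul_mem hn a.2) (N.inv_mem hn)⟩
    have h3 : ConjClasses.mk a = ConjClasses.mk d :=
      ConjClasses.mk_eq_mk_iff_isConj.2 (isConj_iff.2 ⟨⟨n, hn⟩, rfl⟩)
    rw [h3]
    refine htop d fun h4 => hA (x * d) (fun h => hx ((N.mul_mem_cancel_right d.2).1 h))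
      (h4.trans (Subgroup.index_dvd_of_le ?_))
    have h5 : Commute x d := h2 x (Subgroup.mem_zpowers x)
    rw [centralizer_eq_inf_pPart (p := p) (x * d),
      pPrimePart_mul_eq h5 hxp (isPRegular_of_mem_of_not_dvd hpN d.2)]
    exact inf_le_right
  obtain ⟨x, -, hx⟩ := SetLike.exists_of_lt (lt_top_iff_ne_top.2 hNtop)
  have hcard : {c : ConjClasses N | MulAction.stabilizer G c ≠ ⊤}.ncard = N.index := by
    have h2 := card_fixed_irr_mulAut (conjAut N.subtype x)
    have h3 := Set.ncard_add_ncard_compl {c : ConjClasses N | conjAut N.subtype x • c = c}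
    have h4 := Set.ncard_add_ncard_compl {η : IrrCharacter N | conjAut N.subtype x • η = η}
    have h5 : {c : ConjClasses N | conjAut N.subtype x • c = c}ᶜ =
        {c : ConjClasses N | MulAction.stabilizer G c ≠ ⊤} := by
      ext c
      constructor
      · exact fun h h' => h (show x ∈ MulAction.stabilizer G c from h' ▸ Subgroup.mem_top x)
      · exact fun h h' => hx (hstab c h ▸ (show x ∈ MulAction.stabilizer G c from h'))
    have h6 : {η : IrrCharacter N | conjAut N.subtype x • η = η}ᶜ = conjOrbit N.subtype θ := by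
      ext η
      rw [Finset.mem_coe, ← hθ.liesOver_iff_mem_conjOrbit]
      constructor
      · exact fun h => hnon' η fun h' => h (mem_inertia.1 (h' ▸ Subgroup.mem_top x))
      · exact fun h h' => hx (hI η (fun h'' => hχirr (hinv χ η h h'' ▸ η.2)) ▸ mem_inertia.2 h')
    rw [h6, Set.ncard_coe_finset, card_conjOrbit, hI θ hθ1, card_irr_eq_card_conjClasses] at h4
    rw [h5] at h3
    change {η : IrrCharacter N | conjAut N.subtype x • η = η}.ncard =
      {c : ConjClasses N | conjAut N.subtype x • c = c}.ncard at h2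
    omega
  have horb : ∀ c : ConjClasses N, MulAction.stabilizer G c ≠ ⊤ →
      MulAction.orbit G c = {c : ConjClasses N | MulAction.stabilizer G c ≠ ⊤} := by
    intro c hc
    refine Set.eq_of_subset_of_ncard_le ?_ ?_
    · rintro _ ⟨g, rfl⟩ h
      apply hc
      rw [eq_top_iff]
      intro y _
      have h2 : g * y * g⁻¹ ∈ MulAction.stabilizer G (g • c) := h ▸ Subgroup.mem_top _
      rw [MulAction.mem_stabilizer_iff, mul_smul, inv_smul_smul, mul_smul,
        smul_left_cancel_iff] at h2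
      exact h2
    · rw [hcard, ← MulAction.index_stabilizer, hstab c hc]
  rw [Nat.card_eq_one_iff_unique]
  constructor
  · refine ⟨fun ⟨A, hA'⟩ ⟨B, hB'⟩ => Subtype.ext ?_⟩
    obtain ⟨a, rfl⟩ := ConjClasses.mk_surjective A
    obtain ⟨b, rfl⟩ := ConjClasses.mk_surjective B
    rw [card_carrier_mk] at hA' hB'
    have ha : a ∈ N := by_contra fun h => hA a h hA'
    have hb : b ∈ N := by_contra fun h => hA b h hB'
    have h2 : ConjClasses.mk (⟨b, hb⟩ : N) ∈ MulAction.orbit G (ConjClasses.mk (⟨a, ha⟩ : N)) := by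
      rw [horb _ fun h => htop' ⟨a, ha⟩ h hA']
      exact fun h => htop' ⟨b, hb⟩ h hB'
    obtain ⟨g, hg⟩ := h2
    obtain ⟨n, hn⟩ := isConj_iff.1 (ConjClasses.mk_eq_mk_iff_isConj.1 ((hsm g _).symm.trans hg))
    have h3 := congrArg Subtype.val hn
    have h4 := map_conjAut N.subtype g ⟨a, ha⟩
    simp only [Subgroup.coe_subtype] at h4
    simp only [Subgroup.coe_mul, Subgroup.coe_inv, h4] at h3
    exact ConjClasses.mk_eq_mk_iff_isConj.2 (isConj_iff.2 ⟨n * g, by rw [← h3]; group⟩)
  · obtain ⟨c, hc⟩ := Set.nonempty_of_ncard_ne_zero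
      (hcard.trans_ne Subgroup.index_ne_zero_of_finite)
    obtain ⟨a, rfl⟩ := ConjClasses.mk_surjective c
    refine ⟨ConjClasses.mk (a : G), ?_⟩
    rw [card_carrier_mk]
    exact hpk.trans (Subgroup.index_dvd_of_le ((hle' a).trans (hstab _ hc).le))

end Cfsg.Agent.S4763
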