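import Cfsg.Statements.S4765
import Cfsg.Agent.Char.SL2Char

set_option autoImplicit false
open Cfsg

namespace Cfsg.Agent.S4765

/-- Let F be a finite field of characteristic p with at least 4 elements. Then PSL(2,F) has exactly one irreducible complex character of degree divisible by p, and its degree is the order of F. -/
theorem result (p : ℕ) [Fact p.Prime] (F : Type*) [Field F] [Fintype F] [CharP F p] (hF : 4 ≤ Fintype.card F) : Nat.card {χ : Cfsg.IrrCharacter (Matrix.ProjectiveSpecialLinearGroup (Fin 2) F) // p ∣ Cfsg.charDegree (χ : Matrix.ProjectiveSpecialLinearGroup (Fin 2) F → ℂ)} = 1 ∧ ∀ χ : Cfsg.IrrCharacter (Matrix.ProjectiveSpecialLinearGroup (Fin 2) F), p ∣ Cfsg.charDegree (χ : Matrix.ProjectiveSpecialLinearGroup (Fin 2) F → ℂ) → Cfsg.charDegree (χ : Matrix.ProjectiveSpecialLinearGroup (Fin 2) F → ℂ) = Fintype.card F := by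
  have hp : p.Prime := Fact.out
  obtain ⟨n, -, hn⟩ := FiniteField.card F p
  rw [← Nat.card_eq_fintype_card] at hF hn ⊢
  have h1 : p ∣ Nat.card F := hn ▸ dvd_pow_self p n.ne_zero
  have key : ∀ χ : IrrCharacter (Matrix.ProjectiveSpecialLinearGroup (Fin 2) F),
      p ∣ charDegree χ.1 → charDegree χ.1 = Nat.card F ∧
      mult ((QuotientGroup.mk' _).comp (SL2.uni F)) χ (IrrCharacter.one _) ≠ 0 := fun χ hχ => by
    rcases SL2.degree_cases (χ.inflate _ (QuotientGroup.mk'_surjective _)) with h | h | h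
    · exact h
    · have := Nat.dvd_sub h1 (hχ.trans h)
      rw [Nat.sub_sub_self (by omega)] at this
      exact absurd this hp.not_dvd_one
    · exact absurd ((Nat.dvd_add_right h1).1 (hχ.trans h)) hp.not_dvd_one
  refine ⟨Nat.card_eq_one_iff_unique.2 ⟨⟨fun χ χ' => Subtype.ext ?_⟩, ?_⟩, fun χ h => (key χ h).1⟩
  · exact SL2.rankOne_psl.eq_of_charDegree_eq (key _ χ.2).2 (key _ χ'.2).2 (key _ χ.2).1
      (key _ χ'.2).1
  · obtain ⟨χ, hχ⟩ := SL2.exists_steinberg_psl (F := F)
    exact ⟨χ, hχ ▸ h1⟩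

end Cfsg.Agent.S4765
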