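import Cfsg.Statements.S4775
import Cfsg.Agent.Char.SzGroup

set_option autoImplicit false
open Cfsg

namespace Cfsg.Agent.S4775

/-- Let F be a finite field with q = 2^(2m+1) ≥ 8 elements and let S be isomorphic to the Suzuki group over F. Then the vertices of the character degree graph of S are 2 and the primes dividing (q − 1)(q² + 1); the primes dividing (q − 1)(q² + 1) are pairwise adjacent, and 2 is adjacent exactly to the primes dividing q − 1. -/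
theorem result (F : Type*) [Field F] [Fintype F] (m : ℕ) (hm : 1 ≤ m) (q : ℕ) (hq : Fintype.card F = q) (hqm : q = 2 ^ (2 * m + 1)) {S : Type*} [Group S] [Finite S] (hS : Nonempty (S ≃* ↥(Cfsg.Lie.Sz F (2 ^ (m + 1))))) : Cfsg.degreePrimes S = {r : ℕ | r.Prime ∧ (r = 2 ∨ r ∣ (q - 1) * (q ^ 2 + 1))} ∧ ∀ r s : ℕ, (Cfsg.degreeGraph S).Adj r s ↔ (r ≠ s ∧ r.Prime ∧ s.Prime ∧ ((r ∣ (q - 1) * (q ^ 2 + 1) ∧ s ∣ (q - 1) * (q ^ 2 + 1)) ∨ (r = 2 ∧ s ∣ q - 1) ∨ (s = 2 ∧ r ∣ q - 1))) := by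
  haveI : CharP F 2 := charP_of_card_eq_prime_pow (hq.trans hqm)
  haveI : Suz.Tits (iterateFrobenius F 2 (m + 1)) := ⟨fun x => by
    rw [iterateFrobenius_def, iterateFrobenius_def, ← pow_mul,
      show 2 ^ (m + 1) * 2 ^ (m + 1) = Fintype.card F * 2 by rw [hq, hqm]; ring, pow_mul,
      FiniteField.pow_card]⟩
  have e0 : Lie.Sz F (2 ^ (m + 1)) = Suz.grp (iterateFrobenius F 2 (m + 1)) :=
    Subgroup.closure_eq (Suz.grp (iterateFrobenius F 2 (m + 1)))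
  rw [e0] at hS
  obtain ⟨e⟩ := hS
  rw [← Nat.card_eq_fintype_card] at hq
  have z := Suz.isSz (θ := iterateFrobenius F 2 (m + 1)) hm (hq.trans hqm)
  have hs := z.s_eq
  have hz := z.degrees
  rw [← (charDegrees_subset_of_surjective e.symm.toMonoidHom e.symm.surjective).antisymm
    (charDegrees_subset_of_surjective e.toMonoidHom e.surjective), hq] at hz
  rw [hq] at hs
  obtain ⟨s, rfl⟩ : ∃ s, q = s + 1 := ⟨q - 1, by omega⟩
  simp only [Nat.add_sub_cancel] at hz hs ⊢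
  obtain ⟨h0, h1, h2, h3, h4, h5⟩ := hz
  have hc : 2 ∣ 2 ^ m := dvd_pow_self 2 (by omega)
  have hc' : ∀ r : ℕ, r.Prime → r ∣ 2 ^ m → r = 2 := fun r hr h =>
    (Nat.prime_dvd_prime_iff_eq hr Nat.prime_two).1 (hr.dvd_of_dvd_pow h)
  have hq' : ∀ r : ℕ, r.Prime → r ∣ (s + 1) ^ 2 → r = 2 := fun r hr h =>
    (Nat.prime_dvd_prime_iff_eq hr Nat.prime_two).1
      (hr.dvd_of_dvd_pow (hqm ▸ hr.dvd_of_dvd_pow h))
  generalize 2 ^ m = c at *
  obtain ⟨b, hb⟩ := Nat.exists_eq_add_of_le (show 2 * c ≤ s + 2 by nlinarith)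
  have hb' : s + 2 - 2 * c = b := by omega
  rw [hb'] at h0 h5
  have hab : (s + 1) ^ 2 + 1 = (s + 2 + 2 * c) * b := by nlinarith
  generalize s + 2 + 2 * c = a at *
  have key : ∀ d ∈ charDegrees S, ∀ r : ℕ, r.Prime → r ∣ d → (d = (s + 1) ^ 2 ∧ r = 2) ∨
      (d = s * c ∧ (r = 2 ∨ r ∣ s)) ∨ d ∣ s * ((s + 1) ^ 2 + 1) := fun d hd r hr h => by
    rcases h0 d hd with rfl | rfl | rfl | rfl | rfl | rfl
    · exact .inr (.inr (one_dvd _))
    · exact .inl ⟨rfl, hq' r hr h⟩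
    · exact .inr (.inr (dvd_mul_left _ _))
    · exact .inr (.inl ⟨rfl, (hr.dvd_mul.1 h).symm.imp_left (hc' r hr)⟩)
    · exact .inr (.inr (hab ▸ mul_dvd_mul_left _ (dvd_mul_right _ _)))
    · exact .inr (.inr (hab ▸ mul_dvd_mul_left _ (dvd_mul_left _ _)))
  have ex : ∀ r : ℕ, r.Prime → r ∣ (s + 1) ^ 2 + 1 → ∃ d ∈ charDegrees S, s * r ∣ d :=
    fun r hr h => by
      rcases hr.dvd_mul.1 (hab ▸ h) with h | h
      exacts [⟨_, h4, mul_dvd_mul_left _ h⟩, ⟨_, h5, mul_dvd_mul_left _ h⟩]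
  refine ⟨Set.ext fun r => and_congr_right fun hr => ⟨?_, ?_⟩, fun r t =>
    and_congr_right fun hrt => and_congr_right fun hr => and_congr_right fun ht => ⟨?_, ?_⟩⟩
  · rintro ⟨d, hd, h⟩
    rcases key d hd r hr h with h' | ⟨-, h' | h'⟩ | h'
    exacts [.inl h'.2, .inl h', .inr (h'.mul_right _), .inr (h.trans h')]
  · rintro (rfl | h)
    · exact ⟨_, h3, hc.mul_left _⟩
    · rcases hr.dvd_mul.1 h with h | h
      exacts [⟨_, h3, h.mul_right _⟩, ⟨_, h2, h⟩]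
  · rintro ⟨d, hd, h⟩
    have hr' := (dvd_mul_right r t).trans h
    have ht' := (dvd_mul_left t r).trans h
    rcases key d hd r hr hr' with ⟨rfl, a1⟩ | ⟨rfl, -⟩ | a1
    · exact absurd (a1.trans (hq' t ht ht').symm) hrt
    · rcases hr.dvd_mul.1 hr' with a1 | a1 <;> rcases ht.dvd_mul.1 ht' with a2 | a2
      · exact .inl ⟨a1.mul_right _, a2.mul_right _⟩
      · exact .inr (.inr ⟨hc' t ht a2, a1⟩)
      · exact .inr (.inl ⟨hc' r hr a1, a2⟩)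
      · exact absurd ((hc' r hr a1).trans (hc' t ht a2).symm) hrt
    · exact .inl ⟨hr'.trans a1, ht'.trans a1⟩
  · have hco := (Nat.coprime_primes hr ht).2 hrt
    rintro (⟨a1, a2⟩ | ⟨rfl, a1⟩ | ⟨rfl, a1⟩)
    · rcases hr.dvd_mul.1 a1 with a1 | a1 <;> rcases ht.dvd_mul.1 a2 with a2 | a2
      · exact ⟨_, h3, (hco.mul_dvd_of_dvd_of_dvd a1 a2).mul_right _⟩
      · obtain ⟨d, hd, h⟩ := ex t ht a2
        exact ⟨d, hd, (mul_dvd_mul_right a1 _).trans h⟩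
      · obtain ⟨d, hd, h⟩ := ex r hr a1
        exact ⟨d, hd, mul_comm t r ▸ (mul_dvd_mul_right a2 _).trans h⟩
      · exact ⟨_, h2, hco.mul_dvd_of_dvd_of_dvd a1 a2⟩
    · exact ⟨_, h3, mul_comm t 2 ▸ mul_dvd_mul a1 hc⟩
    · exact ⟨_, h3, mul_dvd_mul a1 hc⟩

end Cfsg.Agent.S4775
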