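import Cfsg.Statements.S4780
import Cfsg.Agent.Nd.Main
-- import your own Cfsg.Agent.* helpers here

set_option autoImplicit false
open Cfsg

namespace Cfsg.Agent.S4780

/-- Let G be a finite solvable group in which no irreducible complex character degree a with 1 < a divides a larger irreducible character degree. Then G has at most four distinct irreducible character degrees and the third derived subgroup of G is trivial. -/
theorem result {G : Type*} [Group G] [Finite G] [Group.IsSolvable G] (hnd : ∀ a ∈ Cfsg.charDegrees G, ∀ b ∈ Cfsg.charDegrees G, 1 < a → a < b → ¬ a ∣ b) : Nat.card ↥(Cfsg.charDegrees G) ≤ 4 ∧ derivedSeries G 3 = ⊥ := by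
  obtain ⟨⟨d, e, f, h1⟩, h2⟩ := Nd.NDAD.main (G := G) hnd
  refine ⟨?_, h2⟩
  have h3 := (Set.ncard_le_ncard h1 (Set.toFinite _)).trans (Set.ncard_insert_le _ _)
  have h4 := Set.ncard_insert_le d {e, f}
  have h5 := Set.ncard_insert_le e {f}
  rw [Set.ncard_singleton] at h5
  rw [Nat.card_coe_set_eq]
  omega

end Cfsg.Agent.S4780
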