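import Cfsg.Statements.S4782
import Cfsg.Agent.Char.Burnside
import Cfsg.Agent.Char.Degrees
-- import your own Cfsg.Agent.* helpers here

set_option autoImplicit false
open Cfsg

namespace Cfsg.Agent.S4782

theorem aux {G : Type*} [Group G] [Finite G] {p q : ℕ} (hp : p.Prime) (hq : q.Prime)
    (hG : ∀ r ∈ degreePrimes G, r = p ∨ r = q) : Group.IsSolvable G := by
  generalize hn : Nat.card G = n
  induction n using Nat.strong_induction_on generalizing G with
  | _ n ih =>
  by_cases hs : ∀ N : Subgroup G, N.Normal → N = ⊥ ∨ N = ⊤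
  · rcases subsingleton_or_nontrivial G with h | h
    · infer_instance
    have : IsSimpleGroup G := ⟨hs⟩
    by_contra hns
    have hZ : Subgroup.center G = ⊥ := (hs _ inferInstance).resolve_right fun h => hns
      (Group.isSolvable_of_comm fun a b => Subgroup.mem_center_iff.1 (h ▸ Subgroup.mem_top b) a)
    obtain ⟨x, hx1, hx⟩ : ∃ x : G, x ≠ 1 ∧ ¬ p ∣ (Subgroup.centralizer ({x} : Set G)).index := by
      have := Fact.mk hp
      obtain ⟨P⟩ : Nonempty (Sylow p G) := inferInstance
      by_cases h0 : (P : Subgroup G) = ⊥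
      · obtain ⟨x, hx⟩ := exists_ne (1 : G)
        refine ⟨x, hx, fun h => P.not_dvd_index (h.trans ?_)⟩
        rw [h0]
        exact Subgroup.index_dvd_of_le bot_le
      · have : Nontrivial P := (Subgroup.nontrivial_iff_ne_bot _).2 h0
        have := P.isPGroup'.center_nontrivial
        obtain ⟨⟨g, hg⟩, hg1⟩ := exists_ne (1 : Subgroup.center P)
        refine ⟨g, fun h => hg1 (Subtype.ext (Subtype.ext h)), fun h => P.not_dvd_index
          (h.trans (Subgroup.index_dvd_of_le fun y hy => ?_))⟩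
        exact Subgroup.mem_centralizer_singleton_iff.2
          (congrArg Subtype.val (Subgroup.mem_center_iff.1 hg ⟨y, hy⟩))
    classical
    have h1 := sum_irr_one_mul_of_ne_one hx1
    rw [← Finset.add_sum_erase _ _ (Finset.mem_univ (IrrCharacter.one G))] at h1
    have h2 : IsIntegral ℤ ((∑ χ ∈ Finset.univ.erase (IrrCharacter.one G), χ.1 1 * χ.1 x) / q) := by
      rw [Finset.sum_div]
      refine IsIntegral.sum _ fun χ hχ => ?_
      by_cases h : q ∣ charDegree χ.1
      · obtain ⟨k, hk⟩ := h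
        rw [χ.apply_one, hk, Nat.cast_mul, mul_assoc,
          mul_div_cancel_left₀ _ (Nat.cast_ne_zero.2 hq.ne_zero)]
        exact (isIntegral_natCast k).mul (χ.isIntegral x)
      · have h3 : charKer χ.1 = ⊥ := (hs _ inferInstance).resolve_right fun h =>
          Finset.ne_of_mem_erase hχ (χ.charKer_eq_top_iff.1 h)
        rcases χ.mem_charCenter_or_eq_zero (g := x) (Nat.coprime_of_dvd fun r hr h4 h5 => by
          rcases hG r ⟨hr, _, χ.charDegree_mem, h4⟩ with rfl | rfl
          exacts [hx h5, h h4]) with h4 | h4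
        · rw [χ.charCenter_eq_center_of_faithful h3, hZ] at h4
          exact absurd h4 hx1
        · rw [h4, mul_zero, zero_div]
          exact isIntegral_zero
    rw [← neg_eq_iff_add_eq_zero.2 h1] at h2
    have h6 := int_dvd_of_isIntegral_div (a := -1) (b := q) (by exact_mod_cast hq.ne_zero)
      (by simpa using h2)
    rw [dvd_neg] at h6
    exact hq.one_lt.ne' (by exact_mod_cast Int.eq_one_of_dvd_one (Int.natCast_nonneg q) h6)
  · push Not at hs
    obtain ⟨N, hN, h1, h2⟩ := hs
    have h3 : Nat.card N < n := by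
      rw [← hn, ← N.index_mul_card]
      exact lt_mul_of_one_lt_left Nat.card_pos (Subgroup.one_lt_index_of_ne_top h2)
    have h4 : Nat.card (G ⧸ N) < n := by
      rw [← hn, Subgroup.card_eq_card_quotient_mul_card_subgroup N]
      exact lt_mul_of_one_lt_right Nat.card_pos (N.one_lt_card_iff_ne_bot.2 h1)
    have := ih _ h3 (fun r ⟨hr, _, ⟨θ, hθ⟩, hd⟩ => by
      obtain ⟨χ, hχ⟩ := θ.exists_charDegree_dvd N.subtype
      exact hG r ⟨hr, _, χ.charDegree_mem, (hθ ▸ hd).trans hχ⟩) rfl
    have := ih _ h4 (fun r ⟨hr, _, hθ, hd⟩ =>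
      hG r ⟨hr, _, charDegrees_quotient_subset N hθ, hd⟩) rfl
    exact Group.isSolvable_of_ker_le_range N.subtype (QuotientGroup.mk' N) (by simp)

/-- If the finite group G is not solvable, then at least three distinct primes each divide some irreducible complex character degree of G. -/
theorem result {G : Type*} [Group G] [Finite G] (hG : ¬ Group.IsSolvable G) : ∃ p q r : ℕ, p ≠ q ∧ q ≠ r ∧ p ≠ r ∧ p ∈ Cfsg.degreePrimes G ∧ q ∈ Cfsg.degreePrimes G ∧ r ∈ Cfsg.degreePrimes G := by
  by_contra h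
  apply hG
  by_cases h1 : ∃ p q, p ≠ q ∧ p ∈ degreePrimes G ∧ q ∈ degreePrimes G
  · obtain ⟨p, q, hpq, hp, hq⟩ := h1
    refine aux hp.1 hq.1 fun r hr => by_contra fun h2 => ?_
    rw [not_or] at h2
    exact h ⟨p, q, r, hpq, Ne.symm h2.2, Ne.symm h2.1, hp, hq, hr⟩
  · by_cases h2 : ∃ p, p ∈ degreePrimes G
    · obtain ⟨p, hp⟩ := h2
      exact aux hp.1 hp.1 fun r hr => Or.inl (by_contra fun h3 => h1 ⟨r, p, h3, hr, hp⟩)
    · exact aux Nat.prime_two Nat.prime_two fun r hr => absurd ⟨r, hr⟩ h2

end Cfsg.Agent.S4782
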