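import Cfsg.Statements.S4784
import Cfsg.Agent.Char.Mackey
import Cfsg.Agent.Char.LiesOver
import Cfsg.Agent.Char.IndBasic
import Cfsg.Agent.Char.FrobSchur
import Cfsg.Agent.Char.Ker
-- import your own Cfsg.Agent.* helpers here

set_option autoImplicit false
open Cfsg

namespace Cfsg.Agent.S4784

/-- Let H be a subgroup of the finite group G and consider the permutation character of G on the cosets of H (the function induced from the principal character of H). Then exactly one irreducible constituent of it is real-valued with Frobenius–Schur indicator +1 (namely the principal character) if and only if the normal core of H has odd index in G. -/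
theorem result {G : Type*} [Group G] [Fintype G] (H : Subgroup G) : Nat.card {χ : Cfsg.IrrCharacter G // Cfsg.classInner (Cfsg.indFun H (fun _ : H => (1 : ℂ))) (χ : G → ℂ) ≠ 0 ∧ (∀ g : G, (starRingEnd ℂ) ((χ : G → ℂ) g) = (χ : G → ℂ) g) ∧ (Nat.card G : ℂ)⁻¹ * ∑ g : G, (χ : G → ℂ) (g * g) = 1} = 1 ↔ Odd H.normalCore.index := by
  classical
  simp only [classInner_eq_ip, indFun_eq_ind, ← fsInd_def]
  have hc : IsCharacter G (ind H.subtype fun _ => (1 : ℂ)) :=
    (IrrCharacter.one H).isCharacter.ind H.subtype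
  have h1 : ip (ind H.subtype fun _ => (1 : ℂ)) (IrrCharacter.one G).1 = 1 :=
    ip_ind_one_one H.subtype
  have hone : ip (ind H.subtype fun _ => (1 : ℂ)) (IrrCharacter.one G).1 ≠ 0 ∧
      (∀ g : G, (starRingEnd ℂ) ((IrrCharacter.one G : G → ℂ) g) =
        (IrrCharacter.one G : G → ℂ) g) ∧ fsInd (IrrCharacter.one G).1 = 1 :=
    ⟨by rw [h1]; exact one_ne_zero, fun g => by simp, fsInd_one⟩
  constructor
  · intro h
    by_contra hev
    rw [Nat.not_odd_iff_even, even_iff_two_dvd] at hev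
    obtain ⟨t, ht⟩ := exists_prime_orderOf_dvd_card' (G := G ⧸ H.normalCore) 2 hev
    obtain ⟨t, rfl⟩ := QuotientGroup.mk_surjective t
    have ht1 : t ∉ H.normalCore := fun h' => by
      rw [(QuotientGroup.eq_one_iff t).2 h', orderOf_one] at ht
      exact absurd ht (by norm_num)
    have ht2 : t * t ∈ H.normalCore := by
      rw [← QuotientGroup.eq_one_iff, QuotientGroup.mk_mul, ← sq, ← ht, pow_orderOf_eq_one]
    have huniq : ∀ χ : IrrCharacter G, ip (ind H.subtype fun _ => (1 : ℂ)) χ.1 ≠ 0 →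
        fsInd χ.1 = 1 → χ = IrrCharacter.one G := by
      intro χ h2 h3
      have := (Nat.card_eq_one_iff_unique.1 h).1
      exact congrArg Subtype.val (Subsingleton.elim
        (⟨χ, h2, fun g => Complex.conj_eq_iff_im.2 (IrrCharacter.real_of_fsInd_eq_one h3 g), h3⟩ :
          {χ : IrrCharacter G // ip (ind H.subtype fun _ => (1 : ℂ)) χ.1 ≠ 0 ∧
            (∀ g : G, (starRingEnd ℂ) ((χ : G → ℂ) g) = (χ : G → ℂ) g) ∧ fsInd χ.1 = 1})
        ⟨_, hone⟩)
    have h2 : fsInd (ind H.subtype fun _ => (1 : ℂ)) = ((∑ χ : IrrCharacter G,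
        (ipNat (ind H.subtype fun _ => (1 : ℂ)) χ.1 : ℤ) * χ.fsInt : ℤ) : ℂ) := by
      conv_lhs => rw [hc.eq_sum_ipNat, fsInd_sum]
      push_cast
      exact Finset.sum_congr rfl fun χ _ => by rw [fsInd_smul, χ.fsInt_cast]
    have h3 : ∑ χ : IrrCharacter G,
        (ipNat (ind H.subtype fun _ => (1 : ℂ)) χ.1 : ℤ) * χ.fsInt ≤ 1 := by
      rw [← Finset.add_sum_erase _ _ (Finset.mem_univ (IrrCharacter.one G)),
        IrrCharacter.fsInt_one, ipNat_eq_of_ip_eq (n := 1) (by rw [h1, Nat.cast_one])]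
      have : ∑ χ ∈ Finset.univ.erase (IrrCharacter.one G),
          (ipNat (ind H.subtype fun _ => (1 : ℂ)) χ.1 : ℤ) * χ.fsInt ≤ 0 := by
        refine Finset.sum_nonpos fun χ hχ => ?_
        rcases χ.fsInt_cases with h4 | h4 | h4
        · simp [h4]
        · by_cases h5 : ip (ind H.subtype fun _ => (1 : ℂ)) χ.1 = 0
          · simp [(hc.ipNat_eq_zero_iff χ.isCharacter).2 h5]
          · exact absurd (huniq χ h5 (by rw [← χ.fsInt_cast, h4]; simp))
              (Finset.ne_of_mem_erase hχ)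
        · simp [h4]
      omega
    rw [ind_subtype_one] at h1 h2 h3
    rw [ip_def] at h1
    rw [fsInd_def] at h2
    simp only [permChar_apply, IrrCharacter.one_apply, map_one, mul_one, ← Nat.cast_sum] at h1 h2
    have hG := natCard_cast_ne_zero G
    rw [inv_mul_eq_iff_eq_mul₀ hG] at h1 h2
    have h4 : ∑ g : G, Nat.card (MulAction.fixedBy (G ⧸ H) g) <
        ∑ g : G, Nat.card (MulAction.fixedBy (G ⧸ H) (g * g)) := by
      have h5 : ∀ g : G, MulAction.fixedBy (G ⧸ H) g ⊆ MulAction.fixedBy (G ⧸ H) (g * g) :=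
        fun g x h => MulAction.fixedBy_mul _ g g ⟨h, h⟩
      refine Finset.sum_lt_sum (fun g _ => Set.ncard_le_ncard (h5 g))
        ⟨t, Finset.mem_univ _, Set.ncard_lt_ncard ⟨h5 t, fun h6 => ht1 ?_⟩⟩
      rw [Subgroup.normalCore_eq_ker] at ht2 ⊢
      ext x
      exact h6 (DFunLike.congr_fun (MonoidHom.mem_ker.1 ht2) x)
    have h5 : ((∑ g : G, Nat.card (MulAction.fixedBy (G ⧸ H) g) : ℕ) : ℤ) = Nat.card G := by
      exact_mod_cast h1.trans (mul_one _)
    have h6 : ((∑ g : G, Nat.card (MulAction.fixedBy (G ⧸ H) (g * g)) : ℕ) : ℤ) = Nat.card G *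
        ∑ χ : IrrCharacter G, (ipNat (permChar G (G ⧸ H)) χ.1 : ℤ) * χ.fsInt := by
      exact_mod_cast h2
    have h7 : (0 : ℤ) < Nat.card G := by exact_mod_cast Nat.card_pos
    have h8 := Int.ofNat_lt.2 h4
    nlinarith
  · intro hodd
    rw [Nat.card_eq_one_iff_unique]
    refine ⟨⟨?_⟩, ⟨⟨_, hone⟩⟩⟩
    suffices h : ∀ χ : IrrCharacter G, ip (ind H.subtype fun _ => (1 : ℂ)) χ.1 ≠ 0 →
        fsInd χ.1 = 1 → χ = IrrCharacter.one G from
      fun a b => Subtype.ext ((h a.1 a.2.1 a.2.2.2).trans (h b.1 b.2.1 b.2.2.2).symm)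
    intro χ h2 h3
    have h4 : H.normalCore ≤ charKer χ.1 := by
      refine le_trans (fun g hg => ?_) (hc.charKer_le_of_ip_ne_zero χ h2)
      rw [hc.mem_charKer]
      refine ((IrrCharacter.one H).isCharacter.mem_kerSet_ind (IrrCharacter.one H).ne_zero
        H.subtype_injective g).2 fun x => ⟨⟨_, H.normalCore_le
          ((inferInstance : H.normalCore.Normal).conj_mem' g hg x)⟩, rfl, rfl⟩
    obtain ⟨ψ, hψ⟩ := χ.exists_quotient_of_le_charKer _ h4
    have h5 : ψ = IrrCharacter.one _ := IrrCharacter.eq_one_of_real_of_odd hodd fun g => by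
      obtain ⟨g, rfl⟩ := QuotientGroup.mk_surjective g
      have := IrrCharacter.real_of_fsInd_eq_one h3 g
      rw [← hψ] at this
      exact this
    rw [h5] at hψ
    exact Subtype.ext hψ.symm

end Cfsg.Agent.S4784
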