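import Cfsg.Statements.S4793
import Cfsg.Agent.Hst.Main
import Cfsg.Agent.Hst.Final
import Cfsg.Agent.Char.Ker
-- import your own Cfsg.Agent.* helpers here

set_option autoImplicit false
open Cfsg

namespace Cfsg.Agent.S4793

theorem comap_centralizer {F : Type*} [Field F] [Finite F] {V : Type*} [AddCommGroup V] [Module F V]
    {D : Hst.FD F} [Finite V] (S : Hst.HS D V) (hcop : Nat.Coprime (Module.finrank F V) (D.q + 1))
    {G : Type*} [Group G] (f : S.U →* G) (hf : ∀ u, f u = 1 ↔ ∃ z, u = S.sc z) (g : S.U) :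
    (Subgroup.centralizer ({f g} : Set G)).comap f = Subgroup.centralizer ({g} : Set S.U) := by
  ext u
  rw [Subgroup.mem_comap, Subgroup.mem_centralizer_singleton_iff,
    Subgroup.mem_centralizer_singleton_iff]
  refine ⟨fun h => ?_, fun h => by rw [← map_mul, h, map_mul]⟩
  obtain ⟨z, hz⟩ := (hf (u * g * (g * u)⁻¹)).1 (by simp only [map_mul, map_inv, h, mul_inv_cancel])
  have h1 := congrArg S.detU hz
  rw [S.detU_sc, map_mul, map_inv, map_mul, map_mul, mul_comm (S.detU u), mul_inv_cancel] at h1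
  have h2 : z.1 ^ (D.q + 1) = 1 := by
    rw [← D.card_mu, ← Subgroup.coe_pow, pow_card_eq_one', Subgroup.coe_one]
  have h3 := pow_gcd_eq_one.2 ⟨h1.symm, h2⟩
  rw [hcop, pow_one] at h3
  have : z = 1 := Subtype.ext h3
  rwa [this, map_one, mul_inv_eq_one] at hz


/-- Let F be a finite field with q² elements, n ≥ 3 with n coprime to 2(q + 1), and G a finite group isomorphic to the projective special unitary group PSU(n, q). Then G has exactly one irreducible complex character of degree (qⁿ − q)/(q + 1), and an irreducible character χ of G has nonzero inner product with the conjugation character g ↦ #C_G(g) (is a constituent of the permutation character of G on itself by conjugation) if and only if its degree is not (qⁿ − q)/(q + 1). -/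
theorem result {G : Type*} [Group G] [Fintype G] (n q : ℕ) (F : Type*) [Field F] [Fintype F] (hF : Fintype.card F = q ^ 2) (hn : 3 ≤ n) (hcop : Nat.Coprime n (2 * (q + 1))) (hG : Nonempty (G ≃* Cfsg.PSU n F q)) : Nat.card {χ : Cfsg.IrrCharacter G // Cfsg.charDegree (χ : G → ℂ) = (q ^ n - q) / (q + 1)} = 1 ∧ ∀ χ : Cfsg.IrrCharacter G, Cfsg.classInner (χ : G → ℂ) (fun g : G => (Nat.card ↥(Subgroup.centralizer ({g} : Set G)) : ℂ)) ≠ 0 ↔ Cfsg.charDegree (χ : G → ℂ) ≠ (q ^ n - q) / (q + 1) := by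
  obtain ⟨e⟩ := hG
  have hcq : Nat.Coprime n (q + 1) := Nat.Coprime.coprime_mul_left_right hcop
  obtain ⟨D, S, rfl, f₀, hf₀, hk₀⟩ := Hst.exists_hom_PSU n q F hF hn hcq
  let f : S.U →* G := e.symm.toMonoidHom.comp f₀
  have hf : Function.Surjective f := e.symm.surjective.comp hf₀
  have hk : ∀ u, f u = 1 ↔ ∃ z, u = S.sc z := fun u => by
    rw [← hk₀]
    exact e.symm.map_eq_one_iff
  have hr : Module.finrank F (Fin n → F) = n := by simp
  obtain ⟨ω₀, hZ, hd, h0, h1⟩ := S.main (by rwa [hr]) (by rwa [hr])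
  rw [hr] at hd h1
  obtain ⟨ω, hω⟩ : ∃ ω : IrrCharacter G, ω.inflate f hf = ω₀ := by
    obtain ⟨ω', hω'⟩ := ω₀.exists_quotient_of_le_charKer f.ker fun u hu => by
      obtain ⟨z, rfl⟩ := (hk u).1 hu
      exact ω₀.mem_charKer.2 (hZ z)
    refine ⟨IrrCharacter.comapEquiv (QuotientGroup.quotientKerEquivOfSurjective f hf).symm ω',
      Subtype.ext (funext fun u => ?_)⟩
    rw [← hω']
    exact congrArg ω'.1 ((QuotientGroup.quotientKerEquivOfSurjective f hf).symm_apply_eq.2 rfl)
  have hdeg : ∀ χ : IrrCharacter G, charDegree (χ.inflate f hf).1 = charDegree χ.1 := fun χ => by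
    simp only [charDegree, IrrCharacter.inflate_apply, map_one]
  have hZ' : ∀ χ : IrrCharacter G, S.ZTriv (χ.inflate f hf).1 := fun χ z => by
    simp only [IrrCharacter.inflate_apply, (hk _).2 ⟨z, rfl⟩, map_one]
  have hinj : ∀ χ : IrrCharacter G, χ.inflate f hf = ω₀ → χ = ω := fun χ h =>
    Subtype.ext (funext fun g => by
      obtain ⟨u, rfl⟩ := hf g
      exact congrFun (congrArg Subtype.val (h.trans hω.symm)) u)
  have hfd : ∀ (χ : IrrCharacter G) (g : S.U),
      Hst.fd (χ.inflate f hf).1 (Subgroup.centralizer ({g} : Set S.U)) =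
        Hst.fd χ.1 (Subgroup.centralizer ({f g} : Set G)) := fun χ g => by
    rw [← comap_centralizer S (by rwa [hr]) f hk g]
    exact Hst.fd_comp f hf χ.1 _
  have hωd : charDegree ω.1 = (D.q ^ n - D.q) / (D.q + 1) := by rw [← hdeg, hω, hd]
  have hiff : ∀ χ : IrrCharacter G, charDegree χ.1 = (D.q ^ n - D.q) / (D.q + 1) ↔ χ = ω :=
    fun χ => ⟨fun h => by
      by_contra hne
      exact (h1 _ (hZ' χ) fun h' => hne (hinj χ h')).1 ((hdeg χ).trans h), fun h => h ▸ hωd⟩
  refine ⟨?_, fun χ => ?_⟩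
  · simp only [hiff]
    exact Nat.card_unique
  · rw [classInner_eq_ip, Hst.ip_conj_ne_zero_iff χ.isCharacter, Ne, hiff]
    constructor
    · rintro ⟨g, hg⟩ rfl
      obtain ⟨u, rfl⟩ := hf g
      rw [← hfd, hω] at hg
      exact hg (h0 u)
    · intro hne
      obtain ⟨u, hu⟩ := (h1 _ (hZ' χ) fun h' => hne (hinj χ h')).2
      exact ⟨f u, by rwa [← hfd]⟩

end Cfsg.Agent.S4793
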