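import Cfsg.Statements.S4796
import Cfsg.Agent.Char.Codeg
-- import your own Cfsg.Agent.* helpers here

set_option autoImplicit false
open Cfsg

namespace Cfsg.Agent.S4796

/-- Let G be a finite group with a faithful irreducible complex character χ whose codegree #G / χ(1) is a prime p (for a faithful character the kernel is trivial, so the codegree is #G / χ(1)). Then either G is cyclic of order p, or G is a Frobenius group whose Frobenius kernel has order p: some proper non-trivial subgroup H satisfies H ∩ gHg⁻¹ = 1 for every element g outside H, and the set of elements lying in no conjugate of H, together with the identity, has exactly p elements. -/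
theorem result {G : Type*} [Group G] [Finite G] (χ : Cfsg.IrrCharacter G) (hfaith : ∀ g : G, (χ : G → ℂ) g = (χ : G → ℂ) 1 → g = 1) (p : ℕ) (hp : p.Prime) (hcod : Nat.card G = p * Cfsg.charDegree (χ : G → ℂ)) : (IsCyclic G ∧ Nat.card G = p) ∨ ∃ H : Subgroup G, Cfsg.IsFrobeniusComplement H ∧ Nat.card ↥(Cfsg.frobeniusKernel H) = p := by
  have : Fact p.Prime := ⟨hp⟩
  obtain ⟨P, hn, hP, hC, hi⟩ := χ.exists_normal_of_card_eq_prime_mul hp hcod
  by_cases hT : P = ⊤
  · rw [hT, Subgroup.card_top] at hP
    exact Or.inl ⟨isCyclic_of_prime_card hP, hP⟩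
  right
  have hipos : 0 < P.index := Nat.pos_of_ne_zero Subgroup.index_ne_zero_of_finite
  have hcop : (Nat.card P).Coprime P.index := by
    rw [hP]; exact (Nat.coprime_of_lt_prime hipos.ne' hi hp)
  obtain ⟨H, h1, h2, h3⟩ := exists_complement_of_coprime hcop
  have hcent : ∀ x ∈ P, x ≠ 1 → ∀ g, g * x = x * g → g ∈ P := by
    intro x hx hx1 g hg
    refine hC fun y hy => ?_
    have h4 : (⟨y, hy⟩ : P) ∈ Subgroup.zpowers (⟨x, hx⟩ : P) :=
      mem_zpowers_of_prime_card hP fun h => hx1 (congrArg Subtype.val h)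
    obtain ⟨k, hk⟩ := h4
    have h5 : x ^ k = y := congrArg Subtype.val hk
    rw [← h5]
    exact ((show Commute g x from hg).zpow_right k).symm
  have hdisj : ∀ x ∈ P, x ∈ H → x = 1 := fun x hx hx' => by
    have : x ∈ P ⊓ H := ⟨hx, hx'⟩
    rwa [h1] at this
  have hdec : ∀ g : G, ∃ x ∈ P, ∃ h ∈ H, g = x * h := fun g => by
    have : g ∈ ((P ⊔ H : Subgroup G) : Set G) := by rw [sup_comm, h2]; trivial
    rw [Subgroup.normal_mul] at this
    obtain ⟨x, hx, h, hh, rfl⟩ := this
    exact ⟨x, hx, h, hh, rfl⟩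
  refine ⟨H, ⟨?_, ?_, fun g hg => ?_⟩, ?_⟩
  · rintro rfl
    exact hT (by simpa using h2)
  · rintro rfl
    rw [inf_top_eq] at h1
    rw [h1, Subgroup.card_bot] at hP
    exact hp.one_lt.ne hP
  · rw [eq_bot_iff]
    intro y hy0
    obtain ⟨hy, hy'⟩ := Subgroup.mem_inf.1 hy0
    rw [Subgroup.mem_pointwise_smul_iff_inv_smul_mem, MulAut.smul_def,
      MulAut.conj_inv_apply] at hy'
    obtain ⟨x, hx, h, hh, rfl⟩ := hdec g
    have hx1 : x ≠ 1 := by
      rintro rfl
      exact hg (by simpa using hh)
    have h4 : x⁻¹ * y * x ∈ H := by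
      have := H.mul_mem (H.mul_mem hh hy') (H.inv_mem hh)
      simpa [mul_assoc] using this
    have h5 := hdisj (x⁻¹ * (y * x * y⁻¹)) (P.mul_mem (P.inv_mem hx) (hn.conj_mem x hx y))
      (by simpa [mul_assoc] using H.mul_mem h4 (H.inv_mem hy))
    rw [inv_mul_eq_one, eq_mul_inv_iff_mul_eq] at h5
    exact hdisj y (hcent x hx hx1 y h5.symm) hy
  · rw [← hP]
    suffices h : frobeniusKernel H = P by rw [h]; rfl
    ext g
    constructor
    · rintro (rfl | hg)
      · exact P.one_mem
      by_contra hgP
      have h4 : ¬ p ∣ orderOf g := by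
        intro hd
        have h5 : orderOf (g ^ (orderOf g / p)) = p := orderOf_pow_orderOf_div (orderOf_pos g).ne' hd
        have h6 : g ^ (orderOf g / p) ∈ P := by
          rw [← QuotientGroup.eq_one_iff, ← orderOf_eq_one_iff]
          refine Nat.eq_one_of_dvd_coprimes hcop ?_ (orderOf_dvd_natCard _)
          rw [hP]
          exact (orderOf_map_dvd (QuotientGroup.mk' P) _).trans h5.dvd
        refine hgP (hcent _ h6 (fun h => ?_) g ((Commute.refl g).pow_right _))
        rw [h, orderOf_one] at h5
        exact hp.one_lt.ne h5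
      have : Group.IsSolvable (Subgroup.zpowers g) := Group.isSolvable_of_comm mul_comm'
      obtain ⟨n, -, hn'⟩ := exists_map_conj_le_of_coprime (N := P) (H := H)
        (K := Subgroup.zpowers g) (h3 ▸ hcop)
        (by rw [hP, Nat.card_zpowers]; exact (hp.coprime_iff_not_dvd).2 h4) (h2 ▸ le_top)
        (Or.inr this)
      apply hg n⁻¹
      rw [Subgroup.mem_pointwise_smul_iff_inv_smul_mem, ← map_inv, inv_inv]
      exact hn' ⟨g, Subgroup.mem_zpowers g, rfl⟩
    · intro hg
      by_cases hg1 : g = 1
      · exact Or.inl hg1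
      refine Or.inr fun y hy => hg1 ?_
      rw [Subgroup.mem_pointwise_smul_iff_inv_smul_mem, MulAut.smul_def,
        MulAut.conj_inv_apply] at hy
      have := hdisj _ (hn.conj_mem' g hg y) hy
      simpa [mul_assoc, inv_mul_eq_one] using this

end Cfsg.Agent.S4796
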