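import Cfsg.Statements.S4797
import Cfsg.Agent.Char.Codeg
import Cfsg.Agent.Char.Abelian
import Cfsg.Agent.Grp.MinNormal
-- import your own Cfsg.Agent.* helpers here

set_option autoImplicit false
open Cfsg

namespace Cfsg.Agent.S4797

/-- The codegree of an irreducible complex character χ of a finite group G is [G : ker χ] / χ(1), where ker χ is the set of elements at which χ takes the value χ(1). A non-trivial finite group is perfect if and only if no irreducible complex character of it has prime codegree. -/
theorem result {G : Type*} [Group G] [Finite G] [Nontrivial G] : commutator G = ⊤ ↔ ∀ χ : Cfsg.IrrCharacter G, ¬ ((Nat.card G / (Nat.card {g : G // (χ : G → ℂ) g = (χ : G → ℂ) 1} * Cfsg.charDegree (χ : G → ℂ)))).Prime := by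
  constructor
  · intro hG χ hp
    obtain ⟨ψ, h1, h2⟩ := χ.exists_faithful_quotient
    have h3 := χ.codegree_mul
    have h4 : charDegree χ.1 = charDegree ψ.1 := (congrArg charDegree h1).symm.trans (charDegree_comp _ _)
    generalize Nat.card G / (Nat.card {g : G // (χ : G → ℂ) g = (χ : G → ℂ) 1} *
      charDegree χ.1) = p at hp h3
    have : Fact p.Prime := ⟨hp⟩
    obtain ⟨P, hn, hP, hC, -⟩ := ψ.exists_normal_of_card_eq_prime_mul hp (by rw [← h4, h3]; rfl)
    have := isCyclic_of_prime_card hP
    have h5 : commutator (G ⧸ charKer χ.1) = ⊤ := by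
      rw [← Subgroup.map_top_of_surjective _ (QuotientGroup.mk'_surjective (charKer χ.1)), ← hG,
        map_commutator_eq, MonoidHom.range_eq_top.2 (QuotientGroup.mk'_surjective _)]
      rfl
    have h6 := commutator_le_centralizer_of_isCyclic P
    rw [h5] at h6
    have h7 : P = ⊤ := top_le_iff.1 (h6.trans hC)
    rw [h7, Subgroup.coe_top, Subgroup.centralizer_univ] at h6
    have h8 : commutator (G ⧸ charKer χ.1) = ⊥ := by
      rw [commutator_eq_bot_iff_center_eq_top]; exact top_le_iff.1 h6
    rw [h7, ← h5, h8, Subgroup.card_bot] at hP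
    exact hp.one_lt.ne hP
  · intro h
    by_contra hG
    have : Group.IsSolvable (G ⧸ commutator G) :=
      Group.isSolvable_of_comm (mul_comm (G := Abelianization G))
    obtain ⟨M, hM, -, hp⟩ := exists_normal_prime_index_ge (commutator G) hG
    have : Fact M.index.Prime := ⟨hp⟩
    have : IsCyclic (G ⧸ M) := isCyclic_of_prime_card (p := M.index) rfl
    obtain ⟨lam, hlam⟩ := exists_linear_ker_eq M
    have h1 := (IrrCharacter.ofLinear lam).codegree_mul
    have h2 : charKer (IrrCharacter.ofLinear lam).1 = M := by
      ext g
      rw [IrrCharacter.mem_charKer, ← hlam]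
      simp
    rw [h2, IrrCharacter.charDegree_ofLinear, mul_one] at h1
    apply h (IrrCharacter.ofLinear lam)
    rwa [IrrCharacter.charDegree_ofLinear, h1]

end Cfsg.Agent.S4797
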