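import Cfsg.Statements.S4798
import Cfsg.Agent.Char.Codeg
-- import your own Cfsg.Agent.* helpers here

set_option autoImplicit false
open Cfsg

namespace Cfsg.Agent.S4798

/-- Let p be a prime and χ a faithful irreducible complex character of the finite group G (χ(g) = χ(1) only for g = 1), so that its codegree is #G / χ(1). Then #G / χ(1) is a power of p if and only if χ is induced from a character of a Sylow p-subgroup of G. -/
theorem result {G : Type*} [Group G] [Fintype G] (p : ℕ) [Fact p.Prime] (χ : Cfsg.IrrCharacter G) (hfaith : ∀ g : G, (χ : G → ℂ) g = (χ : G → ℂ) 1 → g = 1) : (∃ k : ℕ, Nat.card G = p ^ k * Cfsg.charDegree (χ : G → ℂ)) ↔ ∃ (P : Sylow p G) (θ : ↥(P : Subgroup G) → ℂ), Cfsg.IsCharacter ↥(P : Subgroup G) θ ∧ (χ : G → ℂ) = Cfsg.indFun (P : Subgroup G) θ := by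
  constructor
  · rintro ⟨k, hk⟩
    obtain ⟨P⟩ : Nonempty (Sylow p G) := inferInstance
    obtain ⟨θ, hθ⟩ := χ.exists_ind_sylow_eq hk P
    exact ⟨P, θ.1, θ.isCharacter, by rw [indFun_eq_ind, hθ]⟩
  · rintro ⟨P, θ, hθ, h⟩
    rw [indFun_eq_ind] at h
    have h1 := hθ.isIrr_of_ind (Subgroup.subtype_injective _) (h ▸ χ.2)
    obtain ⟨c, hc⟩ := IrrCharacter.charDegree_dvd_card ⟨θ, h1⟩
    obtain ⟨a, ha⟩ := IsPGroup.iff_card.1 P.isPGroup'
    obtain ⟨k, -, rfl⟩ := (Nat.dvd_prime_pow (Fact.out : p.Prime)).1 (ha ▸ Dvd.intro_left _ hc.symm)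
    refine ⟨k, ?_⟩
    rw [h, hθ.charDegree_ind_subtype, ← (P : Subgroup G).index_mul_card, hc]
    ring

end Cfsg.Agent.S4798
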