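import Cfsg.Statements.S4799
import Cfsg.Agent.Cod.Main

set_option autoImplicit false
open Cfsg

namespace Cfsg.Agent.S4799

/-- The codegree of an irreducible complex character χ of a finite group G is [G : ker χ] / χ(1), where ker χ is the set of elements at which χ takes the value χ(1). A finite quasisimple group has no non-principal irreducible complex character whose codegree is a prime power p^k (k ≥ 1, p prime). -/
theorem result {G : Type*} [Group G] [Finite G] (hG : Cfsg.IsQuasisimple G) (χ : Cfsg.IrrCharacter G) (hχ : (χ : G → ℂ) ≠ fun _ => 1) : ¬ IsPrimePow (Nat.card G / (Nat.card {g : G // (χ : G → ℂ) g = (χ : G → ℂ) 1} * Cfsg.charDegree (χ : G → ℂ))) := by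
  intro hpp
  obtain ⟨p, k, hp, -, hk⟩ := (isPrimePow_nat_iff _).1 hpp
  have : Fact p.Prime := ⟨hp⟩
  have := hG.1
  have := hG.2
  obtain ⟨χ', hχ', -⟩ := χ.exists_faithful_quotient
  have h1 : Nat.card (G ⧸ charKer χ.1) = p ^ k * charDegree χ'.1 := by
    rw [hk, ← charDegree_comp χ'.1 (QuotientGroup.mk' (charKer χ.1)), hχ', χ.codegree_mul]
    rfl
  have h2 : pCore p (G ⧸ charKer χ.1) = ⊤ := by
    set π := QuotientGroup.mk' (charKer χ.1) with hπ
    have hs : Function.Surjective π := QuotientGroup.mk'_surjective _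
    set N := (pCore p (G ⧸ charKer χ.1)).comap π with hN
    have hNn : (N.map (QuotientGroup.mk' (Subgroup.center G))).Normal :=
      Subgroup.Normal.map inferInstance _ (QuotientGroup.mk'_surjective _)
    rcases hNn.eq_bot_or_eq_top with h | h
    · rw [Subgroup.map_eq_bot_iff, QuotientGroup.ker_mk'] at h
      refine Cod.pCore_eq_top_of_card_eq χ' h1 fun z hz => ?_
      obtain ⟨z, rfl⟩ := hs z
      refine Subgroup.mem_center_iff.2 fun x => ?_
      obtain ⟨x, rfl⟩ := hs x
      rw [← map_mul, ← map_mul, Subgroup.mem_center_iff.1 (h hz) x]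
    · have h3 : ∀ g : G, ∃ n ∈ N, ∃ z ∈ Subgroup.center G, g = n * z := fun g => by
        have h4 : QuotientGroup.mk' (Subgroup.center G) g ∈
            N.map (QuotientGroup.mk' (Subgroup.center G)) := h ▸ Subgroup.mem_top _
        obtain ⟨n, hn, h5⟩ := h4
        exact ⟨n, hn, n⁻¹ * g, QuotientGroup.eq.1 h5, by group⟩
      have h4 : commutator G ≤ N := by
        rw [commutator_def, Subgroup.commutator_le]
        intro a _ b _
        obtain ⟨n, hn, z, hz, rfl⟩ := h3 a
        obtain ⟨m, hm, w, hw, rfl⟩ := h3 b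
        have h5 := Subgroup.mem_center_iff.1 hz
        have h6 := Subgroup.mem_center_iff.1 hw
        have h7 : n * z * (m * w) * (n * z)⁻¹ * (m * w)⁻¹ = n * m * n⁻¹ * m⁻¹ := by
          calc n * z * (m * w) * (n * z)⁻¹ * (m * w)⁻¹
              = n * (z * (m * w)) * z⁻¹ * n⁻¹ * (m * w)⁻¹ := by group
            _ = n * m * (w * n⁻¹) * w⁻¹ * m⁻¹ := by rw [← h5]; group
            _ = _ := by rw [← h6]; group
        rw [commutatorElement_def, h7]
        exact N.mul_mem (N.mul_mem (N.mul_mem hn hm) (N.inv_mem hn)) (N.inv_mem hm)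
      rw [Group.IsPerfect.commutator_eq_top, top_le_iff] at h4
      rw [← Subgroup.map_comap_eq_self_of_surjective hs (pCore p _), ← hN, h4,
        Subgroup.map_top_of_surjective _ hs]
  have h3 : Group.IsNilpotent (G ⧸ charKer χ.1) := (pCore_eq_top_iff.1 h2).isNilpotent
  have h4 : Subsingleton (G ⧸ charKer χ.1) := by
    by_contra h
    have := not_subsingleton_iff_nontrivial.1 h
    exact Group.IsPerfect.not_isNilpotent _ h3
  have h5 : charKer χ.1 = ⊤ := QuotientGroup.subsingleton_iff.1 h4
  rw [χ.charKer_eq_top_iff] at h5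
  exact hχ (by rw [h5]; rfl)

end Cfsg.Agent.S4799
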