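import Cfsg.Statements.S4801
import Cfsg.Agent.Char.Codeg
-- import your own Cfsg.Agent.* helpers here

set_option autoImplicit false
open Cfsg

namespace Cfsg.Agent.S4801

/-- The codegree of an irreducible complex character χ of a finite group G is [G : ker χ] / χ(1), where ker χ is the set of elements at which χ takes the value χ(1). Let S be a finite simple group and G a finite group such that every codegree of an irreducible character of S is a codegree of an irreducible character of G. Then the order of S divides the order of G. -/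
theorem result {S : Type*} [Group S] [Finite S] (hS : IsSimpleGroup S) {G : Type*} [Group G] [Finite G] (hsub : ∀ χ : Cfsg.IrrCharacter S, ∃ ψ : Cfsg.IrrCharacter G, (Nat.card S / (Nat.card {g : S // (χ : S → ℂ) g = (χ : S → ℂ) 1} * Cfsg.charDegree (χ : S → ℂ))) = (Nat.card G / (Nat.card {g : G // (ψ : G → ℂ) g = (ψ : G → ℂ) 1} * Cfsg.charDegree (ψ : G → ℂ)))) : Nat.card S ∣ Nat.card G := by
  classical
  rw [← Nat.factorization_prime_le_iff_dvd Nat.card_pos.ne' Nat.card_pos.ne']
  intro p hp
  by_cases hd : p ∣ Nat.card S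
  swap
  · rw [Nat.factorization_eq_zero_of_not_dvd hd]; exact Nat.zero_le _
  obtain ⟨χ, h1, h2⟩ : ∃ χ : IrrCharacter S, χ ≠ IrrCharacter.one S ∧ ¬ p ∣ charDegree χ.1 := by
    by_contra hcon
    push Not at hcon
    rw [← sum_charDegree_sq, ← Finset.add_sum_erase _ _ (Finset.mem_univ (IrrCharacter.one S)),
      IrrCharacter.charDegree_one, one_pow] at hd
    exact hp.one_lt.ne' (Nat.dvd_one.1 ((Nat.dvd_add_left (Finset.dvd_sum fun χ hχ =>
      dvd_pow (hcon χ (Finset.ne_of_mem_erase hχ)) two_ne_zero)).1 hd))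
  obtain ⟨ψ, hψ⟩ := hsub χ
  have h3 := χ.codegree_mul
  have h4 : charKer χ.1 = ⊥ :=
    (hS.eq_bot_or_eq_top_of_normal _ inferInstance).resolve_right
      fun h => h1 (χ.charKer_eq_top_iff.1 h)
  rw [h4, Subgroup.index_bot, hψ] at h3
  rw [← hp.pow_dvd_iff_le_factorization Nat.card_pos.ne']
  refine Dvd.dvd.trans ?_ ψ.codegree_dvd_card
  refine (Nat.Coprime.pow_left _ ((hp.coprime_iff_not_dvd).2 h2)).dvd_of_dvd_mul_right ?_
  rw [h3]
  exact Nat.ordProj_dvd _ _

end Cfsg.Agent.S4801
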