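import Cfsg.Statements.S4802
import Cfsg.Agent.Char.Count
import Cfsg.Agent.Char.LiesOver

set_option autoImplicit false
open Cfsg

namespace Cfsg.Agent.S4802

/-- Let N < M be normal subgroups of the finite group G and g ∈ M ∖ N. Then the conjugacy class of g is exactly M ∖ N if and only if every irreducible complex character of G whose kernel contains N takes the same value at all elements of M ∖ N, and every irreducible complex character of G whose kernel does not contain N vanishes at g. -/
theorem result {G : Type*} [Group G] [Finite G] (N M : Subgroup G) [N.Normal] [M.Normal] (hNM : N < M) (g : G) (hgM : g ∈ M) (hgN : g ∉ N) : {h : G | IsConj g h} = (M : Set G) \ (N : Set G) ↔ ((∀ χ : Cfsg.IrrCharacter G, (∀ x ∈ N, (χ : G → ℂ) x = (χ : G → ℂ) 1) → ∀ x ∈ M, x ∉ N → ∀ y ∈ M, y ∉ N → (χ : G → ℂ) x = (χ : G → ℂ) y) ∧ (∀ χ : Cfsg.IrrCharacter G, (∃ x ∈ N, (χ : G → ℂ) x ≠ (χ : G → ℂ) 1) → (χ : G → ℂ) g = 0)) := by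
  classical
  cases nonempty_fintype G
  constructor
  · intro h
    have h' : ∀ x ∈ M, x ∉ N → IsConj g x := fun x hx hx' => by
      have : x ∈ {h : G | IsConj g h} := by rw [h]; exact ⟨hx, hx'⟩
      exact this
    refine ⟨fun χ _ x hx hx' y hy hy' => ?_, fun χ hχ => ?_⟩
    · exact χ.isClassFunction.eq_of_isConj ((h' x hx hx').symm.trans (h' y hy hy'))
    · have h1 := χ.sum_coset_eq_zero N (by push Not; exact hχ) g
      have h2 : ∀ n : N, χ (g * n) = χ g := fun n =>
        (χ.isClassFunction.eq_of_isConj (h' _ (M.mul_mem hgM (hNM.le n.2))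
          (fun e => hgN ((N.mul_mem_cancel_right n.2).1 e)))).symm
      simp only [h2, Finset.sum_const, Finset.card_univ, nsmul_eq_mul,
        ← Nat.card_eq_fintype_card] at h1
      exact (mul_eq_zero.1 h1).resolve_left (natCard_cast_ne_zero N)
  · rintro ⟨h1, h2⟩
    ext x
    constructor
    · intro hx
      obtain ⟨c, rfl⟩ := isConj_iff.1 hx
      refine ⟨Subgroup.Normal.conj_mem inferInstance g hgM c, fun e => hgN ?_⟩
      simpa [mul_assoc] using Subgroup.Normal.conj_mem' (inferInstance : N.Normal) _ e c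
    · rintro ⟨hx, hx'⟩
      by_contra hc
      have h3 := sum_irr_mul_conj_of_not_isConj hc
      have h4 := sum_irr_mul_conj_of_isConj (IsConj.refl g)
      refine natCard_cast_ne_zero _ (h4.symm.trans (Eq.trans ?_ h3))
      refine Finset.sum_congr rfl fun χ _ => ?_
      by_cases e : ∀ x ∈ N, χ x = χ 1
      · rw [h1 χ e g hgM hgN x hx hx']
      · simp [h2 χ (by push Not at e; exact e)]

end Cfsg.Agent.S4802
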