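import Cfsg.Statements.S4808
import Cfsg.Agent.Char.Codeg
-- import your own Cfsg.Agent.* helpers here

set_option autoImplicit false
open Cfsg

namespace Cfsg.Agent.S4808

/-- The codegree of an irreducible complex character χ of a finite group G is [G : ker χ] / χ(1), where ker χ is the set of elements at which χ takes the value χ(1). A prime divides the order of G if and only if it divides the codegree of some irreducible complex character of G. -/
theorem result {G : Type*} [Group G] [Finite G] (p : ℕ) (hp : p.Prime) : p ∣ Nat.card G ↔ ∃ χ : Cfsg.IrrCharacter G, p ∣ (Nat.card G / (Nat.card {g : G // (χ : G → ℂ) g = (χ : G → ℂ) 1} * Cfsg.charDegree (χ : G → ℂ))) := by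
  refine ⟨fun h => ?_, fun ⟨χ, h⟩ => h.trans χ.codegree_dvd_card⟩
  have : Fact p.Prime := ⟨hp⟩
  by_contra hcon
  push Not at hcon
  obtain ⟨x, hx⟩ := exists_prime_orderOf_dvd_card' p h
  have hx1 : x ≠ 1 := by
    rintro rfl
    rw [orderOf_one] at hx
    exact hp.one_lt.ne hx
  have key : ∀ χ : IrrCharacter G, ∃ n : ℕ, χ 1 * χ x = n := by
    intro χ
    by_cases hk : x ∈ charKer χ.1
    · exact ⟨charDegree χ.1 ^ 2, by rw [χ.mem_charKer.1 hk, χ.apply_one]; push_cast; ring⟩
    obtain ⟨ψ, h1, h2⟩ := χ.exists_faithful_quotient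
    have h4 : charDegree χ.1 = charDegree ψ.1 := (congrArg charDegree h1).symm.trans (charDegree_comp _ _)
    have h3 := ψ.eq_zero_of_defect_zero p (g := (x : G ⧸ charKer χ.1)) (by
      have h5 : p ^ (Nat.card (G ⧸ charKer χ.1)).factorization p ∣ (charKer χ.1).index :=
        Nat.ordProj_dvd _ _
      rw [← χ.codegree_mul] at h5
      rw [← h4]
      exact (Nat.Coprime.pow_left _ ((hp.coprime_iff_not_dvd).2 (hcon χ))).dvd_of_dvd_mul_left h5)
      (by
        have h5 : orderOf (x : G ⧸ charKer χ.1) ∣ p := hx ▸ orderOf_map_dvd (QuotientGroup.mk' _) x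
        rcases (Nat.dvd_prime hp).1 h5 with h6 | h6
        · exact absurd ((QuotientGroup.eq_one_iff x).1 (orderOf_eq_one_iff.1 h6)) hk
        · rw [h6])
    have h5 : χ x = 0 := by rw [← h3]; exact (congrFun h1 x).symm
    exact ⟨0, by simp [h5]⟩
  choose n hn using key
  have h1 := sum_irr_one_mul_of_ne_one hx1
  rw [Finset.sum_congr rfl fun χ _ => hn χ, ← Nat.cast_sum, Nat.cast_eq_zero,
    Finset.sum_eq_zero_iff] at h1
  have h2 := hn (IrrCharacter.one G)
  rw [h1 _ (Finset.mem_univ _)] at h2
  simp at h2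

end Cfsg.Agent.S4808
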