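import Cfsg.Statements.S4813
import Cfsg.Agent.S4466

set_option autoImplicit false
open Cfsg

namespace Cfsg.Agent.S4813

/-- If every irreducible complex character of the finite group G of degree greater than one has prime degree, then G has at most three distinct irreducible character degrees. -/
theorem result {G : Type*} [Group G] [Finite G] (hprime : ∀ d ∈ Cfsg.charDegrees G, d = 1 ∨ d.Prime) : Nat.card ↥(Cfsg.charDegrees G) ≤ 3 := by
  have h : ∀ χ : IrrCharacter G, charDegree χ.1 ≠ 1 → (charDegree χ.1).Prime := fun χ h1 =>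
    (hprime _ χ.charDegree_mem).resolve_left h1
  have := S4466.main G h
  suffices hs : ∃ a b : ℕ, charDegrees G ⊆ {1, a, b} by
    obtain ⟨a, b, hs⟩ := hs
    rw [Nat.card_coe_set_eq]
    exact (Set.ncard_le_ncard hs).trans ((Set.ncard_insert_le _ _).trans (Nat.succ_le_succ
      ((Set.ncard_insert_le _ _).trans (by simp))))
  by_cases hG : ∀ a b : G, a * b = b * a
  · exact ⟨1, 1, by simpa using comm_iff_charDegrees_subset.1 hG⟩
  have hmul : ∀ a b : ℕ, a * b ∈ charDegrees G → a = 1 ∨ b = 1 := fun a b hab => by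
    rcases hprime _ hab with h1 | h1
    · exact Or.inl (Nat.eq_one_of_mul_eq_one_right h1)
    · exact (Nat.prime_mul_iff.1 h1).symm.imp And.right And.right
  obtain ⟨K, hK, hJ⟩ := exists_isJustNonab_quotient' hG
  rcases hJ.pQuot_or_frobQuot with ⟨Z, p, β, hp⟩ | ⟨N, r, hF⟩
  · refine ⟨p, p, ?_⟩
    rintro _ ⟨χ, rfl⟩
    by_cases h1 : charDegree χ.1 = 1
    · exact Or.inl h1
    by_cases h2 : p ∣ charDegree χ.1
    · exact Or.inr (Or.inl ((Nat.prime_dvd_prime_iff_eq hp.prime (h χ h1)).1 h2).symm)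
    · exact Or.inl ((hmul _ _ (hp.mul_mem_of_not_dvd h2)).resolve_left hp.ne_one)
  · refine ⟨N.index, r, ?_⟩
    rintro _ ⟨χ, rfl⟩
    by_cases h1 : charDegree χ.1 = 1
    · exact Or.inl h1
    by_cases h2 : charDegree χ.1 = N.index
    · exact Or.inr (Or.inl h2)
    have := hF.normal
    have h3 := χ.isIrr_comp_of_coprime (f := N.subtype) (by
      rw [Subgroup.range_subtype]
      exact (Nat.coprime_primes (h χ h1) ((hprime _ hF.index_mem).resolve_left hF.ne_one)).2 h2)
    have h4 := hF.mem_or_prime_dvd ⟨_, h3⟩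
    rw [charDegree_comp] at h4
    rcases h4 with h4 | h4
    · exact Or.inl ((hmul _ _ h4).resolve_left hF.ne_one)
    · exact Or.inr (Or.inr ((Nat.prime_dvd_prime_iff_eq hF.prime (h χ h1)).1 h4).symm)

end Cfsg.Agent.S4813
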