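import Cfsg.Statements.S4814
import Cfsg.Agent.Char.Count
import Cfsg.Agent.Char.Eigen

set_option autoImplicit false
open Cfsg

namespace Cfsg.Agent.S4814

/-- Let G be a finite group such that the sum, over the irreducible complex characters χ of G, of 1/χ(1)² is less than 2. Then every element of G is a product of two commutators. -/
theorem result {G : Type*} [Group G] [Finite G]
    (h : ∑ᶠ χ : Cfsg.IrrCharacter G, 1 / ‖(χ : G → ℂ) 1‖ ^ 2 < (2 : ℝ)) (g : G) :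
    ∃ a b c d : G, (a * b * a⁻¹ * b⁻¹) * (c * d * c⁻¹ * d⁻¹) = g := by
  classical
  cases nonempty_fintype G
  rw [finsum_eq_sum_of_fintype] at h
  by_contra hc
  push Not at hc
  have h1 := sum_irr_mul_conj_sum (fun x : (G × G) × (G × G) =>
    (x.1.1 * x.1.2 * x.1.1⁻¹ * x.1.2⁻¹) * (x.2.1 * x.2.2 * x.2.1⁻¹ * x.2.2⁻¹)) g
  haveI : IsEmpty {x : (G × G) × (G × G) // IsConj g
      ((x.1.1 * x.1.2 * x.1.1⁻¹ * x.1.2⁻¹) * (x.2.1 * x.2.2 * x.2.1⁻¹ * x.2.2⁻¹))} := ⟨by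
    rintro ⟨⟨⟨a, b⟩, c, d⟩, hx⟩
    obtain ⟨y, hy⟩ := isConj_iff.1 hx.symm
    refine hc (y * a * y⁻¹) (y * b * y⁻¹) (y * c * y⁻¹) (y * d * y⁻¹) ?_
    rw [← hy]; group⟩
  have h0 : Nat.card {x : (G × G) × (G × G) // IsConj g
      ((x.1.1 * x.1.2 * x.1.1⁻¹ * x.1.2⁻¹) * (x.2.1 * x.2.2 * x.2.1⁻¹ * x.2.2⁻¹))} = 0 :=
    Nat.card_of_isEmpty
  rw [h0, Nat.cast_zero, mul_zero] at h1
  have hG := natCard_cast_ne_zero G
  have h2 : ∀ χ : IrrCharacter G, χ g * (starRingEnd ℂ) (∑ x : (G × G) × (G × G),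
      χ ((x.1.1 * x.1.2 * x.1.1⁻¹ * x.1.2⁻¹) * (x.2.1 * x.2.2 * x.2.1⁻¹ * x.2.2⁻¹))) =
      (Nat.card G : ℂ) ^ 4 * (χ g / χ 1 ^ 3) := fun χ => by
    have e := χ.sum_apply_commutator_mul 1
    simp only [mul_one] at e
    rw [Fintype.sum_prod_type, Finset.sum_comm]
    simp only [Fintype.sum_prod_type, χ.sum_apply_commutator_mul, ← Finset.mul_sum, e]
    have h1 := χ.apply_one_ne_zero
    rw [χ.apply_one] at *
    simp only [map_mul, map_pow, map_div₀, map_natCast]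
    field_simp
  simp only [h2, ← Finset.mul_sum] at h1
  have h3 := (mul_eq_zero.1 h1).resolve_left (pow_ne_zero _ hG)
  rw [← Finset.add_sum_erase _ _ (Finset.mem_univ (IrrCharacter.one G))] at h3 h
  simp only [IrrCharacter.one_apply, one_pow, div_one, norm_one] at h3 h
  have h4 : ‖∑ χ ∈ Finset.univ.erase (IrrCharacter.one G), χ g / χ 1 ^ 3‖ = 1 := by
    rw [eq_neg_of_add_eq_zero_right h3]; simp
  have h5 : ‖∑ χ ∈ Finset.univ.erase (IrrCharacter.one G), χ g / χ 1 ^ 3‖ ≤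
      ∑ χ ∈ Finset.univ.erase (IrrCharacter.one G), 1 / ‖χ 1‖ ^ 2 := by
    refine (norm_sum_le _ _).trans (Finset.sum_le_sum fun χ _ => ?_)
    have h6 := χ.isCharacter.norm_le_norm_one g
    have h7 : 0 < ‖χ 1‖ := norm_pos_iff.2 χ.apply_one_ne_zero
    rw [norm_div, norm_pow, div_le_div_iff₀ (by positivity) (by positivity)]
    nlinarith [pow_pos h7 2]
  linarith

end Cfsg.Agent.S4814
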