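import Cfsg.Statements.S4823
import Cfsg.Agent.Blk.PrinInd
import Cfsg.Agent.Blk.Principal
import Cfsg.Agent.Char.Galois
import Mathlib.Topology.Algebra.Polynomial
import Mathlib.Analysis.Normed.Module.FiniteDimension

/-!
The vectors `x g = (χ g)_{χ ∈ B₀}` lie in a discrete set depending only on `k`, have mean `e₀` and
mean square `k`, and `x g ⊥ x h` for `g` `p`-regular, `h` `p`-singular. So `e₀` is in the span of
the short ones, and the proportion of `p`-regular elements takes only finitely many values.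
-/

set_option autoImplicit false
universe u
open Cfsg

namespace Cfsg.Agent.S4823

open Polynomial Submodule Module
open scoped ComplexConjugate

theorem finite_intPt (n : ℕ) (R : ℝ) :
    {x | x ∈ {x : Fin n → ℂ | ∃ f : ℤ[X], f.map (algebraMap ℤ ℂ) = ∏ i, (X - C (x i))} ∧
      ‖x‖ ≤ R}.Finite := by
  classical
  let B : ℤ := ⌈max R 1 ^ n * n.choose (n / 2)⌉
  have hU : (Set.Icc (-B) B).Finite := Set.finite_Icc _ _
  refine (Set.Finite.pi' fun _ : Fin n =>
    bUnion_roots_finite (algebraMap ℤ ℂ) n hU).subset ?_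
  rintro x ⟨⟨f, hf⟩, hx⟩ i
  have hinj : Function.Injective (algebraMap ℤ ℂ) := (algebraMap ℤ ℂ).injective_int
  have hm : (∏ i, (X - C (x i)) : ℂ[X]).Monic := monic_prod_of_monic _ _ fun i _ => monic_X_sub_C _
  have hd : (∏ i, (X - C (x i)) : ℂ[X]).natDegree = n := by
    rw [natDegree_prod_of_monic _ _ fun i _ => monic_X_sub_C _]; simp
  have hr : (∏ i, (X - C (x i)) : ℂ[X]).roots = Finset.univ.val.map x := by
    have := roots_multiset_prod_X_sub_C (Finset.univ.val.map x)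
    rwa [Multiset.map_map] at this
  have hfd : f.natDegree = n := by rw [← natDegree_map_eq_of_injective hinj, hf, hd]
  simp only [Set.mem_iUnion]
  refine ⟨f, ⟨hfd.le, fun j => ?_⟩, ?_⟩
  · have h1 := coeff_bdd_of_roots_le (B := R) (d := n) (algebraMap ℤ ℂ) (p := f)
      (monic_of_injective hinj (hf ▸ hm)) (IsAlgClosed.splits _) hfd.le (fun z hz => by
        rw [hf, hr] at hz
        obtain ⟨i, -, rfl⟩ := Multiset.mem_map.1 hz
        exact (norm_le_pi_norm x i).trans hx) j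
    rw [coeff_map, eq_intCast, Complex.norm_intCast] at h1
    have h2 : (|f.coeff j| : ℝ) ≤ B := h1.trans (Int.le_ceil _)
    have h3 : |f.coeff j| ≤ B := by exact_mod_cast h2
    exact abs_le.1 h3
  · rw [hf, hr]; simp

theorem exists_radius {V : Type*} [NormedAddCommGroup V] [NormedSpace ℂ V] [FiniteDimensional ℂ V]
    {X : Set V} (hX : ∀ R : ℝ, {x | x ∈ X ∧ ‖x‖ ≤ R}.Finite) (e : V) (K : ℝ) :
    ∃ R : ℝ, ∀ S ⊆ X, (∀ r : ℝ, 0 < r → ∃ v ∈ span ℂ {x | x ∈ S ∧ ‖x‖ ≤ r}, ‖e - v‖ ≤ K / r) →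
      e ∈ span ℂ {x | x ∈ S ∧ ‖x‖ ≤ R} := by
  have key : ∀ j : ℕ, ∃ R : ℝ, ∀ S ⊆ X,
      (∀ r : ℝ, 0 < r → ∃ v ∈ span ℂ {x | x ∈ S ∧ ‖x‖ ≤ r}, ‖e - v‖ ≤ K / r) →
      e ∈ span ℂ {x | x ∈ S ∧ ‖x‖ ≤ R} ∨ j ≤ finrank ℂ (span ℂ {x | x ∈ S ∧ ‖x‖ ≤ R}) := by
    intro j
    induction j with
    | zero => exact ⟨0, fun S _ _ => Or.inr (Nat.zero_le _)⟩
    | succ j ih =>
      obtain ⟨R, hR⟩ := ih
      have h1 : ∀ Y ∈ {Y | Y ⊆ {x | x ∈ X ∧ ‖x‖ ≤ R}}, ∀ᶠ r : ℝ in Filter.atTop,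
          e ∉ span ℂ Y → K / r < Metric.infDist e (span ℂ Y : Set V) := by
        intro Y _
        by_cases he : e ∈ span ℂ Y
        · exact Filter.Eventually.of_forall fun r h => absurd he h
        · have hp : 0 < Metric.infDist e (span ℂ Y : Set V) :=
            ((span ℂ Y).closed_of_finiteDimensional.notMem_iff_infDist_pos ⟨0, zero_mem _⟩).1 he
          have ht : Filter.Tendsto (fun r : ℝ => K / r) Filter.atTop (nhds 0) :=
            Filter.Tendsto.const_div_atTop Filter.tendsto_id K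
          exact (ht.eventually (gt_mem_nhds hp)).mono fun r h _ => h
      obtain ⟨r, hr, hr0, hrR⟩ := (((Filter.eventually_all_finite (hX R).finite_subsets).2 h1).and
        ((Filter.eventually_gt_atTop 0).and (Filter.eventually_ge_atTop R))).exists
      refine ⟨r, fun S hS h => ?_⟩
      have hle : span ℂ {x | x ∈ S ∧ ‖x‖ ≤ R} ≤ span ℂ {x | x ∈ S ∧ ‖x‖ ≤ r} :=
        span_mono fun x hx => ⟨hx.1, hx.2.trans hrR⟩
      by_cases he : e ∈ span ℂ {x | x ∈ S ∧ ‖x‖ ≤ R}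
      · exact Or.inl (hle he)
      · right
        have hj := (hR S hS h).resolve_left he
        obtain ⟨v, hv, hev⟩ := h r hr0
        have hlt : span ℂ {x | x ∈ S ∧ ‖x‖ ≤ R} < span ℂ {x | x ∈ S ∧ ‖x‖ ≤ r} := by
          refine lt_of_le_of_ne hle fun heq => ?_
          have h2 := hr _ (fun x hx => ⟨hS hx.1, hx.2⟩) he
          have h3 := Metric.infDist_le_dist_of_mem (x := e)
            (show v ∈ (span ℂ {x | x ∈ S ∧ ‖x‖ ≤ R} : Set V) from heq ▸ hv)
          rw [dist_eq_norm] at h3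
          linarith
        exact lt_of_le_of_lt hj (Submodule.finrank_lt_finrank_of_lt hlt)
  obtain ⟨R, hR⟩ := key (finrank ℂ V + 1)
  refine ⟨R, fun S hS h => (hR S hS h).resolve_right fun h' => ?_⟩
  have := Submodule.finrank_le (span ℂ {x | x ∈ S ∧ ‖x‖ ≤ R})
  omega

theorem disjoint_span {n : ℕ} {S T : Set (Fin n → ℂ)}
    (h : ∀ v ∈ S, ∀ w ∈ T, ∑ i, v i * conj (w i) = 0) : Disjoint (span ℂ S) (span ℂ T) := by
  have h1 : ∀ v ∈ span ℂ S, ∀ w ∈ span ℂ T, ∑ i, v i * conj (w i) = 0 := by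
    intro v hv w hw
    induction hv, hw using span_induction₂ with
    | mem_mem v w hv hw => exact h v hv w hw
    | zero_left => simp
    | zero_right => simp
    | add_left _ _ _ _ _ _ h1 h2 => simp [add_mul, Finset.sum_add_distrib, h1, h2]
    | add_right _ _ _ _ _ _ h1 h2 => simp [mul_add, Finset.sum_add_distrib, h1, h2]
    | smul_left c _ _ _ _ h1 => simp [mul_assoc, ← Finset.mul_sum, h1]
    | smul_right c _ _ _ _ h1 =>
      simp only [Pi.smul_apply, smul_eq_mul, map_mul, mul_left_comm _ (conj c), ← Finset.mul_sum,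
        h1, mul_zero]
  rw [Submodule.disjoint_def]
  intro v hv hw
  have h2 := h1 v hv v hw
  simp only [Complex.mul_conj, ← Complex.ofReal_sum, Complex.ofReal_eq_zero] at h2
  rw [Finset.sum_eq_zero_iff_of_nonneg fun i _ => Complex.normSq_nonneg _] at h2
  funext i
  exact Complex.normSq_eq_zero.1 (h2 i (Finset.mem_univ _))

theorem exists_poly {G : Type u} [Group G] [Finite G] {p : ℕ} {M : Ideal AlgInt}
    (hM : IsPModular p M) {n : ℕ} (e : Fin n ≃ principalBlock M G) (g : G) :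
    ∃ f : ℤ[X], f.map (algebraMap ℤ ℂ) = ∏ i, (X - C ((e i).1 g)) := by
  rw [← mem_lifts, lifts_iff_coeff_lifts]
  intro j
  have h1 : IsIntegral ℤ ((∏ i, (X - C ((e i).1 g)) : ℂ[X]).coeff j) := by
    have : (∏ i, (X - C ((e i).1 g)) : ℂ[X]) = (∏ i, (X - C
        (⟨(e i).1 g, (e i).1.2.isCharacter.isIntegral g⟩ : integralClosure ℤ ℂ))).map
        (algebraMap _ ℂ) := by
      simp [Polynomial.map_prod]
    rw [this, coeff_map]
    exact Subtype.prop _
  obtain ⟨m, hm⟩ := exists_int_of_forall_ringEquiv_fix h1 fun σ => by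
    let π : principalBlock M G ≃ principalBlock M G :=
      (MulAction.toPerm σ).subtypeEquiv fun χ => (gal_smul_mem_principalBlock_iff hM σ χ).symm
    have h2 : (∏ i, (X - C ((e i).1 g)) : ℂ[X]).map σ.toRingHom = ∏ i, (X - C ((e i).1 g)) := by
      rw [Polynomial.map_prod, ← (e.trans (π.trans e.symm)).prod_comp fun i => X - C ((e i).1 g)]
      refine Finset.prod_congr rfl fun i _ => ?_
      simp [π]
      rfl
    conv_rhs => rw [← h2, coeff_map]
    rfl
  exact ⟨m, by simp [hm]⟩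

theorem exists_finite (n : ℕ) (i₀ : Fin n) : ∃ A : Set ℂ, A.Finite ∧
    ∀ (G : Type u) [Group G] [Finite G] (p : ℕ) (M : Ideal AlgInt), IsPModular p M →
      ∀ e : Fin n ≃ principalBlock M G, (e i₀).1 = IrrCharacter.one G →
        ip (pRegularPart p fun _ : G => 1) (fun _ => 1) ∈ A := by
  classical
  obtain ⟨R, hR⟩ := exists_radius (finite_intPt n) (Pi.single i₀ 1) n
  have hF := (finite_intPt n R).finite_subsets
  refine ⟨_, hF.biUnion fun S _ => hF.biUnion fun T _ => Set.Subsingleton.finite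
    (s := {a | Disjoint (span ℂ S) (span ℂ T) ∧ ∃ v ∈ span ℂ S, ∃ w ∈ span ℂ T,
      v + w = Pi.single i₀ 1 ∧ v i₀ = a}) ?_, ?_⟩
  · rintro _ ⟨hd, v, hv, w, hw, h, rfl⟩ _ ⟨-, v', hv', w', hw', h', rfl⟩
    have : v - v' = 0 := Submodule.disjoint_def.1 hd _ (sub_mem hv hv')
      (by rw [show v - v' = w' - w by linear_combination h - h']; exact sub_mem hw' hw)
    rw [sub_eq_zero.1 this]
  intro G _ _ p M hM e he
  haveI := Fintype.ofFinite G
  let x : G → Fin n → ℂ := fun g i => (e i).1 g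
  have hG := natCard_cast_ne_zero G
  have hG' : (0 : ℝ) < Nat.card G := by exact_mod_cast Nat.card_pos
  have hmean : (Nat.card G : ℂ)⁻¹ • ∑ g, x g = Pi.single i₀ 1 := by
    funext i
    have h1 : ip (e i).1.1 (e i₀).1.1 = (Nat.card G : ℂ)⁻¹ * ∑ g, x g i := by
      rw [ip_def, he]; simp [x]
    rw [Pi.smul_apply, Finset.sum_apply, smul_eq_mul, ← h1]
    by_cases hi : i = i₀
    · rw [hi, IrrCharacter.ip_self, Pi.single_eq_same]
    · rw [IrrCharacter.ip_of_ne fun h => hi (e.injective (Subtype.ext h)), Pi.single_eq_of_ne hi]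
  have hsq : ∑ g, ‖x g‖ ^ 2 ≤ n * Nat.card G := by
    have h1 : ∀ g, ‖x g‖ ^ 2 ≤ ∑ i, ‖x g i‖ ^ 2 := fun g => by
      have h0 : 0 ≤ ∑ i, ‖x g i‖ ^ 2 := Finset.sum_nonneg fun i _ => sq_nonneg _
      rw [← Real.le_sqrt (norm_nonneg _) h0, pi_norm_le_iff_of_nonneg (Real.sqrt_nonneg _)]
      intro i
      rw [Real.le_sqrt (norm_nonneg _) h0]
      exact Finset.single_le_sum (f := fun i => ‖x g i‖ ^ 2) (fun i _ => sq_nonneg _)
        (Finset.mem_univ i)
    refine (Finset.sum_le_sum fun g _ => h1 g).trans (le_of_eq ?_)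
    rw [Finset.sum_comm]
    have h2 : ∀ i, ∑ g, ‖x g i‖ ^ 2 = Nat.card G := fun i => by
      have h3 := ip_self_eq (e i).1.1
      rw [IrrCharacter.ip_self] at h3
      have h4 : (1 : ℝ) = (Nat.card G : ℝ)⁻¹ * ∑ g, ‖x g i‖ ^ 2 := by exact_mod_cast h3
      field_simp at h4
      exact h4.symm
    simp [h2]
  have hmem := hR (Set.range x) (by rintro _ ⟨g, rfl⟩; exact exists_poly hM e g) fun r hr => by
    refine ⟨(Nat.card G : ℂ)⁻¹ • ∑ g with ‖x g‖ ≤ r, x g, smul_mem _ _ (sum_mem fun g hg =>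
      subset_span ⟨⟨g, rfl⟩, (Finset.mem_filter.1 hg).2⟩), ?_⟩
    rw [← hmean, ← smul_sub, ← Finset.sum_filter_add_sum_filter_not _ fun g => ‖x g‖ ≤ r,
      add_sub_cancel_left, norm_smul, norm_inv, Complex.norm_natCast, inv_mul_le_iff₀ hG',
      ← mul_div_assoc, le_div_iff₀ hr]
    calc _ ≤ (∑ g with ¬ ‖x g‖ ≤ r, ‖x g‖) * r := by gcongr; exact norm_sum_le _ _
      _ ≤ ∑ g with ¬ ‖x g‖ ≤ r, ‖x g‖ ^ 2 := by
        rw [Finset.sum_mul]
        refine Finset.sum_le_sum fun g hg => ?_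
        have := (not_le.1 (Finset.mem_filter.1 hg).2).le
        rw [sq]; gcongr
      _ ≤ ∑ g, ‖x g‖ ^ 2 :=
        Finset.sum_le_sum_of_subset_of_nonneg (Finset.filter_subset _ _) fun _ _ _ => sq_nonneg _
      _ ≤ _ := by rw [mul_comm]; exact hsq
  let S := x '' {g | IsPRegular p g}
  let T := x '' {g | ¬ IsPRegular p g}
  have hd : Disjoint (span ℂ S) (span ℂ T) := disjoint_span <| by
    rintro _ ⟨g, hg, rfl⟩ _ ⟨h, hh, rfl⟩
    haveI := Fintype.ofFinite (principalBlock M G)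
    have := isPBlock_principalBlock.finsum_mul_conj_eq_zero_of_regular hM hg (not_not.1 hh)
    rwa [finsum_mem_irr_eq_sum_coe, ← e.sum_comp] at this
  have hle : span ℂ {y | y ∈ Set.range x ∧ ‖y‖ ≤ R} ≤
      span ℂ {y | y ∈ S ∧ ‖y‖ ≤ R} ⊔ span ℂ {y | y ∈ T ∧ ‖y‖ ≤ R} := by
    rw [span_le]
    rintro _ ⟨⟨g, rfl⟩, hg⟩
    by_cases h : IsPRegular p g
    · exact mem_sup_left (subset_span ⟨⟨g, h, rfl⟩, hg⟩)
    · exact mem_sup_right (subset_span ⟨⟨g, h, rfl⟩, hg⟩)
  obtain ⟨v, hv, w, hw, hvw⟩ := mem_sup.1 (hle hmem)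
  have hS : span ℂ {y | y ∈ S ∧ ‖y‖ ≤ R} ≤ span ℂ S := span_mono fun y hy => hy.1
  have hT : span ℂ {y | y ∈ T ∧ ‖y‖ ≤ R} ≤ span ℂ T := span_mono fun y hy => hy.1
  simp only [Set.mem_iUnion]
  refine ⟨_, ?_, _, ?_, hd.mono hS hT, v, hv, w, hw, hvw, ?_⟩
  · rintro _ ⟨⟨g, -, rfl⟩, hg⟩; exact ⟨exists_poly hM e g, hg⟩
  · rintro _ ⟨⟨g, -, rfl⟩, hg⟩; exact ⟨exists_poly hM e g, hg⟩
  rw [← Finset.sum_filter_add_sum_filter_not _ fun g => IsPRegular p g, smul_add] at hmean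
  have h1 : v - (Nat.card G : ℂ)⁻¹ • ∑ g with IsPRegular p g, x g = 0 :=
    Submodule.disjoint_def.1 hd _ (sub_mem (hS hv) (smul_mem _ _ (sum_mem fun g hg =>
      subset_span ⟨g, (Finset.mem_filter.1 hg).2, rfl⟩))) (by
      rw [show v - (Nat.card G : ℂ)⁻¹ • ∑ g with IsPRegular p g, x g =
        (Nat.card G : ℂ)⁻¹ • ∑ g with ¬ IsPRegular p g, x g - w by linear_combination hvw - hmean]
      exact sub_mem (smul_mem _ _ (sum_mem fun g hg =>
        subset_span ⟨g, (Finset.mem_filter.1 hg).2, rfl⟩)) (hT hw))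
  rw [sub_eq_zero.1 h1, ip_def, Pi.smul_apply, Finset.sum_apply, Finset.sum_filter]
  simp [x, he, pRegularPart]

/-- For every prime p and every natural number k there is a bound N such that, for every finite group G and every maximal ideal M of the algebraic integers containing p, if the principal p-block of G has at most k irreducible characters then the p-part of the order of G (the order of a defect group of the principal block) is at most p ^ N. -/
theorem result (p : ℕ) [Fact p.Prime] (k : ℕ) : ∃ N : ℕ, ∀ (G : Type u) [Group G] [Finite G] (M : Ideal Cfsg.AlgInt), Cfsg.IsPModular p M → Nat.card (Cfsg.principalBlock M G) ≤ k → (Nat.card G).factorization p ≤ N := by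
  choose A hA hA' using exists_finite.{u}
  have hp : p.Prime := Fact.out
  have hp0 : (p : ℂ) ≠ 0 := by exact_mod_cast hp.ne_zero
  have h1 : ∀ a : ℂ, {d : ℕ | ∃ m : ℤ, ¬ (p : ℤ) ∣ m ∧ (p : ℂ) ^ d * a = m}.Subsingleton := by
    intro a
    have h2 : ∀ d d' : ℕ, ∀ m m' : ℤ, ¬ (p : ℤ) ∣ m' → (p : ℂ) ^ d * a = m →
        (p : ℂ) ^ d' * a = m' → d' ≤ d := by
      intro d d' m m' hm' h h'
      by_contra hlt
      obtain ⟨c, rfl⟩ := Nat.exists_eq_add_of_lt (not_le.1 hlt)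
      refine hm' ⟨p ^ c * m, ?_⟩
      have : (m' : ℂ) = p * (p ^ c * m) := by rw [← h, ← h']; ring
      exact_mod_cast this
    rintro d ⟨m, hm, h⟩ d' ⟨m', hm', h'⟩
    exact le_antisymm (h2 _ _ _ _ hm h' h) (h2 _ _ _ _ hm' h h')
  obtain ⟨N, hN⟩ := ((Set.finite_Iic k).biUnion fun n _ => Set.finite_iUnion fun i : Fin n =>
    (hA n i).biUnion fun a _ => (h1 a).finite).bddAbove
  refine ⟨N, fun G _ _ M hM hk => hN ?_⟩
  let e := (Finite.equivFin (principalBlock M G)).symm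
  simp only [Set.mem_iUnion]
  refine ⟨_, hk, e.symm ⟨_, hM.one_mem_principalBlock⟩, _, hA' _ _ G p M hM e (by rw [Equiv.apply_symm_apply]), ?_⟩
  obtain ⟨m, hm⟩ := exists_int_pow_mul_ip (p := p) (IrrCharacter.one G) (IrrCharacter.one G)
  have h2 := (vM_pow_mul_ip_one_eq_one_iff hM (IrrCharacter.one G)).2
    ⟨hM.one_mem_principalBlock, by
      have : charDegree (IrrCharacter.one G).1 = 1 := charDegree_eq_of_apply_one (by simp)
      rw [this]; exact hp.not_dvd_one⟩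
  refine ⟨m, fun h => ?_, hm⟩
  have h3 := (hM.vM_intCast_lt_one_iff m).2 h
  rw [← hm] at h3
  exact h3.ne h2

end Cfsg.Agent.S4823
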