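import Cfsg.Statements.S4825
import Cfsg.Agent.Blk.SubContrib
import Cfsg.Agent.Blk.PrinSec
import Cfsg.Agent.Char.CliffordBasic

set_option autoImplicit false
open Cfsg

namespace Cfsg.Agent.S4825

/-- Let p be a prime, G a finite group with Sylow p-subgroup P, M a maximal ideal of the algebraic integers containing p, and B a p-block of G with defect group P. Let N be a normal subgroup of G not containing P and θ an irreducible character of N. Then the number of irreducible characters in B of degree prime to p lying over θ (having θ as a constituent on restriction to N) is either 0 or at least 2, and when p ≤ 3 it is divisible by p. -/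
theorem result {G : Type*} [Group G] [Fintype G] (p : ℕ) [Fact p.Prime] (P : Sylow p G) (M : Ideal Cfsg.AlgInt) (hM : Cfsg.IsPModular p M) (B : Set (Cfsg.IrrCharacter G)) (hB : Cfsg.IsPBlock M B) (hBP : Cfsg.IsDefectGroup p M B P) (N : Subgroup G) [N.Normal] [Fintype N] (hPN : ¬ (P : Subgroup G) ≤ N) (θ : Cfsg.IrrCharacter N) :
    (Nat.card {χ : Cfsg.IrrCharacter G // χ ∈ B ∧ ¬ p ∣ Cfsg.charDegree (χ : G → ℂ) ∧ Cfsg.classInner (fun n : N => (χ : G → ℂ) n) (θ : N → ℂ) ≠ 0} = 0 ∨
      2 ≤ Nat.card {χ : Cfsg.IrrCharacter G // χ ∈ B ∧ ¬ p ∣ Cfsg.charDegree (χ : G → ℂ) ∧ Cfsg.classInner (fun n : N => (χ : G → ℂ) n) (θ : N → ℂ) ≠ 0}) ∧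
    (p ≤ 3 → p ∣ Nat.card {χ : Cfsg.IrrCharacter G // χ ∈ B ∧ ¬ p ∣ Cfsg.charDegree (χ : G → ℂ) ∧ Cfsg.classInner (fun n : N => (χ : G → ℂ) n) (θ : N → ℂ) ≠ 0}) := by
  classical
  have hp := hM.prime
  have := hM.charP
  obtain ⟨u, hu, huN⟩ := SetLike.not_le_iff_exists.1 hPN
  have hu' : IsPElt p u := isPElt_of_mem P.isPGroup' hu
  set S : Finset (IrrCharacter G) := {χ | χ ∈ B ∧ LiesOver N.subtype χ.1 θ.1} with hS
  have h1 := congrFun (hB.blockPart_indicator_pSection hM u (ind_isClassFunction N.subtype θ.1)) u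
  have h0 : (pSection p u).indicator (ind N.subtype θ.1) = 0 := funext fun g =>
    Set.indicator_apply_eq_zero.2 fun hg => by
      obtain ⟨x, hx⟩ := isConj_iff.1 hg
      exact ind_apply_eq_zero_of_normal _ _ N.range_subtype.le fun h =>
        huN (hx ▸ ‹N.Normal›.conj_mem _ (pPart_mem p h) x)
  rw [Set.indicator_of_mem (self_mem_pSection hu'), h0, blockPart_zero, blockPart_eq,
    finsum_mem_irr_eq_sum] at h1
  have h2 : ∑ χ ∈ S, (charDegree χ.1 : ℂ) * χ u = 0 := by
    rw [← mul_zero (((inertia N.subtype θ).index * charDegree θ.1 : ℕ) : ℂ), show (0 : ℂ) = _ from h1,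
      Finset.mul_sum, hS, ← Finset.filter_filter, Finset.sum_filter]
    refine Finset.sum_congr rfl fun χ _ => ?_
    rw [ip_ind_left _ _ χ.isClassFunction, θ.isCharacter.ip_comm (χ.isCharacter.comp _)]
    split_ifs with h
    · rw [h.charDegree_eq, ← (χ.isCharacter.comp _).ipNat_cast θ.isCharacter]
      push_cast; ring
    · rw [of_not_not h, zero_mul, mul_zero]
  have h3 : p ∣ ∑ χ ∈ S with ¬ p ∣ charDegree χ.1, charDegree χ.1 ^ 2 := by
    have h3 := congrArg (red M) h2
    rw [red_sum fun χ _ => mul_mem (natCast_mem _ _) (χ.mem_locO u), red_zero,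
      Finset.sum_congr rfl (g := fun χ => ((charDegree χ.1 ^ 2 : ℕ) : ResK M)), ← Nat.cast_sum,
      CharP.cast_eq_zero_iff _ p, ← Finset.sum_filter_add_sum_filter_not _ (p ∣ charDegree ·.1)] at h3
    · exact (Nat.dvd_add_right (Finset.dvd_sum fun χ h =>
        dvd_pow (Finset.mem_filter.1 h).2 two_ne_zero)).1 h3
    · intro χ _
      have := χ.isCharacter.isGen.red_mul_eq hM (Commute.one_right u) hu'
      rw [mul_one, χ.isCharacter.apply_one, red_natCast] at this
      rw [red_mul (natCast_mem _ _) (χ.mem_locO u), this, red_natCast, Nat.cast_pow, sq]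
  rw [Nat.card_eq_fintype_card, Fintype.card_subtype, show Finset.univ.filter _ =
    S.filter fun χ => ¬ p ∣ charDegree χ.1 by
      ext; simp only [hS, Finset.mem_filter, Finset.mem_univ, true_and, classInner_eq_ip, and_assoc]
      exact and_congr_right' and_comm]
  generalize hT : S.filter (fun χ => ¬ p ∣ charDegree χ.1) = T at h3
  have h4 : ∀ χ ∈ T, ¬ p ∣ charDegree χ.1 := fun χ h => by
    rw [← hT] at h; exact (Finset.mem_filter.1 h).2
  refine ⟨by_contra fun h => ?_, fun h => ?_⟩
  · obtain ⟨χ, rfl⟩ := Finset.card_eq_one.1 (show T.card = 1 by omega)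
    exact h4 χ (by simp) (hp.dvd_of_dvd_pow (by simpa using h3))
  · rw [Nat.dvd_iff_mod_eq_zero] at h3 ⊢
    rw [← h3, Finset.card_eq_sum_ones, Finset.sum_nat_mod, eq_comm, Finset.sum_nat_mod]
    congr 1
    refine Finset.sum_congr rfl fun χ hχ => ?_
    have h5 := h4 χ hχ
    have := hp.two_le
    rw [Nat.dvd_iff_mod_eq_zero] at h5
    rw [Nat.pow_mod]
    have h6 := Nat.mod_lt (charDegree χ.1) hp.pos
    generalize charDegree χ.1 % p = r at h5 h6
    interval_cases p <;> interval_cases r <;> simp at h5 ⊢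

end Cfsg.Agent.S4825
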