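import Cfsg.Statements.S4828
import Cfsg.Agent.Blk.Weight
-- import your own Cfsg.Agent.* helpers here

set_option autoImplicit false
open Cfsg

namespace Cfsg.Agent.S4828

open GA MonoidAlgebra

/-- Let p be a prime, M a maximal ideal of the algebraic integers containing p, and (Q, e) a Brauer pair of the finite group G (Q a p-subgroup, e a block of C_G(Q)). Then (Q, e) is a maximal Brauer pair of some block of G if and only if e contains an irreducible character θ such that θ takes the value θ(1) at every element of Z(Q) = Q ∩ C_G(Q), the p-part of θ(1) times the p-part of the order of Z(Q) equals the p-part of the order of C_G(Q) (θ has defect zero as a character of C_G(Q)/Z(Q)), and every element of N_G(Q) of p-power order that stabilizes e lies in Q·C_G(Q) (the stabilizer of e in N_G(Q) has index prime to p over Q·C_G(Q)). -/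
theorem result {G : Type*} [Group G] [Finite G] (p : ℕ) [Fact p.Prime] (M : Ideal Cfsg.AlgInt) (hM : Cfsg.IsPModular p M) (Q : Subgroup G) (e : Set (Cfsg.IrrCharacter (Subgroup.centralizer (Q : Set G)))) (he : Cfsg.IsBrauerPair p M Q e) :
    (∃ B : Set (Cfsg.IrrCharacter G), Cfsg.IsMaximalBrauerPair p M B Q e) ↔
      ∃ θ ∈ e, (∀ z : Subgroup.centralizer (Q : Set G), (z : G) ∈ Q → (θ : Subgroup.centralizer (Q : Set G) → ℂ) z = (θ : Subgroup.centralizer (Q : Set G) → ℂ) 1) ∧
        (Cfsg.charDegree (θ : Subgroup.centralizer (Q : Set G) → ℂ)).factorization p + (Nat.card ↥(Q ⊓ Subgroup.centralizer (Q : Set G))).factorization p = (Nat.card (Subgroup.centralizer (Q : Set G))).factorization p ∧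
        (∀ g : G, g ∈ Subgroup.normalizer (Q : Set G) → Cfsg.StabilizesBlock (Subgroup.centralizer (Q : Set G)) e g → (∃ k : ℕ, orderOf g = p ^ k) → g ∈ Q ⊔ Subgroup.centralizer (Q : Set G)) := by
  have := hM.charP
  have hp := he.isBPair hM
  have hQ := hp.isPGroup
  have hb : IsPBlock M e := he.2
  have hI := hp.isInertial_stab
  have hQT : Q ≤ Subgroup.normalizer (Q : Set G) ⊓ cjStab (subIdem M _ e) :=
    le_inf Subgroup.le_normalizer
      (mem_fixedBy_iff_le.1 (suppIn_centralizer_le_fixedBy Q hp.block.mem.1))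
  have hst : ∀ g ∈ Subgroup.normalizer (Q : Set G), StabilizesBlock _ e g ↔
      g ∈ Subgroup.normalizer (Q : Set G) ⊓ cjStab (subIdem M _ e) := fun g hg => by
    rw [hb.stabilizesBlock_iff hM]
    exact ⟨fun h => ⟨hg, h.2⟩, fun h => ⟨normalizer_le_normalizer_centralizer' Q hg, h.2⟩⟩
  constructor
  · rintro ⟨B, hB⟩
    have hD := (hB.isMaxPair hM).isDefGrp_stab
    obtain ⟨θ, h1, h2, h3⟩ := (hb.isDefGrp_center_iff hQ hM).1 (hI.isDefGrp_inf_centralizer hD)
    refine ⟨θ, h1, h2, h3, fun g hg hs ⟨n, hn⟩ => ?_⟩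
    refine mem_of_not_dvd_relIndex ?_ (hI.not_dvd_relIndex hD) ((hst g hg).1 hs)
      (hn ▸ pow_orderOf_eq_one g)
    exact inf_le_left.trans ((le_inf le_rfl (normalizer_le_normalizer_centralizer' Q)).trans
      (normalizer_inf_le_sup _ _))
  · rintro ⟨θ, h1, h2, h3, h4⟩
    have hZ := (hb.isDefGrp_center_iff hQ hM).2 ⟨θ, h1, h2, h3⟩
    obtain ⟨D, hD⟩ := hI.exists_isDefGrp
    have hQD : Q ≤ D := (le_inf le_rfl hQT).trans (hI.le_of_isDefGrp hD)
    have h5 := hZ.eq_of_le (inf_le_inf_right _ hQD) inf_le_right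
      (hD.isPGroup.to_inf_left) (hI.isDefGrp_inf_centralizer hD).br_ne_zero
    have h6 : D ≤ Q := by
      intro g hg
      obtain ⟨n, hn⟩ := IsPGroup.iff_orderOf.1 hD.isPGroup ⟨g, hg⟩
      have h7 := h4 g (hD.le hg).1 ((hst g (hD.le hg).1).2 (hD.le hg))
        ⟨n, by rwa [← Subgroup.orderOf_coe] at hn⟩
      rw [← SetLike.mem_coe, Subgroup.coe_mul_of_left_le_normalizer_right _ _
        (Subgroup.le_normalizer.trans (normalizer_le_normalizer_centralizer' Q))] at h7
      obtain ⟨u, hu, c, hc, rfl⟩ := h7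
      have h8 : c ∈ D ⊓ Subgroup.centralizer (Q : Set G) :=
        ⟨(D.mul_mem_cancel_left (hQD hu)).1 hg, hc⟩
      rw [h5] at h8
      exact Q.mul_mem hu h8.1
    obtain ⟨b, hb'⟩ := hp.exists_isPairOf
    obtain ⟨B, hB, rfl⟩ := hM.exists_block_of_isBlockIdem hb'.block
    exact ⟨B, (isMaximalBrauerPair_iff hM).2 ⟨hB, hb,
      hb'.isMaxPair_of_isDefGrp_stab (le_antisymm h6 hQD ▸ hD)⟩⟩

end Cfsg.Agent.S4828
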