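import Cfsg.Statements.S4838
import Cfsg.Agent.Char.Gagola
-- import your own Cfsg.Agent.* helpers here

set_option autoImplicit false
open Cfsg

namespace Cfsg.Agent.S4838

theorem index_centralizer_le {P : Type*} [Group P] [Finite P] (Z : Subgroup P) (z : P)
    (h : ∀ y : P, z * y * z⁻¹ * y⁻¹ ∈ Z) :
    (Subgroup.centralizer ({z} : Set P)).index ≤ Nat.card Z := by
  rw [← card_isConj_eq_index]
  refine Nat.card_le_card_of_injective (fun x => ⟨z * x.1⁻¹, ?_⟩) fun a b hab => ?_
  · obtain ⟨y, hy⟩ := isConj_iff.1 x.2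
    rw [← hy]
    simpa [mul_assoc] using h y
  · simpa [Subtype.ext_iff] using hab

/-- Let G be a finite group of order greater than 2 with an irreducible character χ nonzero on exactly two conjugacy classes, N the normal p-subgroup of elements where χ is nonzero, and P a Sylow p-subgroup of G. Then (a) for every x outside N the centralizer of x in G has the same order as the centralizer of xN in G/N; (b) the centre of P lies in N, and equals N exactly when P is normal in G; (c) N, viewed inside P, is a term of the upper central series of P. -/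
theorem result {G : Type*} [Group G] [Finite G] (hG : 2 < Nat.card G) (χ : Cfsg.IrrCharacter G) (hχ : Nat.card {C : ConjClasses G // ∃ g ∈ C.carrier, (χ : G → ℂ) g ≠ 0} = 2) (p : ℕ) [Fact p.Prime] (N : Subgroup G) [N.Normal] (hN : ∀ g : G, g ∈ N ↔ (χ : G → ℂ) g ≠ 0) (hNp : IsPGroup p N) (hN1 : N ≠ ⊥) (P : Sylow p G) :
    (∀ x : G, x ∉ N → Nat.card (Subgroup.centralizer ({x} : Set G)) = Nat.card (Subgroup.centralizer ({(x : G ⧸ N)} : Set (G ⧸ N)))) ∧
      ((Subgroup.center ↥(P : Subgroup G)).map (P : Subgroup G).subtype ≤ N ∧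
        ((Subgroup.center ↥(P : Subgroup G)).map (P : Subgroup G).subtype = N ↔ (P : Subgroup G).Normal)) ∧
      (∃ i : ℕ, Subgroup.upperCentralSeries ↥(P : Subgroup G) i = N.subgroupOf (P : Subgroup G)) := by
  have h := IsGagola.of_forall_mem hG hχ hN
  have hNP : N ≤ P := hNp.le_sylow_of_normal P
  have hN2 : 1 < Nat.card N := (Subgroup.one_lt_card_iff_ne_bot N).2 hN1
  have key : ∀ (Z : Subgroup (P : Subgroup G)) (z : (P : Subgroup G)),
      (∀ y, z * y * z⁻¹ * y⁻¹ ∈ Z) → Nat.card Z < Nat.card N → (z : G) ∈ N := by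
    intro Z z hz hlt
    by_contra hzN
    have h1 := index_centralizer_le Z z hz
    have h2 := h.card_mul_card_le hNp P hzN
      (Q := (Subgroup.centralizer ({z} : Set (P : Subgroup G))).map (P : Subgroup G).subtype)
      ((P.isPGroup'.to_subgroup _).map _) (by
        rintro _ ⟨y, hy, rfl⟩
        rw [SetLike.mem_coe, Subgroup.mem_centralizer_singleton_iff] at hy
        rw [Subgroup.mem_centralizer_singleton_iff]
        exact congrArg Subtype.val hy)
    rw [Subgroup.card_map_of_injective (Subgroup.subtype_injective _),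
      ← (Subgroup.centralizer ({z} : Set (P : Subgroup G))).card_mul_index] at h2
    have := Nat.le_of_mul_le_mul_left h2 Nat.card_pos
    omega
  have hZ : (Subgroup.center ↥(P : Subgroup G)).map (P : Subgroup G).subtype ≤ N := by
    rintro _ ⟨z, hz, rfl⟩
    refine key ⊥ z (fun y => ?_) (by simpa using hN2)
    rw [← Subgroup.mem_center_iff.1 hz y]
    simp
  refine ⟨fun x hx => h.card_centralizer_eq hx, ⟨hZ, fun hZ' => ?_, fun hP => ?_⟩, ?_⟩
  · obtain ⟨x, hx, hx1⟩ := h.exists_ne_one
    have h1 : (P : Subgroup G) ≤ Subgroup.centralizer (N : Set G) := by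
      intro y hy n hn
      rw [← hZ'] at hn
      obtain ⟨z, hz, rfl⟩ := hn
      exact (congrArg Subtype.val (Subgroup.mem_center_iff.1 hz ⟨y, hy⟩)).symm
    have h2 : IsPGroup p (Subgroup.centralizer (N : Set G)) :=
      (h.isPGroup_centralizer hNp hx hx1).to_le
        (Subgroup.centralizer_le (Set.singleton_subset_iff.2 hx))
    rw [← P.is_maximal' h2 h1]
    infer_instance
  · refine le_antisymm hZ (h.le_of_normal _ ?_)
    have : Nontrivial (P : Subgroup G) :=
      (Subgroup.nontrivial_iff_ne_bot _).2 fun h' => hN1 (le_bot_iff.1 (h' ▸ hNP))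
    rw [Ne, Subgroup.map_eq_bot_iff_of_injective _ (Subgroup.subtype_injective _)]
    exact (Subgroup.nontrivial_iff_ne_bot _).1 P.isPGroup'.center_nontrivial
  · have h1 : ∀ i, Subgroup.upperCentralSeries (P : Subgroup G) i ≤ N.subgroupOf P ∨
        ∃ j, Subgroup.upperCentralSeries (P : Subgroup G) j = N.subgroupOf P := by
      intro i
      induction i with
      | zero => exact Or.inl bot_le
      | succ i ih =>
        rcases ih with ih | ih
        · by_cases h2 : Subgroup.upperCentralSeries (P : Subgroup G) i = N.subgroupOf P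
          · exact Or.inr ⟨i, h2⟩
          refine Or.inl fun z hz => key _ z (Subgroup.mem_upperCentralSeries_succ_iff.1 hz) ?_
          rw [← Nat.card_congr (Subgroup.subgroupOfEquivOfLe hNP).toEquiv]
          exact lt_of_le_of_ne (Subgroup.card_le_of_le ih)
            fun h4 => h2 (Subgroup.eq_of_le_of_card_ge ih h4.ge)
        · exact Or.inr ih
    have := P.isPGroup'.isNilpotent
    obtain ⟨n, hn⟩ := Group.IsNilpotent.nilpotent' (G := (P : Subgroup G))
    rcases h1 n with h2 | h2
    · exact ⟨n, le_antisymm h2 (hn ▸ le_top)⟩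
    · exact h2

end Cfsg.Agent.S4838
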