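import Cfsg.Statements.S4839
import Cfsg.Agent.Char.Gagola
import Cfsg.Agent.Grp.BaerSuzuki
import Cfsg.Agent.Grp.Frattini
import Cfsg.Agent.Grp.Misc

set_option autoImplicit false
open Cfsg

namespace Cfsg.Agent.S4839

open Subgroup
open scoped Pointwise

section
variable {G : Type*} [Group G] [Finite G] {χ : IrrCharacter G} {N : Subgroup G} [N.Normal]
  {p : ℕ} [hp : Fact p.Prime]

theorem cent_le (h : IsGagola χ N) (hN : N = pCore p G) : centralizer (N : Set G) ≤ N := by
  obtain ⟨x, hx, hx1⟩ := h.exists_ne_one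
  exact (le_pCore ((h.isPGroup_centralizer (hN ▸ isPGroup_pCore p G) hx hx1).to_le
    (centralizer_le (Set.singleton_subset_iff.2 hx)))).trans hN.ge

theorem case_two (h : IsGagola χ N) (hN : N = pCore 2 G) {s : G} (hs : s * s ∈ N) : s ∈ N := by
  have hN2 : IsPGroup 2 N := hN ▸ isPGroup_pCore 2 G
  have := h.isMulCommutative
  have hc : ∀ a ∈ N, ∀ b ∈ N, a * b = b * a := isMulCommutative_iff_forall.1 this
  have h2 : ∀ a ∈ N, a * a = 1 := by
    obtain ⟨q, hq, h1⟩ := h.exists_prime
    obtain ⟨x, hx, hx1⟩ := h.exists_ne_one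
    have : Fact q.Prime := ⟨hq⟩
    obtain rfl : q = 2 := IsPGroup.eq_of_prime_dvd_card' hN2 hq
      (orderOf_eq_prime (h1 x hx) hx1 ▸ orderOf_dvd_natCard N hx)
    exact fun a ha => pow_two a ▸ h1 a ha
  by_contra hsN
  refine hsN (hN ▸ mem_pCore_of_forall_conj fun g => ?_)
  by_contra hcon
  have h3 : (N ⊓ centralizer {s}) ⊓ (N ⊓ centralizer {g * s * g⁻¹}) = ⊥ := by
    by_contra h3
    obtain ⟨v, ⟨hv1, -, hv2⟩, hv⟩ := (bot_or_exists_ne_one _).resolve_left h3
    exact hcon ⟨_, h.isPGroup_centralizer hN2 hv1.1 hv,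
      mem_centralizer_singleton_iff.2 (hv1.2 s rfl), mem_centralizer_singleton_iff.2 (hv2 _ rfl)⟩
  have h4 : Nat.card (N ⊓ centralizer {s} : Subgroup G) * Nat.card (N ⊓ centralizer {s} : Subgroup G)
      ≤ Nat.card N := by
    have h4 := card_sup_of_le_normalizer_of_disjoint (fun a ha => centralizer_le_normalizer _
      fun b hb => (hc a (mem_inf.1 ha).1 b (mem_inf.1 hb).1).symm) h3
    have h5 : N ⊓ centralizer {g * s * g⁻¹} =
        (N ⊓ centralizer {s}).map (MulAut.conj g).toMonoidHom := by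
      rw [map_conj_inf, centralizer_singleton_conj, map_conj_eq_of_normal g N]
    have h6 := card_le_of_le (sup_le (inf_le_left (b := centralizer {s}))
      (inf_le_left (a := N) (b := centralizer {g * s * g⁻¹})))
    rwa [h4, h5, card_map_conj] at h6
  have hm : ∀ v ∈ N, s⁻¹ * v * s ∈ N := fun v hv => Normal.conj_mem' inferInstance v hv s
  let φ : N →* G :=
    { toFun := fun v => s⁻¹ * v * s * v
      map_one' := by simp
      map_mul' := fun v w => by
        have := hc _ (hm w w.2) v v.2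
        calc _ = s⁻¹ * v * s * (s⁻¹ * w * s * v) * w := by simp only [coe_mul]; group
          _ = _ := by rw [this]; group }
  have h5 : φ.ker.map N.subtype ≤ N ⊓ centralizer {s} := by
    rintro _ ⟨v, hv, rfl⟩
    refine ⟨v.2, mem_centralizer_singleton_iff.2 ?_⟩
    have h5 : s⁻¹ * v * s * v = v * v := (MonoidHom.mem_ker.1 hv).trans (h2 v v.2).symm
    rw [coe_subtype]
    nth_rewrite 2 [← mul_right_cancel h5]
    group
  have h6 : φ.range ≤ N ⊓ centralizer {s} := by
    rintro _ ⟨v, rfl⟩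
    refine ⟨mul_mem (hm v v.2) v.2, mem_centralizer_singleton_iff.2 ?_⟩
    change s⁻¹ * v * s * v * s = s * (s⁻¹ * v * s * v)
    calc _ = s⁻¹ * ((v * (s * s)) * (s⁻¹ * v * s)) := by group
      _ = s⁻¹ * ((s * s) * (v * (s⁻¹ * v * s))) := by rw [hc _ v.2 _ hs]; group
      _ = _ := by rw [hc _ v.2 _ (hm v v.2)]; group
  have h7 : φ.range = N ⊓ centralizer {s} := by
    refine eq_of_le_of_card_ge h6 (Nat.le_of_mul_le_mul_left (h4.trans ?_) Nat.card_pos)
    rw [← φ.ker.card_mul_index, index_ker, ← card_map_subtype]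
    exact Nat.mul_le_mul_right _ (card_le_of_le h5)
  obtain ⟨v, hv⟩ := h7.ge (mem_inf.2 ⟨hs, mem_centralizer_singleton_iff.2 (by group)⟩)
  have h8 : s * v * (s * v) = 1 := by
    rw [← h2 _ hs]
    nth_rewrite 2 [← hv]
    change _ = s * s * (s⁻¹ * v * s * v)
    group
  have h9 : s * v ∉ N := fun e => hsN ((mul_mem_cancel_right v.2).1 e)
  refine h9 (cent_le h hN fun w hw => ?_)
  obtain ⟨c, hc⟩ := isConj_iff.1 (h.isConj_mul h9 hw)
  have h10 : s * v * w * (s * v * w) = 1 := by
    rw [← hc]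
    calc _ = c * (s * v * (s * v)) * c⁻¹ := by group
      _ = 1 := by rw [h8]; group
  calc w * (s * v) = (s * v * (s * v)) * w * (s * v) * (w * w) := by rw [h8, h2 w hw]; group
    _ = s * v * (s * v * w * (s * v * w)) * w := by group
    _ = _ := by rw [h10, mul_one]

theorem case_odd (h : IsGagola χ N) (hN : N = pCore p G) (hp2 : p ≠ 2) {x : G} (hx : x ∈ N)
    (hx1 : x ≠ 1) : centralizer {x} ≤ N := by
  have hNp : IsPGroup p N := hN ▸ isPGroup_pCore p G
  have := h.isMulCommutative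
  have hc : ∀ a ∈ N, ∀ b ∈ N, a * b = b * a := isMulCommutative_iff_forall.1 this
  have hodd : ∀ Q : Subgroup G, IsPGroup p Q → Odd (Nat.card Q) := fun Q hQ => by
    obtain ⟨k, hk⟩ := hQ.exists_card_eq
    exact hk ▸ (hp.out.odd_of_ne_two hp2).pow
  obtain ⟨t, ht⟩ := exists_prime_orderOf_dvd_card' (G := G) 2 (by
    refine Dvd.dvd.trans ?_ (centralizer {x}).index_dvd_card
    have := h.index_centralizer_add_one hx hx1
    obtain ⟨k, hk⟩ := hodd N hNp
    omega)
  have tt : t * t = 1 := by rw [← pow_two, ← ht, pow_orderOf_eq_one]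
  have it : t⁻¹ = t := inv_eq_of_mul_eq_one_right tt
  have h1 : ∀ v ∈ N, t * v = v * t → v = 1 := fun v hv e => by
    by_contra h1
    exact (Nat.not_even_iff_odd.2 (hodd _ (h.isPGroup_centralizer hNp hv h1))) (even_iff_two_dvd.2
      (ht ▸ orderOf_dvd_natCard _ (mem_centralizer_singleton_iff.2 e)))
  have h2 : ∀ v ∈ N, t * v * t = v⁻¹ := fun v hv => by
    have h2 : t * v * t ∈ N := by simpa [it] using Normal.conj_mem inferInstance v hv t
    refine eq_inv_of_mul_eq_one_left (h1 _ (mul_mem h2 hv) ?_)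
    calc _ = (t * t) * (v * (t * v * t)) * t * (t * t)⁻¹ := by group
      _ = _ := by rw [tt, hc _ hv _ h2]; group
  have h3 : ∀ g : G, ∃ v ∈ N, t * (v⁻¹ * g) = v⁻¹ * g * t := fun g => by
    have h3 : t * (g * t * g⁻¹) ∈ N := cent_le h hN fun w hw => by
      have e := h2 _ (Normal.conj_mem' inferInstance w hw g)
      calc _ = (t * t) * w * (t * (g * t * g⁻¹)) := by rw [tt, one_mul]
        _ = t * (t * w * t) * (g * t * g⁻¹) := by group
        _ = t * w⁻¹ * (g * t * g⁻¹) := by rw [h2 w hw]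
        _ = t * (g * (t * (g⁻¹ * w * g) * t) * g⁻¹) * (g * t * g⁻¹) := by rw [e]; group
        _ = t * (g * t * g⁻¹) * w * (g * (t * t) * g⁻¹) := by group
        _ = _ := by rw [tt]; group
    obtain ⟨k, hk⟩ := hodd N hNp
    set n := t * (g * t * g⁻¹)
    have h4 : n ^ k * n ^ k * n = 1 := by
      rw [← pow_add, ← pow_succ, ← two_mul, ← hk]
      exact congrArg Subtype.val (pow_card_eq_one' (x := (⟨n, h3⟩ : N)))
    refine ⟨n ^ k, pow_mem h3 k, ?_⟩
    have h5 := h2 _ (inv_mem (pow_mem h3 k))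
    calc _ = (t * (n ^ k)⁻¹ * t) * t⁻¹ * g := by group
      _ = (n ^ k)⁻¹ * (n ^ k * n ^ k * n) * n⁻¹ * t⁻¹ * g := by rw [h5]; group
      _ = (n ^ k)⁻¹ * g * t⁻¹ * g⁻¹ * (t * t)⁻¹ * g := by rw [h4]; simp only [n]; group
      _ = _ := by rw [tt, it]; group
  intro s hs
  by_contra hsN
  obtain ⟨v, hv, e1⟩ := h3 s
  set r := v⁻¹ * s with hr
  have hrN : r ∉ N := fun e => hsN ((mul_mem_cancel_left (inv_mem hv)).1 e)
  have hrx : r * x = x * r := mem_centralizer_singleton_iff.1
    (mul_mem (mem_centralizer_singleton_iff.2 (hc _ (inv_mem hv) x hx)) hs)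
  have hm : ∀ u : N, r⁻¹ * u * r * (u : G)⁻¹ ∈ N := fun u =>
    mul_mem (Normal.conj_mem' inferInstance _ u.2 r) (inv_mem u.2)
  have h4 : Function.Surjective fun u : N => (⟨_, hm u⟩ : N) := fun w => by
    obtain ⟨y, hy⟩ := isConj_iff.1 (h.isConj_mul hrN w.2)
    obtain ⟨u, hu, e2⟩ := h3 y
    set k := u⁻¹ * y with hk
    have h4 : k * r * k⁻¹ * r⁻¹ = 1 := by
      refine h1 _ ?_ (((Commute.mul_right e2 e1).mul_right (Commute.inv_right e2)).mul_right
        (Commute.inv_right e1))
      convert mul_mem (inv_mem hu) (Normal.conj_mem inferInstance _ (mul_mem w.2 hu) r) using 1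
      calc _ = u⁻¹ * (y * r * y⁻¹) * u * r⁻¹ := by rw [hk]; group
        _ = _ := by rw [hy]; group
    refine ⟨⟨u, hu⟩, Subtype.ext ?_⟩
    calc r⁻¹ * u * r * u⁻¹ = r⁻¹ * u * (k * r * k⁻¹ * r⁻¹) * r * u⁻¹ := by rw [h4, mul_one]
      _ = r⁻¹ * (y * r * y⁻¹) := by rw [hk]; group
      _ = w := by rw [hy]; group
  refine hx1 (congrArg Subtype.val (Finite.injective_iff_surjective.2 h4 (a₁ := ⟨x, hx⟩) (a₂ := 1)
    (Subtype.ext ?_)))
  simp [mul_assoc, ← hrx]

theorem centralizer_le' (h : IsGagola χ N) (hN : N = pCore p G) {x : G} (hx : x ∈ N)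
    (hx1 : x ≠ 1) : centralizer {x} ≤ N := by
  by_cases hp2 : p = 2
  swap
  · exact case_odd h hN hp2 hx hx1
  subst hp2
  intro s hs
  obtain ⟨k, hk⟩ := h.isPGroup_centralizer (hN ▸ isPGroup_pCore 2 G) hx hx1 ⟨s, hs⟩
  have h1 : s ^ 2 ^ k ∈ N := (show s ^ 2 ^ k = 1 from congrArg Subtype.val hk) ▸ one_mem N
  clear hk
  induction k with
  | zero => simpa using h1
  | succ k ih => exact ih (case_two h hN (by rwa [pow_succ, pow_mul, pow_two] at h1))

end

/-- Let G be a finite group of order greater than 2 with an irreducible character χ nonzero on exactly two conjugacy classes, and let N be the normal p-subgroup of elements where χ is nonzero. Then N is the whole p-core O_p(G) if and only if G is a doubly transitive Frobenius group with kernel N: G has a Frobenius complement H whose Frobenius kernel is N and whose order is one less than that of N. -/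
theorem result {G : Type*} [Group G] [Finite G] (hG : 2 < Nat.card G) (χ : Cfsg.IrrCharacter G) (hχ : Nat.card {C : ConjClasses G // ∃ g ∈ C.carrier, (χ : G → ℂ) g ≠ 0} = 2) (p : ℕ) [Fact p.Prime] (N : Subgroup G) [N.Normal] (hN : ∀ g : G, g ∈ N ↔ (χ : G → ℂ) g ≠ 0) (hNp : IsPGroup p N) (hN1 : N ≠ ⊥) :
    N = Cfsg.pCore p G ↔ ∃ H : Subgroup G, Cfsg.IsFrobeniusComplement H ∧ Cfsg.frobeniusKernel H = (N : Set G) ∧ Nat.card H + 1 = Nat.card N := by
  have h := IsGagola.of_forall_mem hG hχ hN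
  have hp : p.Prime := Fact.out
  constructor
  · intro h0
    have hC := fun x => centralizer_le' h h0 (x := x)
    obtain ⟨x, hx, hx1⟩ := h.exists_ne_one
    have h1 : centralizer {x} = N := le_antisymm (hC x hx hx1) fun y hy =>
      mem_centralizer_singleton_iff.2 (isMulCommutative_iff_forall.1 h.isMulCommutative y hy x hx)
    have h2 := h.index_centralizer_add_one hx hx1
    have h3 := h.not_dvd_index_centralizer hNp hx hx1
    rw [h1] at h2 h3
    have h4 := IsPGroup.coprime_card_of_not_dvd hNp h3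
    obtain ⟨H, h5, h6, h7⟩ := exists_complement_of_coprime h4
    have h8 : ∀ g : G, ∀ y ∈ N, y ∈ MulAut.conj g • H → y = 1 := fun g y hy e => by
      rw [conj_smul_eq_map, mem_map_conj] at e
      have : g⁻¹ * y * g ∈ N ⊓ H := ⟨Normal.conj_mem' inferInstance y hy g, e⟩
      rw [h5, mem_bot] at this
      calc y = g * (g⁻¹ * y * g) * g⁻¹ := by group
        _ = 1 := by rw [this]; group
    refine ⟨H, ⟨fun e => ?_, fun e => hN1 (by simpa [e] using h5), fun g hg => ?_⟩, ?_, h7 ▸ h2⟩
    · rw [e, card_bot] at h7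
      rw [← N.card_mul_index, ← h2, ← h7] at hG
      omega
    · obtain ⟨a, ha, n, hn, rfl⟩ := mem_sup_of_normal_right.1 (h6.ge (mem_top g))
      refine eq_bot_iff.2 fun y hy => ?_
      have h9 := hy.2
      rw [conj_smul_eq_map] at h9
      have h10 : a⁻¹ * y * a ∈ H := mul_mem (mul_mem (inv_mem ha) hy.1) ha
      have h11 : (a⁻¹ * y * a)⁻¹ * ((a * n)⁻¹ * y * (a * n)) ∈ N ⊓ H :=
        mem_inf.2 ⟨by convert mul_mem (Normal.conj_mem' inferInstance _ (inv_mem hn) (a⁻¹ * y * a)) hn
              using 1; group, mul_mem (inv_mem h10) (mem_map_conj.1 h9)⟩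
      rw [h5, mem_bot] at h11
      have h12 : a⁻¹ * y * a ∈ N ⊓ H := ⟨hC n hn (fun e => hg (by simpa [e] using ha))
        (mem_centralizer_singleton_iff.2 (by
          calc _ = n * (a⁻¹ * y * a) * ((a⁻¹ * y * a)⁻¹ * ((a * n)⁻¹ * y * (a * n))) := by
                group
            _ = _ := by rw [h11, mul_one])), h10⟩
      rw [h5, mem_bot] at h12
      calc y = a * (a⁻¹ * y * a) * a⁻¹ := by group
        _ = 1 := by rw [h12]; group
    · ext y
      constructor
      · rintro (rfl | hy)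
        · exact one_mem N
        by_contra h9
        have h10 : (Nat.card N).Coprime (Nat.card (zpowers y)) := by
          refine IsPGroup.coprime_card_of_not_dvd hNp fun e => ?_
          obtain ⟨z, hz, hz'⟩ := exists_mem_orderOf_eq_prime e
          have h11 : z ∈ N := mem_of_coprime_orderOf_index (hz' ▸ hp.coprime_iff_not_dvd.2 h3)
          obtain ⟨k, rfl⟩ := hz
          refine h9 (hC _ h11 (fun e => hp.one_lt.ne' (by rw [← hz', e, orderOf_one]))
            (mem_centralizer_singleton_iff.2 ((Commute.refl y).zpow_right k)))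
        obtain ⟨n, -, h11⟩ := exists_map_conj_le_of_coprime (h7 ▸ h4) h10 (h6 ▸ le_top)
          (Or.inl (isSolvable_of_isPGroup hNp))
        refine hy n⁻¹ ?_
        rw [conj_smul_eq_map, mem_map_conj, inv_inv]
        exact h11 (conj_mem_map_conj.2 (mem_zpowers y))
      · intro hy
        by_cases h9 : y = 1
        · exact Or.inl h9
        · exact Or.inr fun g e => h9 (h8 g y hy e)
  · rintro ⟨H, -, h1, h2⟩
    refine le_antisymm (le_pCore hNp) fun y hy => ?_
    by_contra h3
    rw [← SetLike.mem_coe, ← h1] at h3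
    obtain ⟨h4, h5⟩ := not_or.1 h3
    obtain ⟨g, h5⟩ := not_forall.1 h5
    have h6 := orderOf_dvd_natCard _ (not_not.1 h5)
    rw [conj_smul_eq_map, card_map_conj] at h6
    have h7 := (dvd_card_of_isPGroup_of_ne_bot ((isPGroup_pCore p G).to_le (zpowers_le.2 hy))
      (zpowers_ne_bot.2 h4)).trans (Nat.card_zpowers y ▸ h6)
    exact hp.one_lt.ne' (Nat.dvd_one.1 ((Nat.dvd_add_right h7).1 (h2 ▸ h.dvd_card hNp)))

end Cfsg.Agent.S4839
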