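import Cfsg.Statements.S4840
import Cfsg.Agent.Char.Gagola
import Cfsg.Agent.Grp.Frattini
import Cfsg.Agent.Grp.Misc
import Cfsg.Agent.Grp.MinAct

set_option autoImplicit false
open Cfsg

namespace Cfsg.Agent.S4840

open Subgroup
open scoped commutatorElement

section
variable {H : Type*} [Group H] [Finite H] {V : Type*} [AddCommGroup V] [Finite V]
  [DistribMulAction H V] {p : ℕ} [hp : Fact p.Prime]

omit [Finite H] in
theorem pow_mul_eq {a b c : H} (h : b * a = a * b * c) (hb : Commute c b) (n : ℕ) :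
    b ^ n * a = a * b ^ n * c ^ n := by
  induction n with
  | zero => simp
  | succ n ih =>
    rw [pow_succ', mul_assoc, ih, ← mul_assoc, ← mul_assoc, h, pow_succ' c, mul_assoc (a * b),
      (hb.pow_right n).eq]
    simp only [mul_assoc]

omit [Finite H] in
theorem mul_pow_eq {a b c : H} (h : b * a = a * b * c) (ha : Commute c a) (hb : Commute c b)
    (n : ℕ) : (a * b) ^ n = a ^ n * b ^ n * c ^ n.choose 2 := by
  have h1 := pow_mul_eq h hb
  induction n with
  | zero => simp
  | succ n ih =>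
    rw [pow_succ, ih, Nat.choose_succ_succ' n 1, Nat.choose_one_right, pow_add c, mul_assoc,
      ((ha.mul_right hb).pow_left _).eq, ← mul_assoc, ← mul_assoc, mul_assoc (a ^ n), h1,
      pow_succ a n, pow_succ b n]
    simp only [mul_assoc]
    rw [← mul_assoc (c ^ n), (hb.pow_left n).eq, mul_assoc]

omit [Finite H] [Finite V] in
theorem mem_zpowers_of_commute (hV : ∀ v : V, p • v = 0) [Nontrivial V]
    (hfix : ∀ (h : H) (v : V), v ≠ 0 → h • v = v → IsPElt p h) {q : ℕ} [hq : Fact q.Prime]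
    (hqp : q ≠ p) {a b : H} (hab : Commute a b) (ha : a ^ q = 1) (hb : b ^ q = 1) (hb1 : b ≠ 1) :
    a ∈ zpowers b := by
  have hN : ∀ g : H, g ^ q = 1 → g ≠ 1 → ∀ v : V, ∑ k ∈ Finset.range q, g ^ k • v = 0 := by
    intro g hg hg1 v
    by_contra h
    have h1 : g • ∑ k ∈ Finset.range q, g ^ k • v = ∑ k ∈ Finset.range q, g ^ k • v := by
      simp only [Finset.smul_sum, ← mul_smul, ← pow_succ']
      have := Finset.sum_range_succ' (fun k => g ^ k • v) q
      rw [Finset.sum_range_succ, hg, pow_zero] at this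
      exact (add_right_cancel this).symm
    refine hg1 ((hfix g _ h h1).eq_one_of_isPRegular fun h2 => hqp ?_)
    rw [orderOf_eq_prime hg hg1] at h2
    exact ((Nat.prime_dvd_prime_iff_eq hp.out hq.out).1 h2).symm
  by_contra h
  obtain ⟨v, hv⟩ := exists_ne (0 : V)
  have h1 : ∑ j ∈ Finset.range q, ∑ k ∈ Finset.range q, (a * b ^ j) ^ k • v = 0 :=
    Finset.sum_eq_zero fun j _ => hN _
      (by rw [(hab.pow_right j).mul_pow, ha, ← pow_mul, mul_comm j, pow_mul, hb, one_pow, one_mul])
      (fun h2 => h (by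
        rw [eq_inv_of_mul_eq_one_left h2]
        exact inv_mem (npow_mem_zpowers b j))) v
  rw [Finset.sum_comm, Finset.sum_eq_single_of_mem 0 (Finset.mem_range.2 hq.out.pos)] at h1
  · simp only [pow_zero, one_smul, Finset.sum_const, Finset.card_range] at h1
    refine hv ?_
    have := (Nat.coprime_primes hq.out hp.out).2 hqp
    rw [← AddMonoid.addOrderOf_eq_one_iff]
    exact Nat.eq_one_of_dvd_coprimes this (addOrderOf_dvd_of_nsmul_eq_zero h1)
      (addOrderOf_dvd_of_nsmul_eq_zero (hV v))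
  · intro k hk hk0
    have h2 := hN (b ^ k) (by rw [← pow_mul, mul_comm, pow_mul, hb, one_pow])
      (pow_ne_one_of_lt_orderOf hk0 (by rw [orderOf_eq_prime hb hb1]; exact Finset.mem_range.1 hk))
      v
    calc _ = a ^ k • ∑ j ∈ Finset.range q, (b ^ k) ^ j • v := by
          rw [Finset.smul_sum]
          refine Finset.sum_congr rfl fun j _ => ?_
          rw [(hab.pow_right j).mul_pow, mul_smul, ← pow_mul, ← pow_mul, mul_comm j]
      _ = 0 := by rw [h2, smul_zero]

omit [Finite H] in
theorem exists_half (hV : ∀ v : V, 3 • v = 0) [Nontrivial V] {i j z : H}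
    (hz : ∀ v : V, z • v = -v) (hi : i * i = z) (hj : j * j = z) (hij : j * i = i * j * z) :
    ∃ U : AddSubgroup V, U ≠ ⊥ ∧ Nat.card U * Nat.card U ≤ Nat.card V ∧
      ∀ d : H, Commute d i → Commute d j → ∀ u ∈ U, d • u ∈ U := by
  have h2 : ∀ v : V, v = -v → v = 0 := fun v h => by
    have := hV v
    rw [succ_nsmul, two_nsmul] at this
    nth_rewrite 1 [h] at this
    simpa using this
  have a1 : ∀ v : V, i • i • v = -v := fun v => by rw [← mul_smul, hi, hz]
  have a2 : ∀ v : V, j • j • v = -v := fun v => by rw [← mul_smul, hj, hz]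
  have a3 : ∀ v : V, j • i • v = -(i • j • v) := fun v => by
    rw [← mul_smul, hij, mul_smul, mul_smul, hz, smul_neg, smul_neg]
  let U : AddSubgroup V :=
    { carrier := {v | i • v + j • v = v}
      add_mem' := fun {a b} ha hb => by
        simp only [Set.mem_setOf_eq, smul_add] at ha hb ⊢
        linear_combination (norm := abel) ha + hb
      zero_mem' := by simp
      neg_mem' := fun {a} ha => by
        simp only [Set.mem_setOf_eq, smul_neg] at ha ⊢
        linear_combination (norm := abel) -ha }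
  have hU : ∀ v, v ∈ U ↔ i • v + j • v = v := fun v => Iff.rfl
  have a4 : ∀ v : V, i • i • j • v + j • i • j • v = -(i • j • (i • v + j • v)) := fun v => by
    simp only [smul_add, a1, a2, a3, smul_neg, neg_neg]
    abel
  refine ⟨U, fun h => ?_, ?_, fun d h1 h3 u hu => ?_⟩
  · have b1 : ∀ v : V, i • v + j • v = -v := fun v => by
      have : v + (i • v + j • v) ∈ U := by
        rw [hU]
        simp only [smul_add, a1, a2, a3]
        have := hV v
        rw [succ_nsmul, two_nsmul] at this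
        linear_combination (norm := abel) -this
      rw [h, AddSubgroup.mem_bot] at this
      exact eq_neg_of_add_eq_zero_right this
    obtain ⟨v, hv⟩ := exists_ne (0 : V)
    have b2 := a4 v
    rw [b1, b1, smul_neg, smul_neg, neg_neg] at b2
    exact hv ((smul_eq_zero_iff_eq _).1 ((smul_eq_zero_iff_eq _).1 (h2 _ b2.symm)))
  · rw [← Nat.card_prod]
    refine Nat.card_le_card_of_injective (fun x => x.1.1 + i • j • x.2.1) ?_
    rintro ⟨u, w⟩ ⟨u', w'⟩ h
    have b1 : ((u - u' : U) : V) = i • j • ((w' - w : U) : V) := by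
      simp only [AddSubgroup.coe_sub, smul_sub] at h ⊢
      linear_combination (norm := abel) h
    have b2 := a4 ((w' - w : U) : V)
    rw [(hU _).1 (w' - w).2, ← b1, (hU _).1 (u - u').2] at b2
    have b3 := h2 _ b2
    rw [b3, eq_comm, smul_eq_zero_iff_eq, smul_eq_zero_iff_eq] at b1
    exact Prod.ext (sub_eq_zero.1 (Subtype.ext b3)) (sub_eq_zero.1 (Subtype.ext b1)).symm
  · rw [hU] at hu ⊢
    rw [← mul_smul, ← mul_smul, ← h1.eq, ← h3.eq, mul_smul, mul_smul, ← smul_add, hu]

omit [Finite H] in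
theorem relIndex_le_ncard {α : Type*} (C K : Subgroup H) (f : H → α)
    (hf : ∀ g h, f g = f h → g⁻¹ * h ∈ C) {S : Set α} (hS : S.Finite) (h : ∀ g ∈ K, f g ∈ S) :
    C.relIndex K ≤ S.ncard := by
  have := hS.to_subtype
  rw [relIndex, index_eq_card, ← Nat.card_coe_set_eq]
  refine Nat.card_le_card_of_injective (fun q => ⟨f q.out, h _ q.out.2⟩) fun q q' e => ?_
  rw [← q.out_eq, ← q'.out_eq]
  exact QuotientGroup.eq.2 (hf _ _ (congrArg Subtype.val e))

theorem ncard_le_four {α : Type*} (a b c d : α) : ({a, b, c, d} : Set α).ncard ≤ 4 := by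
  have h1 := Set.ncard_insert_le a {b, c, d}
  have h2 := Set.ncard_insert_le b {c, d}
  have h3 := Set.ncard_insert_le c {d}
  rw [Set.ncard_singleton] at h3
  omega

theorem quat_case (hV : ∀ v : V, p • v = 0) [Nontrivial V]
    (hfix : ∀ (h : H) (v : V), v ≠ 0 → h • v = v → IsPElt p h)
    (htr : ∀ v w : V, v ≠ 0 → w ≠ 0 → ∃ h : H, h • v = w) (hp2 : 2 ≠ p) {N : Subgroup H}
    [N.Normal] (hN : IsPGroup 2 N) {x z i j : H} (hx : x ∈ _root_.commutator H)
    (hxo : orderOf x = p) (hxN : ¬ N ≤ centralizer {x}) (hz : z ∈ N) (hz1 : z ≠ 1)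
    (hz2 : z * z = 1) (hxz : z ∈ centralizer {x}) (hT : ∀ a ∈ N, a = 1 ∨ a = z ∨ a * a = z)
    (hi : i ∈ N) (hj : j ∈ N) (hij : i * j ≠ j * i) : False := by
  classical
  have := Fact.mk Nat.prime_two
  have hc : ∀ a ∈ N, z * a = a * z := fun a ha => by
    rcases hT a ha with rfl | rfl | rfl
    · simp
    · rfl
    · simp [mul_assoc]
  have hsq : ∀ a ∈ N, ∀ b ∈ N, a * b ≠ b * a → a * a = z := fun a ha b hb h => by
    rcases hT a ha with rfl | rfl | h'
    · simp at h
    · exact absurd (hc b hb) h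
    · exact h'
  have hanti : ∀ a ∈ N, ∀ b ∈ N, a * a = z → b * b = z → a ≠ b → a ≠ b * z →
      b * a = a * b * z := fun a ha b hb h1 h2 h3 h4 => by
    rcases hT _ (mul_mem ha hb) with h | h | h
    · refine absurd ?_ h4
      rw [eq_inv_of_mul_eq_one_left h, inv_eq_iff_mul_eq_one, ← mul_assoc, h2, hz2]
    · exact absurd (mul_right_cancel (h.trans h2.symm)) h3
    · refine mul_left_cancel (a := a) (mul_right_cancel (b := b) ?_)
      calc a * (b * a) * b = z := by rw [← h]; simp only [mul_assoc]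
        _ = a * a * (b * (b * z)) := by rw [h1, ← mul_assoc b, h2, hz2, mul_one]
        _ = a * (a * b * z) * b := by rw [← hc b hb]; simp only [mul_assoc]
  have hi2 := hsq i hi j hj hij
  have hj2 := hsq j hj i hi hij.symm
  have hji : j * i = i * j * z := hanti i hi j hj hi2 hj2 (fun h => hij (by rw [h]))
    (fun h => hij (by rw [h, mul_assoc, hc j hj]))
  have hk2 : i * j * (i * j) = z := hsq _ (mul_mem hi hj) i hi fun h =>
    hij (mul_left_cancel (a := i) (by rw [← h, mul_assoc]))
  have hlist : ∀ c ∈ N, c = 1 ∨ c = z ∨ (c = i ∨ c = i * z) ∨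
      c ∈ ({j, j * z, i * j, i * j * z} : Set H) := fun c hcN => by
    by_contra h
    simp only [Set.mem_insert_iff, Set.mem_singleton_iff, not_or] at h
    obtain ⟨a1, a2, ⟨a3, a4⟩, a5, a6, a7, a8⟩ := h
    have b0 := ((hT c hcN).resolve_left a1).resolve_left a2
    have b1 := hanti c hcN i hi b0 hi2 a3 a4
    have b2 := hanti c hcN j hj b0 hj2 a5 a6
    have b3 := hanti c hcN _ (mul_mem hi hj) b0 hk2 a7 a8
    rw [mul_assoc, b2, ← mul_assoc, ← mul_assoc, b1, mul_assoc _ z j, hc j hj, ← mul_assoc,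
      mul_assoc _ z z, hz2, mul_one, mul_assoc c i j, eq_comm, mul_eq_left] at b3
    exact hz1 b3
  have hconj : ∀ a ∈ N, a * a = z → ∀ g, g * a * g⁻¹ ≠ 1 ∧ g * a * g⁻¹ ≠ z := fun a ha h g => by
    have e : g * a * g⁻¹ * (g * a * g⁻¹) ≠ 1 := by
      rw [conj_mul, h]
      simpa using hz1
    exact ⟨fun h' => e (by rw [h', mul_one]), fun h' => e (by rw [h', hz2])⟩
  have hD : centralizer (N : Set H) = centralizer {j} ⊓ centralizer {i} := by
    refine le_antisymm (le_inf (centralizer_le (by simpa)) (centralizer_le (by simpa)))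
      fun d hd c hcN => ?_
    have d1 : Commute d j := mem_centralizer_singleton_iff.1 hd.1
    have d2 : Commute d i := mem_centralizer_singleton_iff.1 hd.2
    have d3 : Commute d z := hi2 ▸ d2.mul_right d2
    refine Commute.eq (Commute.symm ?_)
    rcases hlist c hcN with rfl | rfl | (rfl | rfl) | rfl | rfl | rfl | rfl
    exacts [Commute.one_right _, d3, d2, d2.mul_right d3, d1, d1.mul_right d3, d2.mul_right d1,
      (d2.mul_right d1).mul_right d3]
  have hf : ∀ a g h : H, g * a * g⁻¹ = h * a * h⁻¹ → g⁻¹ * h ∈ centralizer {a} := fun a g h e =>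
    mem_centralizer_singleton_iff.2 (by
      calc g⁻¹ * h * a = g⁻¹ * (h * a * h⁻¹) * h := by simp only [mul_assoc, inv_mul_cancel, mul_one]
        _ = a * (g⁻¹ * h) := by rw [← e]; simp only [mul_assoc, inv_mul_cancel_left])
  have hDi : (centralizer (N : Set H)).index ≤ 24 := by
    have a1 := relIndex_le_ncard (centralizer {i}) ⊤ (fun g => g * i * g⁻¹) (hf i)
      (S := {i, i * z, j, j * z, i * j, i * j * z}) (Set.toFinite _) fun g _ => by
        rcases hlist _ (‹N.Normal›.conj_mem i hi g) with h | h | h | h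
        · exact absurd h (hconj i hi hi2 g).1
        · exact absurd h (hconj i hi hi2 g).2
        · rcases h with h | h <;> simp [h]
        · exact Or.inr (Or.inr h)
    have a2 := relIndex_le_ncard (centralizer {j}) (centralizer {i}) (fun g => g * j * g⁻¹) (hf j)
      (S := {j, j * z, i * j, i * j * z}) (Set.toFinite _) fun g hg => by
        have e : ¬ Commute i (g * j * g⁻¹) := fun h => hij (by
          have g1 : Commute g i := mem_centralizer_singleton_iff.1 hg
          have := (g1.inv_left.symm.mul_right h).mul_right g1.symm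
          simpa [mul_assoc] using this.eq)
        rcases hlist _ (‹N.Normal›.conj_mem j hj g) with h | h | h | h
        · exact absurd h (hconj j hj hj2 g).1
        · exact absurd h (hconj j hj hj2 g).2
        · exfalso
          rcases h with h | h
          · exact e (h ▸ Commute.refl i)
          · exact e (h ▸ (Commute.refl i).mul_right (hc i hi).symm)
        · exact h
    have a3 : ({j, j * z, i * j, i * j * z} : Set H).ncard ≤ 4 := ncard_le_four _ _ _ _
    have a4 : ({i, i * z, j, j * z, i * j, i * j * z} : Set H).ncard ≤ 6 :=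
      (Set.ncard_insert_le _ _).trans (by
        have := Set.ncard_insert_le (i * z) {j, j * z, i * j, i * j * z}
        omega)
    rw [relIndex_top_right] at a1
    rw [hD, ← relIndex_mul_index inf_le_right, inf_relIndex_right]
    exact Nat.mul_le_mul (a2.trans a3) (a1.trans a4)
  have hN8 : Nat.card N ≤ 8 := by
    have a3 : ({j, j * z, i * j, i * j * z} : Set H).ncard ≤ 4 := ncard_le_four _ _ _ _
    have a4 : ({1, z, i, i * z} : Set H).ncard ≤ 4 := ncard_le_four _ _ _ _
    have a5 : (N : Set H) ⊆ {1, z, i, i * z} ∪ {j, j * z, i * j, i * j * z} := fun c hcN => by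
      rcases hlist c hcN with h | h | (h | h) | h
      exacts [Or.inl (by simp [h]), Or.inl (by simp [h]), Or.inl (by simp [h]),
        Or.inl (by simp [h]), Or.inr h]
    have a6 := (Set.ncard_le_ncard a5).trans (Set.ncard_union_le _ _)
    change Nat.card (N : Set H) ≤ 8
    rw [Nat.card_coe_set_eq]
    omega
  obtain ⟨rfl, hN8⟩ : p = 3 ∧ Nat.card N = 8 := by
    have a1 := card_modEq_card_inf_centralizer (S := N)
      (isPElt_iff_isPGroup_zpowers.1 ⟨1, by rw [hxo, pow_one]⟩) le_normalizer_of_normal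
    rw [centralizer_zpowers] at a1
    obtain ⟨a, ha⟩ := hN.exists_card_eq
    obtain ⟨b, hb⟩ := (hN.to_le (inf_le_left : N ⊓ centralizer {x} ≤ N)).exists_card_eq
    have a2 := card_lt_of_lt (inf_lt_left.2 hxN)
    have a3 : b ≠ 0 := by
      rintro rfl
      exact hz1 (mem_bot.1 (card_eq_one.1 hb ▸ mem_inf.2 ⟨hz, hxz⟩))
    rw [ha, hb] at a1 a2
    rw [ha] at hN8 ⊢
    have a4 : b < a := (Nat.pow_lt_pow_iff_right one_lt_two).1 a2
    have a5 : a ≤ 3 := (Nat.pow_le_pow_iff_right one_lt_two).1 hN8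
    have a6 := (Nat.modEq_iff_dvd' a2.le).1 a1.symm
    have a7 : ∀ k, ¬ p ∣ 2 ^ k := fun k h =>
      hp2 ((Nat.prime_dvd_prime_iff_eq hp.out Nat.prime_two).1 (hp.out.dvd_of_dvd_pow h)).symm
    obtain ⟨rfl, rfl⟩ | ⟨rfl, rfl⟩ | ⟨rfl, rfl⟩ :
      (a = 2 ∧ b = 1) ∨ (a = 3 ∧ b = 2) ∨ (a = 3 ∧ b = 1) := by omega
    · exact absurd a6 (a7 1)
    · exact absurd a6 (a7 2)
    · exact ⟨(Nat.prime_dvd_prime_iff_eq hp.out Nat.prime_three).1
        (((Nat.Prime.dvd_mul hp.out (m := 2 ^ 1) (n := 3)).1 a6).resolve_left (a7 1)), rfl⟩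
  have hzv : ∀ v : V, z • v = -v := fun v => by
    by_contra h
    refine hz1 ((hfix z (z • v + v) (fun h' => h (eq_neg_of_add_eq_zero_left h')) (by
      rw [smul_add, ← mul_smul, hz2, one_smul, add_comm])).eq_one_of_isPRegular fun h2 => ?_)
    rw [orderOf_eq_prime (by rwa [pow_two]) hz1] at h2
    omega
  obtain ⟨U, hU0, hU1, hU2⟩ := exists_half hV hzv hi2 hj2 hji
  obtain ⟨⟨u, hu⟩, hu0⟩ := AddSubgroup.ne_bot_iff_exists_ne_zero.1 hU0
  have hu0' : u ≠ 0 := fun h => hu0 (Subtype.ext h)
  have hS : IsPGroup 3 (MulAction.stabilizer H u) :=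
    isPGroup_iff_forall_isPElt.2 fun g hg => hfix g u hu0' hg
  have hSi : (MulAction.stabilizer H u).index = Nat.card V - 1 := by
    rw [MulAction.index_stabilizer, ← Set.ncard_univ, ← Set.ncard_diff_singleton_of_mem
      (Set.mem_univ (0 : V))]
    congr 1
    ext w
    simp only [Set.mem_diff, Set.mem_univ, Set.mem_singleton_iff, true_and]
    exact ⟨fun ⟨g, hg⟩ h => hu0' ((smul_eq_zero_iff_eq g).1 (hg.trans h)), htr u w hu0'⟩
  have hSD := relIndex_le_ncard (MulAction.stabilizer H u) (centralizer (N : Set H))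
    (fun g => g • u) (fun g h e => by
      rw [MulAction.mem_stabilizer_iff, mul_smul, ← e, inv_smul_smul])
    (S := (U : Set V) \ {0}) (Set.toFinite _) fun g hg =>
      ⟨hU2 g (hg i hi).symm (hg j hj).symm u hu, fun h => hu0' ((smul_eq_zero_iff_eq g).1 h)⟩
  rw [Set.ncard_diff_singleton_of_mem U.zero_mem, ← Nat.card_coe_set_eq] at hSD
  have hxD : x ∉ centralizer (N : Set H) := fun h =>
    hxN fun a ha => mem_centralizer_singleton_iff.2 (h a ha)
  have h3D : 3 ∣ (centralizer (N : Set H)).index := by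
    by_contra h
    exact hxD (pPrimeResidual_le_iff.2 h (mem_pPrimeResidual ⟨1, hxo⟩))
  obtain ⟨n, hn⟩ := IsPGroup.exists_card_eq (p := 3) (G := Multiplicative V)
    fun v => ⟨1, hV v.toAdd⟩
  have hn' : Nat.card V = 3 ^ n := hn
  obtain ⟨c, -, hc3⟩ := (Nat.dvd_prime_pow Nat.prime_three).1
    (hn' ▸ AddSubgroup.card_addSubgroup_dvd_card U)
  have hc0 : c ≠ 0 := by
    rintro rfl
    exact hU0 (AddSubgroup.card_eq_one.1 hc3)
  have e1 : (MulAction.stabilizer H u).relIndex (centralizer (N : Set H)) *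
      (centralizer (N : Set H)).index =
      (centralizer (N : Set H)).relIndex (MulAction.stabilizer H u) * (Nat.card V - 1) := by
    rw [← hSi, ← inf_relIndex_right, relIndex_mul_index inf_le_right, ← inf_relIndex_right,
      relIndex_mul_index inf_le_right, inf_comm]
  have hn0 : 1 < 3 ^ n := hn' ▸ Finite.one_lt_card
  have h3V : ¬ 3 ∣ Nat.card V - 1 := by
    have : 3 ∣ 3 ^ n := dvd_pow_self 3 (by rintro rfl; simp at hn0)
    omega
  have e2 := Nat.le_of_dvd (relIndex_pos _ _)
    ((Nat.prime_three.dvd_mul.1 (e1 ▸ h3D.mul_left _)).resolve_right h3V)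
  have e3 : 3 * (Nat.card V - 1) ≤ (Nat.card U - 1) * 24 :=
    (Nat.mul_le_mul_right _ e2).trans (e1 ▸ Nat.mul_le_mul hSD hDi)
  have hV9 : Nat.card V = 9 := by
    rw [hn', hc3] at hU1 e3
    have b1 : c ≤ 1 := by
      by_contra b1
      have : 3 ^ 2 ≤ 3 ^ c := Nat.pow_le_pow_right (by norm_num) (by omega)
      have b2 : 9 * 3 ^ c ≤ 3 ^ c * 3 ^ c := Nat.mul_le_mul_right _ this
      omega
    obtain rfl : c = 1 := by omega
    have b2 : n < 3 := (Nat.pow_lt_pow_iff_right (a := 3) (by norm_num)).1 (by omega)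
    have b3 : 2 ≤ n := (Nat.pow_le_pow_iff_right (a := 3) (by norm_num)).1 hU1
    rw [hn', show n = 2 by omega]
    rfl
  obtain ⟨t, ht⟩ := hS.exists_card_eq
  have hNi : N.index = 3 ^ t := by
    have a1 := card_mul_index (MulAction.stabilizer H u)
    rw [hSi, hV9, ht, ← card_mul_index N, hN8] at a1
    omega
  have hrel : (centralizer (N : Set H)).relIndex (N ⊔ centralizer (N : Set H)) = 4 := by
    have a1 : centralizer (N : Set H) ⊓ N = zpowers z := by
      refine le_antisymm (fun c hcN => ?_) (zpowers_le.2 ⟨fun a ha => (hc a ha).symm, hz⟩)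
      rcases hT c hcN.2 with rfl | rfl | h
      · exact one_mem _
      · exact mem_zpowers _
      · exfalso
        have b1 := hcN.1 i hi
        have b2 := hcN.1 j hj
        have b3 : ∀ a ∈ N, a * a = z → c = a ∨ c = a * z := fun a ha h' => by
          by_contra b3
          push Not at b3
          have := hanti c hcN.2 a ha h h' b3.1 b3.2
          rw [hcN.1 a ha, eq_comm, mul_eq_left] at this
          exact hz1 this
        rcases b3 i hi hi2 with rfl | rfl
        · exact hij b2.symm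
        · exact hij (mul_right_cancel (b := z) (by
            rw [mul_assoc j, b2, mul_assoc, mul_assoc, hc j hj]))
    have a2 := relIndex_mul_relIndex ⊥ (centralizer (N : Set H) ⊓ N) N bot_le inf_le_right
    rw [relIndex_bot_left, relIndex_bot_left, inf_relIndex_right, a1, Nat.card_zpowers,
      orderOf_eq_prime (by rwa [pow_two]) hz1, hN8] at a2
    rw [relIndex_sup_right]
    omega
  have hK : (N ⊔ centralizer (N : Set H)).index ∣ 3 := by
    obtain ⟨k, -, hk⟩ := (Nat.dvd_prime_pow Nat.prime_three).1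
      (hNi ▸ index_dvd_of_le (le_sup_left : N ≤ N ⊔ centralizer (N : Set H)))
    rw [← relIndex_mul_index (le_sup_right : _ ≤ N ⊔ centralizer (N : Set H)), hrel, hk] at hDi
    have : k < 2 := (Nat.pow_lt_pow_iff_right (a := 3) (by norm_num)).1 (by omega)
    rw [hk]
    simpa using pow_dvd_pow 3 (Nat.lt_succ_iff.1 this)
  have hxK : x ∈ N ⊔ centralizer (N : Set H) := by
    rcases (Nat.dvd_prime Nat.prime_three).1 hK with h | h
    · rw [index_eq_one.1 h]
      exact mem_top x
    · exact commutator_le_of_prime_index (h ▸ Nat.prime_three) hx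
  have := (centralizer (N : Set H)).pow_relIndex_mem hxK
  rw [hrel, pow_succ, ← hxo, pow_orderOf_eq_one, one_mul] at this
  exact hxD this

theorem not_dvd_card_commutator [Group.IsSolvable H] (hV : ∀ v : V, p • v = 0) [Nontrivial V]
    (hfix : ∀ (h : H) (v : V), v ≠ 0 → h • v = v → IsPElt p h)
    (htr : ∀ v w : V, v ≠ 0 → w ≠ 0 → ∃ h : H, h • v = w) (h0 : pCore p H = ⊥) :
    ¬ p ∣ Nat.card (_root_.commutator H) := by
  classical
  intro hdvd
  obtain ⟨x, hx, hxo⟩ := exists_mem_orderOf_eq_prime hdvd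
  have hxp : IsPElt p x := ⟨1, by rw [hxo, pow_one]⟩
  suffices h : ∀ q : Nat.Primes, pCore q H ≤ centralizer {x} by
    have h1 : fittingSubgroup H ≤ centralizer {x} := by
      rw [fittingSubgroup_eq_iSup_pCore]
      exact iSup_le h
    have h2 := mem_pCore_of_mem_fittingSubgroup (centralizer_fittingSubgroup_le H
      fun a ha => mem_centralizer_singleton_iff.1 (h1 ha)) hxp
    rw [h0, mem_bot] at h2
    rw [h2, orderOf_one] at hxo
    exact hp.out.ne_one hxo.symm
  rintro ⟨q, hq⟩
  have := Fact.mk hq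
  by_cases hqp : q = p
  · subst hqp
    exact h0 ▸ bot_le
  by_contra hcon
  obtain ⟨N, ⟨h1, h2, h3⟩, h4⟩ := exists_minimal_of_wellFoundedLT
    (fun N : Subgroup H => N.Normal ∧ IsPGroup q N ∧ ¬ N ≤ centralizer {x})
    ⟨pCore q H, inferInstance, isPGroup_pCore q H, hcon⟩
  have hmin : ∀ M : Subgroup H, M.Normal → M < N → M ≤ centralizer {x} := fun M hM hlt => by
    by_contra h5
    exact hlt.not_ge (h4 ⟨hM, h2.to_le hlt.le, h5⟩ hlt.le)
  have hcop : (Nat.card N).Coprime (orderOf x) := h2.coprime_card_of_not_dvd (by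
    rw [hxo]
    exact fun h => hqp ((Nat.prime_dvd_prime_iff_eq hq hp.out).1 h))
  have hact := isCoprimeAction_zpowers (N := N) (a := x) (le_normalizer_of_normal (mem_top x)) hcop
  have huniq := fun {a b : H} => mem_zpowers_of_commute hV hfix hqp (a := a) (b := b)
  have hnab : ¬ N ≤ centralizer (N : Set H) := fun h => by
    have : IsMulCommutative N := isMulCommutative_iff_forall.2 fun a ha b hb => h hb a ha
    have h5 : ⁅N, zpowers x⁆ ≠ ⊥ := fun h5 => h3 (by
      rwa [commutator_eq_bot_iff_le_centralizer, centralizer_zpowers] at h5)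
    have h6 : ⁅N, zpowers x⁆ ≤ N := commutator_le_left _ _
    obtain ⟨y, hy, hyo⟩ := exists_mem_orderOf_eq_prime (p := q) (H := ⁅N, zpowers x⁆) (by
      obtain ⟨k, hk0, hk⟩ := (h2.to_le h6).nontrivial_iff_card.1 ((nontrivial_iff_ne_bot _).2 h5)
      exact hk ▸ dvd_pow_self q hk0.ne')
    have hy1 : y ≠ 1 := fun h => hq.ne_one (by rw [← hyo, h, orderOf_one])
    have hyq : y ^ q = 1 := hyo ▸ pow_orderOf_eq_one y
    have : (zpowers y).Normal := ⟨fun a ha g => by
      obtain ⟨k, rfl⟩ := mem_zpowers_iff.1 ha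
      rw [← conj_zpow]
      exact zpow_mem (huniq (h (h6 hy) _ (h1.conj_mem y (h6 hy) g)) (by rw [conj_pow, hyq]; simp)
        hyq hy1) k⟩
    have h7 := commutator_normalizer_le_centralizer (zpowers y)
      (by rwa [normalizer_eq_top] : x ∈ _)
    refine hy1 (mem_bot.1 ?_)
    rw [← inf_centralizer_inf_commutator_eq_bot hact.1 hact.2, centralizer_zpowers]
    exact ⟨mem_centralizer_singleton_iff.2 (h7 y (mem_zpowers y)), hy⟩
  have hR : ∀ M : Subgroup H, M.Normal → M < N → ⁅normalClosure {x}, M⁆ = ⊥ := fun M hM hlt =>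
    commutator_eq_bot_iff_le_centralizer.2 (normalClosure_le_normal (Set.singleton_subset_iff.2
      fun m hm => mem_centralizer_singleton_iff.1 (hmin M hM hlt hm)))
  have hNR : ⁅N, normalClosure {x}⁆ = N := by
    by_contra h
    have h5 := hmin _ inferInstance (lt_of_le_of_ne (commutator_le_left _ _) h)
    refine h3 ?_
    rw [← centralizer_zpowers, ← commutator_eq_bot_iff_le_centralizer] at h5 ⊢
    rw [← hact.commutator_commutator, eq_bot_iff, ← h5]
    exact commutator_mono (commutator_mono le_rfl (zpowers_le.2 (subset_normalClosure rfl))) le_rfl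
  have hcen : ∀ M : Subgroup H, M.Normal → M < N → M ≤ centralizer (N : Set H) :=
    fun M hM hlt => by
      rw [← commutator_eq_bot_iff_le_centralizer, commutator_comm, ← hNR]
      refine commutator_commutator_eq_bot_of_rotate (by rw [hR M hM hlt, commutator_bot_left]) ?_
      rw [eq_bot_iff, ← hR M hM hlt, commutator_comm]
      exact commutator_mono le_rfl (commutator_le_left _ _)
  have hN0 : N ≠ ⊥ := fun h => h3 (h ▸ bot_le)
  have hΦ := hcen _ inferInstance (frattiniOf_lt hN0)
  have hZx : N ⊓ centralizer (N : Set H) ≤ centralizer {x} :=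
    hmin _ inferInstance (inf_lt_left.2 hnab)
  have hcomm : ∀ a ∈ N, ∀ b ∈ N, ∃ c ∈ N ⊓ centralizer (N : Set H),
      b * a = a * b * c ∧ c ^ q = 1 := fun a ha b hb => by
    have e1 : ⁅b⁻¹, a⁻¹⁆ ∈ ⁅N, N⁆ := commutator_mem_commutator (inv_mem hb) (inv_mem ha)
    have e2 := hΦ (commutator_le_frattiniOf h2 e1)
    refine ⟨_, ⟨commutator_le_self N e1, e2⟩, by simp [commutatorElement_def, mul_assoc], ?_⟩
    have e4 := pow_mul_eq (a := a) (by simp [commutatorElement_def, mul_assoc]) (e2 b hb).symm q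
    rwa [← hΦ (pow_mem_frattiniOf h2 hb) a ha, eq_comm, mul_eq_left] at e4
  obtain ⟨i, hi, j, hj, hij⟩ : ∃ i ∈ N, ∃ j ∈ N, i * j ≠ j * i := by
    by_contra! h
    exact hnab fun a ha b hb => h b hb a ha
  obtain ⟨z, hz, hz1, hzq⟩ : ∃ z ∈ N ⊓ centralizer (N : Set H), z ≠ 1 ∧ z ^ q = 1 := by
    obtain ⟨c, h5, h6, h7⟩ := hcomm i hi j hj
    exact ⟨c, h5, fun h => hij (by rw [h6, h, mul_one]), h7⟩
  have hΩ : ∀ a ∈ N, a ^ q = 1 → a ∈ zpowers z := fun a ha h => huniq (hz.2 a ha) h hzq hz1
  obtain ⟨d, hdN, hdZ, c, hcq, hd⟩ : ∃ d ∈ N, d ∉ N ⊓ centralizer (N : Set H) ∧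
      ∃ c : H, c ^ q = 1 ∧ d ^ q = c ^ q.choose 2 := by
    obtain ⟨a, ha, hax⟩ := SetLike.not_le_iff_exists.1 h3
    have ha' := h1.conj_mem a ha x
    obtain ⟨c, h5, h6, h7⟩ := hcomm a⁻¹ (inv_mem ha) _ ha'
    refine ⟨_, mul_mem (inv_mem ha) ha', fun h => hax ?_, c, h7, ?_⟩
    · exact mem_centralizer_singleton_iff.2 (commute_of_commutator_mem_of_coprime hZx
        (by simpa [mul_assoc] using h) (hcop.coprime_dvd_left (card_dvd_of_le inf_le_left))).symm.eq
    · have h8 := pow_mem_frattiniOf h2 ha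
      rw [mul_pow_eq h6 (h5.2 _ (inv_mem ha)).symm (h5.2 _ ha').symm, conj_pow,
        ← mem_centralizer_singleton_iff.1 (hZx ⟨frattiniOf_le N h8, hΦ h8⟩)]
      simp
  rcases hq.eq_two_or_odd' with rfl | hodd
  · have hz2 : z * z = 1 := by rwa [← pow_two]
    have hΩ' : ∀ a ∈ N, a * a = 1 → a = 1 ∨ a = z := fun a ha h => by
      obtain ⟨k, hk, rfl⟩ := (mem_zpowers_iff_mem_range_orderOf.1
        (hΩ a ha (by rwa [pow_two])) |> Finset.mem_image.1)
      rw [Finset.mem_range, orderOf_eq_prime hzq hz1] at hk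
      interval_cases k <;> simp
    have hZ : ∀ a ∈ N, a = 1 ∨ a = z → a ∈ N ⊓ centralizer (N : Set H) := by
      rintro a - (rfl | rfl)
      exacts [one_mem _, hz]
    have hd2 : d * d = z := by
      rw [Nat.choose_self, pow_one, pow_two] at hd
      refine (hΩ' _ (mul_mem hdN hdN) (by rw [hd, ← pow_two, hcq])).resolve_left fun h =>
        hdZ (hZ d hdN (hΩ' d hdN h))
    have hZ2 : ∀ (k : ℕ), ∀ c ∈ N ⊓ centralizer (N : Set H), c ^ 2 ^ k = 1 → c * c = 1 := by
      intro k
      induction k with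
      | zero => intro c _ h; rw [pow_zero, pow_one] at h; rw [h, mul_one]
      | succ k ih =>
        intro c hc h
        rw [pow_succ', pow_mul, pow_two] at h
        refine (hΩ' _ (mul_mem hc.1 hc.1) (ih _ (mul_mem hc hc) h)).resolve_right fun h' => hdZ ?_
        have := hZ _ (mul_mem hdN hc.1) (hΩ' _ (mul_mem hdN hc.1) (by
          rw [mul_assoc, ← mul_assoc c, ← hc.2 d hdN, mul_assoc, h', ← mul_assoc, hd2, hz2]))
        exact (mul_mem_cancel_right hc).1 this
    refine quat_case hV hfix htr hqp h2 hx hxo h3 hz.1 hz1 hz2 (hZx hz) (fun a ha => ?_) hi hj hij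
    have h8 := pow_mem_frattiniOf h2 ha
    obtain ⟨k, hk⟩ := isPElt_iff_pow_eq_one.1 (isPElt_of_mem h2 (pow_mem ha 2))
    have h9 := hZ2 k _ ⟨frattiniOf_le N h8, hΦ h8⟩ hk
    rw [pow_two] at h9
    rcases hΩ' _ (mul_mem ha ha) h9 with h | h
    · exact (hΩ' a ha h).imp_right Or.inl
    · exact Or.inr (Or.inr h)
  · obtain ⟨m, hm⟩ := hq.dvd_choose_self (k := 2) two_ne_zero
      (lt_of_le_of_ne hq.two_le (by rintro rfl; exact absurd hodd (by decide)))
    rw [hm, pow_mul, hcq, one_pow] at hd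
    exact hdZ (zpowers_le.2 hz (hΩ d hdN hd))

end

/-- Let G be a finite solvable group of order greater than 2 with an irreducible character nonzero on exactly two conjugacy classes. Then there is exactly one prime p with O_p(G) ≠ 1, and the quotient G/O_p(G) has a normal p-complement and commutative Sylow p-subgroups. -/
theorem result {G : Type*} [Group G] [Finite G] [hs : Group.IsSolvable G] (hG : 2 < Nat.card G) (χ : Cfsg.IrrCharacter G) (hχ : Nat.card {C : ConjClasses G // ∃ g ∈ C.carrier, (χ : G → ℂ) g ≠ 0} = 2) :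
    ∃ p : ℕ, p.Prime ∧ (∀ q : ℕ, q.Prime → (Cfsg.pCore q G ≠ ⊥ ↔ q = p)) ∧
      Cfsg.HasNormalPComplement p (G ⧸ Cfsg.pCore p G) ∧ ∀ Q : Sylow p (G ⧸ Cfsg.pCore p G), IsMulCommutative (Q : Subgroup (G ⧸ Cfsg.pCore p G)) := by
  obtain ⟨N, hN⟩ := exists_isGagola hG χ hχ
  obtain ⟨p, hp, hpN⟩ := hN.exists_prime
  have := Fact.mk hp
  have := hN.normal
  have := hN.isMulCommutative
  have hNp : IsPGroup p N := fun a => ⟨1, Subtype.ext (by simpa using hpN a a.2)⟩
  have hC : pCore p G ≤ (MulAut.conjNormal : G →* MulAut N).ker := fun g hg => by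
    ext a
    by_cases ha : (a : G) = 1
    · simp [ha]
    obtain ⟨P, hP⟩ := hN.exists_sylow_centralizer hNp a.2 ha
    simpa [mul_inv_eq_iff_eq_mul] using
      mem_centralizer_singleton_iff.1 (hP ▸ pCore_le_sylow P hg)
  let ρ := QuotientGroup.lift (pCore p G) MulAut.conjNormal hC
  letI : CommGroup N := { mul_comm := mul_comm' }
  letI : DistribMulAction (G ⧸ pCore p G) (Additive N) :=
    { smul := fun h v => Additive.ofMul (ρ h v.toMul)
      one_smul := fun v => by change Additive.ofMul (ρ 1 v.toMul) = v; simp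
      mul_smul := fun a b v => by
        change Additive.ofMul (ρ (a * b) v.toMul) = Additive.ofMul (ρ a (ρ b v.toMul)); simp
      smul_zero := fun a => by change Additive.ofMul (ρ a 1) = 0; simp
      smul_add := fun a v w => by
        change Additive.ofMul (ρ a (v.toMul * w.toMul)) =
          Additive.ofMul (ρ a v.toMul * ρ a w.toMul)
        simp }
  have hsm : ∀ (g : G) (v w : Additive N), (g : G ⧸ pCore p G) • v = w ↔
      g * v.toMul * g⁻¹ = w.toMul := fun g v w =>
    ⟨fun h => h ▸ rfl, fun h => Additive.toMul.injective (Subtype.ext h)⟩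
  have : Nontrivial N := (nontrivial_iff_ne_bot _).2 hN.ne_bot
  have key := not_dvd_card_commutator (H := G ⧸ pCore p G) (V := Additive N) (p := p)
    (fun v => Additive.toMul.injective (Subtype.ext (by simpa using hpN _ v.toMul.2)))
    (fun h v hv hh => by
      obtain ⟨g, rfl⟩ := QuotientGroup.mk_surjective h
      rw [hsm, mul_inv_eq_iff_eq_mul] at hh
      exact (isPElt_of_mem (hN.isPGroup_centralizer hNp v.toMul.2
        fun h => hv (Additive.toMul.injective (Subtype.ext h)))
        (mem_centralizer_singleton_iff.2 hh)).map (QuotientGroup.mk' _))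
    (fun v w hv hw => by
      obtain ⟨g, hg⟩ := isConj_iff.1 (hN.isConj _ v.toMul.2 _ w.toMul.2
        (fun h => hv (Additive.toMul.injective (Subtype.ext h)))
        fun h => hw (Additive.toMul.injective (Subtype.ext h)))
      exact ⟨g, (hsm g v w).2 hg⟩)
    (pCore_quotient_pCore p G)
  refine ⟨p, hp, fun q hq => ⟨fun h => ?_, ?_⟩, ?_, fun Q => ?_⟩
  · have := Fact.mk hq
    obtain ⟨k, hk⟩ := ((isPGroup_pCore q G).to_le (hN.le_of_normal _ h)).exists_card_eq
    exact ((Nat.prime_dvd_prime_iff_eq hp hq).1 (hp.dvd_of_dvd_pow (hk ▸ hN.dvd_card hNp))).symm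
  · rintro rfl h
    exact hN.ne_bot (le_bot_iff.1 (h ▸ le_pCore hNp))
  · have : IsMulCommutative ((G ⧸ pCore p G) ⧸ _root_.commutator (G ⧸ pCore p G)) :=
      Normal.quotient_commutative_iff_commutator_le.2 le_rfl
    have : Group.IsNilpotent ((G ⧸ pCore p G) ⧸ _root_.commutator (G ⧸ pCore p G)) :=
      isNilpotent_of_isMulCommutative
    exact HasNormalPComplement.of_quotient_of_not_dvd key (hasNormalPComplement_of_isNilpotent p)
  · refine isMulCommutative_iff_forall.2 fun a ha b hb =>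
      commutatorElement_eq_one_iff_mul_comm.1 (mem_bot.1 ?_)
    rw [← inf_eq_bot_of_coprime_card (Q.isPGroup'.coprime_card_of_not_dvd key)]
    exact ⟨commutator_le_self _ (commutator_mem_commutator ha hb),
      commutator_mem_commutator (mem_top a) (mem_top b)⟩

end Cfsg.Agent.S4840
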