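import Cfsg.Statements.S4843
import Cfsg.Agent.Char.GalClifford
import Cfsg.Agent.Char.Isotypic
import Cfsg.Agent.Char.Clifford
import Cfsg.Agent.Grp.MinNormal

set_option autoImplicit false
open Cfsg

namespace Cfsg.Agent.S4843

open scoped commutatorElement ComplexConjugate

theorem commutator_pow_right {G : Type*} [Group G] {x g : G}
    (h : ⁅g, x⁆ ∈ Subgroup.center G) (n : ℕ) : ⁅g, x ^ n⁆ = ⁅g, x⁆ ^ n := by
  induction n with
  | zero => simp
  | succ n ih =>
    have hc := Subgroup.mem_center_iff.1 h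
    have : ⁅g, x ^ (n + 1)⁆ = ⁅g, x ^ n⁆ * (x ^ n * ⁅g, x⁆ * (x ^ n)⁻¹) := by
      simp only [commutatorElement_def, pow_succ]
      group
    rw [this, hc, mul_inv_cancel_right, ih, pow_succ]

theorem isPrimitive {G : Type*} [Group G] [Finite G] (χ : IrrCharacter G) (σ : ℂ ≃+* ℂ)
    (hirr : IsIrrCharacter G (χ.1 * (σ • χ).1)) : IsPrimitiveChar χ.1 := by
  intro L η hη he
  have hη' := hη.isIrr_of_ind L.subtype_injective (he ▸ χ.2)
  have h1 : ind L.subtype (η * (σ • χ).1 ∘ L.subtype) = χ.1 * (σ • χ).1 := by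
    rw [ind_mul_comp _ _ (σ • χ).isClassFunction, he]
  have hr := (σ • χ).isCharacter.comp L.subtype
  have h2 := (hη.mul hr).isIrr_of_ind L.subtype_injective (h1 ▸ hirr)
  have h3 : ind L.subtype (σ • (⟨η, hη'⟩ : IrrCharacter L)).1 = (σ • χ).1 := by
    rw [IrrCharacter.gal_smul_coe', IrrCharacter.gal_smul_coe', ind_map_ringHom, he]
  set θ : IrrCharacter L := σ • (⟨η, hη'⟩ : IrrCharacter L) with hθ
  have h4 : ip ((σ • χ).1 ∘ L.subtype) θ.1 ≠ 0 := liesOver_of_ind_eq h3
  have h5 := hr.sub_irr θ h4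
  have h6 : η * (σ • χ).1 ∘ L.subtype = η * θ.1 + η * ((σ • χ).1 ∘ L.subtype - θ.1) := by ring
  -- `η * θ` is a nonzero subcharacter of an irreducible character
  have h7 := hη.mul θ.isCharacter
  have h8 := hη.mul h5
  have h9 : η * θ.1 ≠ 0 := fun h0 => by
    have := congrFun h0 1
    exact mul_ne_zero (IrrCharacter.apply_one_ne_zero ⟨η, hη'⟩) θ.apply_one_ne_zero this
  obtain ⟨φ, hφ⟩ := h7.exists_constituent h9
  have h10 := h7.ip_add_ne_zero_left h8 φ.isCharacter hφ
  rw [← h6] at h10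
  have h11 : (⟨_, h2⟩ : IrrCharacter L) = φ := IrrCharacter.eq_of_ip_ne_zero h10
  have h12 := h7.charDegree_le_of_ip_ne_zero φ hφ
  rw [← h11, hη.charDegree_mul θ.isCharacter] at h12
  simp only at h12
  rw [hη.charDegree_mul hr, charDegree_comp, ← h3, θ.isCharacter.charDegree_ind_subtype] at h12
  have p1 := IrrCharacter.charDegree_pos (⟨η, hη'⟩ : IrrCharacter L)
  have p2 := θ.charDegree_pos
  have h13 := Nat.le_of_mul_le_mul_left h12 p1
  have h14 : L.index ≤ 1 := by
    by_contra hh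
    nlinarith
  have := index_pos L
  exact Subgroup.index_eq_one.1 (by omega)

theorem eq_zero_of_mem {G : Type*} [Group G] [Finite G] {χ : IrrCharacter G}
    (hf : charKer χ.1 = ⊥) {N : Subgroup G} (hN : ⁅N, N⁆ ≤ Subgroup.center G)
    (hC : N ⊓ Subgroup.centralizer (N : Set G) ≤ Subgroup.center G) {n : G} (hn : n ∈ N)
    (hnZ : n ∉ Subgroup.center G) : χ n = 0 := by
  by_contra h0
  refine hnZ (hC ⟨hn, fun m hm => ?_⟩)
  by_contra h1
  refine h0 (χ.isCharacter.eq_zero_of_commutator_mem_charCenter (x := m)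
    (χ.center_le_charCenter (hN (Subgroup.commutator_mem_commutator hn hm))) ?_)
  rw [hf, Subgroup.mem_bot, commutatorElement_eq_one_iff_mul_comm]
  exact fun h => h1 h.symm

/-- Let G be a finite group with a faithful irreducible character χ (taking the value χ(1) only at the identity) and let k be prime to the order of G, so that g ↦ χ(g^k) is a Galois conjugate of χ. If the pointwise product g ↦ χ(g)·χ(g^k) is again an irreducible character, then the Fitting subgroup of G equals its centre. -/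
theorem result {G : Type*} [Group G] [Finite G] (χ : Cfsg.IrrCharacter G) (hfaith : ∀ g : G, (χ : G → ℂ) g = (χ : G → ℂ) 1 → g = 1) (k : ℕ) (hk : Nat.Coprime k (Nat.card G)) (hirr : Cfsg.IsIrrCharacter G (fun g => (χ : G → ℂ) g * (χ : G → ℂ) (g ^ k))) : Cfsg.fittingSubgroup G = Subgroup.center G := by
  classical
  have := Fintype.ofFinite G
  have hG0 : Nat.card G ≠ 0 := Nat.card_pos.ne'
  obtain ⟨σ, hσ⟩ := exists_ringEquiv_pow hG0 hk
  set ψ := σ • χ with hψ
  have hψk : ∀ g, ψ g = χ (g ^ k) := fun g => by rw [hψ, χ.gal_smul_eq_galPow σ hk hσ]; rfl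
  have hirr' : IsIrrCharacter G (χ.1 * ψ.1) := by
    convert hirr using 1
    ext g
    exact congrArg (χ g * ·) (hψk g)
  have hprim := isPrimitive χ σ hirr'
  have hf : charKer χ.1 = ⊥ := χ.isCharacter.charKer_eq_bot_iff.2 hfaith
  have hf' : charKer ψ.1 = ⊥ := by rw [hψ, IrrCharacter.charKer_gal_smul, hf]
  refine le_antisymm ?_ center_le_fittingSubgroup
  by_contra hle
  set Z := Subgroup.center G with hZ
  have hs := QuotientGroup.mk'_surjective Z
  have hn1 : ((fittingSubgroup G).map (QuotientGroup.mk' Z)).Normal :=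
    Subgroup.Normal.map inferInstance _ hs
  obtain ⟨M, hM, hMle⟩ := exists_isMinNormal_le ((fittingSubgroup G).map (QuotientGroup.mk' Z))
    (by rwa [Ne, map_mk'_eq_bot_iff])
  have := isNilpotent_map (H := fittingSubgroup G) (QuotientGroup.mk' Z)
  have := isNilpotent_of_le hMle
  have hMc := hM.isMulCommutative_of_isSolvable
  have := hM.normal
  set N := M.comap (QuotientGroup.mk' Z) with hN
  have hNN : ⁅N, N⁆ ≤ Z := by
    rw [Subgroup.commutator_le]
    intro a ha b hb
    rw [← QuotientGroup.eq_one_iff, ← QuotientGroup.mk'_apply, map_commutatorElement,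
      commutatorElement_eq_one_iff_mul_comm]
    exact isMulCommutative_iff_forall.1 hMc _ ha _ hb
  have hC : N ⊓ Subgroup.centralizer (N : Set G) ≤ Z := by
    have : IsMulCommutative (N ⊓ Subgroup.centralizer (N : Set G) : Subgroup G) :=
      isMulCommutative_iff_forall.2 fun a ha b hb => hb.2 a ha.1
    exact hprim.le_center hfaith _
  obtain ⟨n, hn, hnZ⟩ : ∃ n ∈ N, n ∉ Z := by
    obtain ⟨m, hm, hm1⟩ := SetLike.exists_of_lt (bot_lt_iff_ne_bot.2 hM.ne_bot)
    obtain ⟨n, rfl⟩ := hs m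
    exact ⟨n, hm, fun h => hm1 ((QuotientGroup.eq_one_iff n).2 h)⟩
  obtain ⟨l, -, hl⟩ : ∃ l, l < Nat.card G + 1 ∧ k * l ≡ 1 [MOD Nat.card G] := by
    obtain ⟨l, hl⟩ := Nat.exists_mul_mod_eq_of_coprime 1 hk hG0
    exact ⟨l, by omega, hl.2⟩
  have hkl : ∀ g : G, (g ^ l) ^ k = g := fun g => by
    rw [← pow_mul, mul_comm, pow_eq_pow_of_modEq hl pow_card_eq_one', pow_one]
  have hmem : ∀ x : G, ∀ m ∈ N, ⁅x, m⁆ ∈ N := fun x m hm =>
    N.mul_mem (Subgroup.Normal.conj_mem inferInstance m hm x) (N.inv_mem hm)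
  have key : ∀ x : G, ψ ⁅x, n ^ l⁆ = χ ⁅x, n⁆ := fun x => by
    by_cases hx : ⁅x, n⁆ ∈ Z
    · rw [hψk, commutator_pow_right hx, hkl]
    · rw [eq_zero_of_mem hf hNN hC (hmem x n hn) hx,
        eq_zero_of_mem hf' hNN hC (hmem x _ (N.pow_mem hn l))]
      intro h
      apply hx
      rw [← hkl n, commutator_pow_right h]
      exact Z.pow_mem h k
  -- a nonprincipal character seen by `x ↦ χ [x, n]`
  obtain ⟨α, hα1, hα⟩ : ∃ α : IrrCharacter G, α ≠ IrrCharacter.one G ∧
      ∑ x : G, conj (α x) * χ ⁅x, n⁆ ≠ 0 := by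
    by_contra hcon
    push Not at hcon
    have h1 : ∀ α : IrrCharacter G, ∑ x : G, conj (α x) * χ ⁅x, n⁆ = 0 := fun α => by
      by_cases h : α = IrrCharacter.one G
      · subst h
        simp only [IrrCharacter.one_apply, map_one, one_mul, commutatorElement_def]
        rw [χ.sum_conj_mul, eq_zero_of_mem hf hNN hC hn hnZ]
        simp
      · exact hcon α h
    have h2 : ∑ α : IrrCharacter G, α 1 * ∑ x : G, conj (α x) * χ ⁅x, n⁆ = 0 := by simp [h1]
    simp only [Finset.mul_sum] at h2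
    rw [Finset.sum_comm, Finset.sum_eq_single 1] at h2
    · simp only [← mul_assoc, ← Finset.sum_mul] at h2
      rw [sum_irr_mul_conj_of_isConj (IsConj.refl 1)] at h2
      refine mul_ne_zero (natCard_cast_ne_zero _) ?_ h2
      simpa using χ.apply_one_ne_zero
    · intro x _ hx
      simp only [← mul_assoc, ← Finset.sum_mul]
      rw [sum_irr_mul_conj_of_not_isConj (by simpa [eq_comm] using hx), zero_mul]
    · simp
  have c1 := χ.isCharacter.mul χ.isCharacter.star
  have c2 := ψ.isCharacter.mul ψ.isCharacter.star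
  have a1 : ip (χ.1 * star χ.1) α.1 ≠ 0 := fun h =>
    hα (χ.isCharacter.sum_conj_mul_apply_conj_eq_zero α h n n⁻¹)
  have a2 : ip (ψ.1 * star ψ.1) α.1 ≠ 0 := fun h => by
    apply hα
    simp only [← key]
    exact ψ.isCharacter.sum_conj_mul_apply_conj_eq_zero α h _ _
  have b : ∀ φ : IrrCharacter G, ip (φ.1 * star φ.1) (IrrCharacter.one G).1 ≠ 0 := fun φ => by
    rw [ip_mul_left, star_star]
    have : (IrrCharacter.one G).1 * φ.1 = φ.1 := by ext; simp
    rw [this, φ.ip_self]
    exact one_ne_zero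
  have e1 : ip (χ.1 * star χ.1) (ψ.1 * star ψ.1) = 1 := by
    rw [← IrrCharacter.ip_self ⟨_, hirr'⟩, ip_def, ip_def]
    congr 1
    refine Finset.sum_congr rfl fun g _ => ?_
    simp only [Pi.mul_apply, Pi.star_apply, map_mul, RCLike.star_def, Complex.conj_conj]
    ring
  have e2 := ipNat_eq_of_ip_eq (n := 1) (by simpa using e1)
  rw [c1.ipNat_eq_sum c2] at e2
  have e3 := Finset.sum_le_sum_of_subset (f := fun φ : IrrCharacter G =>
    ipNat (χ.1 * star χ.1) φ.1 * ipNat (ψ.1 * star ψ.1) φ.1)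
    (Finset.subset_univ {α, IrrCharacter.one G})
  rw [e2, Finset.sum_pair hα1] at e3
  have p1 := Nat.mul_pos ((c1.ipNat_pos_iff α.isCharacter).2 a1)
    ((c2.ipNat_pos_iff α.isCharacter).2 a2)
  have p2 := Nat.mul_pos ((c1.ipNat_pos_iff (IrrCharacter.one G).isCharacter).2 (b χ))
    ((c2.ipNat_pos_iff (IrrCharacter.one G).isCharacter).2 (b ψ))
  omega

end Cfsg.Agent.S4843
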