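import Cfsg.Statements.S4845
import Cfsg.Agent.Char.Arith
import Cfsg.Agent.Char.Clifford
import Cfsg.Agent.Char.Abelian
import Cfsg.Agent.Grp.MinNormal

set_option autoImplicit false
open Cfsg

namespace Cfsg.Agent.S4845

open scoped commutatorElement

theorem eq_or_eq_of_card {G : Type*} [Group G] [Finite G] {p : ℕ} (hp : p.Prime)
    {M K N : Subgroup G} (h1 : M ≤ K) (h2 : K ≤ N) (hc : Nat.card N = Nat.card M * p) :
    K = M ∨ K = N := by
  have e1 := card_mul_relIndex h1
  have e2 := card_mul_relIndex h2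
  have e : M.relIndex K * K.relIndex N = p := by
    have hM : 0 < Nat.card M := Nat.card_pos
    apply Nat.eq_of_mul_eq_mul_left hM
    rw [← mul_assoc, e1, e2, hc]
  rcases (Nat.dvd_prime hp).1 (Dvd.intro _ e) with h | h
  · left
    exact le_antisymm (Subgroup.relIndex_eq_one.1 h) h1
  · right
    rw [h] at e
    have : K.relIndex N = 1 := Nat.eq_of_mul_eq_mul_left hp.pos (by rw [e, mul_one])
    exact le_antisymm h2 (Subgroup.relIndex_eq_one.1 this)

theorem eq_bot_or_eq_of_card {G : Type*} [Group G] [Finite G] {p : ℕ} (hp : p.Prime)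
    {K N : Subgroup G} (h2 : K ≤ N) (hc : Nat.card N = p) : K = ⊥ ∨ K = N :=
  eq_or_eq_of_card hp bot_le h2 (by simp [hc])

theorem le_center_of_card {G : Type*} [Group G] [Finite G] {p : ℕ} [hp : Fact p.Prime]
    (hG : IsPGroup p G) {M : Subgroup G} [M.Normal] (hc : Nat.card M = p) :
    M ≤ Subgroup.center G := by
  have hM : M ≠ ⊥ := by
    rintro rfl
    exact hp.1.one_lt.ne (by simpa using hc)
  rcases eq_bot_or_eq_of_card hp.1 (inf_le_left : M ⊓ Subgroup.center G ≤ M) hc with h | h
  · exact absurd h (inf_center_ne_bot_of_isPGroup hG hM)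
  · exact inf_eq_left.1 h

theorem commutator_pow_left {G : Type*} [Group G] {x g : G}
    (h : ⁅x, g⁆ ∈ Subgroup.center G) (n : ℕ) : ⁅x ^ n, g⁆ = ⁅x, g⁆ ^ n := by
  induction n with
  | zero => simp
  | succ n ih =>
    have hc := Subgroup.mem_center_iff.1 h
    have : ⁅x ^ (n + 1), g⁆ = x ^ n * ⁅x, g⁆ * (x ^ n)⁻¹ * ⁅x ^ n, g⁆ := by
      simp only [commutatorElement_def, pow_succ]
      group
    rw [this, hc, mul_inv_cancel_right, ih, pow_succ']

/-- Same degree nonlinear characters have the same kernel. -/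
def SameKer (G : Type*) [Group G] : Prop :=
  ∀ χ ψ : IrrCharacter G, charDegree χ.1 ≠ 1 → charDegree χ.1 = charDegree ψ.1 →
    charKer χ.1 = charKer ψ.1

theorem SameKer.ker_le {G : Type*} [Group G] [Finite G] (h : SameKer G) (χ : IrrCharacter G)
    (hχ : charDegree χ.1 ≠ 1) : charKer χ.1 ≤ commutator G := by
  intro g hg
  rw [mem_commutator_iff_forall_linear]
  intro lam
  have e := h χ (lam • χ) hχ (by simp)
  have h1 := (χ.mem_charKer).1 hg
  rw [e, IrrCharacter.mem_charKer, IrrCharacter.linear_smul_apply,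
    IrrCharacter.linear_smul_apply, h1] at hg
  have := mul_right_cancel₀ χ.apply_one_ne_zero hg
  apply Units.ext
  simpa using this

theorem SameKer.quotient {G : Type*} [Group G] [Finite G] (h : SameKer G) (N : Subgroup G)
    [N.Normal] : SameKer (G ⧸ N) := by
  intro χ ψ h1 h2
  have hs := QuotientGroup.mk'_surjective N
  have e := h (χ.inflate _ hs) (ψ.inflate _ hs) h1 h2
  simp only [IrrCharacter.inflate] at e
  rw [χ.isCharacter.charKer_comp, ψ.isCharacter.charKer_comp] at e
  exact Subgroup.comap_injective hs e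

theorem not_commutator_le {G : Type*} [Group G] [Finite G] {χ : IrrCharacter G} :
    charDegree χ.1 ≠ 1 ↔ ¬ commutator G ≤ charKer χ.1 := by
  rw [χ.commutator_le_charKer_iff, χ.apply_one_eq_one_iff]

/-- `[G', G] ≤ M` when `M` has index `p` in `G'`. -/
theorem commutator_mem {G : Type*} [Group G] [Finite G] {p : ℕ} [hp : Fact p.Prime]
    (hG : IsPGroup p G) {M : Subgroup G} [M.Normal] (hM : M ≤ commutator G)
    (hc : Nat.card (commutator G) = Nat.card M * p) {x : G} (hx : x ∈ commutator G) (g : G) :
    ⁅x, g⁆ ∈ M := by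
  have h1 : Nat.card ((commutator G).map (QuotientGroup.mk' M)) = p := by
    rw [card_map_mk'_eq_relIndex]
    have := card_mul_relIndex hM
    exact Nat.eq_of_mul_eq_mul_left Nat.card_pos (this.trans hc)
  have : ((commutator G).map (QuotientGroup.mk' M)).Normal :=
    Subgroup.Normal.map inferInstance _ (QuotientGroup.mk'_surjective M)
  have h2 := le_center_of_card (hG.to_quotient M) h1 ⟨x, hx, rfl⟩
  rw [← QuotientGroup.eq_one_iff, ← QuotientGroup.mk'_apply, map_commutatorElement,
    commutatorElement_eq_one_iff_mul_comm]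
  exact (Subgroup.mem_center_iff.1 h2 _).symm

theorem charDegree_le {G : Type*} [Group G] [Finite G] {p : ℕ} [hp : Fact p.Prime]
    (hG : IsPGroup p G) (hc : Nat.card (commutator G) = p * p) {ψ : IrrCharacter G}
    (hψ : Nat.card (charKer ψ.1) = p) (hle : charKer ψ.1 ≤ commutator G) (χ : IrrCharacter G) :
    charDegree χ.1 ≤ charDegree ψ.1 := by
  set A := charCenter ψ.1 with hA
  set Z := Subgroup.center G with hZ
  have hMZ : charKer ψ.1 ≤ Z := le_center_of_card hG hψ
  have hA1 : commutator G ≤ A := fun x hx =>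
    ψ.mem_charCenter_iff.2 (commutator_mem hG hle (by rw [hc, hψ]) hx)
  have e1 := ψ.sq_charDegree_eq_index_of_commutator_le hA1
  have hZA : Z ≤ A := ψ.center_le_charCenter
  have e2 : charDegree χ.1 ^ 2 ≤ Z.index := χ.sq_charDegree_le_index_of_le χ.center_le_charCenter
  have hcyc := ψ.isCharacter.isCyclic_charCenter_quotient
  have e3 : Z.relIndex A ∣ p := by
    have hle' : (charKer ψ.1).subgroupOf A ≤ (Z.subgroupOf A).comap (MonoidHom.id A) :=
      fun x hx => hMZ hx
    have hcyc' : IsCyclic (A ⧸ Z.subgroupOf A) := by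
      refine isCyclic_of_surjective (QuotientGroup.map _ _ (MonoidHom.id A) hle') ?_
      intro y
      obtain ⟨x, rfl⟩ := QuotientGroup.mk_surjective y
      exact ⟨x, rfl⟩
    change Nat.card (A ⧸ Z.subgroupOf A) ∣ p
    rw [← IsCyclic.exponent_eq_card, Monoid.exponent_dvd_iff_forall_pow_eq_one]
    intro y
    obtain ⟨x, rfl⟩ := QuotientGroup.mk_surjective y
    rw [← QuotientGroup.mk_pow, QuotientGroup.eq_one_iff, Subgroup.mem_subgroupOf,
      Subgroup.mem_center_iff]
    intro g
    have hm := ψ.mem_charCenter_iff.1 x.2 g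
    symm
    rw [← commutatorElement_eq_one_iff_mul_comm, Subgroup.coe_pow, commutator_pow_left (hMZ hm)]
    have := pow_card_eq_one' (x := (⟨_, hm⟩ : charKer ψ.1))
    rw [hψ] at this
    exact congrArg Subtype.val this
  have e4 : Z.index ≤ p * A.index := by
    rw [← Subgroup.relIndex_mul_index hZA]
    exact Nat.mul_le_mul_right _ (Nat.le_of_dvd hp.1.pos e3)
  obtain ⟨a, ha⟩ := χ.exists_charDegree_eq_pow hG
  obtain ⟨b, hb⟩ := ψ.exists_charDegree_eq_pow hG
  rw [← e1] at e4
  have e5 := e2.trans e4
  rw [ha, hb, ← pow_mul, ← pow_mul, ← pow_succ'] at e5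
  have := (Nat.pow_le_pow_iff_right hp.1.one_lt).1 e5
  rw [ha, hb]
  exact Nat.pow_le_pow_right hp.1.pos (by omega)

theorem charDegree_le_prime {G : Type*} [Group G] [Finite G] {p : ℕ} [hp : Fact p.Prime]
    (hG : IsPGroup p G) (hc : Nat.card (commutator G) = p * p) {ψ : IrrCharacter G}
    (hψ : Nat.card (charKer ψ.1) = p) (hle : charKer ψ.1 ≤ commutator G)
    (hnc : ¬ commutator G ≤ Subgroup.center G) : charDegree ψ.1 ≤ p := by
  set M := charKer ψ.1 with hM
  have hMZ : M ≤ Subgroup.center G := le_center_of_card hG hψ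
  have hc' : Nat.card (commutator G) = Nat.card M * p := by rw [hc, hψ]
  obtain ⟨t, ht, htZ⟩ := SetLike.not_le_iff_exists.1 hnc
  -- the homomorphism `g ↦ [t, g]`
  let φ : G →* M := MonoidHom.mk' (fun g => ⟨⁅t, g⁆, commutator_mem hG hle hc' ht g⟩) (by
    intro a b
    apply Subtype.ext
    have h1 := Subgroup.mem_center_iff.1 (hMZ (commutator_mem hG hle hc' ht b))
    have : ⁅t, a * b⁆ = ⁅t, a⁆ * (a * ⁅t, b⁆ * a⁻¹) := by
      simp only [commutatorElement_def]
      group
    simp only [Subgroup.coe_mul]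
    rw [this, h1, mul_inv_cancel_right])
  set C := φ.ker with hC
  have hCi : C.index ≤ p := by
    rw [hC, Subgroup.index_ker, ← hψ]
    exact Nat.le_of_dvd Nat.card_pos (Subgroup.card_subgroup_dvd_card _)
  have hCc : C ≤ Subgroup.centralizer (commutator G : Set G) := by
    have h1 : commutator G ⊓ Subgroup.centralizer (C : Set G) = commutator G := by
      rcases eq_or_eq_of_card hp.1 (K := commutator G ⊓ Subgroup.centralizer (C : Set G))
        (le_inf hle (hMZ.trans (Subgroup.center_le_centralizer _))) inf_le_left hc' with h | h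
      · exfalso
        apply htZ
        apply hMZ
        rw [← h]
        refine ⟨ht, fun c hc => ?_⟩
        have : ⁅t, c⁆ = 1 := congrArg Subtype.val (MonoidHom.mem_ker.1 hc)
        exact (commutatorElement_eq_one_iff_mul_comm.1 this).symm
      · exact h
    rw [Subgroup.le_centralizer_iff]
    exact inf_eq_left.1 h1
  have hCC : ⁅C, C⁆ ≤ M := by
    have h1 : ⁅⁅C, C⁆, (⊤ : Subgroup G)⁆ = ⊥ := by
      apply Subgroup.commutator_commutator_eq_bot_of_rotate
      · rw [Subgroup.commutator_eq_bot_iff_le_centralizer, Subgroup.le_centralizer_iff]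
        exact hCc.trans (Subgroup.centralizer_le (Subgroup.commutator_mono le_top le_rfl))
      · rw [Subgroup.commutator_eq_bot_iff_le_centralizer, Subgroup.le_centralizer_iff]
        exact hCc.trans (Subgroup.centralizer_le (Subgroup.commutator_mono le_rfl le_top))
    rw [Subgroup.commutator_eq_bot_iff_le_centralizer, Subgroup.coe_top,
      Subgroup.centralizer_univ] at h1
    rcases eq_or_eq_of_card hp.1 (K := commutator G ⊓ Subgroup.center G)
      (le_inf hle hMZ) inf_le_left hc' with h | h
    · rw [← h]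
      exact le_inf (Subgroup.commutator_mono le_top le_top) h1
    · exact absurd (inf_eq_left.1 h) hnc
  obtain ⟨θ, hθ⟩ := ψ.exists_liesOver_below C.subtype
  have hθ1 : charDegree θ.1 = 1 := by
    rw [← θ.apply_one_eq_one_iff, ← θ.commutator_le_charKer_iff]
    refine le_trans ?_ ((ψ.isCharacter.comp C.subtype).charKer_le_of_ip_ne_zero θ hθ)
    rw [ψ.isCharacter.charKer_comp, ← Subgroup.map_le_iff_le_comap, commutator_def,
      Subgroup.map_commutator, ← MonoidHom.range_eq_map, Subgroup.range_subtype]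
    exact hCC
  have := hθ.charDegree_le_index_mul C.subtype_injective θ.isCharacter
  rw [hθ1, mul_one, Subgroup.range_subtype] at this
  exact this.trans hCi

theorem false_of_card_sq {G : Type*} [Group G] [Finite G] {p : ℕ} [hp : Fact p.Prime]
    (hG : IsPGroup p G) (h : SameKer G) (hc : Nat.card (commutator G) = p * p)
    (M : Subgroup G) [M.Normal] (hM : Nat.card M = p) (hle : M ≤ commutator G) : False := by
  have hp1 := hp.1.one_lt
  have hne : M ≠ commutator G := by
    rintro rfl
    rw [hM] at hc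
    nlinarith
  have hM1 : M ≠ ⊥ := by
    rintro rfl
    exact hp1.ne (by simpa using hM)
  obtain ⟨t, ht, htM⟩ := SetLike.exists_of_lt (lt_of_le_of_ne hle hne)
  obtain ⟨ψ, h1, h2⟩ := exists_irr_le_charKer_not_mem M htM
  have hψ1 : charDegree ψ.1 ≠ 1 := not_commutator_le.2 fun h => h2 (h ht)
  have hψ : charKer ψ.1 = M := by
    rcases eq_or_eq_of_card hp.1 h1 (h.ker_le ψ hψ1) (by rw [hc, hM]) with h3 | h3
    · exact h3
    · exact absurd (h3 ▸ ht) h2
  obtain ⟨m, hm, hm1⟩ := SetLike.exists_of_lt (bot_lt_iff_ne_bot.2 hM1)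
  obtain ⟨χ, -, h4⟩ := exists_irr_le_charKer_not_mem (⊥ : Subgroup G) hm1
  have hχ1 : charDegree χ.1 ≠ 1 := not_commutator_le.2 fun h => h4 (h (hle hm))
  have hlt : charDegree χ.1 < charDegree ψ.1 := by
    refine lt_of_le_of_ne (charDegree_le hG hc (hψ ▸ hM) (hψ ▸ hle) χ) fun he => h4 ?_
    rw [h χ ψ hχ1 he, hψ]
    exact hm
  by_cases hK : charKer χ.1 = ⊥
  · by_cases hZ : commutator G ≤ Subgroup.center G
    · have e1 := χ.sq_charDegree_eq_index_of_commutator_le (hZ.trans χ.center_le_charCenter)
      rw [χ.charCenter_eq_center_of_faithful hK] at e1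
      have e2 := ψ.sq_charDegree_le_index_of_le ψ.center_le_charCenter
      rw [← e1] at e2
      nlinarith
    · have e1 := charDegree_le_prime hG hc (hψ ▸ hM) (hψ ▸ hle) hZ
      obtain ⟨a, ha⟩ := χ.exists_charDegree_eq_pow hG
      rcases a with _ | a
      · exact hχ1 (by simpa using ha)
      · have : p ^ (a + 1) < p ^ 1 := by rw [← ha, pow_one]; omega
        have := (Nat.pow_lt_pow_iff_right hp1).1 this
        omega
  · have hKle := h.ker_le χ hχ1
    have hK2 : Nat.card (charKer χ.1) = p := by
      have hd := Subgroup.card_dvd_of_le hKle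
      rw [hc, ← pow_two] at hd
      obtain ⟨i, hi, he⟩ := (Nat.dvd_prime_pow hp.1).1 hd
      interval_cases i
      · exact absurd (Subgroup.card_eq_one.1 he) hK
      · simpa using he
      · exfalso
        refine not_commutator_le.1 hχ1 (Subgroup.eq_of_le_of_card_ge hKle ?_).ge
        rw [he, hc, pow_two]
    exact absurd (charDegree_le hG hc hK2 hKle ψ) (not_le.2 hlt)

universe u in
theorem main_imp {p : ℕ} [hp : Fact p.Prime] (G : Type u) [Group G] [Finite G] :
    IsPGroup p G → commutator G ≠ ⊥ → SameKer G →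
      IsCyclic (Subgroup.center G) ∧ Nat.card (commutator G) = p := by
  refine card_induction (P := fun G _ _ => IsPGroup p G → commutator G ≠ ⊥ → SameKer G →
      IsCyclic (Subgroup.center G) ∧ Nat.card (commutator G) = p) ?_ G
  intro G _ _ ih hG hna h
  have := hG.isNilpotent
  obtain ⟨M, hM, hle⟩ := exists_isMinNormal_le (commutator G) hna
  have := hM.normal
  have hMp : Nat.card M = p := by
    have h1 := hM.prime_card_of_le_center hM.le_center_of_isNilpotent
    obtain ⟨k, hk⟩ := (IsPGroup.iff_card.1 (hG.to_subgroup M))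
    rw [hk] at h1 ⊢
    rw [h1.eq_one_of_pow, pow_one]
  by_cases he : M = commutator G
  · refine ⟨?_, he ▸ hMp⟩
    obtain ⟨t, ht, ht1⟩ := SetLike.exists_of_lt (bot_lt_iff_ne_bot.2 hna)
    obtain ⟨χ, -, h4⟩ := exists_irr_le_charKer_not_mem (⊥ : Subgroup G) ht1
    have hχ1 : charDegree χ.1 ≠ 1 := not_commutator_le.2 fun h => h4 (h ht)
    rcases eq_bot_or_eq_of_card hp.1 (h.ker_le χ hχ1) (he ▸ hMp) with h5 | h5
    · exact χ.isCyclic_center_of_faithful h5
    · exact absurd (h5 ▸ ht) h4
  · exfalso
    have hmap : commutator (G ⧸ M) = (commutator G).map (QuotientGroup.mk' M) := by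
      rw [commutator_def, commutator_def, Subgroup.map_commutator,
        Subgroup.map_top_of_surjective _ (QuotientGroup.mk'_surjective M)]
    obtain ⟨-, h2⟩ := ih (G ⧸ M) (card_quotient_lt hM.ne_bot) (hG.to_quotient M)
      (by rw [hmap, Ne, map_mk'_eq_bot_iff]; exact fun h => he (le_antisymm hle h)) (h.quotient M)
    rw [hmap, card_map_mk'_eq_relIndex] at h2
    have h3 := card_mul_relIndex hle
    rw [h2, hMp] at h3
    exact false_of_card_sq hG h h3.symm M hMp hle

/-- Let p be a prime and P a finite non-commutative p-group. Then every two irreducible characters of P of the same degree greater than 1 are Galois conjugate (one is obtained from the other by composing with g ↦ g^k for some k prime to the order of P) if and only if the centre of P is cyclic and the derived subgroup of P has order p. -/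
theorem result {P : Type*} [Group P] [Finite P] (p : ℕ) [Fact p.Prime] (hP : IsPGroup p P) (hna : ¬ IsMulCommutative P) :
    (∀ χ ψ : Cfsg.IrrCharacter P, Cfsg.charDegree (χ : P → ℂ) ≠ 1 → Cfsg.charDegree (χ : P → ℂ) = Cfsg.charDegree (ψ : P → ℂ) → ∃ k : ℕ, Nat.Coprime k (Nat.card P) ∧ ∀ g : P, (ψ : P → ℂ) g = (χ : P → ℂ) (g ^ k)) ↔
      (IsCyclic (Subgroup.center P) ∧ Nat.card (commutator P) = p) := by
  have hp : p.Prime := Fact.out
  have hne : commutator P ≠ ⊥ := fun h => hna ((commutator_eq_bot_iff P).1 h)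
  constructor
  · intro h
    refine main_imp P hP hne fun χ ψ h1 h2 => ?_
    obtain ⟨σ, rfl⟩ := (χ.exists_gal_smul_iff ψ).2 (h χ ψ h1 h2)
    simp
  · rintro ⟨hcyc, hc⟩ χ ψ h1 h2
    have hZ : commutator P ≤ Subgroup.center P := le_center_of_card hP hc
    -- nonlinear characters are faithful
    have hf : ∀ χ : IrrCharacter P, charDegree χ.1 ≠ 1 → charKer χ.1 = ⊥ := by
      intro χ h1
      by_contra hK
      have h3 := inf_center_ne_bot_of_isPGroup hP hK
      have h4 : p ∣ Nat.card (charKer χ.1 ⊓ Subgroup.center P : Subgroup P) := by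
        obtain ⟨k, hk⟩ := IsPGroup.iff_card.1 (hP.to_subgroup (charKer χ.1 ⊓ Subgroup.center P))
        rcases k with _ | k
        · exact absurd (Subgroup.card_eq_one.1 hk) h3
        · rw [hk]; exact dvd_pow_self _ (by omega)
      obtain ⟨x, ⟨hx1, hx2⟩, hx⟩ := exists_mem_orderOf_eq_prime h4
      refine not_commutator_le.1 h1 fun y hy => ?_
      -- `y` is a power of `x` in the cyclic centre
      classical
      have := Fintype.ofFinite (Subgroup.center P)
      have h5 := IsCyclic.card_pow_eq_one_le (α := Subgroup.center P) hp.pos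
      have h6 : (Finset.univ.filter fun a : Subgroup.center P => (a : P) ∈ Subgroup.zpowers x) =
          Finset.univ.filter fun a : Subgroup.center P => a ^ p = 1 := by
        apply Finset.eq_of_subset_of_card_le
        · intro a ha
          simp only [Finset.mem_filter, Finset.mem_univ, true_and] at ha ⊢
          obtain ⟨k, hk⟩ := ha
          apply Subtype.ext
          simp only [Subgroup.coe_pow, ← hk, OneMemClass.coe_one]
          rw [← zpow_natCast, ← zpow_mul, mul_comm, zpow_mul, zpow_natCast, ← hx,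
            pow_orderOf_eq_one, one_zpow]
        · refine h5.trans (le_of_eq ?_)
          rw [← hx, ← Nat.card_zpowers,
            ← card_subgroupOf_of_le ((Subgroup.zpowers_le (H := Subgroup.center P)).2 hx2),
            ← Fintype.card_subtype, Nat.card_eq_fintype_card]
          rfl
      have h7 : (⟨y, hZ hy⟩ : Subgroup.center P) ∈
          Finset.univ.filter fun a : Subgroup.center P => a ^ p = 1 := by
        simp only [Finset.mem_filter, Finset.mem_univ, true_and]
        have := pow_card_eq_one' (x := (⟨y, hy⟩ : commutator P))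
        rw [hc] at this
        have h8 : y ^ p = 1 := congrArg Subtype.val this
        exact Subtype.ext h8
      rw [← h6] at h7
      simp only [Finset.mem_filter, Finset.mem_univ, true_and] at h7
      exact (Subgroup.zpowers_le.2 hx1) h7
    have hχ := hf χ h1
    have hψ := hf ψ (h2 ▸ h1)
    rw [← IrrCharacter.exists_gal_smul_iff]
    obtain ⟨lam, hl1, hl2⟩ := χ.exists_monoidHom_center
    obtain ⟨mu, hm1, hm2⟩ := ψ.exists_monoidHom_center
    rw [hχ, Subgroup.bot_subgroupOf, MonoidHom.ker_eq_bot_iff] at hl2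
    rw [hψ, Subgroup.bot_subgroupOf, MonoidHom.ker_eq_bot_iff] at hm2
    obtain ⟨z, hz⟩ := IsCyclic.exists_generator (α := Subgroup.center P)
    have hzo : orderOf z ≠ 0 := (orderOf_pos z).ne'
    have p1 : IsPrimitiveRoot (lam z : ℂ) (orderOf z) := by
      rw [IsPrimitiveRoot.coe_units_iff, ← orderOf_injective lam hl2 z]
      exact IsPrimitiveRoot.orderOf _
    have p2 : IsPrimitiveRoot (mu z : ℂ) (orderOf z) := by
      rw [IsPrimitiveRoot.coe_units_iff, ← orderOf_injective mu hm2 z]
      exact IsPrimitiveRoot.orderOf _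
    have : NeZero (orderOf z) := ⟨hzo⟩
    obtain ⟨k, -, hk, he⟩ := (p1.isPrimitiveRoot_iff).1 p2
    obtain ⟨σ, hσ⟩ := exists_ringEquiv_pow hzo hk
    refine ⟨σ, ?_⟩
    ext g
    rw [IrrCharacter.gal_smul_apply]
    by_cases hg : g ∈ Subgroup.center P
    · have e1 := hl1 ⟨g, hg⟩ 1
      have e2 := hm1 ⟨g, hg⟩ 1
      simp only [mul_one] at e1 e2
      obtain ⟨n, hn⟩ := hz ⟨g, hg⟩
      rw [e1, e2, map_mul, IrrCharacter.gal_smul_apply_one, χ.apply_one, ψ.apply_one, h2, ← hn]
      simp only [map_zpow, Units.val_zpow_eq_zpow_val, map_zpow₀]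
      rw [hσ _ p1.pow_eq_one, he]
    · rw [χ.eq_zero_of_commutator_le_charCenter (hZ.trans χ.center_le_charCenter)
          (by rwa [χ.charCenter_eq_center_of_faithful hχ]),
        ψ.eq_zero_of_commutator_le_charCenter (hZ.trans ψ.center_le_charCenter)
          (by rwa [ψ.charCenter_eq_center_of_faithful hψ]), map_zero]

end Cfsg.Agent.S4845
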