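import Cfsg.Statements.S4848
import Cfsg.Agent.Char.ResidualSum
import Cfsg.Agent.Char.Congr
import Cfsg.Agent.Char.Burnside
import Cfsg.Agent.Char.BrauerPerm
import Cfsg.Agent.Char.Degrees
import Cfsg.Agent.Grp.Coprime
import Cfsg.Agent.Grp.Cores
import Cfsg.Agent.Grp.PPart

set_option autoImplicit false
open Cfsg

namespace Cfsg.Agent.S4848

open Subgroup
open scoped commutatorElement Pointwise

/-- A non-vanishing element is central modulo a normal subgroup with `p`-group quotient. -/
theorem commutator_mem_of_nonvanishing {G : Type*} [Group G] [Finite G] {p : ℕ} [Fact p.Prime]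
    (N : Subgroup G) [hNn : N.Normal] (hN : IsPGroup p (G ⧸ N)) {x : G}
    (hx : ∀ χ : IrrCharacter G, χ x ≠ 0) (y : G) : ⁅x, y⁆ ∈ N := by
  classical
  by_contra hy
  obtain ⟨M, hNM, ⟨hMn, y', hy'⟩, hmax⟩ := Finite.exists_le_maximal
    (p := fun M : Subgroup G => M.Normal ∧ ∃ y, ⁅x, y⁆ ∉ M) ⟨hNn, y, hy⟩
  have hM : IsPGroup p (G ⧸ M) :=
    hN.of_surjective (QuotientGroup.map N M (MonoidHom.id G) (by simpa using hNM)) (by
      intro q
      induction q using QuotientGroup.induction_on with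
      | H g => exact ⟨(g : G ⧸ N), rfl⟩)
  have hnt : Nontrivial (G ⧸ M) := by
    refine ⟨((⁅x, y'⁆ : G) : G ⧸ M), 1, ?_⟩
    intro h
    exact hy' ((QuotientGroup.eq_one_iff _).1 h)
  have hZ := hM.center_nontrivial
  set Z := (center (G ⧸ M)).comap (QuotientGroup.mk' M) with hZdef
  have hMZ : M ≤ Z := by
    intro m hm
    have : ((m : G) : G ⧸ M) = 1 := (QuotientGroup.eq_one_iff _).2 hm
    simp only [hZdef, mem_comap, QuotientGroup.mk'_apply, this]
    exact one_mem _
  have hZM : ¬ Z ≤ M := by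
    intro h
    obtain ⟨⟨z, hz⟩, hz1⟩ := exists_ne (1 : center (G ⧸ M))
    induction z using QuotientGroup.induction_on with
    | H g =>
      have : g ∈ M := h (by simpa [hZdef] using hz)
      apply hz1
      ext
      exact (QuotientGroup.eq_one_iff _).2 this
  have hall : ⁅x, y'⁆ ∈ Z := by
    by_contra h
    exact hZM (hmax ⟨inferInstance, y', h⟩ hMZ)
  obtain ⟨χ, hχM, hχ⟩ := exists_irr_le_charKer_not_mem M hy'
  refine hx χ (χ.isCharacter.eq_zero_of_commutator_mem_charCenter (x := y') ?_ hχ)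
  rw [χ.mem_charCenter_iff]
  intro g
  apply hχM
  have h1 : ((⁅x, y'⁆ : G) : G ⧸ M) ∈ center (G ⧸ M) := hall
  rw [← QuotientGroup.eq_one_iff]
  have h2 := (mem_center_iff.1 h1 (g : G ⧸ M)).symm
  rw [commutatorElement_def ⁅x, y'⁆ g]
  simp only [QuotientGroup.mk_mul, QuotientGroup.mk_inv]
  rw [h2]
  group

/-- A non-vanishing element which is central modulo `N` fixes every character of `N`. -/
theorem mem_inertia_of_nonvanishing {G : Type*} [Group G] [Finite G]
    (N : Subgroup G) [hNn : N.Normal] {x : G}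
    (hx : ∀ χ : IrrCharacter G, χ x ≠ 0) (hc : ∀ y, ⁅x, y⁆ ∈ N) (θ : IrrCharacter N) :
    x ∈ inertia N.subtype θ := by
  obtain ⟨χ, hχ⟩ := θ.exists_liesOver_above (f := N.subtype) N.subtype_injective
  obtain ⟨ψ, -, hψ⟩ := hχ.exists_inertia_ind_eq
  by_contra hxT
  apply hx χ
  change χ.1 x = 0
  rw [← hψ]
  apply ind_apply_eq_zero
  rintro ⟨t, ht⟩ hconj
  obtain ⟨c, hc'⟩ := isConj_iff.1 hconj
  apply hxT
  have h1 : x = ⁅x, c⁆ * t := by
    have : t = c * x * c⁻¹ := hc'.symm
    rw [this, commutatorElement_def]; group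
  rw [h1]
  exact mul_mem (le_inertia_subtype N θ (hc c)) ht

theorem mem_center_of_commute {G : Type*} [Group G] [Finite G] {p : ℕ} [Fact p.Prime]
    (hvan : ∀ g : G, (∃ χ : IrrCharacter G, χ g = 0) → ∃ m : ℕ, 1 ≤ m ∧ orderOf g = p ^ m)
    (P : Sylow p G) (N : Subgroup G) [hNn : N.Normal] (hc : N.IsComplement' (P : Subgroup G))
    {g n : G} (hg : g ∈ (P : Subgroup G)) (hn : n ∈ N) (hn1 : n ≠ 1) (hgn : Commute g n) :
    g ∈ center G := by
  have hNd : ¬ p ∣ Nat.card N := by
    rw [← hc.index_eq_card]; exact P.not_dvd_index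
  have hQ : IsPGroup p (G ⧸ N) := by
    rw [isPGroup_quotient_iff_index, hc.symm.index_eq_card]
    exact P.isPGroup'.exists_card_eq
  have hgp : IsPElt p g := isPElt_of_mem P.isPGroup' hg
  have hnr : IsPRegular p n := isPRegular_of_mem_of_not_dvd hNd hn
  have hx : ∀ χ : IrrCharacter G, χ (g * n) ≠ 0 := by
    intro χ h0
    obtain ⟨m, -, hm⟩ := hvan _ ⟨χ, h0⟩
    have h1 : IsPElt p (g * n) := isPElt_iff_pow_eq_one.2 ⟨m, by rw [← hm, pow_orderOf_eq_one]⟩
    have h2 := pPrimePart_mul_eq hgn hgp hnr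
    rw [pPrimePart_eq_one_iff.2 h1] at h2
    exact hn1 h2.symm
  have hcomm := commutator_mem_of_nonvanishing N hQ hx
  have hT : ∀ θ : IrrCharacter N, g ∈ inertia N.subtype θ := by
    intro θ
    have h1 := mem_inertia_of_nonvanishing N hx hcomm θ
    have h2 := le_inertia_subtype N θ hn
    simpa using mul_mem h1 (inv_mem h2)
  have hA : IsCoprimeAction (zpowers g) N :=
    isCoprimeAction_of_isPGroup_left (p := p) (by rw [normalizer_eq_top]; exact le_top)
      (isPElt_iff_isPGroup_zpowers.1 hgp) hNd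
  have hN : ∀ m ∈ N, Commute g m := by
    have htop : (centralizer ({g} : Set G)).subgroupOf N = ⊤ := by
      apply eq_top_of_forall_exists_conj_mem
      intro m
      obtain ⟨k, hk, hk'⟩ := hA.exists_conj_mem_centralizer (m : G) (by
        intro a ha
        have h1 : ∀ θ : IrrCharacter N, conjAut N.subtype a • θ = θ := fun θ =>
          mem_inertia.1 ((zpowers_le.2 (hT θ)) ha)
        obtain ⟨c, hc'⟩ := isConj_iff.1 ((forall_smul_irr_eq_iff _).1 h1 m)
        refine ⟨c, c.2, ?_⟩
        have h2 := congrArg N.subtype hc'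
        rw [map_conjAut] at h2
        simpa using h2.symm)
      refine ⟨⟨k, hk⟩, ?_⟩
      rw [mem_subgroupOf]
      rw [mem_centralizer_iff] at hk' ⊢
      intro h hh
      rw [Set.mem_singleton_iff.1 hh]
      simpa using hk' g (mem_zpowers g)
    intro m hm
    have : (⟨m, hm⟩ : N) ∈ (centralizer ({g} : Set G)).subgroupOf N := by rw [htop]; trivial
    rw [mem_subgroupOf, mem_centralizer_singleton_iff] at this
    exact this.symm
  have hP : ∀ u ∈ (P : Subgroup G), Commute g u := by
    intro u hu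
    have h1 : ⁅g, u⁆ ∈ N := by
      have h2 := hcomm u
      rw [← QuotientGroup.eq_one_iff] at h2 ⊢
      have h3 : ((n : G) : G ⧸ N) = 1 := (QuotientGroup.eq_one_iff _).2 hn
      simp only [commutatorElement_def, QuotientGroup.mk_mul, QuotientGroup.mk_inv, h3,
        mul_one] at h2 ⊢
      exact h2
    have h2 : ⁅g, u⁆ ∈ (P : Subgroup G) := by
      rw [commutatorElement_def]
      exact mul_mem (mul_mem (mul_mem hg hu) (inv_mem hg)) (inv_mem hu)
    have h3 : ⁅g, u⁆ ∈ N ⊓ (P : Subgroup G) := ⟨h1, h2⟩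
    rw [hc.disjoint.eq_bot, mem_bot] at h3
    exact commutatorElement_eq_one_iff_commute.1 h3
  rw [mem_center_iff]
  intro y
  obtain ⟨⟨m, u⟩, rfl⟩ := hc.2 y
  exact ((hN m m.2).mul_right (hP u u.2)).eq.symm

/-- Let p be a prime and G a finite non-commutative group in which every vanishing element (an element at which some irreducible character is zero) has order a positive power of p. Then either G is a p-group, or the centre of G equals O_p(G) and G/Z(G) is a Frobenius group with a Frobenius complement of p-power order. -/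
theorem result {G : Type*} [Group G] [Finite G] (hna : ¬ IsMulCommutative G) (p : ℕ) [Fact p.Prime] (hvan : ∀ g : G, (∃ χ : Cfsg.IrrCharacter G, (χ : G → ℂ) g = 0) → ∃ m : ℕ, 1 ≤ m ∧ orderOf g = p ^ m) :
    IsPGroup p G ∨ (Subgroup.center G = Cfsg.pCore p G ∧ ∃ H : Subgroup (G ⧸ Subgroup.center G), Cfsg.IsFrobeniusComplement H ∧ IsPGroup p H) := by
  classical
  have hdeg : ∀ χ : IrrCharacter G, charDegree χ.1 ≠ 1 → p ∣ charDegree χ.1 := by
    intro χ h1
    obtain ⟨g, hg⟩ := χ.exists_apply_eq_zero (by rw [χ.apply_one]; exact_mod_cast h1)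
    obtain ⟨m, -, hm⟩ := hvan g ⟨χ, hg⟩
    exact χ.isCharacter.dvd_charDegree_of_eq_zero Fact.out (k := m)
      (by rw [← hm, pow_orderOf_eq_one]) hg
  obtain ⟨P, N, hNn, hc⟩ := hasNormalPComplement_of_forall_dvd_charDegree hdeg
  by_cases hN1 : N = ⊥
  · left
    have : (P : Subgroup G) = ⊤ := by
      have := hc.sup_eq_top
      rwa [hN1, bot_sup_eq] at this
    have h := P.isPGroup'
    rw [this] at h
    exact isPGroup_top_iff.1 h
  right
  have key := fun g n => mem_center_of_commute hvan P N hc (g := g) (n := n)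
  have hNd : ¬ p ∣ Nat.card N := by
    rw [← hc.index_eq_card]; exact P.not_dvd_index
  obtain ⟨k, hk⟩ : ∃ k, N.index = p ^ k := by
    rw [hc.symm.index_eq_card]
    exact P.isPGroup'.exists_card_eq
  have hdisj : ∀ x, x ∈ N → x ∈ (P : Subgroup G) → x = 1 := fun x h1 h2 => by
    have h3 : x ∈ N ⊓ (P : Subgroup G) := ⟨h1, h2⟩
    rwa [hc.disjoint.eq_bot, mem_bot] at h3
  -- some element of `P` is not central
  obtain ⟨g0, hg0, hg0Z⟩ : ∃ g0 ∈ (P : Subgroup G), g0 ∉ center G := by
    by_contra hall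
    push Not at hall
    obtain ⟨χ, hχ⟩ : ∃ χ : IrrCharacter G, χ 1 ≠ 1 := by
      by_contra h
      push Not at h
      apply hna
      refine ⟨⟨fun a b => ?_⟩⟩
      have : ⁅a, b⁆ = 1 := by
        rw [eq_one_iff_forall_irr]
        intro χ
        exact χ.mem_charKer.1 ((χ.commutator_le_charKer_iff.2 (h χ))
          (commutator_mem_commutator (mem_top a) (mem_top b)))
      exact commutatorElement_eq_one_iff_mul_comm.1 this
    obtain ⟨g, hg⟩ := χ.exists_apply_eq_zero hχ
    obtain ⟨m, -, hm⟩ := hvan g ⟨χ, hg⟩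
    have h1 : IsPElt p g := isPElt_iff_pow_eq_one.2 ⟨m, by rw [← hm, pow_orderOf_eq_one]⟩
    obtain ⟨x, hx⟩ := h1.exists_conj_mem P
    have h2 := χ.mem_charCenter.1 (χ.center_le_charCenter (hall _ hx))
    rw [χ.isClassFunction.eq_of_isConj (isConj_iff.2 ⟨x, rfl⟩ : IsConj g _).symm, hg,
      norm_zero] at h2
    exact χ.charDegree_pos.ne (by exact_mod_cast h2)
  have hZp : IsPGroup p (center G) := by
    rw [isPGroup_iff_forall_isPElt]
    intro z hz
    rw [← pPrimePart_eq_one_iff]
    by_contra h1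
    have h2 : pPrimePart p z ∈ N := by
      have : zpowers (pPrimePart p z) ≤ N := le_of_not_dvd_card_of_index_eq_pow (p := p)
        (by rw [Nat.card_zpowers]; exact isPRegular_pPrimePart p z) hk
      exact this (mem_zpowers _)
    exact hg0Z (key g0 _ hg0 h2 h1 (mem_center_iff.1 (pPrimePart_mem p hz) g0))
  have hZP : center G ≤ (P : Subgroup G) := (le_pCore hZp).trans (pCore_le_sylow P)
  obtain ⟨n0, hn0, hn01⟩ : ∃ n ∈ N, n ≠ 1 := by
    by_contra h
    push Not at h
    exact hN1 (eq_bot_iff.2 fun x hx => h x hx)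
  refine ⟨le_antisymm (le_pCore hZp) fun g hg => ?_,
    (P : Subgroup G).map (QuotientGroup.mk' _), ⟨?_, ?_, ?_⟩, P.isPGroup'.map _⟩
  · refine key g n0 (pCore_le_sylow P hg) hn0 hn01 ?_
    rw [← commutatorElement_eq_one_iff_commute]
    apply hdisj
    · rw [commutatorElement_def]
      exact mul_mem (hNn.conj_mem _ hn0 g) (inv_mem hn0)
    · apply pCore_le_sylow P
      have : ⁅g, n0⁆ = g * (n0 * g⁻¹ * n0⁻¹) := by rw [commutatorElement_def]; group
      rw [this]
      exact mul_mem hg ((inferInstance : (pCore p G).Normal).conj_mem _ (inv_mem hg) n0)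
  · intro h
    have : ((g0 : G) : G ⧸ center G) ∈ (P : Subgroup G).map (QuotientGroup.mk' _) :=
      mem_map_of_mem _ hg0
    rw [h, mem_bot, QuotientGroup.eq_one_iff] at this
    exact hg0Z this
  · intro h
    have : ((n0 : G) : G ⧸ center G) ∈ (P : Subgroup G).map (QuotientGroup.mk' _) := by
      rw [h]; trivial
    obtain ⟨u, hu, hu'⟩ := this
    have h1 : u⁻¹ * n0 ∈ center G := QuotientGroup.eq.1 hu'
    exact hn01 (hdisj _ hn0 (by simpa using mul_mem hu (hZP h1)))
  · intro g hg
    induction g using QuotientGroup.induction_on with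
    | H g =>
    obtain ⟨⟨n, u⟩, rfl⟩ := hc.2 g
    rw [eq_bot_iff]
    intro h hh
    obtain ⟨⟨a, ha, rfl⟩, h2⟩ := mem_inf.1 hh
    rw [Subgroup.mem_pointwise_smul_iff_inv_smul_mem] at h2
    obtain ⟨b, hb, hb'⟩ := h2
    have h3 : b⁻¹ * (((n : G) * u)⁻¹ * a * (n * u)) ∈ center G := by
      apply QuotientGroup.eq.1
      simpa [mul_assoc] using hb'
    have h4 : ((n : G) * u)⁻¹ * a * (n * u) ∈ (P : Subgroup G) := by
      simpa using mul_mem hb (hZP h3)
    have h5 : (n : G)⁻¹ * a * n ∈ (P : Subgroup G) := by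
      have := mul_mem (mul_mem u.2 h4) (inv_mem u.2)
      simpa [mul_assoc] using this
    have hn1 : (n : G) ≠ 1 := by
      intro h
      apply hg
      refine ⟨u, u.2, ?_⟩
      simp [h]
    have h6 : a⁻¹ * ((n : G)⁻¹ * a * n) = 1 := by
      apply hdisj
      · have : a⁻¹ * ((n : G)⁻¹ * a * n) = a⁻¹ * (n : G)⁻¹ * a⁻¹⁻¹ * n := by group
        rw [this]
        exact mul_mem (hNn.conj_mem _ (inv_mem n.2) _) n.2
      · exact mul_mem (inv_mem ha) h5
    have h7 : Commute a n := by
      have : a * n = n * a * (a⁻¹ * ((n : G)⁻¹ * a * n)) := by group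
      rw [h6, mul_one] at this
      exact this
    rw [mem_bot, QuotientGroup.mk'_apply, QuotientGroup.eq_one_iff]
    exact key a n ha n.2 hn1 h7

end Cfsg.Agent.S4848
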