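import Cfsg.Statements.S4850
import Cfsg.Agent.Char.LinAct
import Cfsg.Agent.Grp.FpfEnd
import Cfsg.Agent.Char.Codeg
import Cfsg.Agent.Grp.MinAct

set_option autoImplicit false
open Cfsg

namespace Cfsg.Agent.S4850

set_option linter.unusedSectionVars false

open Subgroup Polynomial
open scoped commutatorElement

theorem exists_eigen {p : ℕ} [hp : Fact p.Prime] {M : Type*} [AddCommGroup M] [Module (ZMod p) M]
    [Nontrivial M] (φ : Module.End (ZMod p) M) (h : φ ^ p = φ) :
    ∃ (c : ZMod p) (v : M), v ≠ 0 ∧ φ v = c • v := by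
  classical
  by_contra hne
  push Not at hne
  have key : ∀ s : Finset (ZMod p), Function.Injective (aeval φ (∏ a ∈ s, (X - C a))) := by
    intro s
    induction s using Finset.induction_on with
    | empty => rw [Finset.prod_empty, map_one]; exact Function.injective_id
    | insert a s ha ih =>
      rw [Finset.prod_insert ha, map_mul, Module.End.coe_mul]
      refine Function.Injective.comp ?_ ih
      rw [injective_iff_map_eq_zero]
      intro v hv
      by_contra h0
      refine hne a v h0 ?_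
      simpa [sub_eq_zero, Algebra.algebraMap_eq_smul_one] using hv
  have h1 : (∏ a : ZMod p, (X - C a)) = X ^ p - X := by
    have hm : (X ^ p - X : (ZMod p)[X]).Monic :=
      (monic_X_pow p).sub_of_left (by simpa using (by exact_mod_cast hp.out.one_lt : (1 : WithBot ℕ) < p))
    have hr := FiniteField.roots_X_pow_card_sub_X (ZMod p)
    rw [ZMod.card] at hr
    have := prod_multiset_X_sub_C_of_monic_of_roots_card_eq hm (by
      rw [hr, FiniteField.X_pow_card_sub_X_natDegree_eq _ hp.out.one_lt]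
      simp)
    rw [hr] at this
    exact this
  have h2 := key Finset.univ
  rw [h1, map_sub, map_pow, aeval_X, h, sub_self] at h2
  obtain ⟨v, hv⟩ := exists_ne (0 : M)
  exact hv (h2 (by simp))

/-- A minimal normal `p`-subgroup on which an abelian group of exponent dividing `p - 1` is
induced is cyclic. -/
theorem le_zpowers_of_isMinNormal {K : Type*} [Group K] [Finite K] {p : ℕ} [hp : Fact p.Prime]
    {V : Subgroup K} (hV : IsMinNormal V) (hp' : IsPGroup p V)
    (h1 : commutator K ≤ centralizer (V : Set K))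
    (h2 : ∀ k : K, k ^ (p - 1) ∈ centralizer (V : Set K)) {v : K} (hv : v ∈ V) (hv1 : v ≠ 1) :
    V ≤ zpowers v := by
  have hVn := hV.normal
  obtain ⟨hc, he⟩ := hV.isElementaryAbelian_of_isPGroup hp'
  have := hV.nontrivial
  have key : ∀ k : K, ∃ c : ℕ, ∀ w ∈ V, k * w * k⁻¹ = w ^ c := by
    intro k
    letI : CommGroup V := { (inferInstance : Group V) with mul_comm := fun a b => mul_comm' a b }
    letI : Module (ZMod p) (Additive V) := AddCommGroup.zmodModule (n := p) fun x =>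
      Additive.toMul.injective (Subtype.ext (he _ x.toMul.2))
    let φ : Module.End (ZMod p) (Additive V) :=
      (MonoidHom.toAdditive (MulAut.conjNormal (H := V) k).toMonoidHom).toZModLinearMap p
    have hφ : ∀ (n : ℕ) (x : Additive V),
        (((φ ^ n) x).toMul : K) = k ^ n * (x.toMul : K) * (k ^ n)⁻¹ := by
      intro n
      induction n with
      | zero => simp
      | succ n ih =>
        intro x
        rw [pow_succ', Module.End.mul_apply]
        change k * (((φ ^ n) x).toMul : K) * k⁻¹ = _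
        rw [ih, pow_succ']
        group
    obtain ⟨c, x, hx0, hx⟩ := exists_eigen φ (by
      refine LinearMap.ext fun x => Additive.toMul.injective (Subtype.ext ?_)
      have e : p = (p - 1) + 1 := (Nat.sub_add_cancel hp.out.one_le).symm
      have := hφ p x
      change (((φ ^ p) x).toMul : K) = k * (x.toMul : K) * k⁻¹
      rw [this]
      conv_lhs => rw [e, pow_succ']
      have h3 := (mem_centralizer_iff.1 (h2 k)) _ x.toMul.2
      calc k * k ^ (p - 1) * (x.toMul : K) * (k * k ^ (p - 1))⁻¹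
          = k * (k ^ (p - 1) * (x.toMul : K)) * (k ^ (p - 1))⁻¹ * k⁻¹ := by group
        _ = _ := by rw [← h3]; group)
    have hx' : k * (x.toMul : K) * k⁻¹ = (x.toMul : K) ^ c.val := by
      rw [← ZMod.natCast_zmod_val c, Nat.cast_smul_eq_nsmul] at hx
      have := congrArg (fun y : Additive V => (y.toMul : K)) hx
      simp only [toMul_nsmul, SubmonoidClass.coe_pow] at this
      exact this
    let E : Subgroup K :=
      { carrier := {w | w ∈ V ∧ k * w * k⁻¹ = w ^ c.val}
        one_mem' := ⟨one_mem _, by simp⟩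
        mul_mem' := fun {a b} ha hb => ⟨mul_mem ha.1 hb.1, by
          have hab : Commute a b := congrArg Subtype.val (mul_comm' (⟨a, ha.1⟩ : V) ⟨b, hb.1⟩)
          rw [hab.mul_pow, ← ha.2, ← hb.2]
          group⟩
        inv_mem' := fun {a} ha => ⟨inv_mem ha.1, by rw [inv_pow, ← ha.2]; group⟩ }
    have hE : E.Normal := ⟨fun w hw g => ⟨hVn.conj_mem _ hw.1 g, by
      have h3 := (mem_centralizer_iff.1 (h1 (commutator_mem_commutator (mem_top g⁻¹) (mem_top k))))
        _ (hVn.conj_mem _ hw.1 k)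
      rw [conj_pow, ← hw.2]
      rw [commutatorElement_def] at h3
      calc k * (g * w * g⁻¹) * k⁻¹
          = g * ((g⁻¹ * k * g⁻¹⁻¹ * k⁻¹) * (k * w * k⁻¹)) * (g⁻¹ * k * g⁻¹⁻¹ * k⁻¹)⁻¹ * g⁻¹ := by
            group
        _ = _ := by rw [← h3]; group⟩⟩
    have hEV := hV.eq_of_le (K := E) (fun w hw => hw.1) (fun e => hx0 (by
      have : (x.toMul : K) ∈ E := ⟨x.toMul.2, hx'⟩
      rw [e, mem_bot] at this
      exact Additive.toMul.injective (Subtype.ext this)))
    exact ⟨c.val, fun w hw => (hEV.ge hw).2⟩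
  have hz : (zpowers v).Normal := ⟨fun w hw g => by
    obtain ⟨c, hc⟩ := key g
    rw [hc w (zpowers_le.2 hv hw)]
    exact pow_mem hw c⟩
  exact (hV.eq_of_le (zpowers_le.2 hv) (by simpa using hv1)).ge

variable {G : Type*} [Group G] [Finite G] {p : ℕ} [hp : Fact p.Prime]

theorem dvd_orderOf_of_pow_mem {C : Subgroup G} {g : G} {k j : ℕ} (h1 : g ^ k ∉ C)
    (h2 : (g ^ k) ^ p ^ j ∈ C) : p ∣ orderOf g := by
  by_contra h
  have h3 : (orderOf (g ^ k)).Coprime (p ^ j) :=
    Nat.Coprime.pow_right j (Nat.Coprime.coprime_dvd_left (orderOf_pow_dvd k)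
      ((Nat.Prime.coprime_iff_not_dvd hp.out).2 h).symm)
  obtain ⟨m, hm⟩ := exists_pow_eq_self_of_coprime h3.symm
  exact h1 (hm ▸ pow_mem h2 m)

theorem not_pow_mem_of_coprime {C : Subgroup G} {a : G} (ha : IsPElt p a) (h : a ∉ C) {k : ℕ}
    (hk : ¬ p ∣ k) : a ^ k ∉ C := by
  intro h1
  obtain ⟨j, hj⟩ := ha
  obtain ⟨m, hm⟩ := exists_pow_eq_self_of_coprime (x := a) (n := k) (by
    rw [hj]; exact (((Nat.Prime.coprime_iff_not_dvd hp.out).2 hk).symm).pow_right j)
  exact h (hm ▸ pow_mem h1 m)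

theorem lemU
    (hA : ∀ g h : G, (∃ χ : IrrCharacter G, χ g = 0) → (∃ χ : IrrCharacter G, χ h = 0) →
      p ∣ orderOf g → p ∣ orderOf h → IsPElt p g → IsPElt p h)
    (hB : ∀ g : G, (∃ χ : IrrCharacter G, χ g = 0) → (∃ χ : IrrCharacter G, χ (g ^ p) = 0) →
      ¬ p ∣ orderOf (g ^ p))
    {N A : Subgroup G} [N.Normal] [IsMulCommutative N] [A.Normal] (hN : ¬ p ∣ Nat.card N)
    (hNA : N ≤ A) (hc : ⁅A, A⁆ ≤ centralizer (N : Set G))
    (hn : ∀ a ∈ A, ∃ j, a ^ p ^ j ∈ centralizer (N : Set G)) {a : G} (ha : a ∈ A)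
    (hap : IsPElt p a) (haC : a ∉ centralizer (N : Set G)) :
    (∀ (g : G) (k : ℕ), g ^ k ∈ A → g ^ k ∉ centralizer (N : Set G) → IsPElt p g) ∧
      A ≤ zpowers a ⊔ centralizer (N : Set G) := by
  have hcop : p.Coprime (Nat.card N) := (Nat.Prime.coprime_iff_not_dvd hp.out).2 hN
  obtain ⟨χ, hχ⟩ := exists_irr_vanish_of_comm (W := N) hc fun a ha => by
    obtain ⟨j, hj⟩ := hn a ha
    exact ⟨p ^ j, hcop.pow_left j, hj⟩
  have hd : ∀ (g : G) (k : ℕ), g ^ k ∈ A → g ^ k ∉ centralizer (N : Set G) → p ∣ orderOf g := by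
    intro g k h1 h2
    obtain ⟨j, hj⟩ := hn _ h1
    exact dvd_orderOf_of_pow_mem h2 hj
  have U1 : ∀ (g : G) (k : ℕ), g ^ k ∈ A → g ^ k ∉ centralizer (N : Set G) → IsPElt p g :=
    fun g k h1 h2 => hA a g ⟨χ, hχ a 1 (by simpa) (by simpa)⟩ ⟨χ, hχ g k h1 h2⟩
      (hd a 1 (by simpa) (by simpa)) (hd g k h1 h2) hap
  have U2 : ∀ g ∈ A, g ^ p ∈ centralizer (N : Set G) := by
    intro g hg
    by_contra h
    exact hB g ⟨χ, hχ g p (pow_mem hg p) h⟩ ⟨χ, hχ (g ^ p) 1 (by simpa using pow_mem hg p)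
      (by simpa)⟩ (hd (g ^ p) 1 (by simpa using pow_mem hg p) (by simpa))
  refine ⟨U1, fun b hb => ?_⟩
  by_contra hbn
  refine haC (FpfEnd.mem_centralizer_of_fpf_pair hp.out hcop (a := b) (by simp [normalizer_eq_top])
    (by simp [normalizer_eq_top]) (hc (commutator_mem_commutator hb ha)) (U2 b hb) (U2 a ha)
    fun j w hw hcw => ?_)
  have h1 : b * a ^ j ∉ centralizer (N : Set G) := fun h => hbn (by
    have := mul_mem (mem_sup_right h : _ ∈ zpowers a ⊔ centralizer (N : Set G))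
      (inv_mem (mem_sup_left (npow_mem_zpowers a j)))
    simpa using this)
  have hwC : w ∈ centralizer (N : Set G) := le_centralizer N hw
  have h2 : b * a ^ j ∈ A := mul_mem hb (pow_mem ha j)
  have h3 := U1 (b * a ^ j) 1 (by simpa) (by simpa)
  have h4 := U1 (b * a ^ j * w) 1 (by simpa using mul_mem h2 (hNA hw))
    (by simpa using fun h => h1 ((mul_mem_cancel_right hwC).1 h))
  rw [← pPrimePart_mul_eq hcw h3 (isPRegular_of_mem_of_not_dvd hN hw)]
  exact pPrimePart_eq_one_iff.2 h4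

theorem lemV (h0 : pCore p G = ⊥) {N D : Subgroup G} [N.Normal] [D.Normal]
    (hD : D ≤ centralizer (N : Set G)) (h : ∀ y ∈ D, IsPRegular p y → y ∈ N) : D ≤ N := by
  have hP : IsPGroup p (D.map (QuotientGroup.mk' N)) := by
    rintro ⟨_, y, hy, rfl⟩
    obtain ⟨k, -, hk⟩ := exists_pPrimePart_eq_pow_prime_pow p G
    refine ⟨k * 1, Subtype.ext ?_⟩
    change (QuotientGroup.mk' N y) ^ p ^ (k * 1) = 1
    rw [← map_pow, ← hk 1 one_pos, QuotientGroup.mk'_apply, QuotientGroup.eq_one_iff]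
    exact h _ (pPrimePart_mem p hy) (isPRegular_pPrimePart p y)
  have := hP.isNilpotent
  have hn : Group.IsNilpotent D := Subgroup.isNilpotent_of_ker_le_center
    ((QuotientGroup.mk' N).subgroupMap D) (fun x hx => by
      have h1 : (x : G) ∈ N := (QuotientGroup.eq_one_iff _).1 (congrArg Subtype.val hx)
      exact mem_center_iff.2 fun y => Subtype.ext (mem_centralizer_iff.1 (hD y.2) _ h1).symm)
  intro x hx
  have h1 := mem_pCore_of_mem_isNilpotent (p := p) (Normal.isSubnormal inferInstance)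
    (pPart_mem p hx) (isPElt_pPart p x)
  rw [h0, mem_bot, pPart_eq_one_iff] at h1
  exact h x hx h1

theorem main_case
    (hA : ∀ g h : G, (∃ χ : IrrCharacter G, χ g = 0) → (∃ χ : IrrCharacter G, χ h = 0) →
      p ∣ orderOf g → p ∣ orderOf h → IsPElt p g → IsPElt p h)
    (hB : ∀ g : G, (∃ χ : IrrCharacter G, χ g = 0) → (∃ χ : IrrCharacter G, χ (g ^ p) = 0) →
      ¬ p ∣ orderOf (g ^ p))
    (h0 : pCore p G = ⊥) {N : Subgroup G} [N.Normal] [IsMulCommutative N]
    (hN : ¬ p ∣ Nat.card N) (hO : pCore p (G ⧸ N) ≠ ⊥) (P : Sylow p (G ⧸ N)) :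
    ∃ z ∈ (P : Subgroup (G ⧸ N)), (P : Subgroup (G ⧸ N)) ≤ zpowers z := by
  set π := QuotientGroup.mk' N with hπ
  have hπs : Function.Surjective π := QuotientGroup.mk'_surjective N
  have hπ1 : ∀ x, π x = 1 ↔ x ∈ N := fun x => QuotientGroup.eq_one_iff x
  have hNC : N ≤ centralizer (N : Set G) := le_centralizer N
  -- the general consequence of `lemU` for abelian normal `p`-subgroups of the quotient
  have U : ∀ (B : Subgroup (G ⧸ N)) [B.Normal] [IsMulCommutative B], IsPGroup p B →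
      ∀ a : G, π a ∈ B → IsPElt p a → a ∉ centralizer (N : Set G) →
      (∀ (g : G) (k : ℕ), π g ^ k ∈ B → g ^ k ∉ centralizer (N : Set G) → IsPElt p g) ∧
        B.comap π ≤ zpowers a ⊔ centralizer (N : Set G) := by
    intro B _ _ hBp a ha hap haC
    have := lemU hA hB (A := B.comap π) hN
      (fun x hx => by rw [mem_comap, (hπ1 x).2 hx]; exact one_mem _)
      (commutator_le.2 fun x hx y hy => hNC ((hπ1 _).1 (by
        rw [map_commutatorElement, commutatorElement_eq_one_iff_mul_comm]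
        exact congrArg Subtype.val (mul_comm' (⟨π x, hx⟩ : B) ⟨π y, hy⟩))))
      (fun x hx => by
        obtain ⟨j, hj⟩ := hBp ⟨π x, hx⟩
        exact ⟨j, hNC ((hπ1 _).1 (by rw [map_pow]; exact congrArg Subtype.val hj))⟩) ha hap haC
    exact ⟨fun g k h1 h2 => this.1 g k (by rwa [mem_comap, map_pow]) h2, this.2⟩
  obtain ⟨Z, hZ, hZO⟩ := exists_isMinNormal_le _ hO
  have hZn := hZ.normal
  have hZp : IsPGroup p Z := (isPGroup_pCore p _).to_le hZO
  obtain ⟨hZc, hZe⟩ := hZ.isElementaryAbelian_of_isPGroup hZp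
  have := hZ.nontrivial
  obtain ⟨⟨z, hz⟩, hz1⟩ := exists_ne (1 : Z)
  have hz1' : z ≠ 1 := fun e => hz1 (Subtype.ext e)
  have hzp : IsPElt p z := isPElt_of_mem hZp hz
  obtain ⟨a₀, rfl⟩ := hπs z
  set a := pPart p a₀ with ha
  have hπa : π a = π a₀ := by rw [ha, map_pPart, pPart_eq_self_iff.2 hzp]
  have hap : IsPElt p a := isPElt_pPart p a₀
  rw [← hπa] at hz hz1' hzp
  have hCA : centralizer (N : Set G) ⊓ Z.comap π ≤ N := lemV (p := p) h0 inf_le_left
    fun y hy hy' => (hπ1 y).1 ((isPElt_of_mem hZp hy.2).eq_one_of_isPRegular (hy'.map π))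
  have haC : a ∉ centralizer (N : Set G) := fun h => hz1' ((hπ1 a).2 (hCA ⟨h, hz⟩))
  obtain ⟨U1, U3⟩ := U Z hZp a hz hap haC
  have hC : centralizer (N : Set G) ≤ N := by
    refine lemV (p := p) h0 le_rfl fun y hy hy' => ?_
    have hact : IsCoprimeAction (zpowers a) N := isCoprimeAction_of_isPGroup_left (p := p)
      (by rw [normalizer_eq_top]; exact le_top) (isPElt_iff_isPGroup_zpowers.1 hap) hN
    obtain ⟨m, hm, hc⟩ := hact.exists_mul_mem_centralizer (x := y) fun b hb => hCA ⟨by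
      have := mul_mem (inv_mem hy)
        ((inferInstance : (centralizer (N : Set G)).Normal).conj_mem _ hy b)
      simpa [mul_assoc] using this, by
      have hb' : b ∈ Z.comap π := (zpowers_le (H := Z.comap π)).2 hz hb
      have := mul_mem ((inferInstance : (Z.comap π).Normal).conj_mem _ hb' y⁻¹) (inv_mem hb')
      simpa [mul_assoc] using this⟩
    have hc' : Commute a (pPrimePart p (y * m)) :=
      commute_pPrimePart_of_commute p (mem_centralizer_iff.1 hc a (mem_zpowers a))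
    have hr := isPRegular_pPrimePart p (y * m)
    have h1 := U1 (a * pPrimePart p (y * m)) (orderOf (pPrimePart p (y * m)))
      (by rw [← map_pow, hc'.mul_pow, pow_orderOf_eq_one, mul_one, map_pow]; exact pow_mem hz _)
      (by rw [hc'.mul_pow, pow_orderOf_eq_one, mul_one]; exact not_pow_mem_of_coprime hap haC hr)
    have h2 := pPrimePart_eq_one_iff.2 h1
    rw [pPrimePart_mul_eq hc' hap hr, pPrimePart_eq_one_iff] at h2
    have h3 := h2.map π
    rw [map_mul, (hπ1 m).2 hm, mul_one] at h3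
    exact (hπ1 y).1 (h3.eq_one_of_isPRegular (hy'.map π))
  have down : ∀ B : Subgroup (G ⧸ N), B.comap π ≤ zpowers a ⊔ centralizer (N : Set G) →
      B ≤ zpowers (π a) := by
    intro B h
    rw [← map_comap_eq_self_of_surjective hπs B]
    refine (map_mono (h.trans (sup_le_sup_left hC _))).trans ?_
    rw [Subgroup.map_sup, MonoidHom.map_zpowers, hπ, QuotientGroup.map_mk'_self, sup_bot_eq]
  have hZz : Z = zpowers (π a) := le_antisymm (down Z U3) (zpowers_le.2 hz)
  have hZcard : Nat.card Z = p := by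
    rw [hZz, Nat.card_zpowers]
    exact IsElementaryAbelian.orderOf_eq ⟨hZc, hZe⟩ hz hz1'
  have hZcyc : IsCyclic Z := isCyclic_of_prime_card hZcard
  set Γ := centralizer (Z : Set (G ⧸ N)) with hΓ
  have hΓp : IsPGroup p Γ := by
    rintro ⟨y, hy⟩
    have hc' : Commute (π a) (pPrimePart p y) :=
      commute_pPrimePart_of_commute p (mem_centralizer_iff.1 hy _ hz)
    have hr := isPRegular_pPrimePart p y
    obtain ⟨g, hg⟩ := hπs (π a * pPrimePart p y)
    have e : π g ^ orderOf (pPrimePart p y) = π a ^ orderOf (pPrimePart p y) := by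
      rw [hg, hc'.mul_pow, pow_orderOf_eq_one, mul_one]
    have h1 := U1 g (orderOf (pPrimePart p y)) (e ▸ pow_mem hz _) fun h => by
      have h2 := (hπ1 _).2 (hC h)
      rw [map_pow, e] at h2
      exact not_pow_mem_of_coprime (C := ⊥) hzp (by simpa using hz1') hr (by simpa using h2)
    have h2 := pPrimePart_eq_one_iff.2 (h1.map π)
    rw [hg, pPrimePart_mul_eq hc' hzp hr, pPrimePart_eq_one_iff, isPElt_iff_pow_eq_one] at h2
    obtain ⟨k, hk⟩ := h2
    exact ⟨k, Subtype.ext hk⟩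
  have hpow : ∀ h : G ⧸ N, h ^ (p - 1) ∈ Γ := by
    intro h
    have h1 : (MulAut.conjNormal (H := Z) h) ^ (p - 1) = 1 := by
      rw [← Nat.totient_prime hp.out, ← hZcard, ← IsCyclic.card_mulAut]
      exact pow_card_eq_one'
    rw [← map_pow] at h1
    refine mem_centralizer_iff.2 fun w hw => ?_
    have := congrArg (fun σ : MulAut Z => (σ ⟨w, hw⟩ : G ⧸ N)) h1
    simp only [MulAut.conjNormal_apply, MulAut.one_apply] at this
    exact (mul_inv_eq_iff_eq_mul.1 this).symm
  have hPΓ : (P : Subgroup (G ⧸ N)) ≤ Γ := by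
    intro x hx
    obtain ⟨j, hj⟩ := isPElt_of_mem P.isPGroup' hx
    obtain ⟨m, hm⟩ := exists_pow_eq_self_of_coprime (x := x) (n := p - 1) (by
      rw [hj]
      refine Nat.Coprime.pow_right j ?_
      exact (Nat.coprime_self_sub_left hp.out.one_le).2 (Nat.coprime_one_left p))
    exact hm ▸ pow_mem (hpow x) m
  have hZΓ : Z ≤ Γ := le_centralizer Z
  have hΓZ : Γ ≤ Z := by
    by_contra hne
    obtain ⟨M, hMn, hZM, hMΓ, hM⟩ := exists_chief_above (lt_of_le_of_ne hZΓ fun e => hne e.ge)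
    set π' := QuotientGroup.mk' Z with hπ'
    have hΓC : Γ.map π' ≤ centralizer (M.map π' : Set ((G ⧸ N) ⧸ Z)) := by
      have hp1 : IsPGroup p (Γ.map π') := hΓp.map π'
      have : (Γ.map π').Normal := Normal.map inferInstance _ (QuotientGroup.mk'_surjective Z)
      have h1 := hM.le_centralizer_pCore (p := p)
      exact le_centralizer_iff.1 (h1.trans (centralizer_le (le_pCore hp1)))
    have := hM.nontrivial
    obtain ⟨⟨_, m, hm, rfl⟩, hv1⟩ := exists_ne (1 : M.map π')
    have hle := le_zpowers_of_isMinNormal hM ((hΓp.to_le hMΓ).map π') (by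
        rw [commutator_quotient_eq]
        exact (map_mono (commutator_le_centralizer_of_isCyclic Z)).trans hΓC)
      (fun k => by
        obtain ⟨h, rfl⟩ := QuotientGroup.mk'_surjective Z k
        rw [← map_pow]
        exact hΓC ⟨_, hpow h, rfl⟩) (v := π' m) ⟨m, hm, rfl⟩ (fun e => hv1 (Subtype.ext e))
    have dec : ∀ x ∈ M, ∃ (i : ℤ) (w : G ⧸ N), w ∈ Z ∧ x = m ^ i * w := by
      intro x hx
      obtain ⟨i, hi⟩ := hle ⟨x, hx, rfl⟩
      refine ⟨i, (m ^ i)⁻¹ * x, ?_, by group⟩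
      rw [← QuotientGroup.eq]
      exact hi
    have hMc : IsMulCommutative M := ⟨⟨fun x y => Subtype.ext (by
      obtain ⟨i, w, hw, hx⟩ := dec x x.2
      obtain ⟨j, w', hw', hy⟩ := dec y y.2
      have c1 : Commute w m := mem_centralizer_iff.1 (hMΓ hm) w hw
      have c2 : Commute w' m := mem_centralizer_iff.1 (hMΓ hm) w' hw'
      have c3 : Commute w w' := mem_centralizer_iff.1 (hZΓ hw') w hw
      have : Commute (m ^ i * w) (m ^ j * w') :=
        ((Commute.zpow_zpow_self m i j).mul_right (c2.symm.zpow_left i)).mul_left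
          ((c1.zpow_right j).mul_right c3)
      change (x : G ⧸ N) * y = y * x
      rw [hx, hy]
      exact this)⟩⟩
    have := down M (U M (hΓp.to_le hMΓ) a (hZM.le hz) hap haC).2
    exact hZM.not_ge (hZz ▸ this)
  exact ⟨π a, (pCore_le_sylow P) (hZO hz), hZz ▸ hPΓ.trans hΓZ⟩

theorem lift {N : Subgroup G} [N.Normal] (P : Sylow p G)
    (h : ∃ z ∈ (P.mapSurjective (QuotientGroup.mk'_surjective N) : Subgroup (G ⧸ N)),
      (P.mapSurjective (QuotientGroup.mk'_surjective N) : Subgroup (G ⧸ N)) ≤ zpowers z) :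
    ∃ g ∈ (P : Subgroup G), ∀ x ∈ (P : Subgroup G), ∃ i : ℤ, (g ^ i)⁻¹ * x ∈ N := by
  obtain ⟨_, ⟨g, hg, rfl⟩, h⟩ := h
  refine ⟨g, hg, fun x hx => ?_⟩
  obtain ⟨i, hi⟩ := h ⟨x, hx, rfl⟩
  exact ⟨i, QuotientGroup.eq.1 hi⟩

theorem main (G : Type*) [Group G] [Finite G] : Group.IsSolvable G →
    (∀ g h : G, (∃ χ : IrrCharacter G, χ g = 0) → (∃ χ : IrrCharacter G, χ h = 0) →
      p ∣ orderOf g → p ∣ orderOf h → IsPElt p g → IsPElt p h) →
    (∀ g : G, (∃ χ : IrrCharacter G, χ g = 0) → (∃ χ : IrrCharacter G, χ (g ^ p) = 0) →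
      ¬ p ∣ orderOf (g ^ p)) →
    ∀ P : Sylow p G, ∃ g ∈ (P : Subgroup G), ∀ x ∈ (P : Subgroup G),
      ∃ i : ℤ, (g ^ i)⁻¹ * x ∈ pCore p G := by
  refine card_induction (P := fun G _ _ => Group.IsSolvable G →
    (∀ g h : G, (∃ χ : IrrCharacter G, χ g = 0) → (∃ χ : IrrCharacter G, χ h = 0) →
      p ∣ orderOf g → p ∣ orderOf h → IsPElt p g → IsPElt p h) →
    (∀ g : G, (∃ χ : IrrCharacter G, χ g = 0) → (∃ χ : IrrCharacter G, χ (g ^ p) = 0) →
      ¬ p ∣ orderOf (g ^ p)) →
    ∀ P : Sylow p G, ∃ g ∈ (P : Subgroup G), ∀ x ∈ (P : Subgroup G),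
      ∃ i : ℤ, (g ^ i)⁻¹ * x ∈ pCore p G) ?_ G
  intro G _ _ ih hs hA hB P
  have step : ∀ (N : Subgroup G) [N.Normal], N ≠ ⊥ → pCore p (G ⧸ N) = ⊥ →
      ∃ g ∈ (P : Subgroup G), ∀ x ∈ (P : Subgroup G), ∃ i : ℤ, (g ^ i)⁻¹ * x ∈ N := by
    intro N _ hN h0
    have hπs := QuotientGroup.mk'_surjective N
    have van : ∀ g : G, (∃ χ : IrrCharacter (G ⧸ N), χ (QuotientGroup.mk' N g) = 0) →
        ∃ χ : IrrCharacter G, χ g = 0 := fun g ⟨χ, h⟩ => ⟨χ.inflate _ hπs, h⟩
    obtain ⟨z, hz, h⟩ := ih (G ⧸ N) (card_quotient_lt hN) inferInstance (fun g h h1 h2 h3 h4 h5 => by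
        obtain ⟨g, rfl⟩ := hπs g
        obtain ⟨h, rfl⟩ := hπs h
        have e : QuotientGroup.mk' N (pPart p g) = QuotientGroup.mk' N g := by
          rw [map_pPart, pPart_eq_self_iff.2 h5]
        exact (hA (pPart p g) h (van _ (e ▸ h1)) (van _ h2)
          ((e ▸ h3).trans (orderOf_map_dvd _ _)) (h4.trans (orderOf_map_dvd _ _))
          (isPElt_pPart p g)).map _)
      (fun g h1 h2 h3 => by
        obtain ⟨g, rfl⟩ := hπs g
        rw [← map_pow] at h2 h3
        exact hB g (van _ h1) (van _ h2) (h3.trans (orderOf_map_dvd _ _)))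
      (P.mapSurjective hπs)
    refine lift P ⟨z, hz, fun x hx => ?_⟩
    obtain ⟨i, hi⟩ := h x hx
    rw [h0, mem_bot, inv_mul_eq_one] at hi
    exact ⟨i, hi⟩
  by_cases h0 : pCore p G = ⊥
  swap
  · exact step _ h0 (pCore_quotient_pCore p G)
  rcases subsingleton_or_nontrivial G with h1 | h1
  · exact ⟨1, one_mem _, fun x _ => ⟨0, by rw [Subsingleton.elim (_ * x) 1]; exact one_mem _⟩⟩
  obtain ⟨N, hN⟩ := exists_isMinNormal G
  have := hN.normal
  have := hN.isMulCommutative_of_isSolvable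
  have hNp : ¬ p ∣ Nat.card N := fun h =>
    hN.ne_bot (pCore_eq_bot_iff.1 h0 N inferInstance (hN.isPGroup_of_isSolvable_of_dvd h))
  obtain ⟨g, hg, h⟩ : ∃ g ∈ (P : Subgroup G), ∀ x ∈ (P : Subgroup G),
      ∃ i : ℤ, (g ^ i)⁻¹ * x ∈ N := by
    by_cases hO : pCore p (G ⧸ N) = ⊥
    · exact step N hN.ne_bot hO
    · exact lift P (main_case hA hB h0 hNp hO _)
  refine ⟨g, hg, fun x hx => ?_⟩
  obtain ⟨i, hi⟩ := h x hx
  refine ⟨i, ?_⟩
  have : (g ^ i)⁻¹ * x ∈ (P : Subgroup G) ⊓ N :=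
    mem_inf.2 ⟨mul_mem (inv_mem (zpow_mem hg i)) hx, hi⟩
  rw [inf_eq_bot_of_isPGroup_of_not_dvd P.isPGroup' hNp] at this
  exact bot_le (a := pCore p G) this

/-- Let p be a prime and G a finite solvable group whose vanishing elements (elements at which some irreducible character is zero) of order divisible by p all have the same order, with at least one such element. Let P be a Sylow p-subgroup of G. Then the derived subgroup of P is subnormal in G and the image of P in G/O_p(G) is cyclic. -/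
theorem result {G : Type*} [Group G] [Finite G] [hs : Group.IsSolvable G] (p : ℕ) [Fact p.Prime] (b : ℕ) (hvo : {n : ℕ | p ∣ n ∧ ∃ (g : G) (χ : Cfsg.IrrCharacter G), orderOf g = n ∧ (χ : G → ℂ) g = 0} = {b}) (P : Sylow p G) :
    ((commutator ↥(P : Subgroup G)).map (P : Subgroup G).subtype).IsSubnormal ∧ IsCyclic ↥((P : Subgroup G).map (QuotientGroup.mk' (Cfsg.pCore p G))) := by
  have hb : ∀ g : G, (∃ χ : IrrCharacter G, χ g = 0) → p ∣ orderOf g → orderOf g = b := by
    rintro g ⟨χ, hχ⟩ h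
    exact Set.mem_singleton_iff.1 (hvo ▸ (⟨h, g, χ, rfl, hχ⟩ : orderOf g ∈ {n : ℕ | p ∣ n ∧
      ∃ (g : G) (χ : IrrCharacter G), orderOf g = n ∧ (χ : G → ℂ) g = 0}))
  obtain ⟨g, hg, h⟩ := main (p := p) G hs
    (fun g h h1 h2 h3 h4 ⟨k, hk⟩ => ⟨k, by rw [hb h h2 h4, ← hb g h1 h3, hk]⟩)
    (fun g h1 h2 h3 => by
      have h4 := h3.trans (orderOf_pow_dvd p)
      have h5 := orderOf_pow_of_dvd (Fact.out : p.Prime).ne_zero h4
      rw [hb _ h2 h3, ← hb _ h1 h4] at h5
      exact (Nat.div_lt_self (orderOf_pos g) (Fact.out : p.Prime).one_lt).ne h5.symm) P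
  have hcyc : (P : Subgroup G).map (QuotientGroup.mk' (pCore p G)) =
      zpowers (QuotientGroup.mk' (pCore p G) g) := by
    refine le_antisymm ?_ (zpowers_le.2 ⟨g, hg, rfl⟩)
    rintro _ ⟨x, hx, rfl⟩
    obtain ⟨i, hi⟩ := h x hx
    exact ⟨i, QuotientGroup.eq.2 hi⟩
  refine ⟨?_, hcyc ▸ inferInstance⟩
  have hle : (commutator (P : Subgroup G)).map (P : Subgroup G).subtype ≤ pCore p G := by
    rw [map_subtype_commutator, ← QuotientGroup.ker_mk' (pCore p G), ← Subgroup.map_eq_bot_iff,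
      map_commutator, hcyc, commutator_eq_bot_iff_le_centralizer]
    exact le_centralizer _
  refine isSubnormal_of_le_normalizer hle ((pCore_le_sylow P).trans ?_)
    (Normal.isSubnormal inferInstance)
  rw [map_subtype_commutator]
  exact (le_inf le_normalizer le_normalizer).trans (normalizer_inf_le_normalizer_commutator _ _)

end Cfsg.Agent.S4850
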