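import Cfsg.Statements.S4866
import Cfsg.Agent.Char.BrauerPerm
import Cfsg.Agent.Char.CliffordBasic

set_option autoImplicit false
open Cfsg

namespace Cfsg.Agent.S4866

private theorem fixed_iff {A X : Type*} [Group A] [MulAction A X] (ι : X → X)
    (h1 : ∀ x, ι (ι x) = x) (h2 : ∀ (a : A) x, ι (a • x) = a • ι x) {n : ℕ} (hn : Odd n)
    (h3 : ∀ (a : A) (x : X), a ^ n • x = x) (a : A) (x : X) :
    ι (a • x) = x ↔ ι x = x ∧ a • x = x := by
  refine ⟨fun h => ?_, fun h => by rw [h.2, h.1]⟩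
  have h4 : a ^ 2 • x = x := by
    rw [pow_two, mul_smul]
    conv_lhs => rw [← h1 (a • a • x), h2 a (a • x), h, h]
  obtain ⟨k, rfl⟩ := hn
  have h5 : (a ^ 2) ^ k • x = x :=
    MulAction.mem_stabilizer_iff.1 (Subgroup.pow_mem _ (MulAction.mem_stabilizer_iff.2 h4) k)
  have h6 : a • x = x := by
    have := h3 a x
    rwa [pow_succ', mul_smul, pow_mul, h5] at this
  exact ⟨by rwa [h6] at h, h6⟩

private def fixAct {A X : Type*} [Group A] [MulAction A X] (ι : X → X)
    (h2 : ∀ (a : A) x, ι (a • x) = a • ι x) : MulAction A {x // ι x = x} where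
  smul a x := ⟨a • x.1, by rw [h2, x.2]⟩
  one_smul x := Subtype.ext (one_smul A x.1)
  mul_smul a b x := Subtype.ext (mul_smul a b x.1)

private theorem card_quot_eq {A X : Type*} [Group A] [MulAction A X] {W : Type*} (r : W → W → Prop)
    (F : W → X) (hF : Function.Surjective F) (h : ∀ w w', r w w' ↔ ∃ a : A, a • F w = F w') :
    Nat.card (Quot r) = Nat.card (MulAction.orbitRel.Quotient A X) := by
  refine Nat.card_congr (Equiv.ofBijective (Quot.lift (fun w => Quotient.mk'' (F w))
    fun w w' hw => ?_) ⟨?_, ?_⟩)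
  · obtain ⟨a, ha⟩ := (h w w').1 hw
    exact Quotient.sound' ⟨a⁻¹, by simp [← ha]⟩
  · rintro ⟨w⟩ ⟨w'⟩ e
    obtain ⟨a, ha⟩ := Quotient.exact' e.symm
    exact Quot.sound ((h w w').2 ⟨a, ha⟩)
  · rintro ⟨x⟩
    obtain ⟨w, rfl⟩ := hF x
    exact ⟨Quot.mk _ w, rfl⟩

private theorem isConj_inv' {K : Type*} [Group K] {a b : K} (h : IsConj a b) : IsConj a⁻¹ b⁻¹ := by
  obtain ⟨c, rfl⟩ := isConj_iff.1 h
  exact isConj_iff.2 ⟨c, by group⟩

/-- Let K be a normal subgroup of odd index in the finite group G. Then G has as many orbits on the real-valued irreducible complex characters of K (acting by conjugation) as it has orbits on the conjugacy classes of K that are real in K; equivalently, the number of G-orbits of real-valued irreducible characters of K equals the number of G-conjugacy classes of elements of K that are conjugate in K to their inverses. -/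
theorem result {G : Type*} [Group G] [Finite G] (K : Subgroup G) [K.Normal] (hodd : Odd K.index) : Nat.card (Quot (fun θ η : {θ : Cfsg.IrrCharacter ↥K // (∀ k : ↥K, ((θ : ↥K → ℂ) k).im = 0)} => ∃ g : G, ∀ k k' : ↥K, (k' : G) = g * (k : G) * g⁻¹ → (η.1 : ↥K → ℂ) k' = (θ.1 : ↥K → ℂ) k)) = Nat.card (Quot (fun x y : {x : ↥K // IsConj x x⁻¹} => ∃ g : G, (y.1 : G) = g * x.1 * g⁻¹)) := by
  letI := MulAction.compHom (IrrCharacter K) (MulAut.conjNormal : G →* MulAut K)
  letI := MulAction.compHom (ConjClasses K) (MulAut.conjNormal : G →* MulAut K)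
  have s1 : ∀ (g : G) (θ : IrrCharacter K), g • θ = (MulAut.conjNormal g : MulAut K) • θ :=
    fun _ _ => rfl
  have s2 : ∀ (g : G) (c : ConjClasses K), g • c = (MulAut.conjNormal g : MulAut K) • c :=
    fun _ _ => rfl
  have s3 : ∀ g : G, ∃ k : K, (MulAut.conjNormal (g ^ K.index) : MulAut K) = MulAut.conj k :=
    fun g => ⟨⟨_, K.pow_index_mem g⟩, by ext x; simp [-map_pow]⟩
  let κ : ConjClasses K → ConjClasses K := Quotient.map' (·⁻¹) fun _ _ h => isConj_inv' h
  have hκ : ∀ x, κ (ConjClasses.mk x) = ConjClasses.mk x⁻¹ := fun _ => rfl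
  have a1 : ∀ θ : IrrCharacter K, θ.bar.bar = θ := fun θ => Subtype.ext (star_star _)
  have a2 : ∀ (g : G) (θ : IrrCharacter K), (g • θ).bar = g • θ.bar := fun _ _ => rfl
  have a3 : ∀ (g : G) (θ : IrrCharacter K), g ^ K.index • θ = θ := fun g θ => by
    obtain ⟨k, hk⟩ := s3 g
    rw [s1, hk, IrrCharacter.conj_smul]
  have b1 : ∀ c, κ (κ c) = c := fun c => by
    obtain ⟨x, rfl⟩ := ConjClasses.mk_surjective c
    rw [hκ, hκ, inv_inv]
  have b2 : ∀ (g : G) c, κ (g • c) = g • κ c := fun g c => by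
    obtain ⟨x, rfl⟩ := ConjClasses.mk_surjective c
    rw [hκ, s2, s2, mulAut_smul_conjClasses_mk, mulAut_smul_conjClasses_mk, hκ, map_inv]
  have b3 : ∀ (g : G) (c : ConjClasses K), g ^ K.index • c = c := fun g c => by
    obtain ⟨k, hk⟩ := s3 g
    rw [s2, hk, conj_smul_conjClasses]
  letI := fixAct IrrCharacter.bar a2
  letI := fixAct κ b2
  have e1 : ∀ θ : IrrCharacter K, (∀ k, (θ k).im = 0) ↔ θ.bar = θ := fun θ =>
    ⟨fun h => Subtype.ext (funext fun k => Complex.conj_eq_iff_im.2 (h k)),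
      fun h k => Complex.conj_eq_iff_im.1 (congrFun (congrArg Subtype.val h) k)⟩
  rw [card_quot_eq (A := G) _ (fun θ => (⟨θ.1, (e1 _).1 θ.2⟩ : {θ : IrrCharacter K // θ.bar = θ}))
      (fun θ => ⟨⟨θ.1, (e1 _).2 θ.2⟩, rfl⟩) (fun θ η => exists_congr fun g => by
        rw [Subtype.ext_iff]
        have := conjAut_smul_eq_iff K.subtype (g := g) (θ := θ.1) (θ' := η.1)
        rw [conjAut_subtype] at this
        exact this.symm),
    card_quot_eq (A := G) _ (fun x => (⟨ConjClasses.mk x.1, by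
        rw [hκ, ConjClasses.mk_eq_mk_iff_isConj]; exact x.2.symm⟩ : {c // κ c = c}))
      (fun c => by
        obtain ⟨c, hc⟩ := c
        obtain ⟨x, rfl⟩ := ConjClasses.mk_surjective c
        rw [hκ, ConjClasses.mk_eq_mk_iff_isConj] at hc
        exact ⟨⟨x, hc.symm⟩, rfl⟩) (fun x y => by
        simp only [Subtype.ext_iff]
        change _ ↔ ∃ g : G, g • ConjClasses.mk x.1 = ConjClasses.mk y.1
        simp only [s2, mulAut_smul_conjClasses_mk, ConjClasses.mk_eq_mk_iff_isConj]
        constructor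
        · rintro ⟨g, hg⟩
          exact ⟨g, by rw [show MulAut.conjNormal g x.1 = y.1 from Subtype.ext hg.symm]⟩
        · rintro ⟨g, hg⟩
          obtain ⟨c, hc⟩ := isConj_iff.1 hg
          refine ⟨c * g, ?_⟩
          rw [← hc]; simp [mul_assoc])]
  refine card_orbits_eq_of_card_fixed_eq fun g => ?_
  have c1 : Nat.card {x : {θ : IrrCharacter K // θ.bar = θ} // g • x = x} =
      Nat.card {θ : IrrCharacter K // (g • θ).bar = θ} :=
    Nat.card_congr ((Equiv.subtypeEquivRight fun x => Subtype.ext_iff).trans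
      ((Equiv.subtypeSubtypeEquivSubtypeInter (fun θ : IrrCharacter K => θ.bar = θ)
        (fun θ => g • θ = θ)).trans (Equiv.subtypeEquivRight fun θ =>
          (fixed_iff _ a1 a2 hodd a3 g θ).symm)))
  have c2 : Nat.card {x : {c // κ c = c} // g • x = x} =
      Nat.card {c : ConjClasses K // κ (g⁻¹ • c) = c} :=
    Nat.card_congr ((Equiv.subtypeEquivRight fun x => Subtype.ext_iff).trans
      ((Equiv.subtypeSubtypeEquivSubtypeInter (fun c : ConjClasses K => κ c = c)
        (fun c => g • c = c)).trans (Equiv.subtypeEquivRight fun c => by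
          rw [fixed_iff _ b1 b2 hodd b3 g⁻¹ c, inv_smul_eq_iff, eq_comm (a := c)])))
  rw [c1, c2]
  refine card_fixed_irr_eq_of_apply (fun θ => (g • θ).bar) (fun c => κ (g⁻¹ • c))
    fun χ x y h => ?_
  simp only [s2, mulAut_smul_conjClasses_mk, hκ, ConjClasses.mk_eq_mk_iff_isConj] at h
  rw [← χ.isClassFunction.eq_of_isConj h, χ.apply_inv, IrrCharacter.bar_apply, s1,
    IrrCharacter.mulAut_smul_apply, map_inv]

end Cfsg.Agent.S4866
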