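import Cfsg.Statements.S4870
import Cfsg.Agent.Char.Gallagher
import Cfsg.Agent.Char.Abelian
-- import your own Cfsg.Agent.* helpers here

set_option autoImplicit false
open Cfsg

namespace Cfsg.Agent.S4870

/-- Let G be a finite group with a non-abelian minimal normal subgroup N, and let φ be an irreducible complex character of N with stabilizer I in G (the elements g with φ(g n g⁻¹) = φ(n) for all n ∈ N) such that φ extends to an irreducible character of I. Put d = φ(1)·[G : I]. Then the number of linear characters of G is at most [G : I] times the number of irreducible characters of G of degree d. -/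
theorem result {G : Type*} [Group G] [Finite G] (N : Subgroup G) (hN : N.Normal) (hN1 : N ≠ ⊥) (hmin : ∀ M : Subgroup G, M.Normal → M ≤ N → M = ⊥ ∨ M = N) (hna : ¬ IsMulCommutative ↥N) (φ : Cfsg.IrrCharacter ↥N) (I : Subgroup G) (hI : ∀ g : G, g ∈ I ↔ ∀ n n' : ↥N, (n' : G) = g * (n : G) * g⁻¹ → (φ : ↥N → ℂ) n' = (φ : ↥N → ℂ) n) (hNI : N ≤ I) (hext : ∃ ψ : Cfsg.IrrCharacter ↥I, ∀ n : ↥N, (ψ : ↥I → ℂ) (Subgroup.inclusion hNI n) = (φ : ↥N → ℂ) n) : Nat.card {χ : Cfsg.IrrCharacter G // Cfsg.charDegree (χ : G → ℂ) = 1} ≤ I.index * Nat.card {χ : Cfsg.IrrCharacter G // Cfsg.charDegree (χ : G → ℂ) = Cfsg.charDegree (φ : ↥N → ℂ) * I.index} := by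
  obtain ⟨ψ, hψ⟩ := hext
  have hI' : inertia N.subtype φ = I := by
    ext g
    rw [hI, mem_inertia_iff_forall]; rfl
  have hNN : ⁅N, N⁆ = N := by
    rcases hmin ⁅N, N⁆ inferInstance (Subgroup.commutator_le_self N) with h | h
    · refine absurd ⟨⟨fun a b => Subtype.ext ?_⟩⟩ hna
      exact (Subgroup.commutator_eq_bot_iff_le_centralizer.1 h b.2 a a.2)
    · exact h
  have hN' : ∀ n : N, Subgroup.inclusion hNI n ∈ commutator I := by
    intro n
    have h1 : (n : G) ∈ (commutator I).map I.subtype := by
      rw [Subgroup.map_subtype_commutator]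
      exact Subgroup.commutator_mono hNI hNI (hNN.symm ▸ n.2)
    obtain ⟨x, hx, hx'⟩ := h1
    have : x = Subgroup.inclusion hNI n := Subtype.ext hx'
    exact this ▸ hx
  have hres : ∀ lam : I →* ℂˣ, (lam • ψ).1 ∘ Subgroup.inclusion hNI = φ.1 := by
    intro lam
    funext n
    simp [linear_apply_of_mem_commutator lam (hN' n), hψ]
  have hT : inertia N.subtype φ ≤ I.subtype.range := by rw [hI', Subgroup.range_subtype]
  have hirr : ∀ lam : I →* ℂˣ, IsIrrCharacter G (ind I.subtype (lam • ψ).1) := fun lam =>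
    clifford_isIrr_ind I.subtype_injective (j := Subgroup.inclusion hNI) (fun _ => rfl) hT
      (liesOver_of_comp_eq (hres lam))
  have h1 : Nat.card (I →* ℂˣ) ≤ Nat.card {χ : IrrCharacter G //
      charDegree (χ : G → ℂ) = charDegree (φ : ↥N → ℂ) * I.index} := by
    refine Nat.card_le_card_of_injective (fun lam => ⟨⟨_, hirr lam⟩, ?_⟩) fun a b hab => ?_
    · rw [(lam • ψ).isCharacter.charDegree_ind_subtype, ← hres lam, charDegree_comp, mul_comm]
    · have h2 : a • ψ = b • ψ := clifford_injective I.subtype_injective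
        (j := Subgroup.inclusion hNI) (fun _ => rfl) hT (liesOver_of_comp_eq (hres a))
        (liesOver_of_comp_eq (hres b)) (congrArg (fun x => x.1.1) hab)
      have h3 : ψ.1 ∘ Subgroup.inclusion hNI = φ.1 := funext hψ
      refine IrrCharacter.ofLinear_injective (gallagher_injective' (f := Subgroup.inclusion hNI)
        ψ.isCharacter (h3 ▸ φ.2) (fun n => ?_) (fun n => ?_) (congrArg Subtype.val h2))
      · simp [linear_apply_of_mem_commutator a (hN' n)]
      · simp [linear_apply_of_mem_commutator b (hN' n)]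
  rw [card_irr_charDegree_eq_one]
  refine le_trans ?_ (Nat.mul_le_mul_left _ h1)
  rw [card_linear, mul_comm, ← Subgroup.index_map_subtype]
  refine Nat.le_of_dvd (Nat.pos_of_ne_zero Subgroup.index_ne_zero_of_finite)
    (Subgroup.index_dvd_of_le ?_)
  rw [Subgroup.map_subtype_commutator]
  exact Subgroup.commutator_mono le_top le_top

end Cfsg.Agent.S4870
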