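import Cfsg.Statements.S4871
import Cfsg.Agent.Char.OrthChar
import Cfsg.Agent.Char.Extend
-- import your own Cfsg.Agent.* helpers here

set_option autoImplicit false
open Cfsg

namespace Cfsg.Agent.S4871

theorem comb {α : Type*} [DecidableEq α] (S I : Finset α) (deg : α → ℕ) (d : ℕ) (hI : I ⊆ S)
    (hdeg : ∀ x ∈ I, deg x = d) (hd : 2 ≤ d) (hpos : ∀ x, 0 < deg x)
    (h1 : (S.filter fun x => deg x = 1).card ≤ I.card * d) :
    4 * S.card ≤ 3 * ∑ x ∈ S, deg x := by
  have h2 : ∑ x ∈ S, (4 + if x ∈ I then d else 0) ≤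
      ∑ x ∈ S, (3 * deg x + if deg x = 1 then 1 else 0) := by
    refine Finset.sum_le_sum fun x _ => ?_
    have := hpos x
    split_ifs with h h' h'
    · have := hdeg x h; omega
    · have := hdeg x h; omega
    · omega
    · omega
  rw [Finset.sum_add_distrib, Finset.sum_add_distrib, ← Finset.mul_sum, ← Finset.card_filter,
    Finset.sum_ite_mem, Finset.inter_eq_right.2 hI] at h2
  simp only [Finset.sum_const, smul_eq_mul] at h2
  omega

open Classical in
theorem comb' {α : Type*} [Fintype α] (pr : α → Prop) (I : Finset α) (deg : α → ℕ) (d : ℕ)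
    (hI : ∀ x ∈ I, pr x) (hdeg : ∀ x ∈ I, deg x = d) (hd : 2 ≤ d) (hpos : ∀ x, 0 < deg x)
    (h1 : ((Finset.univ.filter pr).filter fun x => deg x = 1).card ≤ I.card * d) :
    4 * Nat.card {x // pr x} ≤ 3 * ∑ᶠ x : {x // pr x}, deg x.1 := by
  rw [Nat.card_eq_fintype_card, Fintype.card_subtype, finsum_eq_sum_of_fintype,
    ← Finset.sum_subtype (Finset.univ.filter pr) (fun _ => by simp) deg]
  exact comb _ I deg d (fun x hx => Finset.mem_filter.2 ⟨Finset.mem_univ _, hI x hx⟩) hdeg hd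
    hpos h1

theorem isOrthChar_ind_of_inv {G : Type*} [Group G] [Finite G] (L : Subgroup G) {z : G}
    (hz : z * z = 1) (hzL : z ∉ L) (hn : ∀ l ∈ L, z * l * z⁻¹ ∈ L) (μ : L →* ℂˣ)
    (hμ : ∀ l : L, μ ⟨_, hn l l.2⟩ = (μ l)⁻¹)
    (hirr : IsIrrCharacter G (ind L.subtype fun l => (μ l : ℂ))) :
    IsOrthChar G (ind L.subtype fun l => (μ l : ℂ)) ∧ 2 ∣ L.index := by
  classical
  have hz' : z⁻¹ = z := inv_eq_of_mul_eq_one_right hz
  have hzz : ∀ x, x * z * z = x := fun x => by rw [mul_assoc, hz, mul_one]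
  let H : Subgroup G :=
    { carrier := {g | g ∈ L ∨ g * z ∈ L}
      one_mem' := Or.inl L.one_mem
      mul_mem' := by
        rintro a b (ha | ha) (hb | hb)
        · exact Or.inl (L.mul_mem ha hb)
        · exact Or.inr (mul_assoc a b z ▸ L.mul_mem ha hb)
        · refine Or.inr ?_
          simpa [hz', ← mul_assoc, hzz] using L.mul_mem ha (hn b hb)
        · refine Or.inl ?_
          simpa [hz', ← mul_assoc, hzz] using L.mul_mem ha (hn _ hb)
      inv_mem' := by
        rintro a (ha | ha)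
        · exact Or.inl (L.inv_mem ha)
        · refine Or.inr ?_
          simpa [hz', ← mul_assoc, hzz] using L.inv_mem (hn _ ha) }
  have hLH : L ≤ H := fun g hg => Or.inl hg
  have hzH : z ∈ H := Or.inr (hz ▸ L.one_mem)
  have hidx : L.relIndex H = 2 := by
    refine Subgroup.index_eq_two_iff.2 ⟨⟨z, hzH⟩, fun b => ?_⟩
    simp only [Subgroup.mem_subgroupOf, Subgroup.coe_mul]
    by_cases hb : (b : G) ∈ L
    · exact Or.inr ⟨hb, fun h => hzL ((L.mul_mem_cancel_left hb).1 h)⟩
    · exact Or.inl ⟨b.2.resolve_left hb, hb⟩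
  refine ⟨?_, hidx ▸ Subgroup.relIndex_dvd_index_of_le hLH⟩
  rw [← ind_subtype_ind_inclusion hLH] at hirr ⊢
  refine IsOrthChar.ind ?_ _
  have hc := (isCharacter_linear μ).ind (Subgroup.inclusion hLH)
  have hirr' := hc.isIrr_of_ind H.subtype_injective hirr
  refine IrrCharacter.isOrthChar_of_fsInd_eq_one (χ := ⟨_, hirr'⟩) ?_
  let Z := Subgroup.zpowers (⟨z, hzH⟩ : H)
  refine (isOrthChar_ind_one Z.subtype).fsInd_eq_one_of_odd (χ := ⟨_, hirr'⟩)
    (im_eq_zero_iff_star_eq.2 ?_) odd_one ?_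
  · change star (ind _ _) = ind _ _
    let a : L ≃* L :=
      { toFun := fun l => ⟨_, hn l l.2⟩
        invFun := fun l => ⟨_, hn l l.2⟩
        left_inv := fun l => Subtype.ext (by simp [hz', ← mul_assoc, hzz, hz])
        right_inv := fun l => Subtype.ext (by simp [hz', ← mul_assoc, hzz, hz])
        map_mul' := fun l l' => Subtype.ext (by simp [mul_assoc]) }
    rw [← ind_star, star_linear, ind_eq_of_conj_of_equiv (f := Subgroup.inclusion hLH)
      (f' := Subgroup.inclusion hLH) ⟨z, hzH⟩ a (fun _ => rfl) (fun l => (μ l : ℂ))]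
    congr 1
    funext l
    exact congrArg Units.val (hμ l).symm
  · cases nonempty_fintype Z
    have hne : (⟨z, hzH⟩ : H) ≠ 1 := fun h => hzL (by
      rw [show z = 1 from Subtype.ext_iff.1 h]; exact L.one_mem)
    have hord : orderOf (⟨z, hzH⟩ : H) = 2 :=
      orderOf_eq_prime (by rw [sq]; exact Subtype.ext hz) hne
    have hcard : Nat.card Z = 2 := by rw [Nat.card_zpowers, hord]
    have : (L.subgroupOf H).Normal := Subgroup.normal_of_index_eq_two hidx
    rw [ip_ind_left _ _ hc.isClassFunction, ip_def, hcard,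
      Fintype.sum_eq_add (1 : Z) ⟨_, Subgroup.mem_zpowers _⟩ (fun h => hne (Subtype.ext_iff.1 h).symm)]
    · simp only [Function.comp_apply, OneMemClass.coe_one, Subgroup.coe_subtype]
      rw [ind_inclusion_apply_one, hidx, ind_apply_eq_zero_of_normal _ _ (N := L.subgroupOf H)
        (by simp) hzL]
      simp [map_ofNat]
    · intro x hx
      obtain ⟨y, -, hy⟩ := (Nat.card_eq_two_iff' (1 : Z)).1 hcard
      exact (hx.2 ((hy x hx.1).trans (hy ⟨_, Subgroup.mem_zpowers _⟩
        (fun h => hne (Subtype.ext_iff.1 h))).symm)).elim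

/-- Let G be a finite group that is the semidirect product of a normal elementary abelian subgroup N of odd order by a non-trivial 2-subgroup P, with N the unique minimal normal subgroup of G. Consider the strongly real irreducible complex characters of G (Frobenius–Schur indicator +1) whose degree is 1 or even. Then their average degree is at least 4/3: four times their number is at most three times the sum of their degrees. -/
theorem result {G : Type*} [Group G] [Finite G] (N P : Subgroup G) (hN : N.Normal) (q : ℕ) [Fact q.Prime] (hq : q ≠ 2) (hNel : Cfsg.IsElementaryAbelian q N) (hP : IsPGroup 2 ↥P) (hP1 : P ≠ ⊥) (hdisj : N ⊓ P = ⊥) (hprod : N ⊔ P = ⊤) (hmin : N ≠ ⊥ ∧ ∀ M : Subgroup G, M.Normal → M ≠ ⊥ → N ≤ M) : 4 * Nat.card {χ : Cfsg.IrrCharacter G // (Cfsg.charDegree (χ : G → ℂ) = 1 ∨ 2 ∣ Cfsg.charDegree (χ : G → ℂ)) ∧ (Nat.card G : ℂ)⁻¹ * ∑ᶠ g : G, (χ : G → ℂ) (g * g) = 1} ≤ 3 * (∑ᶠ χ : {χ : Cfsg.IrrCharacter G // (Cfsg.charDegree (χ : G → ℂ)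 = 1 ∨ 2 ∣ Cfsg.charDegree (χ : G → ℂ)) ∧ (Nat.card G : ℂ)⁻¹ * ∑ᶠ g : G, (χ : G → ℂ) (g * g) = 1}, Cfsg.charDegree (χ.1 : G → ℂ)) := by
  classical
  have hq' : q.Prime := Fact.out
  have hcomm : ∀ a ∈ N, ∀ b ∈ N, a * b = b * a := fun a ha b hb =>
    congrArg Subtype.val (hNel.1.is_comm.comm ⟨a, ha⟩ ⟨b, hb⟩)
  have hdec : ∀ g : G, ∃ n ∈ N, ∃ p ∈ P, n * p = g := fun g =>
    Subgroup.mem_sup_of_normal_left.1 (hprod ▸ Subgroup.mem_top g)
  obtain ⟨z, hzP, hz1, hz, hzc⟩ : ∃ z ∈ P, z ≠ 1 ∧ z * z = 1 ∧ ∀ p ∈ P, p * z = z * p := by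
    have := (Subgroup.nontrivial_iff_ne_bot P).2 hP1
    have h1 := hP.center_nontrivial
    obtain ⟨k, hk, hk'⟩ := (hP.to_subgroup (Subgroup.center P)).nontrivial_iff_card.1 h1
    obtain ⟨y, hy⟩ := exists_prime_orderOf_dvd_card' (G := Subgroup.center P) 2
      (hk' ▸ dvd_pow_self 2 hk.ne')
    refine ⟨y.1.1, y.1.2, fun h => ?_, ?_, fun p hp => ?_⟩
    · rw [show y = 1 from Subtype.ext (Subtype.ext h), orderOf_one] at hy
      exact absurd hy (by decide)
    · have := pow_orderOf_eq_one y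
      rw [hy, sq] at this
      exact congrArg (fun x : Subgroup.center P => (x.1.1 : G)) this
    · exact congrArg Subtype.val (Subgroup.mem_center_iff.1 y.2 ⟨p, hp⟩)
  have hz' : z⁻¹ = z := inv_eq_of_mul_eq_one_right hz
  have hC : N ⊓ Subgroup.centralizer {z} = ⊥ := by
    by_contra hC
    have h1 := hmin.2 _ ⟨fun c hc g => by
      obtain ⟨n, hn, p, hp, rfl⟩ := hdec g
      have h2 : p * c * p⁻¹ ∈ N := hN.conj_mem c hc.1 p
      have h3 : n * p * c * (n * p)⁻¹ = p * c * p⁻¹ := by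
        rw [mul_inv_rev, mul_assoc n, mul_assoc n, ← mul_assoc (p * c), ← mul_assoc n,
          hcomm n hn _ h2, mul_inv_cancel_right]
      rw [h3]
      refine ⟨h2, Subgroup.mul_mem _ (Subgroup.mul_mem _ ?_ hc.2) (Subgroup.inv_mem _ ?_)⟩ <;>
        exact Subgroup.mem_centralizer_singleton_iff.2 (hzc p hp)⟩ hC
    have h2 : Subgroup.zpowers z ≤ Subgroup.center G := by
      rw [Subgroup.zpowers_le, Subgroup.mem_center_iff]
      intro g
      obtain ⟨n, hn, p, hp, rfl⟩ := hdec g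
      rw [mul_assoc, hzc p hp, ← mul_assoc, Subgroup.mem_centralizer_singleton_iff.1 (h1 hn).2,
        mul_assoc]
    have h3 := hmin.2 (Subgroup.zpowers z) ⟨fun a ha g => by
      rwa [Subgroup.mem_center_iff.1 (h2 ha) g, mul_inv_cancel_right]⟩ (by simpa using hz1)
    exact hmin.1 (by rw [← hdisj, left_eq_inf]; exact h3.trans (Subgroup.zpowers_le.2 hzP))
  have hinv : ∀ n ∈ N, z * n * z⁻¹ = n⁻¹ := by
    intro n hn
    have h1 := hN.conj_mem n hn z
    have h2 : n * (z * n * z⁻¹) ∈ N ⊓ Subgroup.centralizer {z} := by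
      refine ⟨N.mul_mem hn h1, Subgroup.mem_centralizer_singleton_iff.2 ?_⟩
      nth_rewrite 2 [hcomm n hn _ h1]
      simp only [hz', ← mul_assoc, hz, one_mul]
      rw [mul_assoc _ z z, hz, mul_one]
    rw [hC, Subgroup.mem_bot] at h2
    exact eq_inv_of_mul_eq_one_right h2
  have hodd : ∀ (u : ℂˣ), u ^ q = 1 → u * u = 1 → u = 1 := by
    intro u h1 h2
    obtain ⟨m, hm⟩ := hq'.odd_of_ne_two hq
    rwa [hm, pow_succ, pow_mul, sq, h2, one_pow, one_mul] at h1
  obtain ⟨n₀, hn₀⟩ := Subgroup.ne_bot_iff_exists_ne_one.1 hmin.1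
  obtain ⟨lam, hlam⟩ := exists_linear_ne_one_of_comm hNel.1.is_comm.comm hn₀
  let θ := IrrCharacter.ofLinear lam
  let L := inertia N.subtype θ
  have hzθ : ∀ n : N, conjAut N.subtype z n = n⁻¹ := fun n =>
    Subtype.ext ((map_conjAut N.subtype z n).trans (hinv n n.2))
  have hzL : z ∉ L := by
    intro h
    have h1 := mem_inertia_iff_forall_conjAut.1 h n₀
    rw [hzθ, IrrCharacter.ofLinear_apply, IrrCharacter.ofLinear_apply, Units.val_inj,
      map_inv] at h1
    refine hlam (hodd _ ?_ (inv_eq_iff_mul_eq_one.1 h1))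
    rw [← map_pow, show n₀ ^ q = 1 from Subtype.ext (hNel.2 _ n₀.2), map_one]
  have hNL : N ≤ L := le_inertia_subtype N θ
  have hdecL : ∀ l : L, ∃ (n : N) (p : L), (p : G) ∈ P ∧ toInertia N.subtype θ n * p = l := by
    intro l
    obtain ⟨n, hn, p, hp, h⟩ := hdec l
    exact ⟨⟨n, hn⟩, ⟨p, (L.mul_mem_cancel_left (hNL hn)).1 (h ▸ l.2)⟩, hp, Subtype.ext h⟩
  have hzp : ∀ (n : N) (p : G), p ∈ P → z * (n * p) * z⁻¹ = (n : G)⁻¹ * p := fun n p hp => by
    rw [← hinv n n.2, mul_assoc, mul_assoc, mul_assoc, mul_assoc, hz', hzc p hp]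
  have hn : ∀ l ∈ L, z * l * z⁻¹ ∈ L := fun l hl => by
    obtain ⟨n, p, hp, h⟩ := hdecL ⟨l, hl⟩
    rw [← show (n : G) * p = l from congrArg Subtype.val h, hzp n p hp]
    exact L.mul_mem (hNL (N.inv_mem n.2)) p.2
  obtain ⟨ν, hν, hν'⟩ := exists_monoidHom_extension_of_supplement (f := toInertia N.subtype θ) lam
    (fun g n => by
      rw [conjAut_of_factor (f := N.subtype) (i := L.subtype) (fun _ => rfl)]
      exact Units.val_inj.1 (mem_inertia_iff_forall_conjAut.1 g.2 n))
    (P.subgroupOf L) (eq_top_iff.2 fun l _ => by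
      obtain ⟨n, p, hp, rfl⟩ := hdecL l
      exact Subgroup.mul_mem_sup ⟨n, rfl⟩ hp)
    (fun n h => by
      have h1 : (n : G) ∈ N ⊓ P := ⟨n.2, h⟩
      rw [hdisj, Subgroup.mem_bot] at h1
      rw [show n = 1 from Subtype.ext h1, map_one])
  cases nonempty_fintype (L →* ℂˣ)
  let B := Finset.univ.filter fun β : L →* ℂˣ => ∀ l, β l * β l = 1
  have hβN : ∀ β ∈ B, ∀ n, β (toInertia N.subtype θ n) = 1 := fun β hβ n =>
    hodd _ (by rw [← map_pow, ← map_pow, show n ^ q = 1 from Subtype.ext (hNel.2 _ n.2), map_one,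
      map_one]) ((Finset.mem_filter.1 hβ).2 _)
  have hover : ∀ β ∈ B, LiesOver (toInertia N.subtype θ) (IrrCharacter.ofLinear (ν * β)).1 θ.1 :=
    fun β hβ => liesOver_of_comp_eq (funext fun n => by
      simp only [Function.comp_apply, IrrCharacter.ofLinear_apply, MonoidHom.mul_apply, hν,
        hβN β hβ, mul_one, θ])
  have hirr : ∀ β ∈ B, IsIrrCharacter G (ind L.subtype fun l => ((ν * β) l : ℂ)) := fun β hβ =>
    clifford_isIrr_ind (f := N.subtype) L.subtype_injective (fun _ => rfl) (by simp [L])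
      (hover β hβ)
  have horth : ∀ β ∈ B, IsOrthChar G (ind L.subtype fun l => ((ν * β) l : ℂ)) ∧ 2 ∣ L.index :=
    fun β hβ => isOrthChar_ind_of_inv L hz hzL hn (ν * β) (fun l => by
      obtain ⟨n, p, hp, rfl⟩ := hdecL l
      have h1 : (⟨_, hn _ (toInertia N.subtype θ n * p).2⟩ : L) =
        (toInertia N.subtype θ n)⁻¹ * p := Subtype.ext (hzp n p hp)
      rw [h1, map_mul, map_mul, map_inv, mul_inv, MonoidHom.mul_apply _ _ p, hν' p hp, one_mul,
        inv_eq_of_mul_eq_one_right ((Finset.mem_filter.1 hβ).2 p)]) (hirr β hβ)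
  have h2 : 2 ∣ L.index := (horth 1 (by simp [B])).2
  let F : B → IrrCharacter G := fun β => ⟨_, hirr β β.2⟩
  have hF : Function.Injective F := fun β β' h => by
    have h1 := clifford_injective (f := N.subtype) L.subtype_injective (fun _ => rfl) (by simp [L])
      (hover β β.2) (hover β' β'.2) (congrArg Subtype.val h)
    exact Subtype.ext (mul_left_cancel (IrrCharacter.ofLinear_injective h1))
  have hdeg : ∀ β, charDegree (F β).1 = L.index := fun β => by
    rw [show (F β).1 = ind L.subtype fun l => ((ν * β.1) l : ℂ) from rfl,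
      (isCharacter_linear _).charDegree_ind_subtype, charDegree_linear, mul_one]
  refine comb' _ (Finset.univ.image F) (fun χ : IrrCharacter G => charDegree χ.1) L.index
    (fun χ hχ => ?_) (fun χ hχ => ?_)
    (Nat.le_of_dvd (Nat.pos_of_ne_zero Subgroup.index_ne_zero_of_finite) h2)
    (fun χ => χ.charDegree_pos) ?_
  · obtain ⟨β, -, rfl⟩ := Finset.mem_image.1 hχ
    exact ⟨Or.inr (hdeg β ▸ h2), IrrCharacter.fsInd_eq_one_of_isOrthChar (horth β β.2).1⟩
  · obtain ⟨β, -, rfl⟩ := Finset.mem_image.1 hχ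
    exact hdeg β
  rw [Finset.card_image_of_injective _ hF, Finset.card_univ, Fintype.card_coe, ← smul_eq_mul,
    ← Finset.sum_const, Finset.card_eq_sum_ones]
  refine le_trans (Finset.sum_le_sum (g := fun χ : IrrCharacter G => ∑ β ∈ B,
    ipNat (ind L.subtype fun l => (β l : ℂ)) χ.1 * charDegree χ.1) fun χ hχ => ?_)
    (le_trans (Finset.sum_le_sum_of_subset (Finset.subset_univ _)) (le_of_eq ?_))
  · obtain ⟨h3, h4⟩ := Finset.mem_filter.1 hχ
    simp only [Finset.mem_filter] at h3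
    obtain ⟨mu, rfl⟩ := IrrCharacter.exists_ofLinear_eq_of_charDegree h4
    have h5 := (IrrCharacter.real_iff_bar_eq _).1
      (IrrCharacter.real_of_fsInd_eq_one h3.2.2)
    rw [IrrCharacter.bar_ofLinear, IrrCharacter.ofLinear_inj] at h5
    refine le_trans ?_ (Finset.single_le_sum (fun _ _ => Nat.zero_le _)
      (a := mu.comp L.subtype) (Finset.mem_filter.2 ⟨Finset.mem_univ _, fun l =>
        inv_eq_iff_mul_eq_one.1 (DFunLike.congr_fun h5 (l : G))⟩))
    rw [h4, mul_one, ipNat, ip_ind_left _ _ (IrrCharacter.isClassFunction _), ← ipNat]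
    exact (IrrCharacter.ofLinear (mu.comp L.subtype)).ipNat_self.ge
  · rw [Finset.sum_comm]
    refine Finset.sum_congr rfl fun β _ => ?_
    rw [← ((isCharacter_linear β).ind _).charDegree_eq_sum,
      (isCharacter_linear _).charDegree_ind_subtype, charDegree_linear, mul_one]

end Cfsg.Agent.S4871
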