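import Cfsg.Statements.S4872
import Cfsg.Agent.Char.OrthChar
import Cfsg.Agent.Char.Extend
import Cfsg.Agent.Char.BrauerApp
import Cfsg.Agent.Grp.Residual
-- import your own Cfsg.Agent.* helpers here

set_option autoImplicit false
open Cfsg

namespace Cfsg.Agent.S4872

theorem exists_fixed_odd {α : Type*} [Fintype α] (σ : α → α) (hσ : ∀ a, σ (σ a) = a) (F : α → ℕ)
    (hF : ∀ a, F (σ a) = F a) (h : Odd (∑ a, F a)) : ∃ a, σ a = a ∧ Odd (F a) := by
  by_contra hcon
  push Not at hcon
  have h1 : ∑ a, (F a : ZMod 2) = 0 := by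
    refine Finset.sum_involution (fun a _ => σ a) (fun a _ => ?_) (fun a _ ha h => ha ?_)
      (fun _ _ => Finset.mem_univ _) (fun a _ => hσ a)
    · rw [hF, ← two_mul]; exact mul_eq_zero_of_left rfl _
    · exact (ZMod.natCast_eq_zero_iff_even).2 (Nat.not_odd_iff_even.1 (hcon a h))
  rw [← Nat.cast_sum, ZMod.natCast_eq_zero_iff_even] at h1
  exact Nat.not_odd_iff_even.2 h1 h

/-- Let N be a normal subgroup of the finite group G with G/N a 2-group, and let φ be an irreducible complex character of N of 2-defect zero (the 2-part of #N divides φ(1)) whose complex conjugate is G-conjugate to φ. Then some irreducible character of G with Frobenius–Schur indicator +1 contains φ with multiplicity exactly one on restriction to N. -/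
theorem result {G : Type*} [Group G] [Finite G] (N : Subgroup G) [N.Normal] (h2 : IsPGroup 2 (G ⧸ N)) (φ : Cfsg.IrrCharacter ↥N) (hdef : 2 ^ (Nat.card ↥N).factorization 2 ∣ Cfsg.charDegree (φ : ↥N → ℂ)) (hconj : ∃ g : G, ∀ n n' : ↥N, (n' : G) = g * (n : G) * g⁻¹ → (φ : ↥N → ℂ) n' = (starRingEnd ℂ) ((φ : ↥N → ℂ) n)) : ∃ χ : Cfsg.IrrCharacter G, (Nat.card G : ℂ)⁻¹ * ∑ᶠ g : G, (χ : G → ℂ) (g * g) = 1 ∧ (Nat.card ↥N : ℂ)⁻¹ * ∑ᶠ n : ↥N, (χ : G → ℂ) n * (starRingEnd ℂ) ((φ : ↥N → ℂ) n) = 1 := by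
  classical
  cases nonempty_fintype G
  obtain ⟨P⟩ : Nonempty (Sylow 2 G) := inferInstance
  have hsup : (P : Subgroup G) ⊔ N = ⊤ := by
    rw [sup_comm]; exact sup_sylow_eq_top_of_isPGroup_quotient h2 P
  let π : G → ℂ := ind (P : Subgroup G).subtype fun _ => 1
  have hπo : IsOrthChar G π := isOrthChar_ind_one _
  have hπ := hπo.isCharacter
  have hπs : star π = π := im_eq_zero_iff_star_eq.1 hπo.im_eq_zero
  let j := Subgroup.inclusion (inf_le_right : (P : Subgroup G) ⊓ N ≤ N)
  have hres : π ∘ N.subtype = ind j fun _ => 1 :=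
    ind_subtype_comp_subtype_of_sup_eq_top hsup (IsClassFunction.const 1)
  have hidx : (P : Subgroup G).index = j.range.index := by
    have h1 := congrFun hres 1
    rw [Function.comp_apply, map_one, ind_apply_one (Subgroup.inclusion_injective _)] at h1
    have h3 := (ind_subtype_apply_one (P : Subgroup G) fun _ => 1).symm.trans h1
    rw [mul_one, mul_one] at h3
    exact_mod_cast h3
  have hvan : ∀ x, x ≠ 1 → (φ.1 ∘ j) x = 0 := by
    intro x hx
    refine φ.eq_zero_of_defect_zero 2 hdef ?_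
    rw [orderOf_injective j (Subgroup.inclusion_injective _)]
    obtain ⟨k, hk⟩ := IsPGroup.iff_orderOf.1 (P.isPGroup'.to_inf_left (K := N)) x
    rw [hk]
    refine dvd_pow_self 2 fun h0 => hx ?_
    rwa [h0, pow_zero, orderOf_eq_one_iff] at hk
  have hodd : Odd (ipNat (π ∘ N.subtype) φ.1) := by
    have h1 := (hπ.comp N.subtype).ipNat_cast φ.isCharacter
    rw [(hπ.comp N.subtype).ip_comm φ.isCharacter] at h1
    nth_rewrite 2 [hres] at h1
    rw [ip_ind_right _ _ φ.isClassFunction, eq_smul_regChar hvan, ip_smul_left, ip_regChar_left,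
      map_one, mul_one, Function.comp_apply, map_one, φ.isCharacter.apply_one,
      eq_div_iff (natCard_cast_ne_zero _)] at h1
    have h3 : ipNat (π ∘ N.subtype) φ.1 * Nat.card ((P : Subgroup G) ⊓ N : Subgroup G) =
      charDegree φ.1 := by exact_mod_cast h1
    have h4 := φ.charDegree_dvd_card
    rw [← h3, ← card_mul_index_range (f := j) (Subgroup.inclusion_injective _), mul_comm,
      Nat.mul_dvd_mul_iff_left Nat.card_pos, ← hidx] at h4
    exact (Nat.not_even_iff_odd.1 fun h => P.not_dvd_index (even_iff_two_dvd.1 h)).of_dvd_nat h4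
  have hbar : ∃ g, conjAut N.subtype g • φ.bar = φ := by
    obtain ⟨g, hg⟩ := hconj
    exact ⟨g⁻¹, (conjAut_smul_eq_iff _).2 fun n n' h => by
      rw [IrrCharacter.bar_apply, hg n' n (by simpa [mul_assoc] using congrArg (fun x => g * x * g⁻¹) h.symm)]
      simp⟩
  rw [ipNat_comp_eq_sum_of_factor (f := N.subtype) (i := MonoidHom.id G) (j := N.subtype)
    (fun _ => rfl) hπ φ.isCharacter] at hodd
  obtain ⟨χ, hχ, hodd⟩ := exists_fixed_odd IrrCharacter.bar IrrCharacter.bar_bar_eq _ (fun χ => by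
    obtain ⟨g, hg⟩ := hbar
    congr 1
    · change ipNat π (star χ.1) = ipNat π χ.1
      rw [ipNat, ← hπs, ip_star_star, hπs, ← ipNat, ipNat_comm]
    · nth_rewrite 1 [← hg]
      rw [ipNat_comp_conjAut_smul _ χ.bar.isClassFunction]
      change ipNat (star (χ.1 ∘ N.subtype)) (star φ.1) = _
      rw [ipNat, ip_star_star, ← ipNat, ipNat_comm]) hodd
  obtain ⟨h3, h4⟩ := Nat.odd_mul.1 hodd
  refine ⟨χ, hπo.fsInd_eq_one_of_odd (χ.real_iff_bar_eq.2 hχ) h3
    (hπ.ipNat_cast χ.isCharacter).symm, ?_⟩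
  have h5 := ((liesOver_iff_ipNat_pos χ.isCharacter φ.isCharacter).2 h4.pos).ipNat_dvd_relIndex
  obtain ⟨k, hk⟩ := IsPGroup.iff_card.1 h2
  have h6 := h5.trans (Subgroup.relIndex_dvd_index_of_normal _ _)
  rw [Subgroup.range_subtype, Subgroup.index, hk] at h6
  have h7 := (Nat.Coprime.pow_right k (Nat.coprime_two_right.2 h4)).eq_one_of_dvd h6
  change ip (χ.1 ∘ N.subtype) φ.1 = 1
  rw [← (χ.isCharacter.comp _).ipNat_cast φ.isCharacter, h7, Nat.cast_one]

end Cfsg.Agent.S4872
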