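import Cfsg.Statements.S4873
import Cfsg.Agent.Char.OddOver
-- import your own Cfsg.Agent.* helpers here

set_option autoImplicit false
open Cfsg

namespace Cfsg.Agent.S4873

/-- Let N be a normal subgroup of odd index in the finite group G. Then every irreducible complex character of N with Frobenius–Schur indicator +1 lies under exactly one irreducible character of G with Frobenius–Schur indicator +1. -/
theorem result {G : Type*} [Group G] [Finite G] (N : Subgroup G) [N.Normal] (hodd : Odd N.index) (φ : Cfsg.IrrCharacter ↥N) (hφ : (Nat.card ↥N : ℂ)⁻¹ * ∑ᶠ g : ↥N, (φ : ↥N → ℂ) (g * g) = 1) : ∃! χ : Cfsg.IrrCharacter G, (Nat.card G : ℂ)⁻¹ * ∑ᶠ g : G, (χ : G → ℂ) (g * g) = 1 ∧ (∑ᶠ n : ↥N, (χ : G → ℂ) n * (starRingEnd ℂ) ((φ : ↥N → ℂ) n)) ≠ 0 := by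
  have hodd' : Odd N.subtype.range.index := by rwa [Subgroup.range_subtype]
  have key : ∀ χ : IrrCharacter G, LiesOver N.subtype χ.1 φ.1 ↔
      (∑ᶠ n : ↥N, (χ : G → ℂ) n * (starRingEnd ℂ) ((φ : ↥N → ℂ) n)) ≠ 0 := by
    intro χ
    cases nonempty_fintype N
    rw [LiesOver, ip_def, finsum_eq_sum_of_fintype, mul_ne_zero_iff]
    exact and_iff_right (inv_ne_zero (natCard_cast_ne_zero N))
  obtain ⟨χ, ⟨h1, h2⟩, h3⟩ := existsUnique_liesOver_real N.subtype hodd'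
    (IrrCharacter.real_of_fsInd_eq_one hφ)
  exact ⟨χ, ⟨h1.fsInd_eq_one_of_odd_index hodd' hφ h2, (key χ).1 h1⟩, fun ψ hψ =>
    h3 ψ ⟨(key ψ).2 hψ.2, IrrCharacter.real_of_fsInd_eq_one hψ.1⟩⟩

end Cfsg.Agent.S4873
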