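import Cfsg.Statements.S4881
import Cfsg.Agent.Grp.TwoPClass

set_option autoImplicit false
open Cfsg

namespace Cfsg.Agent.S4881

/-- Let p be a prime and G a finite p-solvable group with exactly three conjugacy classes of p-elements (counting the identity). Then twice the number of conjugacy classes of p-regular elements of G is at least p − 1, with equality if and only if p is odd, G has order p(p − 1)/2 and G embeds in the one-dimensional affine group over the field with p elements (so G is that group's subgroup of index 2: cyclic of order p extended by cyclic of order (p − 1)/2). -/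
theorem result {G : Type*} [Group G] [Finite G] (p : ℕ) [Fact p.Prime] (hsolv : Cfsg.IsPSolvable p G) (h3 : Nat.card {c : ConjClasses G // ∃ g : G, ConjClasses.mk g = c ∧ ∃ k : ℕ, orderOf g = p ^ k} = 3) : p - 1 ≤ 2 * Nat.card {c : ConjClasses G // ∃ g : G, ConjClasses.mk g = c ∧ ¬ p ∣ orderOf g} ∧ (2 * Nat.card {c : ConjClasses G // ∃ g : G, ConjClasses.mk g = c ∧ ¬ p ∣ orderOf g} = p - 1 ↔ (p ≠ 2 ∧ 2 * Nat.card G = p * (p - 1) ∧ ∃ f : G →* ↥(Cfsg.affineGroup (ZMod p)), Function.Injective f)) := by
  have hN := not_dvd_card_pPrimeCore p G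
  have h2 := TwoOrb.twoCl_of_card h3
  by_cases h0 : pPrimeCore p G = ⊥
  · rcases TwoOrb.core hsolv h0 h2 with h | ⟨h, h'⟩
    · have := (Fact.out : p.Prime).two_le
      refine ⟨by omega, fun h => by omega, fun ⟨h1, h4, f, hf⟩ => ?_⟩
      have := TwoOrb.card_reg_le_of_affine h1 h4 hf
      omega
    · exact ⟨h.ge, fun _ => h', fun _ => h⟩
  have h1 := (OnePClass.card_reg_lift hN h0).1
  have h4 := (TwoOrb.core (hsolv.to_quotient (pPrimeCore p G))
    (pPrimeCore_quotient_pPrimeCore p G) (h2.quot hN)).imp_right And.left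
  refine ⟨by omega, fun h => by omega, fun ⟨h1, h4, f, hf⟩ => ?_⟩
  have := TwoOrb.card_reg_le_of_affine h1 h4 hf
  omega

end Cfsg.Agent.S4881
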