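import Cfsg.Statements.S4886
import Cfsg.Agent.Blk.Fong
import Cfsg.Agent.Char.NavWolf
-- import your own Cfsg.Agent.* helpers here

set_option autoImplicit false
open Cfsg

namespace Cfsg.Agent.S4886

theorem aux1 {G : Type*} [Group G] [Finite G] {p q : ℕ} [Fact p.Prime] [Fact q.Prime] (hpq : p ≠ q)
    {M : Ideal AlgInt} (hM : IsPModular p M) (hps : IsPSolvable p G) (hqs : IsPSolvable q G)
    (h : ∀ χ : IrrCharacter G, χ ∈ principalBlock M G → ¬ p ∣ charDegree χ.1 →
      ¬ q ∣ charDegree χ.1) : ¬ q ∣ (pPrimeCore p G).index := by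
  have := not_dvd_index_pPrimeCore_of_forall hpq _ (hps.to_quotient (pPrimeCore p G))
    (hqs.to_quotient _) ((hps.forall_mem_principalBlock_iff hM fun n => ¬ p ∣ n → ¬ q ∣ n).1 h)
  rwa [pPrimeCore_quotient_pPrimeCore, Subgroup.index_bot] at this

theorem aux2 {G : Type*} [Group G] [Finite G] {p q : ℕ} [Fact p.Prime] [Fact q.Prime] (hpq : p ≠ q)
    {M : Ideal AlgInt} (hM : IsPModular p M) (hps : IsPSolvable p G) (P : Sylow p G)
    (Q : Sylow q G) (h : ∀ x ∈ (P : Subgroup G), ∀ y ∈ (Q : Subgroup G), x * y = y * x)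
    (χ : IrrCharacter G) (hχ : χ ∈ principalBlock M G) : ¬ q ∣ charDegree χ.1 := by
  refine (hps.forall_mem_principalBlock_iff hM fun n => ¬ q ∣ n).2 (fun β hβ => ?_) χ hχ
  refine not_dvd_index_of_sylow_le Q (H := pPrimeCore p G) (fun y hy => ?_)
    (hβ.trans β.charDegree_dvd_card)
  have h1 : y ∈ pPrimePCore p G := hps.centralizer_sylow_le P fun x hx => h x hx y hy
  rw [pPrimePCore_def] at h1
  exact (QuotientGroup.eq_one_iff y).1 ((isPElt_of_mem (isPGroup_pCore p _) h1).eq_one_of_isPRegular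
    (IsPRegular.map ((isPElt_of_mem Q.2 hy).isPRegular_of_ne hpq.symm) _))

/-- Let p ≠ q be primes and G a finite group that is p-solvable and q-solvable. Fix maximal ideals of the algebraic integers containing p and q, defining the principal p-block and the principal q-block. Then every irreducible character of degree prime to p in the principal p-block has degree prime to q and every irreducible character of degree prime to q in the principal q-block has degree prime to p, if and only if some Sylow p-subgroup of G commutes elementwise with some Sylow q-subgroup. -/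
theorem result {G : Type*} [Group G] [Finite G] (p q : ℕ) [Fact p.Prime] [Fact q.Prime] (hpq : p ≠ q) (Mp Mq : Ideal Cfsg.AlgInt) (hMp : Cfsg.IsPModular p Mp) (hMq : Cfsg.IsPModular q Mq) (hps : Cfsg.IsPSolvable p G) (hqs : Cfsg.IsPSolvable q G) : ((∀ χ : Cfsg.IrrCharacter G, χ ∈ Cfsg.principalBlock Mp G → ¬ p ∣ Cfsg.charDegree (χ : G → ℂ) → ¬ q ∣ Cfsg.charDegree (χ : G → ℂ)) ∧ (∀ χ : Cfsg.IrrCharacter G, χ ∈ Cfsg.principalBlock Mq G → ¬ q ∣ Cfsg.charDegree (χ : G → ℂ) → ¬ p ∣ Cfsg.charDegree (χ : G → ℂ))) ↔ ∃ (P : Sylow p G) (Q : Sylow q G), ∀ x ∈ (P : Subgroup G), ∀ y ∈ (Q : Subgroup G), x * y = y * x := by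
  refine ⟨fun ⟨h1, h2⟩ => ?_, fun ⟨P, Q, h⟩ => ⟨fun χ hχ _ => aux2 hpq hMp hps P Q h χ hχ,
    fun χ hχ _ => aux2 hpq.symm hMq hqs Q P (fun x hx y hy => (h y hy x hx).symm) χ hχ⟩⟩
  have h3 := aux1 hpq hMp hps hqs h1
  have h4 := aux1 hpq.symm hMq hqs hps h2
  obtain ⟨P⟩ : Nonempty (Sylow p G) := inferInstance
  obtain ⟨Q, hQ, hPQ, -⟩ := exists_invariant_isSylowIn_le (q := q) P.2
    (not_dvd_card_pPrimeCore p G) le_top
    (by rw [Subgroup.relIndex_top_left]; exact (Fact.out : q.Prime).not_dvd_one)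
  have h5 : ¬ q ∣ Q.index := by
    rw [← Subgroup.relIndex_mul_index hQ.le]
    exact fun h => ((Fact.out : q.Prime).dvd_mul.1 h).elim hQ.not_dvd_relIndex h3
  refine ⟨P, hQ.isPGroup.toSylow h5, fun x hx y hy => ?_⟩
  have h6 : x * y * x⁻¹ * y⁻¹ ∈ Q ⊓ pPrimeCore q G := by
    refine Subgroup.mem_inf.2 ⟨mul_mem (conj_mem_of_mem_normalizer (hPQ hx) hy) (inv_mem hy), ?_⟩
    have h7 := sylow_le_of_not_dvd_index h4 P hx
    rw [mul_assoc, mul_assoc, ← mul_assoc y]
    exact mul_mem h7 (Subgroup.Normal.conj_mem inferInstance _ (inv_mem h7) y)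
  rwa [inf_eq_bot_of_isPGroup_of_not_dvd hQ.isPGroup (not_dvd_card_pPrimeCore q G),
    Subgroup.mem_bot, mul_inv_eq_one, mul_inv_eq_iff_eq_mul] at h6

end Cfsg.Agent.S4886
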