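import Cfsg.Statements.S4885
import Cfsg.Agent.S4886
-- import your own Cfsg.Agent.* helpers here

set_option autoImplicit false
open Cfsg

namespace Cfsg.Agent.S4885

/-- Let p and q be primes dividing the order of the finite group G, and suppose G is p-solvable and q-solvable. Fix maximal ideals of the algebraic integers containing p and q, defining the principal p-block and the principal q-block. If the irreducible characters of degree prime to p in the principal p-block are exactly the irreducible characters of degree prime to q in the principal q-block, then p = q. -/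
theorem result {G : Type*} [Group G] [Finite G] (p q : ℕ) [Fact p.Prime] [Fact q.Prime] (hp : p ∣ Nat.card G) (hq : q ∣ Nat.card G) (hps : Cfsg.IsPSolvable p G) (hqs : Cfsg.IsPSolvable q G) (Mp Mq : Ideal Cfsg.AlgInt) (hMp : Cfsg.IsPModular p Mp) (hMq : Cfsg.IsPModular q Mq) (h : ∀ χ : Cfsg.IrrCharacter G, (χ ∈ Cfsg.principalBlock Mp G ∧ ¬ p ∣ Cfsg.charDegree (χ : G → ℂ)) ↔ (χ ∈ Cfsg.principalBlock Mq G ∧ ¬ q ∣ Cfsg.charDegree (χ : G → ℂ))) : p = q := by
  by_contra hpq
  have h1 := S4886.aux1 (Ne.symm hpq) hMq hqs hps fun χ h1 h2 => ((h χ).2 ⟨h1, h2⟩).2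
  have hK := not_dvd_card_pPrimeCore p G
  have hπ := QuotientGroup.mk'_surjective (pPrimeCore p G)
  obtain ⟨P⟩ : Nonempty (Sylow p G) := inferInstance
  haveI := (P.mapSurjective hπ).2.isNilpotent
  have h2 : p ∣ Nat.card (G ⧸ pPrimeCore p G) := by
    rw [← (pPrimeCore p G).card_mul_index] at hp
    exact ((Fact.out : p.Prime).dvd_mul.1 hp).resolve_left hK
  haveI := (Subgroup.nontrivial_iff_ne_bot _).2 ((sylow_ne_bot_iff (P.mapSurjective hπ)).2 h2)
  obtain ⟨μ, -, hμ⟩ := exists_monoidHom_ne_one_of_ne_top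
    (G := (P.mapSurjective hπ : Subgroup (G ⧸ pPrimeCore p G))) bot_ne_top
  obtain ⟨β, h3, h4⟩ := IrrCharacter.exists_liesOver_above_not_dvd (Fact.out : p.Prime)
    (P.mapSurjective hπ : Subgroup (G ⧸ pPrimeCore p G)).subtype_injective
    (θ := ⟨_, isIrrCharacter_of_monoidHom μ⟩)
    (by rw [Subgroup.range_subtype]; exact Sylow.not_dvd_index _)
    (by rw [charDegree_eq_of_apply_one (n := 1) (by
          change ((μ 1 : ℂˣ) : ℂ) = _
          rw [map_one, Units.val_one, Nat.cast_one])]
        exact (Fact.out : p.Prime).not_dvd_one)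
  have h5 := ((h (β.inflate _ hπ)).1 ⟨hps.principalBlock_eq_range hMp ▸ ⟨β, rfl⟩,
    by rwa [IrrCharacter.charDegree_inflate]⟩).1
  refine hμ (eq_top_iff.2 ?_)
  rintro ⟨_, x, hx, rfl⟩ -
  have h6 := apply_eq_of_mem_principalBlock hMq (not_dvd_card_pPrimeCore q G) h5
    (sylow_le_of_not_dvd_index h1 P hx)
  have h7 := h3.comap_charKer_le (x := ⟨_, x, hx, rfl⟩) (β.mem_charKer.2 h6)
  rw [IrrCharacter.mem_charKer] at h7
  exact (Units.ext h7).trans (map_one μ)

end Cfsg.Agent.S4885
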