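import Cfsg.Agent.Mod.PrinNilp
-- Template for statement S4888 (row 4888; see /opt/grader/pristine/manifest.json for weights).
-- Copy to Cfsg/Agent/S4888.lean and replace the sorry. The statement below is byte-identical to the frozen
-- statement Cfsg.CfsgFrozen.S4888 (Cfsg/Statements/S4888.lean; the theorem Cfsg.blk11_principal_block_equal_height_zero_degrees_iff_normal_p_complement);
-- the grader kernel-checks Cfsg.Agent.S4888.result against that frozen type. Keep the theorem IN THIS FILE
-- (a `result` declared elsewhere and merely imported here is not credited); helpers may live anywhere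
-- under Cfsg/Agent/.
import Cfsg.Statements.S4888
-- import your own Cfsg.Agent.* helpers here

set_option autoImplicit false
open Cfsg

namespace Cfsg.Agent.S4888

/-- Let G be a finite group, p a prime and M a maximal ideal of the algebraic integers containing p. Then all height-zero irreducible characters of the principal p-block of G (equivalently, all its characters of degree prime to p) have the same degree if and only if G has a normal p-complement. -/
theorem result {G : Type*} [Group G] [Finite G] (p : ℕ) [Fact p.Prime] (M : Ideal Cfsg.AlgInt) (hM : Cfsg.IsPModular p M) : (∃ d : ℕ, ∀ χ : Cfsg.IrrCharacter G, χ ∈ (Cfsg.principalBlock M G) → Cfsg.blockHeight p (Cfsg.principalBlock M G) (χ : G → ℂ) = 0 → Cfsg.charDegree (χ : G → ℂ) = d) ↔ Cfsg.HasNormalPComplement p G := by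
  have hp : p.Prime := Fact.out
  simp only [blockHeight_principalBlock_eq hM]
  constructor
  · rintro ⟨d, hd⟩
    have h1 := hd _ hM.one_mem_principalBlock (by rw [IrrCharacter.charDegree_one]; simp)
    rw [IrrCharacter.charDegree_one] at h1
    refine hM.hasNormalPComplement_of_principal fun χ hχ h2 => ?_
    by_contra h3
    exact h2 (h1 ▸ hd χ hχ (Nat.factorization_eq_zero_of_not_dvd h3))
  · refine fun h => ⟨1, fun χ hχ h0 => ?_⟩
    obtain ⟨χ', h1⟩ := χ.exists_quotient_of_le_charKer (pPrimeCore p G) fun g hg =>
      χ.mem_charKer.2 ((mem_pPrimeCore_iff_principal hM).1 hg χ hχ)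
    obtain ⟨k, hk⟩ := IsPGroup.iff_card.1 (hasNormalPComplement_iff_isPGroup_quotient.1 h)
    obtain ⟨j, -, hj⟩ := (Nat.dvd_prime_pow hp).1 (hk ▸ χ'.charDegree_dvd_card)
    replace hj : charDegree χ.1 = p ^ j := by
      rw [← hj, ← h1]; unfold charDegree; rw [Function.comp_apply, map_one]
    rw [hj, hp.factorization_pow, Finsupp.single_eq_same] at h0
    rw [hj, h0, pow_zero]

end Cfsg.Agent.S4888
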