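import Cfsg.Statements.S4892
import Cfsg.Agent.Blk.PrinExt
-- import your own Cfsg.Agent.* helpers here

set_option autoImplicit false
open Cfsg

namespace Cfsg.Agent.S4892

/-- Let p be an odd prime, M a maximal ideal of the algebraic integers containing p, N a normal subgroup of the finite group G, and θ an irreducible character of N that is G-invariant, of degree prime to p, p-rational (values in the field generated over ℚ by a root of unity of order prime to p) and lies in the principal p-block of N. Let Q be a Sylow p-subgroup of N and suppose the index of N·C_G(Q) in G is a power of p. Then θ extends to a p-rational irreducible character of G lying in the principal p-block of G. -/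
theorem result {G : Type*} [Group G] [Finite G] (p : ℕ) [Fact p.Prime] (hp : p ≠ 2) (M : Ideal Cfsg.AlgInt) (hM : Cfsg.IsPModular p M) (N : Subgroup G) [N.Normal] (θ : Cfsg.IrrCharacter ↥N) (hinv : ∀ g : G, ∀ n n' : ↥N, (n' : G) = g * (n : G) * g⁻¹ → (θ : ↥N → ℂ) n' = (θ : ↥N → ℂ) n) (hdeg : ¬ p ∣ Cfsg.charDegree (θ : ↥N → ℂ)) (hrat : ∃ m : ℕ, ¬ p ∣ m ∧ ∀ n : ↥N, (θ : ↥N → ℂ) n ∈ IntermediateField.adjoin ℚ ({Complex.exp (2 * Real.pi * Complex.I / m)} : Set ℂ)) (hB : θ ∈ Cfsg.principalBlock M ↥N) (Q : Sylow p ↥N) (hidx : ∃ a : ℕ, (N ⊔ Subgroup.centralizer (((Q : Subgroup ↥N).map N.subtype : Subgroup G) : Set G)).index = p ^ a) : ∃ χ : Cfsg.IrrCharacter G, χ ∈ (Cfsg.principalBlock M G) ∧ (∃ n : ℕ, ¬ p ∣ n ∧ ∀ g : G, (χ : G → ℂ) g ∈ IntermediateField.adjoin ℚ ({Complex.exp (2 * Real.pi * Complex.I / n)} : Set ℂ)) ∧ ∀ n : ↥N, (χ : G → ℂ) n = (θ : ↥N → ℂ) n := by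
  have hp' : p.Prime := Fact.out
  have h1 := (θ.isCharacter.isGen.pRational_iff hp').1 hrat
  obtain ⟨a, ha⟩ := hidx
  obtain ⟨χ, ⟨h2, h3, h4⟩, hu⟩ := existsUnique_principal_extension hM Q ha hB
    (inertia_eq_top_iff_forall.2 hinv) hdeg
    (IsGeneralizedCharacter.not_dvd_detOrder_of_pRational hp h1)
  have h5 : χ 1 = θ 1 := congrFun h2 1
  refine ⟨χ, mem_principalBlock_of_red_apply_eq hM (by rwa [charDegree_eq_of_comp_eq h2])
    fun g hg hg' => ?_, (χ.isCharacter.isGen.pRational_iff hp').2 fun k hk hk1 g => ?_,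
    congrFun h2⟩
  · rw [h5]
    exact h4 g hg fun h => hg' (h.trans (relIndex_normal_dvd_index _ N))
  · obtain ⟨σ, hσ, hσ'⟩ := exists_ringEquiv_apply_pow (G := G) hk
    have h6 : ∀ x, (σ • χ) x = χ (x ^ k) := fun x => (hσ' _ χ.isCharacter.isGen x).symm
    refine (h6 g).symm.trans (congrFun (congrArg Subtype.val
      (hu (σ • χ) ⟨funext fun n => ?_, ?_, fun x hx hx' => ?_⟩)) g)
    · refine (h6 n).trans ((congrFun h2 (n ^ k)).trans (h1 k (hk.of_dvd_right N.card_subgroup_dvd_card)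
        (hk1.of_dvd (Nat.ordCompl_dvd_ordCompl_of_dvd N.card_subgroup_dvd_card p)) n))
    · rwa [IrrCharacter.gal_smul_coe', χ.isCharacter.detOrder_map_ringHom]
    · rw [h6, ← h4 x hx hx']
      refine congrArg (fun y => red M (χ y)) ?_
      conv_rhs => rw [← pow_one x]
      rw [pow_eq_pow_iff_modEq]
      refine hk1.of_dvd ((Nat.Coprime.dvd_mul_left (m := p ^ (Nat.card G).factorization p)
        (Nat.Coprime.pow_right _ (isPRegular_iff_coprime.1 hx))).1 ?_)
      rw [Nat.ordProj_mul_ordCompl_eq_self]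
      exact orderOf_dvd_natCard x

end Cfsg.Agent.S4892
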